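import Cfsg.Agent.Class.MinDegO8

/-!
Minimal degrees of the orthogonal groups of plus type.
-/

set_option autoImplicit false

namespace Cfsg.Lib.Class.MD

open QuadraticMap Module Orth OMax

section Arith

theorem parith_a {q C N : ℕ} (hq : 2 ≤ q) (hC : C + q = (q ^ 3) ^ 2 + (q - 1) * q ^ 3)
    (h : N * q + q ^ 3 * ((q + 1) * C) ≤ q ^ 3 * (N * q)) : q ^ 3 * (q + 1) * (q ^ 2 + 1) ≤ N := by
  obtain ⟨r, rfl⟩ : ∃ r, q = r + 1 := ⟨q - 1, by omega⟩
  obtain ⟨t, ht⟩ : ∃ t, (r + 1) ^ 3 = t + 1 := ⟨(r + 1) ^ 3 - 1, by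
    have : 1 ≤ (r + 1) ^ 3 := Nat.one_le_pow _ _ (by omega); omega⟩
  have ht0 : 0 < t := by
    have : 2 ^ 3 ≤ (r + 1) ^ 3 := Nat.pow_le_pow_left hq 3; omega
  have h1 : C = (r + 1) * t * ((r + 1) ^ 2 + 1) := by
    simp only [Nat.add_sub_cancel] at hC
    zify at hC ht ⊢
    have : (t : ℤ) = (r + 1) ^ 3 - 1 := by linarith
    rw [this]
    linear_combination hC
  refine Nat.le_of_mul_le_mul_left (c := t * (r + 1)) ?_ (by positivity)
  rw [h1, ht] at h
  rw [ht]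
  nlinarith

theorem parith_b {q C N b : ℕ} (hq : 4 ≤ q) (hC : C + q = (q ^ 3) ^ 2 + (q - 1) * q ^ 3)
    (hb : b = (q + 1) * (q ^ 2 + 1) * (q ^ 3 + 1)) (h : (q + 2) * C ≤ N * q) : b ≤ N := by
  obtain ⟨r, rfl⟩ : ∃ r, q = r + 4 := ⟨q - 4, by omega⟩
  refine Nat.le_of_mul_le_mul_right (le_trans ?_ h) (by omega : 0 < r + 4)
  rw [show r + 4 - 1 = r + 3 by omega] at hC
  have h1 : (r + 4 + 2) * (C + (r + 4)) =
      (r + 4 + 2) * (((r + 4) ^ 3) ^ 2 + (r + 3) * (r + 4) ^ 3) := by rw [hC]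
  subst hb
  ring_nf at h1 ⊢
  nlinarith [Nat.zero_le r, pow_nonneg (Nat.zero_le r) 2, pow_nonneg (Nat.zero_le r) 3,
    pow_nonneg (Nat.zero_le r) 4, pow_nonneg (Nat.zero_le r) 5, pow_nonneg (Nat.zero_le r) 6]

theorem parith_c {q C : ℕ} (hq : 4 ≤ q) (h : (q ^ 3) ^ 2 ≤ C + q ^ 3) :
    (q + 1) * (q ^ 2 + 1) * q ≤ C := by
  have h1 : (q + 1) * (q ^ 2 + 1) * q + q ^ 3 ≤ (q ^ 3) ^ 2 := by
    obtain ⟨r, rfl⟩ : ∃ r, q = r + 4 := ⟨q - 4, by omega⟩
    ring_nf
    nlinarith [Nat.zero_le r, pow_nonneg (Nat.zero_le r) 2, pow_nonneg (Nat.zero_le r) 3,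
      pow_nonneg (Nat.zero_le r) 4, pow_nonneg (Nat.zero_le r) 5, pow_nonneg (Nat.zero_le r) 6]
  omega

theorem parith_d {q S T N Φ : ℕ} (hq : 2 ≤ q) (hS : S = (q ^ 4 - 1) * (q ^ 3 + 1))
    (h1 : S * T = N * Φ) (h2 : q ^ 4 ≤ Φ + 1) (h3 : q ^ 3 * (q + 1) * (q ^ 2 + 1) + T ≤ N) :
    (q + 1) * (q ^ 2 + 1) * (q ^ 3 + 1) ≤ N := by
  obtain ⟨t, ht⟩ : ∃ t, q ^ 4 = t + 1 := ⟨q ^ 4 - 1, by
    have : 1 ≤ q ^ 4 := Nat.one_le_pow _ _ (by omega); omega⟩
  have ht0 : 0 < t := by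
    have : 2 ^ 4 ≤ q ^ 4 := Nat.pow_le_pow_left hq 4; omega
  rw [ht, Nat.add_sub_cancel] at hS
  have h4 : N ≤ (q ^ 3 + 1) * T := Nat.le_of_mul_le_mul_left (c := t) (by
    have := Nat.mul_le_mul_left N (show t ≤ Φ by omega)
    nlinarith) ht0
  have h5 : (q + 1) * (q ^ 2 + 1) ≤ T := Nat.le_of_mul_le_mul_left (c := q ^ 3) (by nlinarith)
    (by positivity)
  nlinarith

end Arith

variable {F V : Type*} [Field F] [AddCommGroup V] [Module F V] {Q : QuadraticForm F V}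
  [FiniteDimensional F V] {x : V}

theorem Pt.family_aux (c : Pt Q x) {U : Submodule F V} (hU : ∀ u ∈ U, Q u = 0) (hx : x ∈ U) {w : V}
    (hw : w ∈ U) {a : V} (ha : a ∈ U) (ha' : a ∉ spanL F [x, w]) :
    ∃ f, Q f = 0 ∧ polar Q x f = 0 ∧ polar Q w f = 0 ∧ polar Q a f = 1 ∧
      (∀ v v', polar Q f v = 0 → polar Q f v' = 0 →
        U.map (eich Q f v).1.toLinearMap = U.map (eich Q f v').1.toLinearMap →
        ∀ b ∈ U, polar Q f b = 0 → polar Q b v = polar Q b v') ∧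
      ∀ l : List V, (∀ y ∈ l, y ∈ U) → l.length + 3 < finrank F U →
        ∃ b ∈ U, polar Q f b = 0 ∧ b ∉ spanL F (f :: x :: w :: l) ∧
          b ∉ spanL F (a :: x :: w :: l) := by
  have hB := fun a b (ha : a ∈ U) (hb : b ∈ U) => polar_eq_zero_of_forall hU ha hb
  obtain ⟨f, h1, h2, h3⟩ := exists_partner_orth c.nd (hU a ha) ha' (by
    simp [hB _ _ hx ha, hB _ _ hw ha])
  refine ⟨f, h2, h1 x (by simp), h1 w (by simp), h3, fun v v' hv hv' h b hb hfb => ?_,
    fun l hl hlen => ?_⟩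
  · obtain ⟨u, hu, e⟩ : (eich Q f v).1 a ∈ U.map (eich Q f v').1.toLinearMap := h ▸ ⟨a, ha, rfl⟩
    change (eich Q f v').1 u = _ at e
    have h4 := congrArg (polar Q b) e
    have h5 := congrArg (polar Q f) e
    rw [eich_apply h2 hv, eich_apply h2 hv', h3] at h4 h5
    revert h4 h5
    qsimp
    rw [hB _ _ hb hu, hB _ _ hb ha, pc hfb, h2, hv, hv', pc h3, polar_comm Q f u]
    intro h4 h5
    have h6 : polar Q u f = 1 := by linear_combination h5
    rw [h6] at h4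
    linear_combination h4
  · obtain ⟨b, hb, hb'⟩ := exists_mem_notMem_spanL (U := U) (a :: x :: w :: l) (by simp; omega)
    have h4 : b - polar Q f b • a ∉ spanL F (a :: x :: w :: l) := fun h => hb' (by
      simpa using add_mem h (Submodule.smul_mem _ (polar Q f b) (mem_spanL_of_mem (y := a) (by simp))))
    refine ⟨b - polar Q f b • a, sub_mem hb (Submodule.smul_mem _ _ ha), by
      qsimp; rw [pc h3]; ring, fun h => h4 ?_, h4⟩
    rw [spanL_cons] at h
    obtain ⟨u, hu, _, hv, e⟩ := Submodule.mem_sup.1 h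
    obtain ⟨t, rfl⟩ := Submodule.mem_span_singleton.1 hv
    have h5 : u ∈ U := spanL_le.2 (by simpa [hx, hw] using hl) hu
    have h6 := congrArg (polar Q a) e
    rw [hB _ _ ha (sub_mem hb (Submodule.smul_mem _ _ ha)), polar_add_right, hB _ _ ha h5,
      polar_smul_right', h3, zero_add, mul_one] at h6
    rw [← e, h6, zero_smul, add_zero]
    exact spanL_mono (fun y hy => List.mem_cons_of_mem _ hy) hu

theorem Pt.family_one (c : Pt Q x) {U : Submodule F V} (hU : ∀ u ∈ U, Q u = 0) (hx : x ∈ U) {w : V}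
    (hw : w ∈ U) (hwx : w ∉ spanL F [x]) (hd : 4 ≤ finrank F U) :
    ∃ g : Option F → commutator (O Q), (∀ i, (g i).1.1 x = x ∧ (g i).1.1 w = w) ∧
      (∀ i j, U.map (g i).1.1.toLinearMap = U.map (g j).1.1.toLinearMap → i = j) ∧
      g (some 0) = 1 := by
  have hB := fun a b (ha : a ∈ U) (hb : b ∈ U) => polar_eq_zero_of_forall hU ha hb
  obtain ⟨a, ha, ha'⟩ := exists_mem_notMem_spanL (U := U) [x, w] (by simp; omega)
  obtain ⟨f, h1, h2, h3, h4, h5, h6⟩ := c.family_aux hU hx hw ha ha'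
  obtain ⟨b, hb, h7, h8, h9⟩ := h6 [] (by simp) (by simp; omega)
  obtain ⟨v, h10, h11⟩ := exists_orthQ_eq c.nd h8 1
  simp only [List.mem_cons, List.not_mem_nil, or_false, forall_eq_or_imp, forall_eq] at h10
  obtain ⟨b', h12, h13, h14⟩ := exists_partner_orth c.nd (hU b hb) h9 (by
    simp [hB _ _ hx hb, hB _ _ hw hb, hB _ _ ha hb])
  have hfU : f ∉ U := fun h => by rw [hB _ _ ha h] at h4; exact zero_ne_one h4
  obtain ⟨k, hk, h15, h16, h17⟩ := exists_Om_triple c.nd c.nexc c.ne hwx ha' (z' := f)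
    (fun h => hfU (spanL_le.2 (by simp [hx, hw]) h)) (h1.trans (hU a ha).symm)
    (h2.trans (hB _ _ hx ha).symm) (h3.trans (hB _ _ hw ha).symm) (e := b) (f := b')
    (by simp [hB _ _ hx hb, hB _ _ hw hb, hB _ _ ha hb]) (by simp [h12]) (hU b hb) h13 h14
  have h18 : ∀ t : F, polar Q f (t • v) = 0 := fun t => by rw [polar_smul_right', h10.1, mul_zero]
  have h19 : ∀ t : F, U.map (eich Q f (t • v)).1.toLinearMap ≠ U.map k.1.toLinearMap :=
    fun t h => by
      obtain ⟨u, hu, e⟩ : k.1 a ∈ U.map (eich Q f (t • v)).1.toLinearMap := h ▸ ⟨a, ha, rfl⟩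
      change (eich Q f (t • v)).1 u = _ at e
      rw [h17] at e
      exact hfU ((eich Q f (t • v)).1.injective (e.trans (eich_apply_self f (t • v)).symm) ▸ hu)
  refine ⟨fun i => i.elim ⟨k, hk⟩ fun t => ⟨eich Q f (t • v), eich_mem_commutator c.nd c.nexc _ _⟩,
    fun i => ?_, fun i j h => ?_, Subtype.ext (by simpa using eich_smul_self (Q := Q) f 0)⟩
  · rcases i with _ | t
    · exact ⟨h15, h16⟩
    · exact ⟨eich_apply_of_orth_orth h2 (by rw [polar_smul_right', h10.2.1, mul_zero]),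
        eich_apply_of_orth_orth h3 (by rw [polar_smul_right', h10.2.2, mul_zero])⟩
  · rcases i with _ | s <;> rcases j with _ | t
    · rfl
    · exact absurd h.symm (h19 t)
    · exact absurd h (h19 s)
    · simpa [polar_smul_right', h11] using h5 _ _ (h18 s) (h18 t) h b hb h7

theorem Pt.family_two (c : Pt Q x) {U : Submodule F V} (hU : ∀ u ∈ U, Q u = 0) (hx : x ∈ U) {w : V}
    (hw : w ∈ U) (hd : 5 ≤ finrank F U) :
    ∃ g : F × F → commutator (O Q), (∀ i, (g i).1.1 x = x ∧ (g i).1.1 w = w) ∧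
      (∀ i j, U.map (g i).1.1.toLinearMap = U.map (g j).1.1.toLinearMap → i = j) := by
  obtain ⟨a, ha, ha'⟩ := exists_mem_notMem_spanL (U := U) [x, w] (by simp; omega)
  obtain ⟨f, h1, h2, h3, h4, h5, h6⟩ := c.family_aux hU hx hw ha ha'
  obtain ⟨b, hb, h7, h8, -⟩ := h6 [] (by simp) (by simp; omega)
  obtain ⟨b', hb', h7', h8', -⟩ := h6 [b] (by simpa) (by simp; omega)
  obtain ⟨v, h10, h11⟩ := exists_orthQ_eq c.nd h8 1
  obtain ⟨v', h10', h11'⟩ := exists_orthQ_eq c.nd h8' 1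
  simp only [List.mem_cons, List.not_mem_nil, or_false, forall_eq_or_imp, forall_eq] at h10 h10'
  have h18 : ∀ i : F × F, polar Q f (i.1 • v + i.2 • v') = 0 := fun i => by
    qsimp; rw [h10.1, h10'.1]; ring
  refine ⟨fun i => ⟨eich Q f (i.1 • v + i.2 • v'), eich_mem_commutator c.nd c.nexc _ _⟩,
    fun i => ⟨eich_apply_of_orth_orth h2 (by qsimp; rw [h10.2.1, h10'.2.1]; ring),
      eich_apply_of_orth_orth h3 (by qsimp; rw [h10.2.2, h10'.2.2.1]; ring)⟩, fun i j h => ?_⟩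
  have e1 := h5 _ _ (h18 i) (h18 j) h b hb h7
  have e2 := h5 _ _ (h18 i) (h18 j) h b' hb' h7'
  revert e1 e2
  qsimp
  rw [h11, h11', h10'.2.2.2]
  intro e1 e2
  have e3 : i.1 = j.1 := by linear_combination e1
  exact Prod.ext e3 (by rw [e3] at e2; linear_combination e2)

variable [Fintype F] {Ω : Type*} [MulAction (commutator (O Q)) Ω]

omit [FiniteDimensional F V] in
theorem Ux_smul (g : commutator (O Q)) (ω : Ω) :
    Ux (St (commutator (O Q)) (g • ω)) (g.1.1 x) =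
      (Ux (St (commutator (O Q)) ω) x).map g.1.1.toLinearMap :=
  span_eq_map g.1.1 fun _ => (apply_mem_WO g).symm

omit [FiniteDimensional F V] in
theorem TW_smul (g : commutator (O Q)) {ω : Ω} (h : TW Q (WO Q x ω)) :
    TW Q (WO Q (g.1.1 x) (g • ω)) :=
  ⟨fun w hw => by
    rw [← O_apply_inv g.1 w, apply_mem_WO] at hw
    exact (O_map g.1⁻¹ w).symm.trans (h.1 _ hw), by
    have := Ux_smul (x := x) g ω
    rw [Ux] at this
    rw [this, LinearEquiv.finrank_map_eq]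
    exact h.2⟩

theorem Pt.Ux_eq_of_mem (c : Pt Q x) {ω ω' : Ω} (h : ω' ∈ orb c.a ω) :
    Ux (St (commutator (O Q)) ω') x = Ux (St (commutator (O Q)) ω) x := by
  have := chs_eq_of_mem (χ := chi F) (β := polA Q x) (ha := c.add) h
  rw [c.chs_eq, c.chs_eq] at this
  exact congrArg (fun W : AddSubgroup V => Submodule.span F (W : Set V)) this

theorem Pt.family_mem (c : Pt Q x) {ω : Ω} (h : TW Q (WO Q x ω)) {w : V} (hw : w ∈ WO Q x ω)
    {g : commutator (O Q)} (hg : g.1.1 x = x ∧ g.1.1 w = w) :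
    TW Q (chs (chi F) (polA Q x) c.add (g • ω)) ∧ w ∈ chs (chi F) (polA Q x) c.add (g • ω) := by
  rw [c.chs_eq]
  have h1 := TW_smul g h
  have h2 := (apply_mem_WO g).2 hw
  rw [hg.1] at h1 h2
  exact ⟨h1, hg.2 ▸ h2⟩

theorem Pt.family_inj (c : Pt Q x) {ω : Ω} {g g' : commutator (O Q)} (hg : g.1.1 x = x)
    (hg' : g'.1.1 x = x) (h : g • ω ∈ orb c.a (g' • ω)) :
    (Ux (St (commutator (O Q)) ω) x).map g.1.1.toLinearMap =
      (Ux (St (commutator (O Q)) ω) x).map g'.1.1.toLinearMap := by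
  rw [← Ux_smul, ← Ux_smul, hg, hg']
  exact c.Ux_eq_of_mem h

variable [Finite Ω]

theorem Pt.card_le_m (c : Pt Q x) {ω : Ω} (h : TW Q (WO Q x ω)) {w : V} (hw : w ∈ WO Q x ω)
    (hwx : w ∉ spanL F [x]) {ι : Type*} [Finite ι] (g : ι → commutator (O Q))
    (h1 : ∀ i, (g i).1.1 x = x ∧ (g i).1.1 w = w)
    (h2 : ∀ i j, (Ux (St (commutator (O Q)) ω) x).map (g i).1.1.toLinearMap =
      (Ux (St (commutator (O Q)) ω) x).map (g j).1.1.toLinearMap → i = j) {t : V}
    (ht : t ∈ Cls Q x 0) : Nat.card ι ≤ c.m Ω (TW Q) t :=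
  (card_le_mlp (fun i => g i • ω) (fun i => c.family_mem h hw (h1 i))
    fun i j hij => h2 i j (c.family_inj (h1 i).1 (h1 j).1 hij)).trans
    (c.m_le (invP_TW x) (h.1 w hw ▸ mem_Cls_self (polar_eq_zero_of_mem_Wx c.sing hw) hwx) ht)

theorem Pt.le_of_TW_ten (c : Pt Q x) (hn : 10 ≤ finrank F V) {ω : Ω} (h : TW Q (WO Q x ω))
    (hC : Fintype.card F ^ (finrank F V - 2) ≤ (Cls Q x 0).ncard) :
    2 * Fintype.card F ^ (finrank F V - 2) ≤ Nat.card Ω := by
  have h1 := h.2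
  obtain ⟨w, hw, hwx⟩ := exists_mem_notMem_spanL' (F := F) (W := WO Q x ω) [x] (by simp; omega)
  obtain ⟨g, h2, h3⟩ := c.family_two (ts_span h.1) (self_mem_Ux x) (Submodule.subset_span hw)
    (by change 5 ≤ finrank F (Submodule.span F (WO Q x ω : Set V)); omega)
  have h4 := c.le_NP (fun t ht => c.card_le_m h hw hwx g h2 h3 ht) (disjoint_span_Cls _)
  have h5 : NP Q x Ω (TW Q) ≤ Nat.card Ω := Set.ncard_le_card _
  have hq := Fintype.one_lt_card (α := F)
  rw [Nat.card_prod, Nat.card_eq_fintype_card] at h4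
  refine Nat.le_of_mul_le_mul_right (c := Fintype.card F) ?_ (by omega)
  nlinarith [Nat.mul_le_mul hq hC, Nat.mul_le_mul_right (Fintype.card F) h5]

theorem Pt.le_of_TW_eight (c : Pt Q x) (hn : finrank F V = 8) {ω : Ω} (h : TW Q (WO Q x ω))
    (hC : (Cls Q x 0).ncard + Fintype.card F =
      (Fintype.card F ^ 3) ^ 2 + (Fintype.card F - 1) * Fintype.card F ^ 3) :
    Fintype.card F ^ 3 * (Fintype.card F + 1) * (Fintype.card F ^ 2 + 1) ≤ NP Q x Ω (TW Q) := by
  have : Finite V := Module.finite_of_finite F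
  have h1 := h.2
  obtain ⟨w, hw, hwx⟩ := exists_mem_notMem_spanL' (F := F) (W := WO Q x ω) [x] (by simp; omega)
  obtain ⟨g, h2, h3, -⟩ := c.family_one (ts_span h.1) (self_mem_Ux x) (Submodule.subset_span hw) hwx
    (by change 4 ≤ finrank F (Submodule.span F (WO Q x ω : Set V)); omega)
  have h4 := c.le_NP_of_le (Ω := Ω) (P := TW Q) (d := Fintype.card F ^ 3) (fun ω' h' => by
    refine (Nat.card_le_card_of_injective (fun u : WO Q x ω' =>
      (⟨u, Submodule.subset_span u.2⟩ : Submodule.span F (WO Q x ω' : Set V)))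
      fun a b e => Subtype.ext (congrArg
        (fun t : Submodule.span F (WO Q x ω' : Set V) => (t : V)) e)).trans ?_
    have := h'.2
    rw [Module.natCard_eq_pow_finrank (K := F), Nat.card_eq_fintype_card, ← pow_succ,
      show finrank F (Submodule.span F (WO Q x ω' : Set V)) = 4 by omega])
    (fun t ht => c.card_le_m h hw hwx g h2 h3 ht) (disjoint_span_Cls _)
  rw [Finite.card_option, Nat.card_eq_fintype_card] at h4
  exact parith_a Fintype.one_lt_card hC h4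

theorem ratio_sing [MulAction.IsPretransitive (commutator (O Q)) Ω] (c : Pt Q x)
    (ρ : V → Ω → Prop) (hρ : ∀ (g : commutator (O Q)) y ω, ρ y ω → ρ (g.1.1 y) (g • ω)) (ω₀ : Ω) :
    (sing Q - 1) * {ω | ρ x ω}.ncard = Nat.card Ω * {y | (y ≠ 0 ∧ Q y = 0) ∧ ρ y ω₀}.ncard := by
  have : Finite V := Module.finite_of_finite F
  let Y := MulAction.orbit (commutator (O Q)) x
  have hY : ∀ y, y ∈ Y ↔ y ≠ 0 ∧ Q y = 0 := fun y => by
    constructor
    · rintro ⟨g, rfl⟩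
      exact ⟨fun h => c.ne (g.1.1.injective (h.trans (map_zero _).symm)), (O_map g.1 x).trans c.sing⟩
    · rintro ⟨h1, h2⟩
      exact c.exists_apply (c.of h1 h2)
  have key := card_mul_ncard_rel (G := commutator (O Q)) (X := Y) (Y := Ω) (fun y ω => ρ y ω)
    (fun g y ω h => hρ g y ω h) ⟨x, MulAction.mem_orbit_self x⟩ ω₀
  have h1 : Nat.card Y = sing Q - 1 := by
    rw [← ncard_ne_zero_sing]
    change Y.ncard = _
    congr 1
    ext y
    exact hY y
  rw [← h1, key, ← Set.ncard_image_of_injective _ Subtype.val_injective]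
  congr 2
  ext y
  exact ⟨fun ⟨z, h, e⟩ => e ▸ ⟨(hY _).1 z.2, h⟩, fun h => ⟨⟨y, (hY y).2 h.1⟩, h.2, rfl⟩⟩

theorem le_card_eight [MulAction.IsPretransitive (commutator (O Q)) Ω] [Nontrivial Ω]
    (hn : finrank F V = 8) (hq : 4 ≤ Fintype.card F)
    (hS : sing Q - 1 = (Fintype.card F ^ 4 - 1) * (Fintype.card F ^ 3 + 1))
    (hC : ∀ x, x ≠ 0 → Q x = 0 → (Cls Q x 0).ncard + Fintype.card F =
      (Fintype.card F ^ 3) ^ 2 + (Fintype.card F - 1) * Fintype.card F ^ 3)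
    (hC' : ∀ x, x ≠ 0 → Q x = 0 → ∀ d,
      (Fintype.card F ^ 3) ^ 2 ≤ (Cls Q x d).ncard + Fintype.card F ^ 3)
    {x₀ : V} (c₀ : Pt Q x₀) {ω₀ : Ω} (h₀ : TW Q (WO Q x₀ ω₀)) :
    (Fintype.card F + 1) * (Fintype.card F ^ 2 + 1) * (Fintype.card F ^ 3 + 1) ≤ Nat.card Ω := by
  by_contra hlt
  have h1 : ∀ x, Pt Q x → Fintype.card F ^ 3 * (Fintype.card F + 1) * (Fintype.card F ^ 2 + 1) ≤
      NP Q x Ω (TW Q) := fun x c => by
    obtain ⟨g, rfl⟩ := c₀.exists_apply c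
    exact c.le_of_TW_eight hn (TW_smul g h₀) (hC _ c.ne c.sing)
  have h2 : ∀ x, Pt Q x → ∀ ω : Ω, TW Q (WO Q x ω) ∨ ∀ u ∈ WO Q x ω, u ∈ spanL F [x] := by
    intro x c ω
    by_contra! hc
    obtain ⟨h3, w, hw, hwx⟩ := hc
    have hwc := mem_Cls_self (polar_eq_zero_of_mem_Wx c.sing hw) hwx
    have hI := (invP_TW (Q := Q) x).not.and (invP_cls x (Q w))
    have h4 := c.le_NP (fun u hu => (c.one_le_m (ω := ω)
      (P := fun W => ¬ TW Q W ∧ ∃ u ∈ W, u ∈ Cls Q x (Q w)) ⟨h3, w, hw, hwc⟩ hw).trans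
      (c.m_le hI hwc hu)) (disjoint_span_Cls _)
    have h5 := NP_add_NP_le (Q := Q) (x := x) (Ω := Ω) (P := TW Q)
      (P' := fun W => ¬ TW Q W ∧ ∃ u ∈ W, u ∈ Cls Q x (Q w)) fun W h h' => h'.1 h
    have h6 := parith_c hq (hC' x c.ne c.sing (Q w))
    have h7 := Nat.le_of_mul_le_mul_right (h6.trans (by omega : _ ≤ _ * Fintype.card F))
      Fintype.card_pos (b := NP Q x Ω fun W => ¬ TW Q W ∧ ∃ u ∈ W, u ∈ Cls Q x (Q w))
    have h8 := h1 x c
    exact hlt (by nlinarith)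
  by_cases hF : ∃ x, Pt Q x ∧ ∃ ω : Ω, ∀ u ∈ WO Q x ω, u ∈ spanL F [x]
  · obtain ⟨x, c, ω, h3⟩ := hF
    have h4 := le_ncard_full c.nd hn (not_le_St ω) (fun y h1 h2' => h2 y (c.of h1 h2') ω) c.ne
      c.sing h3
    have h5 := ratio_sing c (fun y (ω : Ω) => ∀ u ∈ WO Q y ω, u ∈ spanL F [y])
      (fun g y ω h u hu => by
        rw [← O_apply_inv g.1 u, apply_mem_WO] at hu
        rw [← O_apply_inv g.1 u, apply_mem_spanL_iff]
        exact h _ hu) ω
    have h6 := NP_add_NP_le (Q := Q) (x := x) (Ω := Ω) (P := TW Q)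
      (P' := fun W => ∀ u ∈ W, u ∈ spanL F [x]) fun W h h' => by
        have e1 := Submodule.finrank_mono (Submodule.span_le.2 (show (W : Set V) ⊆ spanL F [x] from h'))
        have e2 := h.2
        rw [finrank_spanL_singleton c.ne] at e1
        omega
    exact hlt (parith_d (by omega) hS h5 h4 (le_trans (Nat.add_le_add_right (h1 x c) _) h6))
  have hT : ∀ x, Pt Q x → ∀ ω : Ω, TW Q (WO Q x ω) := fun x c ω =>
    (h2 x c ω).resolve_right fun h => hF ⟨x, c, ω, h⟩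
  have key : ∀ x, ∀ c : Pt Q x, ∀ ω : Ω, ∀ w ∈ WO Q x ω, w ∉ spanL F [x] →
      ∃ g : Option F → commutator (O Q), (∀ i, (g i).1.1 x = x) ∧
        (∀ i j, (Ux (St (commutator (O Q)) ω) x).map (g i).1.1.toLinearMap =
          (Ux (St (commutator (O Q)) ω) x).map (g j).1.1.toLinearMap → i = j) ∧ g (some 0) = 1 ∧
        ∀ ω' : Ω, w ∈ WO Q x ω' → ∃ i, ω' ∈ orb c.a (g i • ω) := by
    intro x c ω w hw hwx
    have h := hT x c ω
    have h3 := h.2
    obtain ⟨g, h4, h5, h6⟩ := c.family_one (ts_span h.1) (self_mem_Ux x) (Submodule.subset_span hw)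
      hwx (by change 4 ≤ finrank F (Submodule.span F (WO Q x ω : Set V)); omega)
    refine ⟨g, fun i => (h4 i).1, h5, h6, fun ω' hw' => ?_⟩
    by_contra! hc
    have h7 := card_le_mlp (χ := chi F) (β := polA Q x) (ha := c.add) (P := TW Q) (w := w)
      (fun i : Option (Option F) => i.elim ω' fun i => g i • ω) (fun i => by
        rcases i with _ | i
        · rw [c.chs_eq]; exact ⟨hT x c ω', hw'⟩
        · exact c.family_mem h hw (h4 i)) fun i j hij => by
        rcases i with _ | i <;> rcases j with _ | j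
        · rfl
        · exact absurd hij (hc j)
        · refine absurd ?_ (hc i)
          change g i • ω ∈ orb c.a ω' at hij
          rw [orb_eq_of_mem c.add hij]
          exact self_mem_orb c.add _
        · rw [h5 i j (c.family_inj (h4 i).1 (h4 j).1 hij)]
    rw [Finite.card_option, Finite.card_option, Nat.card_eq_fintype_card] at h7
    have hwc := mem_Cls_self (polar_eq_zero_of_mem_Wx c.sing hw) hwx
    rw [h.1 w hw] at hwc
    have h8 := c.le_NP (fun u hu => h7.trans (c.m_le (invP_TW x) hwc hu)) (disjoint_span_Cls _)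
    have h9 : NP Q x Ω (TW Q) ≤ Nat.card Ω := Set.ncard_le_card _
    exact hlt (parith_b hq (hC x c.ne c.sing) rfl ((Nat.le_add_left _ _).trans
      (h8.trans (Nat.mul_le_mul_right _ h9))))
  obtain ⟨μ, hμ, hμ1⟩ : ∃ μ : F, μ ≠ 0 ∧ μ ^ 2 ≠ 1 := by
    classical
    by_contra! hc
    have : (Finset.univ : Finset F) ⊆ {0, 1, -1} := fun μ _ => by
      by_cases h : μ = 0
      · simp [h]
      · rcases sq_eq_one_iff.1 (hc μ h) with h | h <;> simp [h]
    have h3 := (Finset.card_le_card this).trans Finset.card_le_three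
    rw [Finset.card_univ] at h3
    omega
  refine false_of_spin (H := St (commutator (O Q)) ω₀) c₀.nd hn
    (fun x h1 h2 => hT x (c₀.of h1 h2) ω₀) (fun x h1 h2 w hw hwx g hg e1 e2 e3 => ?_) hμ hμ1
    fun x y h1 h2 h3 h4 => ?_
  · have c := c₀.of h1 h2
    obtain ⟨k, e4, e5, e6, e7⟩ := key x c ω₀ w hw hwx
    obtain ⟨i, hi⟩ := e7 ((⟨g, hg⟩ : commutator (O Q)) • ω₀) (by
      have := (apply_mem_WO (⟨g, hg⟩ : commutator (O Q))).2 hw
      rwa [e1, e2] at this)
    have e8 := c.family_inj (g := ⟨g, hg⟩) e1 (e4 i) hi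
    rw [mem_stab_iff_map.1 (mem_stab_of_forall_mem e3)] at e8
    have e9 := e5 (some 0) i (by rw [← e8, e6]; exact Submodule.map_id _)
    rw [← e9, e6, one_smul] at hi
    exact c.cov_of_mem_orb hi
  · have c := c₀.of h1 h2
    have d := c₀.of h3 h4
    have e0 := (hT x c ω₀).2
    obtain ⟨w, hw, hwx⟩ := exists_mem_notMem_spanL' (F := F) (W := WO Q x ω₀) [x] (by simp; omega)
    have e0' := (hT y d ω₀).2
    obtain ⟨w', hw', hwx'⟩ := exists_mem_notMem_spanL' (F := F) (W := WO Q y ω₀) [y]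
      (by simp; omega)
    obtain ⟨g, hg, e1, e2⟩ := exists_Om_pair c.nd c.dim h3 hwx' h1 hwx (h2.trans h4.symm)
      (((hT x c ω₀).1 w hw).trans ((hT y d ω₀).1 w' hw').symm)
      ((polar_eq_zero_of_mem_Wx h2 hw).trans (polar_eq_zero_of_mem_Wx h4 hw').symm)
    obtain ⟨k, e4, -, -, e7⟩ := key x c ω₀ w hw hwx
    obtain ⟨i, hi⟩ := e7 ((⟨g, hg⟩ : commutator (O Q)) • ω₀) (by
      have := (apply_mem_WO (⟨g, hg⟩ : commutator (O Q))).2 hw'
      rwa [e1, e2] at this)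
    have e8 := c.Ux_eq_of_mem hi
    have e9 := Ux_smul (x := y) (⟨g, hg⟩ : commutator (O Q)) ω₀
    have e10 := Ux_smul (x := x) (k i) ω₀
    rw [e4 i] at e10
    change Ux _ (g.1 y) = _ at e9
    rw [e1, e8, e10] at e9
    refine ⟨g⁻¹ * (k i).1, mul_mem (inv_mem hg) (k i).2, ?_⟩
    have e11 := congrArg (Submodule.map (g⁻¹).1.toLinearMap) e9
    rw [← Submodule.map_comp, ← Submodule.map_comp] at e11
    refine Eq.trans ?_ e11.symm
    rw [show (g⁻¹).1.toLinearMap ∘ₗ g.1.toLinearMap = LinearMap.id from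
      LinearMap.ext fun v => O_inv_apply g v, Submodule.map_id]

omit [FiniteDimensional F V] [Finite Ω] in
theorem cntP_quadPlus (k : ℕ) {x} (hx0 : x ≠ 0) (hx : quadPlus (k + 1) F x = 0) :
    cntP (quadPlus (k + 1) F) x 0 =
      (Fintype.card F ^ k) ^ 2 + (Fintype.card F - 1) * Fintype.card F ^ k ∧
    ∀ d, d ≠ 0 → cntP (quadPlus (k + 1) F) x d + Fintype.card F ^ k = (Fintype.card F ^ k) ^ 2 := by
  have h1 := fun d => cntQ_eq (quadPlus_nondegenerate (k + 1)) hx0 hx d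
  have h3 : finrank F (Fin (k + 1) ⊕ Fin (k + 1) → F) - 2 = 2 * k := by simp; omega
  have h0 := sing_quadPlus (F := F) k
  have h4 : 1 ≤ Fintype.card F ^ (k + 1) := Nat.one_le_pow _ _ Fintype.card_pos
  have h5 : 1 ≤ Fintype.card F := Fintype.card_pos
  rw [← cntQ_zero, h1, Nat.card_eq_fintype_card, h3] at h0
  constructor
  · zify [h5]
    push_cast [h5] at h0
    linear_combination h0
  · intro d hd
    have h2 := (cntQ_quadPlus k hd).symm.trans (h1 d)
    rw [h3] at h2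
    zify [h4, h5] at h2 ⊢
    linear_combination -h2

theorem le_card_plus {k : ℕ} (hk : 3 ≤ k) {Ω : Type*}
    [MulAction (commutator (O (quadPlus (k + 1) F))) Ω] [Finite Ω]
    [MulAction.IsPretransitive (commutator (O (quadPlus (k + 1) F))) Ω] [Nontrivial Ω] {b : ℕ}
    (hb : (4 ≤ Fintype.card F ∧
      b * (Fintype.card F - 1) = (Fintype.card F ^ (k + 1) - 1) * (Fintype.card F ^ k + 1)) ∨
      (Fintype.card F = 2 ∧ b = 2 ^ k * (2 ^ (k + 1) - 1))) : b ≤ Nat.card Ω := by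
  have hn : finrank F (Fin (k + 1) ⊕ Fin (k + 1) → F) = 2 * k + 2 := by simp; omega
  have hq := Fintype.one_lt_card (α := F)
  have h0 := fun x (h1 : x ≠ 0) (h2 : quadPlus (k + 1) F x = 0) =>
    (ncard_Cls_zero h1 h2).trans (cntP_quadPlus k h1 h2).1
  have hY : Fintype.card F ≤ Fintype.card F ^ k := Nat.le_self_pow (by omega) _
  refine le_card_orth (quadPlus_nondegenerate (k + 1)) (by omega)
    (fun x h1 h2 => num_quadPlus hk hb h1 h2) fun x c ω h1 h2 => ?_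
  by_cases h3 : k = 3
  swap
  · refine (num_quadPlus hk hb c.ne c.sing).h3.trans (c.le_of_TW_ten (by omega) ⟨h1, h2⟩ ?_)
    have h4 := h0 x c.ne c.sing
    have h5 := Nat.mul_le_mul_right (Fintype.card F ^ k) (show 1 ≤ Fintype.card F - 1 by omega)
    rw [hn, Nat.add_sub_cancel, pow_mul']
    omega
  subst h3
  rcases hb with ⟨h4, hb⟩ | ⟨h4, hb⟩
  · have h5 : 1 ≤ Fintype.card F ^ 4 := Nat.one_le_pow _ _ Fintype.card_pos
    have h6 : b = (Fintype.card F + 1) * (Fintype.card F ^ 2 + 1) * (Fintype.card F ^ 3 + 1) := by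
      refine Nat.eq_of_mul_eq_mul_right (m := Fintype.card F - 1) (by omega) (hb.trans ?_)
      zify [h5, hq.le]
      ring
    rw [h6]
    refine le_card_eight hn h4 ?_ h0 (fun y h7 h8 d => ?_) c ⟨h1, h2⟩
    · have h7 := sing_quadPlus (F := F) 3
      have h8 := one_le_sing (Q := quadPlus (3 + 1) F)
      rw [Nat.card_eq_fintype_card] at h7
      zify [h5, h8]
      rw [h7]
      ring
    · by_cases hd : d = 0
      · have := h0 y h7 h8
        subst hd
        have h5 := Nat.mul_le_mul_right (Fintype.card F ^ 3) (show 1 ≤ Fintype.card F - 1 by omega)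
        omega
      · have h9 := (cntP_quadPlus 3 h7 h8).2 d hd
        have h10 := mul_cntP_le_two h8 hd
        have h11 := Nat.mul_le_mul_right (cntP (quadPlus (3 + 1) F) y d)
          (show 2 ≤ Fintype.card F - 1 by omega)
        omega
  · have h5 := (c.le_of_TW_eight hn ⟨h1, h2⟩ (h0 x c.ne c.sing)).trans (Set.ncard_le_card _)
    rw [h4] at h5
    rw [hb]
    exact h5

end Cfsg.Lib.Class.MD
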