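import Cfsg.Agent.Class.MinDegSp3
import Cfsg.Agent.Class.MinDegCount

/-!
# The minimal degree of `Sp(V)` over fields with at least three elements
-/

namespace Cfsg.Lib.Class.MD

open Module Cfsg.Geo

theorem arith_sp1 {r P n a b c d : ℕ} (hr : 1 ≤ r) (hP : r + 2 ≤ P) (h1 : (r + 1) ^ 2 * P ≤ n)
    (h2 : a + 1 = (r * P + 1) * (r + 1) ^ 2) (h3 : a * b = n * c) (h4 : b ≤ r + 1)
    (h5 : d + 1 = (r + 1) ^ 2) (h6 : d ≤ c) : False := by
  have h16 : n * (r * (r + 2)) ≤ a * (r + 1) :=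
    (Nat.mul_le_mul_left _ (by nlinarith)).trans (h3.ge.trans (Nat.mul_le_mul_left _ h4))
  have h17 : a = r * (P * (r + 1) ^ 2 + (r + 2)) := by nlinarith
  rw [h17] at h16
  have h18 : (r + 1) ^ 2 * P * (r * (r + 2)) ≤ r * (P * (r + 1) ^ 2 + (r + 2)) * (r + 1) :=
    (Nat.mul_le_mul_right _ h1).trans h16
  have h19 : (r + 1) * P * (r + 2) ≤ P * (r + 1) ^ 2 + (r + 2) :=
    Nat.le_of_mul_le_mul_left (c := r * (r + 1)) (by nlinarith) (by positivity)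
  nlinarith

theorem arith_sp2 {r N n k a j : ℕ} (hlt : r * n + 1 < N * (r + 1) ^ 2) (hj : 1 < j)
    (k1 : N * j ≤ k) (k2 : a = (r + 1) * k) (k3 : a ≤ n) : r = 0 := by
  have k4 : N * 2 ≤ k := (Nat.mul_le_mul_left _ hj).trans k1
  have k5 : (r + 1) * (N * 2) ≤ n := by nlinarith
  have k6 : N * (r + 1) * (2 * r) < N * (r + 1) * (r + 1) := by nlinarith
  have := Nat.lt_of_mul_lt_mul_left k6
  omega

theorem arith_sp3 {r N n S s a : ℕ} (hr : 2 ≤ r) (hlt : r * n + 1 < N * (r + 1) ^ 2) (k1 : r ≤ a)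
    (k2 : a + s = S) (k3 : 2 * S ≤ s * (r + 1)) (k4 : S * N ≤ n) (k5 : 1 ≤ s) : False := by
  have k6 : N * (r * S) < N * (r + 1) ^ 2 := by nlinarith
  have k7 := Nat.lt_of_mul_lt_mul_left k6
  have k8 : S ≤ r + 2 := by
    by_contra! hn
    nlinarith
  have k9 : s ≤ 2 := by omega
  have k10 : s ≤ 1 := by nlinarith
  nlinarith

theorem arith_sp4 {r P n m d : ℕ} (hP : r + 2 ≤ P) (hn : n ≤ (r + 1) ^ 2 * P + (r + 1))
    (h5 : (r + 1) * (m + r * P) ≤ n) (h2 : 2 * ((r + 1) * d) ≤ (r + 1) ^ 2) (hd : 1 ≤ d)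
    (h3 : m + r * P ≤ m * d) : False := by
  have h6 : m ≤ P + 1 := Nat.le_of_mul_le_mul_left (c := r + 1) (by nlinarith) (Nat.succ_pos r)
  have h7 : 2 * d ≤ r + 1 := Nat.le_of_mul_le_mul_left (c := r + 1) (by nlinarith) (Nat.succ_pos r)
  obtain ⟨d, rfl⟩ : ∃ e, d = e + 1 := ⟨d - 1, by omega⟩
  nlinarith

variable {F V : Type*} [Field F] [AddCommGroup V] [Module F V] {B : LinearMap.BilinForm F V}
  {Ω : Type*} [MulAction (SpB B) Ω] {hA : B.IsAlt}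

theorem mem_Zs_smul_pt {x : V} {ω : Ω} {a c : F} :
    c ∈ Zs hA (a • x) ω ↔ a ^ 2 * c ∈ Zs hA x ω := by
  rw [mem_Zs, mem_Zs, altTEquiv_smul]

theorem Zs_eq_bot_iff {x : V} {ω : Ω} :
    Zs hA x ω = ⊥ ↔ ∀ c, altTEquiv hA x c ∈ St (SpB B) ω → c = 0 := by
  simp only [AddSubgroup.eq_bot_iff_forall, mem_Zs]

theorem Zs_eq_top_iff {x : V} {ω : Ω} : Zs hA x ω = ⊤ ↔ x ∈ TSet hA (St (SpB B) ω) := by
  simp only [AddSubgroup.eq_top_iff', mem_Zs, mem_TSet]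

theorem FullQ.of_smul {H : Subgroup (V ≃ₗ[F] V)} {x : V} {a : F} (ha : a ≠ 0)
    (h : FullQ hA H x) : FullQ hA H (a • x) := by
  intro v hv
  have hv' : B v x = 0 := by simpa [ha] using hv
  obtain ⟨c, hc⟩ := h (a • v) (by simp [hv'])
  exact ⟨c / a ^ 2, by rwa [uq_smul hA hv', mul_div_cancel₀ _ (pow_ne_zero 2 ha)]⟩

theorem Zs_eq_bot_of_eigen {x : V} {ω : Ω} (h : Zs hA x ω = ⊥) (g : SpB B) {l : F} (hl : l ≠ 0)
    (hg : (g : V ≃ₗ[F] V) x = l • x) : Zs hA x (g • ω) = ⊥ := by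
  rw [← Zs_smul hA g, hg] at h
  refine (AddSubgroup.eq_bot_iff_forall _).2 fun c hc => ?_
  have : c / l ^ 2 ∈ Zs hA (l • x) (g • ω) := by
    rwa [mem_Zs_smul_pt, mul_div_cancel₀ _ (pow_ne_zero 2 hl)]
  simpa [h, hl] using this

variable [Fintype F]

theorem Dx_spU_smul {x s : V} (hs : B s x = 0) (c : F) (ω : Ω) :
    Dx hA x (spU hA x s c • ω) = Dx hA x ω := by
  rw [Dx, Dx, ← (heis_sp hA x).Sb_smul ω ⟨s, hs⟩ c]
  rfl

variable (hA Ω) in
/-- Multiplicities on the points moved by all transvections with centre `x`. -/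
noncomputable abbrev m1 (x w : V) : ℕ := spm hA (spInv_Zs (Ω := Ω) hA x (· = ⊥)) w

variable [Finite Ω]

theorem exists_spU_smul_eq {x w : V} (h1 : m1 Ω hA x w ≤ 1) {ω ω' : Ω} (hω : Zs hA x ω = ⊥)
    (hω' : Zs hA x ω' = ⊥) (hw : w ∈ Dx hA x ω) (hw' : w ∈ Dx hA x ω') :
    ∃ s c, B s x = 0 ∧ spU hA x s c • ω = ω' := by
  obtain ⟨s, c, h⟩ := HeisOn.exists_smul_eq_of_hm_le_one _ h1 hω hω' hw hw'
  exact ⟨s, c, s.2, h⟩

theorem exists_cover {x w w' : V} (h1 : m1 Ω hA x w ≤ 1) {ω : Ω} (hω : Zs hA x ω = ⊥)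
    (hw : w ∈ Dx hA x ω) (hw' : w' ∈ Dx hA x ω) {g : V ≃ₗ[F] V} (hg : g ∈ SpB B) {l : F}
    (hl : l ≠ 0) (hx : g x = l • x) (he : g w' = l • w) :
    ∃ s c, B s x = 0 ∧ uq hA x s c * g ∈ St (SpB B) ω := by
  have h2 := smul_mem_Dx_smul l⁻¹ (apply_mem_Dx hw' ⟨g, hg⟩)
  simp only [hx, he, smul_smul, inv_mul_cancel₀ hl, one_smul] at h2
  obtain ⟨s, c, hs, e⟩ := exists_spU_smul_eq h1 (Zs_eq_bot_of_eigen hω ⟨g, hg⟩ hl hx) hω h2 hw
  exact ⟨s, c, hs, (coe_mem_St (g := spU hA x s c * ⟨g, hg⟩)).2 (by rw [mul_smul, e])⟩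

variable [FiniteDimensional F V]

theorem mem_Dx_of_indep (hB : B.Nondegenerate) {x w w' : V}
    (h1 : ∀ w, B w x = 0 → w ∉ spanL F [x] → m1 Ω hA x w ≤ 1) {ω : Ω} (hω : Zs hA x ω = ⊥)
    (hw : w ∈ Dx hA x ω) (hw' : w' ∈ Dx hA x ω) (hwx : w ∉ spanL F [x])
    (hwx' : w' ∉ spanL F [x, w]) {u : V} (hu : B u x = 0) : u ∈ Dx hA x ω := by
  have key : ∀ w ∈ Dx hA x ω, ∀ w' ∈ Dx hA x ω, w ∉ spanL F [x] → ∀ u, B u x = 0 → B u w = 0 →
      B u w' ≠ 0 → u ∈ Dx hA x ω := by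
    intro w hw w' hw' hwx u h2 h3 h4
    have hne := alt_ne_zero_comm hA h4
    have a1 := apply_mem_Dx hw (spT hA u (B w' u)⁻¹)
    have a2 := apply_mem_Dx hw' (spT hA u (B w' u)⁻¹)
    have a3 := Zs_smul hA (spT hA u (B w' u)⁻¹) x ω
    rw [coe_spT, altTEquiv_of_orth hA _ (alt_eq_zero_comm hA h2)] at a1 a2 a3
    rw [altTEquiv_of_orth hA _ (alt_eq_zero_comm hA h3)] at a1
    rw [altTEquiv_apply', inv_mul_cancel₀ hne, one_smul] at a2
    obtain ⟨s, c, hs, e⟩ := exists_spU_smul_eq (h1 w (orth_of_mem_Dx hw) hwx) hω (a3.trans hω) hw a1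
    rw [← e, Dx_spU_smul hs] at a2
    simpa using sub_mem a2 hw'
  have key2 : ∀ w ∈ Dx hA x ω, ∀ w' ∈ Dx hA x ω, w ∉ spanL F [x] → w' ∉ spanL F [x, w] →
      ∀ u, B u x = 0 → B u w = 0 → u ∈ Dx hA x ω := by
    intro w hw w' hw' hwx hwx' u h2 h3
    by_cases h4 : B u w' = 0
    · obtain ⟨v, e1, e2⟩ := exists_orth_eq_one hB hwx'
      have k1 := key w hw w' hw' hwx v (e1 x (by simp)) (e1 w (by simp)) (by simp [e2])
      have k2 := key w hw w' hw' hwx (u + v) (by simp [h2, e1]) (by simp [h3, e1]) (by simp [h4, e2])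
      simpa using sub_mem k2 k1
    · exact key w hw w' hw' hwx u h2 h3 h4
  have hwx2 : w' ∉ spanL F [x] := fun h => hwx' (spanL_mono (by simp) h)
  have hwx3 : w ∉ spanL F [x, w'] := notMem_spanL_pair_exchange hwx' hwx
  obtain ⟨v, e1, e2⟩ := exists_orth_eq_one hB hwx3
  have k1 := key2 w hw w' hw' hwx hwx' (u - B u w • v) (by simp [hu, e1]) (by simp [e2])
  have k2 := key2 w' hw' w hw hwx2 hwx3 (B u w • v) (by simp [e1]) (by simp [e1])
  simpa using add_mem k1 k2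

theorem pow_mul_le_ncard_of_inv (hB : B.Nondegenerate) {x : V} (hx : x ≠ 0) {p : Ω → Prop}
    (hp : SpInv B x p) (hZ : ∀ ω, p ω → Zs hA x ω = ⊥) {ω : Ω} (hω : p ω)
    (h : ¬ FullQ hA (St (SpB B) ω) x) :
    Fintype.card F * Fintype.card F ^ (finrank F V - 2) ≤ {ω | p ω}.ncard := by
  rw [ncard_eq_mul_card_ZO (hp.heisOn hA).hz (hp.heisOn hA).pz (e := Fintype.card F) fun ω hω => ?_]
  · exact Nat.mul_le_mul_left _ (pow_le_card_ZO hB hA hx hp hω h)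
  · have := ncard_orb_mul (spT_add hA x) ω
    rwa [show stb (spT_add hA x) ω = ⊥ from hZ ω hω, AddSubgroup.card_bot, mul_one,
      Nat.card_eq_fintype_card] at this

omit [Fintype F] in
theorem sp_trans (hB : B.Nondegenerate) (hA : B.IsAlt) :
    ∀ x ∈ ({0}ᶜ : Set V), ∀ y ∈ ({0}ᶜ : Set V), ∃ g ∈ SpB B, g x = y :=
  fun _ hx _ hy => SpB_exists_apply_eq hB hA hx hy

omit [Fintype F] [FiniteDimensional F V] in
theorem ne_zero_inv {Γ : Subgroup (V ≃ₗ[F] V)} :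
    ∀ g ∈ Γ, ∀ x ∈ ({0}ᶜ : Set V), g x ∈ ({0}ᶜ : Set V) := fun g _ x hx => by simpa using hx

theorem ncard_compl_zero : ({0}ᶜ : Set V).ncard + 1 = Fintype.card F ^ finrank F V := by
  have := ncard_submodule_diff_zero (⊤ : Submodule F V)
  rwa [Submodule.top_coe, finrank_top, ← Set.compl_eq_univ_sdiff] at this

variable [MulAction.IsPretransitive (SpB B) Ω] [Nontrivial Ω]

theorem not_forall_TSet (hB : B.Nondegenerate) (ω : Ω) : ¬ ∀ v, v ∈ TSet hA (St (SpB B) ω) :=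
  fun h => not_le_St ω (SpB_le_of_TSet hB hA h)

omit [Nontrivial Ω] in
theorem card_ge_of_fix_line (hB : B.Nondegenerate) (hA : B.IsAlt) {ω : Ω} {f : V} (hf : f ≠ 0)
    (h : ∀ g ∈ St (SpB B) ω, g f ∈ spanL F [f]) :
    Fintype.card F ^ finrank F V ≤ (Fintype.card F - 1) * Nat.card Ω + 1 := by
  have : Finite V := Module.finite_of_finite F
  have h1 := ncard_le_card_mul_of_St (sp_trans hB hA) ne_zero_inv (f := f) hf (ω := ω)
    (S := (spanL F [f] : Set V) \ {0}) fun g hg => ⟨h g hg, by simpa using hf⟩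
  have h2 := ncard_submodule_diff_zero (spanL F [f])
  rw [finrank_spanL_singleton hf, pow_one] at h2
  rw [← ncard_compl_zero (F := F), ← h2, Nat.add_sub_cancel, mul_comm]
  omega

/-- A regular orbit of the unipotent radical. -/
theorem card_ge_of_regular (hB : B.Nondegenerate) (h4 : 4 ≤ finrank F V)
    (hq : 3 ≤ Fintype.card F) {l : F} (hl0 : l ≠ 0) (hl1 : l ≠ 1)
    (hl : l ^ 2 ≠ 1 ∨ ((2 : F) ≠ 0 ∧ 6 ≤ finrank F V))
    (h1 : ∀ x, x ≠ 0 → ∀ w, B w x = 0 → w ∉ spanL F [x] → m1 Ω hA x w ≤ 1) {x : V} (hx : x ≠ 0)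
    {ω : Ω} (hω : Zs hA x ω = ⊥) (hD : ∀ u, B u x = 0 → u ∈ Dx hA x ω) :
    Fintype.card F ^ finrank F V ≤ (Fintype.card F - 1) * Nat.card Ω + 1 := by
  have : Finite V := Module.finite_of_finite F
  let ρ : V → Ω → Prop := fun x ω => Zs hA x ω = ⊥ ∧ ∀ u, B u x = 0 → u ∈ Dx hA x ω
  have hρ : ∀ (g : SpB B) x ω, ρ x ω → ρ ((g : V ≃ₗ[F] V) x) (g • ω) := by
    intro g x ω h
    refine ⟨(Zs_smul hA g x ω).trans h.1, fun u hu => ?_⟩
    obtain ⟨u, rfl⟩ := (g : V ≃ₗ[F] V).surjective u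
    exact apply_mem_Dx (h.2 u (by rwa [mem_SpB.1 g.2] at hu)) g
  have hS : ∀ x ω, ρ x ω → ∀ v c, B v x = 0 → uq hA x v c ∈ St (SpB B) ω → v ∈ spanL F [x] := by
    intro x ω h v c hv hc
    refine mem_spanL_of_orth hB fun u hu => alt_eq_zero_comm hA (eq_zero_of_chi fun d => ?_)
    simpa using mem_Dx.1 (h.2 (d • u) (by simp [hu x])) v c hv hc
  have hE : ∀ x, x ≠ 0 → ∀ ω, ρ x ω → ∃ E : Submodule F V, E ≤ prp B x ∧
      finrank F E + 2 = finrank F V ∧ (∀ u ∈ E, u ≠ 0 → ∃ z ∈ E, B z u ≠ 0) ∧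
      ∀ u ∈ E, u ∈ TSet hA (St (SpB B) ω) := by
    intro x hx ω h
    obtain ⟨w, hw, hwx⟩ := exists_orth_notMem_spanL (B := B) [x] [x] (by simp; omega)
    replace hw := hw x (by simp)
    obtain ⟨E, e1, e2, e3, e4⟩ := exists_complement_TSet hB hx (Zs_eq_bot_iff.1 h.1) (hS x ω h)
      (fun g hg a ha => by
        have ha0 : a ≠ 0 := by
          rintro rfl
          exact hx (by simpa using ha)
        refine exists_cover (h1 x hx w hw hwx) h.1 (h.2 w hw) (h.2 (g.symm (a • w)) ?_) hg ha0 ha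
          (by simp)
        simp [SpB_symm_left hg, ha, hw]) hl0 hl1 hl
    refine ⟨E, e1, ?_, fun u hu hu0 => ?_, e4⟩
    · have h2 : E ⊔ Submodule.span F {x} = prp B x := by
        refine le_antisymm (sup_le e1 ((Submodule.span_singleton_le_iff_mem _ _).2
          (hA.self_eq_zero x))) fun u hu => ?_
        obtain ⟨t, ht⟩ := e3 u hu
        simpa using sub_mem (Submodule.mem_sup_left ht) (Submodule.mem_sup_right
          (Submodule.mem_span_singleton.2 ⟨t, rfl⟩) : t • x ∈ E ⊔ Submodule.span F {x})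
      rw [← finrank_prp hB hx, ← h2, Submodule.finrank_sup_span_singleton e2]
    · have : u ∉ spanL F [x] := by
        rw [mem_spanL_singleton]
        rintro ⟨t, rfl⟩
        have ht : t ≠ 0 := by rintro rfl; simp at hu0
        exact e2 (by simpa [ht] using E.smul_mem t⁻¹ hu)
      obtain ⟨v, h2, h3⟩ := exists_orth_eq_one hB this
      obtain ⟨t, ht⟩ := e3 v (h2 x (by simp))
      exact ⟨_, ht, by simp [h3, alt_eq_zero_comm hA (mem_prp.1 (e1 hu))]⟩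
  obtain ⟨E, -, e2, e3, e4⟩ := hE x hx ω ⟨hω, hD⟩
  rcases TSet_trichotomy hB hq St_le e3 e2 (fun h => by rw [h, finrank_bot] at e2; omega) e4 with
    h | ⟨f, hf, h⟩ | h
  · exact absurd h (not_forall_TSet hB ω)
  · exact card_ge_of_fix_line hB hA hf h
  have hc := isCompl_orthogonal_of_nondeg hA e3
  have hLd : finrank F (B.orthogonal E) = 2 := by
    have := Submodule.finrank_add_eq_of_isCompl hc
    omega
  have h5 : {y | y ∈ ({0}ᶜ : Set V) ∧ ρ y ω} ⊆ (B.orthogonal E : Set V) \ {0} := by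
    rintro y ⟨hy, hρy⟩
    refine ⟨?_, hy⟩
    obtain ⟨E', f1, f2, -, f4⟩ := hE y hy ω hρy
    by_cases h6 : E' ≤ E
    · rw [Submodule.eq_of_le_of_finrank_eq h6 (by omega)] at f1
      exact alt_mem_orthogonal.2 fun e he => f1 he
    by_cases h7 : E' ≤ B.orthogonal E
    · rw [Submodule.eq_of_le_of_finrank_le h7 (by omega)] at f1
      have : y ∈ E := by
        rw [← LinearMap.BilinForm.orthogonal_orthogonal hB hA.isRefl E]
        exact alt_mem_orthogonal.2 fun e he => f1 he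
      simpa using Zs_eq_bot_iff.1 hρy.1 1 (e4 y this 1)
    · obtain ⟨u, hu, h8, h9⟩ := exists_mem_notMem_notMem h6 h7
      exact absurd (h u (f4 u hu)) (not_or.2 ⟨h8, h9⟩)
  have h6 := ratio_vec (sp_trans hB hA) ne_zero_inv ρ hρ (x₀ := x) hx ω
  have h7 := pow_mul_le_ncard_of_inv (hA := hA) hB hx (p := ρ x)
    (fun g hg ω h => by simpa [hg] using hρ g x ω h) (fun ω h => h.1) ⟨hω, hD⟩ fun h => by
      obtain ⟨w, hw, hwx⟩ := exists_orth_notMem_spanL (B := B) [x] [x] (by simp; omega)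
      obtain ⟨c, hc⟩ := h w (hw x (by simp))
      exact hwx (hS x ω ⟨hω, hD⟩ w c (hw x (by simp)) hc)
  have h8 := Set.ncard_le_ncard h5
  have h9 := ncard_submodule_diff_zero (B.orthogonal E)
  have h10 := ncard_compl_zero (F := F) (V := V)
  rw [hLd] at h9
  have h11 : Fintype.card F ^ 2 ≤ Fintype.card F ^ (finrank F V - 2) :=
    Nat.pow_le_pow_right Fintype.card_pos (by omega)
  obtain ⟨r, hr⟩ : ∃ r, Fintype.card F = r + 1 := ⟨_, (Nat.succ_pred_eq_of_pos Fintype.card_pos).symm⟩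
  rw [← h10, hr, Nat.add_sub_cancel, Nat.add_le_add_iff_right]
  rw [hr] at h7 h9 h11
  refine Nat.le_of_mul_le_mul_right (c := r + 2) ?_ (by omega)
  calc ({0}ᶜ : Set V).ncard * (r + 2) ≤ ({0}ᶜ : Set V).ncard * {ω | ρ x ω}.ncard :=
        Nat.mul_le_mul_left _ (by nlinarith)
    _ ≤ Nat.card Ω * (r * (r + 2)) := h6 ▸ Nat.mul_le_mul_left _ (by nlinarith)
    _ = _ := by ring

/-- All the characters in one orbit lie on a line. -/
theorem card_ge_of_lines (hB : B.Nondegenerate) (h4 : 4 ≤ finrank F V)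
    (hl : (∃ l : F, l ≠ 0 ∧ l ^ 2 ≠ 1) ∨ ((2 : F) ≠ 0 ∧ 6 ≤ finrank F V))
    (h1 : ∀ x, x ≠ 0 → ∀ w, B w x = 0 → w ∉ spanL F [x] → m1 Ω hA x w = 1)
    (hD : ∀ x, x ≠ 0 → ∀ ω : Ω, Zs hA x ω = ⊥ → ∀ w ∈ Dx hA x ω, w ∉ spanL F [x] →
      ∀ w' ∈ Dx hA x ω, w' ∈ spanL F [x, w]) :
    Fintype.card F ^ finrank F V ≤ (Fintype.card F - 1) * Nat.card Ω + 1 := by
  by_contra! hlt
  have : Finite V := Module.finite_of_finite F
  obtain ⟨r, hr⟩ : ∃ r, Fintype.card F = r + 1 := ⟨_, (Nat.succ_pred_eq_of_pos Fintype.card_pos).symm⟩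
  have hr1 : 1 ≤ r := by have := Fintype.one_lt_card (α := F); omega
  set N := Fintype.card F ^ (finrank F V - 2) with hN
  have hNq : Fintype.card F ^ finrank F V = N * (r + 1) ^ 2 := by
    rw [hN, ← hr, ← pow_add]
    congr 1
    omega
  have hN2 : (r + 1) ^ 2 ≤ N := hr ▸ Nat.pow_le_pow_right Fintype.card_pos (by omega)
  obtain ⟨P, hP⟩ : r ∣ N - 1 := by
    have := Nat.sub_one_dvd_pow_sub_one (Fintype.card F) (finrank F V - 2)
    rwa [← hN, hr, Nat.add_sub_cancel] at this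
  have hP' : N = r * P + 1 := by
    have : 1 ≤ N := Nat.one_le_pow _ _ Fintype.card_pos
    omega
  have hP2 : r + 2 ≤ P := Nat.le_of_mul_le_mul_left (c := r) (by nlinarith) hr1
  have hlt' := hlt
  rw [hNq, hr, Nat.add_sub_cancel] at hlt
  have hΩ : Nat.card Ω ≤ (r + 1) ^ 2 * P + (r + 1) :=
    Nat.le_of_lt_succ (Nat.lt_of_mul_lt_mul_left (a := r) (by nlinarith))
  have hV : Nat.card V = N * (r + 1) ^ 2 := by
    rw [Module.natCard_eq_pow_finrank (K := F), Nat.card_eq_fintype_card, hNq]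
  have hprp : ∀ x : V, x ≠ 0 → Nat.card (prp B x) = N * (r + 1) := by
    intro x hx
    have := finrank_prp hB hx
    rw [natCard_submodule, hN, ← hr, ← pow_succ]
    congr 1
    omega
  have hZO : ∀ x : V, x ≠ 0 → Nat.card (ZO (spT hA x) fun ω : Ω => Zs hA x ω = ⊥) =
      m1 Ω hA x 0 + r * P := by
    intro x hx
    obtain ⟨w, hw, hwx⟩ := exists_orth_notMem_spanL (B := B) [x] [x] (by simp; omega)
    replace hw := hw x (by simp)
    have := card_ZO_add hB hA hx (spInv_Zs (Ω := Ω) hA x (· = ⊥)) hw hwx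
    change _ + m1 Ω hA x w = m1 Ω hA x 0 + N * m1 Ω hA x w at this
    rw [h1 x hx w hw hwx] at this
    omega
  have hbd : ∀ x : V, x ≠ 0 → ∀ d, (∀ ω : Ω, Zs hA x ω = ⊥ → Nat.card (Dx hA x ω) ≤ d * (r + 1)) →
      m1 Ω hA x 0 + r * P ≤ m1 Ω hA x 0 * d := by
    intro x hx d hd
    rw [← hZO x hx]
    refine HeisOn.card_ZO_le _ (prpB_sep hB x) fun ω hω => ?_
    rw [hprp x hx, hV]
    calc _ ≤ N * (r + 1) * (d * (r + 1)) := Nat.mul_le_mul_left _ (hd ω hω)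
      _ = _ := by ring
  have hc1 : ∀ x : V, x ≠ 0 → Nat.card (spanL F [x]) = r + 1 := fun x hx => by
    rw [natCard_submodule, finrank_spanL_singleton hx, hr, pow_one]
  have hc2 : ∀ x w : V, x ≠ 0 → w ∉ spanL F [x] → Nat.card (spanL F [x, w]) = (r + 1) ^ 2 := by
    intro x w hx hw
    rw [natCard_submodule, finrank_spanL_pair (ne_zero_of_notMem_spanL hw)
      (notMem_spanL_singleton_symm hw hx), hr]
  have hle : ∀ (S : AddSubgroup V) (W : Submodule F V), (∀ v ∈ S, v ∈ W) →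
      Nat.card S ≤ Nat.card W := fun S W h =>
    Set.ncard_le_ncard (s := (S : Set V)) (t := (W : Set V)) h
  have hm0 : ∀ x : V, x ≠ 0 → P ≤ m1 Ω hA x 0 := by
    intro x hx
    have := hbd x hx (r + 1) fun ω hω => by
      by_cases h : ∀ w ∈ Dx hA x ω, w ∈ spanL F [x]
      · exact (hle _ _ h).trans (by rw [hc1 x hx]; nlinarith)
      · push Not at h
        obtain ⟨w, hw, hwx⟩ := h
        exact (hle _ _ (hD x hx ω hω w hw hwx)).trans (by rw [hc2 x w hx hwx, sq])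
    exact Nat.le_of_mul_le_mul_left (c := r) (by nlinarith) hr1
  have hp1 : ∀ x : V, x ≠ 0 → {ω : Ω | Zs hA x ω = ⊥}.ncard = (r + 1) * (m1 Ω hA x 0 + r * P) := by
    intro x hx
    have := ncard_Zs_eq (Ω := Ω) hA x ⊥
    rwa [AddSubgroup.card_bot, mul_one, hZO x hx, hr] at this
  have hT : ∀ x : V, x ≠ 0 → {ω : Ω | x ∈ TSet hA (St (SpB B) ω)}.ncard ≤ r + 1 := by
    intro x hx
    have h2 := Set.ncard_add_ncard_compl {ω : Ω | Zs hA x ω = ⊥}
    have h3 : {ω : Ω | x ∈ TSet hA (St (SpB B) ω)}.ncard ≤ {ω : Ω | Zs hA x ω = ⊥}ᶜ.ncard :=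
      Set.ncard_le_ncard fun ω h h' => one_ne_zero (Zs_eq_bot_iff.1 h' 1 (h 1))
    have h5 := hm0 x hx
    rw [hp1 x hx] at h2
    nlinarith
  obtain ⟨x, hx⟩ := exists_notMem_spanL (F := F) ([] : List V) (by simp; omega)
  replace hx := ne_zero_of_notMem_spanL hx
  obtain ⟨w, hw, hwx⟩ := exists_orth_notMem_spanL (B := B) [x] [x] (by simp; omega)
  replace hw := hw x (by simp)
  obtain ⟨ω, hω, hwD⟩ : ∃ ω : Ω, Zs hA x ω = ⊥ ∧ w ∈ Dx hA x ω :=
    HeisOn.exists_of_hm_pos _ (h1 x hx w hw hwx).ge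
  have hS : ∀ v, B v x = 0 → B v w = 0 → ∃ c, uq hA x v c ∈ St (SpB B) ω := fun v h2 h3 =>
    exists_uq_of_Dx hB h2 fun w' hw' => by
      rw [apply_eq_zero_of_mem_spanL (φ := B v) (by simp [h2, h3]) (hD x hx ω hω w hwD hwx w' hw'),
        AddChar.map_zero_eq_one]
  obtain ⟨w₀, hw₀0, hw₀⟩ : ∃ w₀, w₀ ≠ 0 ∧ w₀ ∈ TSet hA (St (SpB B) ω) := by
    rcases hl with ⟨l, hl0, hl⟩ | ⟨h2, h6⟩
    swap
    · obtain ⟨v, hv, hv'⟩ := exists_orth_notMem_spanL (B := B) [x, w] [x, w] (by simp; omega)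
      obtain ⟨v', e1, e2⟩ := exists_orth_eq_one hB hv'
      obtain ⟨c, hc⟩ := hS v (hv x (by simp)) (hv w (by simp))
      obtain ⟨c', hc'⟩ := hS v' (e1 x (by simp)) (e1 w (by simp))
      have := Zs_eq_bot_iff.1 hω _ (altT_mem_of_comm hA (hv x (by simp)) (e1 x (by simp)) hc hc')
      exact absurd (by simpa [e2] using this) h2
    have hl1 : l ≠ 1 := by rintro rfl; simp at hl
    have hDeq : ∀ w' ∈ spanL F [x, w], w' ∈ Dx hA x ω := by
      by_contra! hn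
      have h2 := two_mul_card_le_of_lt (S := Dx hA x ω) (T := (spanL F [x, w]).toAddSubgroup)
        (lt_of_le_of_ne (hD x hx ω hω w hwD hwx) fun h => by
          obtain ⟨w', h2, h3⟩ := hn
          exact h3 (h ▸ h2))
      change _ ≤ Nat.card (spanL F [x, w]) at h2
      obtain ⟨d, hd⟩ := AddSubgroup.card_dvd_of_le (H := (spanL F [x]).toAddSubgroup)
        (K := Dx hA x ω) fun v hv => by
          obtain ⟨c, rfl⟩ := mem_spanL_singleton.1 hv
          exact smul_mem_Dx hA x ω c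
      change _ = Nat.card (spanL F [x]) * d at hd
      rw [hc1 x hx] at hd
      have hd0 : 1 ≤ d := by
        have : 0 < Nat.card (Dx hA x ω) := Nat.card_pos
        rw [hd] at this
        exact Nat.pos_of_mul_pos_left this
      rw [hc2 x w hx hwx, hd] at h2
      have h3 := hbd x hx d fun ω' hω' => by
        by_cases h : ∀ w ∈ Dx hA x ω', w ∈ spanL F [x]
        · exact (hle _ _ h).trans (by rw [hc1 x hx]; nlinarith)
        push Not at h
        obtain ⟨w', hw', hwx'⟩ := h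
        have e : spanL F [x] = Submodule.span F {x} := by simp [spanL]
        obtain ⟨g, hg, e1, e2⟩ := SpB_exists_pair hB hA hx hx (e ▸ hwx') (e ▸ hwx) (by
          rw [alt_eq_zero_comm hA hw, alt_eq_zero_comm hA (orth_of_mem_Dx hw')])
        have a1 := apply_mem_Dx hw' ⟨g, hg⟩
        have a2 := Zs_smul hA ⟨g, hg⟩ x ω'
        simp only [e1, e2] at a1 a2
        obtain ⟨s, c, hs, e3⟩ := exists_spU_smul_eq (h1 x hx w hw hwx).le hω (a2.trans hω') hwD a1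
        rw [mul_comm, ← hd]
        refine Set.ncard_le_ncard_of_injOn (s := (Dx hA x ω' : Set V)) (t := (Dx hA x ω : Set V))
          g (fun v hv => ?_) g.injective.injOn
        have := apply_mem_Dx hv ⟨g, hg⟩
        simp only [e1] at this
        rwa [← e3, Dx_spU_smul hs] at this
      have h5 := Set.ncard_le_card {ω : Ω | Zs hA x ω = ⊥}
      rw [hp1 x hx] at h5
      exact arith_sp4 hP2 hΩ h5 h2 hd0 h3
    obtain ⟨g, hg, e1, e2⟩ := exists_torus hB hA hx hl0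
    obtain ⟨t, ht⟩ := e2 w hw
    obtain ⟨s, c, hs, hh⟩ := exists_cover (h1 x hx w hw hwx).le hω hwD
      (hDeq (l • w - t • x) (mem_spanL_pair.2 ⟨-t, l, by module⟩)) hg hl0 e1
      (by rw [map_sub, map_smul, map_smul, ht, e1]; module)
    have hh' : uq hA x s c * g ∈ SpB B := St_le hh
    have hx' : (uq hA x s c * g) x = l • x := by simp [e1, uq_apply_self hA hs]
    have hu : ∀ u, B u x = 0 → ∃ t : F, (uq hA x s c * g) u = u + t • x := by
      intro u hu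
      obtain ⟨t, ht⟩ := e2 u hu
      refine ⟨t + B (u + t • x) s, ?_⟩
      rw [LinearEquiv.mul_apply, ht, uq_apply_of_orth hA hs c (by simp [hu, hA.self_eq_zero])]
      module
    obtain ⟨t', ht'⟩ := exists_fixed_add hl1 hx' (hu w hw)
    refine ⟨w + t' • x, fun h => hwx (mem_spanL_singleton.2 ⟨-t', by
      linear_combination (norm := module) -h⟩), fun a => ?_⟩
    obtain ⟨v, γ, hv, hk⟩ := exists_cover (h1 x hx w hw hwx).le hω hwD hwD
      (altTEquiv_mem_SpB hA (w + t' • x) a) one_ne_zero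
      (by rw [one_smul, altTEquiv_of_orth hA _ (by simp [alt_eq_zero_comm hA hw, hA.self_eq_zero])])
      (by rw [one_smul, altTEquiv_of_orth hA _ (by simp [hw, hA.self_eq_zero])])
    obtain ⟨δ, k1, k2⟩ := torus_step hh hh' hl1 hx' hu (Zs_eq_bot_iff.1 hω) (fun v c hv hc => by
      refine hS v hv ((mul_eq_zero.1 (eq_zero_of_chi (c := (l - 1) * B v w) fun d => ?_)).resolve_left
        (sub_ne_zero.2 hl1))
      have := mem_Dx.1 (hDeq (d • w) (mem_spanL_pair.2 ⟨0, d, by simp⟩)) _ _ (by simp [hv]) hc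
      simpa using this) ht' hv hk
    rwa [(mul_eq_zero.1 k2).resolve_left (sub_ne_zero.2 hl), altTEquiv_zero, one_mul] at k1
  have h6 := ratio_vec (sp_trans hB hA) ne_zero_inv (fun y ω => y ∈ TSet hA (St (SpB B) ω))
    (fun g y ω h => (TSet_St_smul hA g).2 h) (x₀ := w₀) hw₀0 ω
  have h10 := ncard_compl_zero (F := F) (V := V)
  by_cases h7 : ∀ y ∈ TSet hA (St (SpB B) ω), y ∈ spanL F [w₀]
  · exact absurd (card_ge_of_fix_line hB hA hw₀0 fun g hg =>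
      h7 _ (apply_mem_TSet hg (St_le hg) hw₀)) (not_le.2 hlt')
  push Not at h7
  obtain ⟨y, hy, hyw⟩ := h7
  have h8 : ∀ t : F, y + t • w₀ ∈ TSet hA (St (SpB B) ω) := by
    intro t
    by_cases h : B y w₀ = 0
    · have hf : FullQ hA (St (SpB B) ω) w₀ := by
        by_contra hn
        have k1 := pow_le_card_ZO hB hA hw₀0 (spInv_Zs hA w₀ (· = ⊤)) (Zs_eq_top_iff.2 hw₀) hn
        have k2 := ncard_Zs_eq (Ω := Ω) hA w₀ ⊤
        rw [AddSubgroup.card_top, Nat.card_eq_fintype_card, mul_comm] at k2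
        have k3 := Nat.eq_of_mul_eq_mul_left Fintype.card_pos k2
        have k4 := hT w₀ hw₀0
        simp only [← Zs_eq_top_iff] at k4
        rw [← hN, ← k3] at k1
        nlinarith
      obtain ⟨g, hg, hg', -, e⟩ := exists_uq_apply_eq hB hf h hyw t
      exact e ▸ apply_mem_TSet hg hg' hy
    · exact add_smul_mem_TSet hy hw₀ h t
  have h9 : (spanL F [w₀, y] : Set V) \ {0} ⊆
      {x | x ∈ ({0}ᶜ : Set V) ∧ x ∈ TSet hA (St (SpB B) ω)} := by
    rintro v ⟨hv, hv0⟩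
    refine ⟨hv0, ?_⟩
    obtain ⟨a, b, rfl⟩ := mem_spanL_pair.1 hv
    by_cases hb : b = 0
    · simpa [hb] using smul_mem_TSet hw₀ a
    · convert smul_mem_TSet (h8 (a / b)) b using 1
      match_scalars <;> field_simp
  have h11 := Set.ncard_le_ncard h9
  have h12 := ncard_submodule_diff_zero (spanL F [w₀, y])
  rw [← natCard_submodule, hc2 w₀ y hw₀0 hyw] at h12
  have h13 := Set.ncard_le_card {ω : Ω | Zs hA x ω = ⊥}
  rw [hp1 x hx] at h13
  have h14 := hm0 x hx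
  have h15 : (r + 1) ^ 2 * P ≤ Nat.card Ω := by
    refine le_trans ?_ h13
    rw [sq, mul_assoc, add_mul r 1 P, one_mul, add_comm (r * P)]
    exact Nat.mul_le_mul_left _ (Nat.add_le_add_right h14 _)
  rw [hNq, hP'] at h10
  exact arith_sp1 hr1 hP2 h15 h10 h6 (hT w₀ hw₀0) h12 h11

theorem Sp_card_ge (hB : B.Nondegenerate) (hA : B.IsAlt) (h4 : 4 ≤ finrank F V)
    (hq : 3 ≤ Fintype.card F) (hexc : 4 ≤ Fintype.card F ∨ 6 ≤ finrank F V) :
    Fintype.card F ^ finrank F V ≤ (Fintype.card F - 1) * Nat.card Ω + 1 := by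
  classical
  by_contra! hlt
  have hlt' := hlt
  obtain ⟨r, hr⟩ : ∃ r, Fintype.card F = r + 1 := ⟨_, (Nat.succ_pred_eq_of_pos Fintype.card_pos).symm⟩
  set N := Fintype.card F ^ (finrank F V - 2) with hN
  have hNq : Fintype.card F ^ finrank F V = N * (r + 1) ^ 2 := by
    rw [hN, ← hr, ← pow_add]
    congr 1
    omega
  have hN1 : 1 ≤ N := Nat.one_le_pow _ _ Fintype.card_pos
  rw [hNq, hr, Nat.add_sub_cancel] at hlt
  have hl : (∃ l : F, l ≠ 0 ∧ l ^ 2 ≠ 1) ∨ ((2 : F) ≠ 0 ∧ 6 ≤ finrank F V) := by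
    by_cases h : 4 ≤ Fintype.card F
    · left
      by_contra! hn
      have : (Finset.univ : Finset F) ⊆ {0, 1, -1} := fun a _ => by
        by_cases ha : a = 0
        · simp [ha]
        · rcases sq_eq_one_iff_of_ne_zero_aux (hn a ha) with h | h <;> simp [h]
      have h5 := (Finset.card_le_card this).trans Finset.card_le_three
      rw [Finset.card_univ] at h5
      omega
    · exact Or.inr ⟨two_ne_zero_of_odd_card (by rw [show Fintype.card F = 3 by omega]; decide),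
        hexc.resolve_left h⟩
  have htr : ∀ x y : V, x ≠ 0 → y ≠ 0 → ∀ ω : Ω, ∃ ω' : Ω, Zs hA y ω' = Zs hA x ω ∧
      (FullQ hA (St (SpB B) ω') y ↔ FullQ hA (St (SpB B) ω) x) := by
    intro x y hx hy ω
    obtain ⟨g, hg, rfl⟩ := SpB_exists_apply_eq hB hA hx hy
    exact ⟨_, Zs_smul hA ⟨g, hg⟩ x ω, FullQ_St_smul hA ⟨g, hg⟩⟩
  by_cases hA1 : ∃ x, x ≠ 0 ∧ ∃ ω : Ω, Zs hA x ω = ⊥ ∧ ¬ FullQ hA (St (SpB B) ω) x
  · obtain ⟨x₁, hx₁, ω₁, h₁, h₁'⟩ := hA1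
    have h1 : ∀ x, x ≠ 0 → ∀ w, B w x = 0 → w ∉ spanL F [x] → m1 Ω hA x w = 1 := by
      intro x hx w hw hwx
      refine le_antisymm ?_ ?_
      · by_contra! hn
        have k1 := pow_mul_le_card_ZO hB hA hx (spInv_Zs (Ω := Ω) hA x (· = ⊥)) hw hwx
        have k2 := ncard_Zs_eq (Ω := Ω) hA x ⊥
        have k3 := Set.ncard_le_card {ω : Ω | Zs hA x ω = ⊥}
        rw [AddSubgroup.card_bot, mul_one, hr] at k2
        have := arith_sp2 hlt hn k1 k2 k3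
        omega
      · obtain ⟨ω, e1, e2⟩ := htr x₁ x hx₁ hx ω₁
        obtain ⟨w', hw', hwx'⟩ := exists_mem_Dx_of_not_fullQ hB (e2.not.2 h₁')
        rw [m1, spm_eq hB hA hx _ hw (orth_of_mem_Dx hw') hwx hwx']
        have h2 : Zs hA x ω = ⊥ := e1.trans h₁
        exact HeisOn.one_le_hm ((spInv_Zs (Ω := Ω) hA x (· = ⊥)).heisOn hA) (ω := ω) h2 hw'
    by_cases hI : ∃ x, x ≠ 0 ∧ ∃ ω : Ω, Zs hA x ω = ⊥ ∧ ∀ u, B u x = 0 → u ∈ Dx hA x ω
    · obtain ⟨x, hx, ω, hω, hD⟩ := hI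
      obtain ⟨l, hl0, hl1, hl2⟩ : ∃ l : F, l ≠ 0 ∧ l ≠ 1 ∧
          (l ^ 2 ≠ 1 ∨ ((2 : F) ≠ 0 ∧ 6 ≤ finrank F V)) := by
        rcases hl with ⟨l, h0, h⟩ | h
        · exact ⟨l, h0, by rintro rfl; simp at h, Or.inl h⟩
        · obtain ⟨l, h0, h1⟩ := exists_ne_zero_ne hq (1 : F)
          exact ⟨l, h0, h1, Or.inr h⟩
      exact absurd (card_ge_of_regular hB h4 hq hl0 hl1 hl2 (fun x hx w hw hwx =>
        (h1 x hx w hw hwx).le) hx hω hD) (not_le.2 hlt')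
    · refine absurd (card_ge_of_lines hB h4 hl h1 fun x hx ω hω w hw hwx w' hw' => ?_)
        (not_le.2 hlt')
      by_contra hn
      exact hI ⟨x, hx, ω, hω, fun u hu => mem_Dx_of_indep hB
        (fun w hw hwx => (h1 x hx w hw hwx).le) hω hw hw' hwx hn hu⟩
  push Not at hA1
  obtain ⟨ω₀⟩ : Nonempty Ω := inferInstance
  by_cases hC : ∀ x, x ≠ 0 → ∀ ω : Ω, x ∈ TSet hA (St (SpB B) ω) ∨ FullQ hA (St (SpB B) ω) x
  · refine not_forall_TSet (hA := hA) hB ω₀ fun x => ?_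
    by_cases h2 : (2 : F) = 0
    · exact mem_TSet_of_forall_fullQ hB (by omega) h2 hq (fun y hy => hC y hy ω₀) x
    · by_cases hx : x = 0
      · exact hx ▸ zero_mem_TSet hA _
      · exact (hC x hx ω₀).elim id (mem_TSet_of_fullQ hB (by omega) h2)
  push Not at hC
  obtain ⟨x, hx, ω₁, hT₁, hf₁⟩ := hC
  let 𝒵 : Finset (AddSubgroup F) := (Set.toFinite {Z₀ | ∃ ω : Ω, Zs hA x ω = Z₀ ∧
    ¬ FullQ hA (St (SpB B) ω) x ∧ Z₀ ≠ ⊤}).toFinset
  have h𝒵 : ∀ Z₀, Z₀ ∈ 𝒵 ↔ ∃ ω : Ω, Zs hA x ω = Z₀ ∧ ¬ FullQ hA (St (SpB B) ω) x ∧ Z₀ ≠ ⊤ := by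
    simp [𝒵]
  let W : AddSubgroup F → AddSubgroup F := ann (chi F) (mulP F)
  have hW : ∀ Z₀ : AddSubgroup F, Nat.card Z₀ * Nat.card (W Z₀) = r + 1 := fun Z₀ => by
    rw [card_mul_card_ann mulP_sep, Nat.card_eq_fintype_card, hr]
  by_cases hcov : ∀ c : F, c ≠ 0 → ∃ Z₀ ∈ 𝒵, c ∈ W Z₀
  · have k1 : r ≤ ∑ Z₀ ∈ 𝒵, ((W Z₀ : Set F) \ {0}).ncard := by
      have := ncard_le_sum_of_cover (X := ({0}ᶜ : Set F)) 𝒵 (fun Z₀ => (W Z₀ : Set F) \ {0})
        fun c hc => by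
          obtain ⟨Z₀, h1, h2⟩ := hcov c hc
          exact ⟨Z₀, h1, h2, hc⟩
      have h2 := ncard_compl_zero (F := F) (V := F)
      rw [finrank_self, pow_one, hr] at h2
      omega
    have k2 : ∑ Z₀ ∈ 𝒵, ((W Z₀ : Set F) \ {0}).ncard + 𝒵.card = ∑ Z₀ ∈ 𝒵, Nat.card (W Z₀) := by
      rw [Finset.card_eq_sum_ones, ← Finset.sum_add_distrib]
      exact Finset.sum_congr rfl fun Z₀ _ => ncard_diff_zero_add_one _
    have k3 : 2 * ∑ Z₀ ∈ 𝒵, Nat.card (W Z₀) ≤ 𝒵.card * (r + 1) := by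
      rw [Finset.mul_sum, ← smul_eq_mul, ← Finset.sum_const]
      refine Finset.sum_le_sum fun Z₀ h => ?_
      obtain ⟨ω, e1, e2, -⟩ := (h𝒵 Z₀).1 h
      rw [← hW Z₀]
      refine Nat.mul_le_mul_right _ ?_
      simpa using two_mul_card_le_of_lt (S := ⊥) (T := Z₀)
        (bot_lt_iff_ne_bot.2 fun h => e2 (hA1 x hx ω (e1.trans h)))
    have k4 : (∑ Z₀ ∈ 𝒵, Nat.card (W Z₀)) * N ≤ Nat.card Ω := by
      refine le_trans ?_ (sum_ncard_fiber_le (fun ω : Ω => Zs hA x ω) 𝒵)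
      rw [Finset.sum_mul]
      refine Finset.sum_le_sum fun Z₀ h => ?_
      obtain ⟨ω, e1, e2, -⟩ := (h𝒵 Z₀).1 h
      have a1 := pow_le_card_ZO hB hA hx (spInv_Zs hA x (· = Z₀)) e1 e2
      have a2 := ncard_Zs_eq (Ω := Ω) hA x Z₀
      rw [hr, ← hW Z₀, mul_comm, mul_assoc] at a2
      rw [Nat.eq_of_mul_eq_mul_left Nat.card_pos a2]
      exact Nat.mul_le_mul_left _ a1
    have k5 : 1 ≤ 𝒵.card := Finset.card_pos.2 ⟨_, (h𝒵 _).2 ⟨ω₁, rfl, hf₁,
      fun h => hT₁ (Zs_eq_top_iff.1 h)⟩⟩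
    exact arith_sp3 (by omega) hlt k1 k2 k3 k4 k5
  push Not at hcov
  obtain ⟨c₀, hc₀, hcov⟩ := hcov
  by_cases h2 : (2 : F) = 0
  · obtain ⟨c₁, hc₁, hc₁0⟩ : ∃ c ∈ W (Zs hA x ω₁), c ≠ 0 := by
      by_contra! hn
      exact hT₁ fun c => mem_Zs.1 (mem_of_forall_ann mulP_sep fun w hw => by simp [hn w hw])
    obtain ⟨a, ha⟩ := exists_sq_eq_of_two h2 (c₁ / c₀)
    have ha0 : a ≠ 0 := by
      rintro rfl
      exact div_ne_zero hc₁0 hc₀ (by simpa using ha.symm)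
    obtain ⟨ω, e1, e2⟩ := htr x (a • x) hx (smul_ne_zero ha0 hx) ω₁
    refine hcov (Zs hA x ω) ((h𝒵 _).2 ⟨ω, rfl, fun h => hf₁ (e2.1 (h.of_smul ha0)), fun h => hT₁
      (Zs_eq_top_iff.1 (e1 ▸ Zs_eq_top_iff.2 (smul_mem_TSet (Zs_eq_top_iff.1 h) a)))⟩) fun c hc => ?_
    have : c / a ^ 2 ∈ Zs hA x ω₁ := by
      rwa [← e1, mem_Zs_smul_pt, mul_div_cancel₀ _ (pow_ne_zero 2 ha0)]
    convert hc₁ _ this using 2
    simp only [mulP_apply, ha]
    field_simp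
  · refine not_forall_TSet (hA := hA) hB ω₀ fun y => ?_
    by_cases hy : y = 0
    · exact hy ▸ zero_mem_TSet hA _
    by_contra hT
    refine hT (mem_TSet_of_fullQ hB (by omega) h2 (fullQ_of_missing h2 hc₀ (fun u hu => ?_) hy hT))
    by_contra! hn
    obtain ⟨ω, e1, e2⟩ := htr u x hu hx ω₀
    have h3 : u ∉ TSet hA (St (SpB B) ω₀) := fun h => hc₀ (eq_zero_of_chi fun d => hn d (h d))
    exact hcov (Zs hA x ω) ((h𝒵 _).2 ⟨ω, rfl, fun h => h3 (mem_TSet_of_fullQ hB (by omega) h2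
      (e2.1 h)), fun h => h3 (Zs_eq_top_iff.1 (e1 ▸ h))⟩) fun c hc => hn c (mem_Zs.1 (e1 ▸ hc))
where
  sq_eq_one_iff_of_ne_zero_aux {a : F} (h : a ^ 2 = 1) : a = 1 ∨ a = -1 :=
    mul_self_eq_one_iff.1 (by rw [← sq, h])

end Cfsg.Lib.Class.MD
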