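import Cfsg.Agent.Class.MinDegQ3

/-!
Minimal degree of the six-dimensional orthogonal group of minus type: the lower bound.
-/

set_option autoImplicit false

namespace Cfsg.Lib.Class.MD.Six

open QuadraticMap Module Orth OMax

theorem qarith {q c : ℕ} (hq : 2 ≤ q)
    (h : (q ^ 3 + 1) * (q ^ 2 - 1) * q ^ 4 = (q ^ 4 + (q ^ 3 + q)) * c) : False := by
  obtain ⟨E, hE⟩ : ∃ E, E + 1 = q ^ 2 :=
    ⟨q ^ 2 - 1, Nat.sub_add_cancel (Nat.one_le_pow _ _ (by omega))⟩
  rw [show q ^ 2 - 1 = E by omega] at h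
  have h1 : q ^ 4 + (q ^ 3 + q) ∣ E * q ^ 4 :=
    (Nat.coprime_self_add_right.2 (Nat.coprime_one_right _)).dvd_of_dvd_mul_left
      ⟨c * (q + 1), by rw [← mul_assoc _ c, ← h]; ring⟩
  have h2 : (q ^ 3 + q ^ 2 + 1).Coprime q := by
    rw [show q ^ 3 + q ^ 2 + 1 = 1 + q * (q ^ 2 + q) by ring]
    exact (Nat.coprime_add_mul_left_left _ _ _).2 (Nat.coprime_one_left q)
  have h4 : q ^ 3 + q ^ 2 + 1 ∣ E := (h2.pow_right 4).dvd_of_dvd_mul_right
    (Dvd.dvd.trans ⟨q, by ring⟩ h1)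
  have h5 := Nat.le_of_dvd (by nlinarith) h4
  omega

variable {F V : Type*} [Field F] [AddCommGroup V] [Module F V] {Q : QuadraticForm F V}
  [FiniteDimensional F V] {x : V}

theorem Pt.le_pair_of_sing (c : Pt Q x) {W : AddSubgroup V} (h1 : ∀ w ∈ W, polar Q x w = 0)
    (h2 : ∀ w ∈ W, Q w = 0) : ∃ w, ∀ u ∈ W, u ∈ spanL F [x, w] := by
  by_cases h : ∃ w ∈ W, w ∉ spanL F [x]
  · obtain ⟨w, hw, hwx⟩ := h
    refine ⟨w, fun u hu => c.mem_of_sing (h1 w hw) hwx (h2 w hw) (h2 u hu) (h1 u hu) ?_⟩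
    have := h2 _ (add_mem hw hu)
    rwa [Q_add, h2 w hw, h2 u hu, zero_add, zero_add] at this
  · push Not at h
    exact ⟨x, fun u hu => spanL_mono (by simp) (h u hu)⟩

variable [Fintype F] {Ω : Type*} [MulAction (commutator (O Q)) Ω] [Finite Ω] {q : ℕ}

/-- The numbers of vectors of given norm. -/
structure Num (Q : QuadraticForm F V) (x : V) (q : ℕ) : Prop where
  hq : Fintype.card F = q
  h0 : (Cls Q x 0).ncard + q ^ 3 + q = q ^ 4 + q ^ 2
  h1 : ∀ d, d ≠ 0 → q ^ 4 + q ^ 2 ≤ cntP Q x d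

theorem Num.le (n : Num Q x q) (hx : Q x = 0) {d : F} (hd : d ≠ 0) :
    q ^ 4 + q ^ 2 ≤ (Cls Q x d).ncard := by
  have h1 := n.h1 d hd
  have h2 := Fintype.one_lt_card (α := F)
  by_cases h : 3 ≤ Fintype.card F
  · have := (Nat.mul_le_mul_right _ (show 2 ≤ Fintype.card F - 1 by omega)).trans
      (mul_cntP_le_two hx hd)
    omega
  · have := mul_cntP_le_one (by
      by_contra h2
      exact one_ne_zero (show (1 : F) = 0 by linear_combination eq_one_of_card_two h h2)) hx hd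
    rw [show Fintype.card F - 1 = 1 by omega] at this
    omega

theorem Pt.le_two (c : Pt Q x) (n : Num Q x 2) (hr : ∀ ω : Ω, ¬ RegW Q x (WO Q x ω)) {ω : Ω}
    {w u : V} (hw : w ∈ WO Q x ω) (hw0 : Q w ≠ 0) (hu : u ∈ WO Q x ω) (hu' : u ∉ spanL F [x, w]) :
    27 ≤ Nat.card Ω := by
  have q3 : ¬ 3 ≤ Fintype.card F := by rw [n.hq]; omega
  have hp := ringChar_eq_of_card Nat.prime_two n.hq
  obtain ⟨z, hz, h1, hzx⟩ := exists_sing_orth_notMem c.nd [x] [x] (by simp [c.dim])
  have hzc : z ∈ Cls Q x 0 := hz ▸ mem_Cls_self (h1 x (by simp)) hzx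
  have hwc := mem_Cls_self (polar_eq_zero_of_mem_Wx c.sing hw) (c.notMem hw0)
  have hm := fun d w w' => c.m_le (Ω := Ω) (invP_true x) (d := d) (w := w) (w' := w')
  have c0 : ∀ t, polar Q x t = 0 → t ∉ spanL F [x] → Q t = 0 → t ∈ Cls Q x 0 :=
    fun t e1 e2 e3 => e3 ▸ mem_Cls_self e1 e2
  have c1 : ∀ t, polar Q x t = 0 → Q t ≠ 0 → t ∈ Cls Q x (Q w) := fun t e1 e3 => by
    rw [eq_one_of_card_two q3 hw0, ← eq_one_of_card_two q3 e3]
    exact mem_Cls_self e1 (c.notMem e3)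
  have e1 := c.le_NP_two (Ω := Ω) (fun t ht => hm _ _ t hwc ht) (fun t ht => hm _ _ t hzc ht)
    (disjoint_span_Cls _) (disjoint_span_Cls _)
    (Set.disjoint_left.2 fun t ⟨_, _, μ, e1, e2⟩ ⟨_, _, ν, _, e4⟩ =>
      mul_ne_zero (pow_ne_zero 2 e1) hw0 (by rw [← e2, e4, mul_zero]))
  have e2 := n.le c.sing hw0
  have e3 := n.h0
  have e4 : c.m Ω (fun _ => True) w ≤ c.m Ω (fun _ => True) 0 := mlp_le_zero w
  have e5 : c.m Ω (fun _ => True) z ≤ c.m Ω (fun _ => True) 0 := mlp_le_zero z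
  have e6 := c.one_le_m (P := fun _ => True) trivial hw
  have e7 : 2 ≤ c.m Ω (fun _ => True) w ∨ 2 ≤ c.m Ω (fun _ => True) z := by
    by_contra! h
    refine hr ω (c.regW_two q3 (fun t e1 e2 => ?_) hw0 hw hu hu')
    rw [hp]
    by_cases e3 : Q t = 0
    · exact (hm _ _ _ (c0 t e1 e2 e3) hzc).trans_lt h.2
    · exact (hm _ _ _ (c1 t e1 e3) hwc).trans_lt h.1
  have e8 : c.m Ω (fun _ => True) w ≤ 1 ∨ c.m Ω (fun _ => True) z = 0 →
      Nat.card Ω ≤ c.m Ω (fun _ => True) 0 * 4 := fun h => by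
    rw [← NP_true (Q := Q) (x := x)]
    refine c.NP_le fun ω _ => ?_
    have ho := fun t (ht : t ∈ WO Q x ω) => polar_eq_zero_of_mem_Wx c.sing ht
    suffices ∃ a b, ∀ t ∈ WO Q x ω, t ∈ spanL F [x, a, b] by
      obtain ⟨a, b, h⟩ := this
      simpa [n.hq] using card_le_of_le_spanL h
    by_cases hs : ∀ w ∈ WO Q x ω, Q w = 0
    · obtain ⟨a, ha⟩ := c.le_pair_of_sing ho hs
      exact ⟨a, a, fun t ht => spanL_mono (by simp) (ha t ht)⟩
    push Not at hs
    obtain ⟨a, ha, ha0⟩ := hs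
    have key : ∀ t ∈ WO Q x ω, t ∉ spanL F [x, a] → polar Q t a = 1 := fun t ht ht' => by
      refine eq_one_of_card_two q3 fun e => ?_
      rcases h with h | h
      · exact hr ω (c.regW_of_lt (invP_true x) ha0
          ((hm _ _ _ (c1 a (ho a ha) ha0) hwc).trans_lt (by omega)) trivial ha ht ht' (Or.inr e))
      have k : ∀ s ∈ WO Q x ω, s ∉ spanL F [x, a] → Q s = 1 := fun s hs hs' =>
        eq_one_of_card_two q3 fun e => by
          have := (c.one_le_m (P := fun _ => True) trivial hs).trans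
            (hm _ _ _ (c0 s (ho s hs) (fun h => hs' (spanL_mono (by simp) h)) e) hzc)
          omega
      have := k _ (add_mem ht ha) fun h => ht' (by simpa using sub_mem h (right_mem_spanL_pair x a))
      rw [Q_add, k t ht ht', e] at this
      exact ha0 (by linear_combination this)
    by_cases hl : ∀ u ∈ WO Q x ω, u ∈ spanL F [x, a]
    · exact ⟨a, a, fun t ht => spanL_mono (by simp) (hl t ht)⟩
    push Not at hl
    obtain ⟨b, hb, hb'⟩ := hl
    refine ⟨a, b, fun t ht => by_contra fun ht' => ?_⟩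
    have := key _ (sub_mem ht hb) fun h => ht' (by
      simpa using add_mem (spanL_mono (t := [x, a, b]) (by simp) h)
        (mem_spanL_of_mem (y := b) (by simp)))
    rw [polar_sub_left, key t ht fun h => ht' (spanL_mono (by simp) h), key b hb hb'] at this
    simp at this
  rw [NP_true, n.hq, show (Cls Q x 0).ncard = 10 by omega] at e1
  have e9 := Nat.mul_le_mul_left (c.m Ω (fun _ => True) w) e2
  omega

theorem Pt.le_or_good (c : Pt Q x) (n : Num Q x q) (hr : ∀ ω : Ω, ¬ RegW Q x (WO Q x ω)) (ω : Ω) :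
    q ^ 4 + q ^ 3 + q + 1 ≤ Nat.card Ω ∨ ∃ U : Submodule F V, (∀ u ∈ WO Q x ω, u ∈ U) ∧
      (∀ z ∈ U, Q z = 0 → z ∈ orth Q U) ∧ GoodU Q x U := by
  by_cases hs : ∀ w ∈ WO Q x ω, Q w = 0
  · exact Or.inr ⟨_, fun u hu => Submodule.subset_span hu,
      fun z hz _ => le_orth_of_forall (ts_span hs) hz,
      goodU_of_ts c.nd x (ts_span hs) fun h => c.np ⟨_, ts_span hs, h⟩⟩
  push Not at hs
  obtain ⟨w, hw, hw0⟩ := hs
  have hxw := polar_eq_zero_of_mem_Wx c.sing hw
  by_cases hl : ∀ u ∈ WO Q x ω, u ∈ spanL F [x, w]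
  · refine Or.inr ⟨_, hl, fun z hz hz0 => ?_, goodU_of_le c.nd x ?_⟩
    · obtain ⟨s, rfl⟩ := mem_spanL_singleton.1 (mem_of_sing_pair c.sing hxw hw0 hz0 hz)
      exact mem_orth_spanL.2 (by simp [polar_smul_right', polar_self', c.sing, pc hxw])
    · have := finrank_spanL_le (F := F) [x, w]
      have := c.dim
      simp only [List.length_cons, List.length_nil] at *
      omega
  push Not at hl
  obtain ⟨u, hu, hu'⟩ := hl
  have hq := n.hq ▸ Fintype.one_lt_card (α := F)
  left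
  by_cases q2 : q = 2
  · subst q2
    exact c.le_two n hr hw hw0 hu hu'
  have k1 : ∀ t ∈ Cls Q x (Q w), ringChar F ≤ c.m Ω (fun _ => True) t := fun t ht => by
    refine le_trans ?_ (c.m_le (invP_true x) (mem_Cls_self hxw (c.notMem hw0)) ht)
    by_contra h
    exact hr ω (c.regW_of_lt (invP_true x) hw0 (not_le.1 h) trivial hw hu hu'
      (Or.inl (by rw [n.hq]; omega)))
  by_cases q3 : q = 3
  · subst q3
    have hp := ringChar_eq_of_card Nat.prime_three n.hq
    have h30 : (3 : F) = 0 := by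
      have := ringChar.Nat.cast_ringChar (R := F)
      rw [hp] at this
      exact_mod_cast this
    obtain ⟨w', hw', h7, h8⟩ : ∃ w' ∈ WO Q x ω, w' ∉ spanL F [x, w] ∧ Q w' ≠ Q w := by
      by_contra! hc
      have e1 := hc u hu hu'
      have e2 := hc _ (add_mem hw hu) fun h => hu' (by
        simpa using sub_mem h (right_mem_spanL_pair x w))
      have e3 := hc _ (sub_mem hw hu) fun h => hu' (by
        simpa using sub_mem (right_mem_spanL_pair x w) h)
      rw [Q_add] at e2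
      rw [Q_sub] at e3
      exact hw0 (by linear_combination -e2 - e3 + 2 * e1 + Q w * h30)
    have hsq : ∀ μ : F, μ ≠ 0 → μ ^ 2 = 1 := fun μ hμ => by
      have := FiniteField.pow_card_sub_one_eq_one μ hμ
      rwa [n.hq] at this
    have h9 := c.le_NP_two k1 (fun t ht => (c.one_le_m (P := fun _ => True) trivial hw').trans
      (c.m_le (invP_true x) (mem_Cls_self (polar_eq_zero_of_mem_Wx c.sing hw')
        fun h => h7 (spanL_mono (by simp) h)) ht)) (disjoint_span_Cls _) (disjoint_span_Cls _)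
      (Set.disjoint_left.2 fun t ⟨_, _, μ, e1, e2⟩ ⟨_, _, ν, e3, e4⟩ => h8 (by
        rw [hsq μ e1, one_mul] at e2
        rw [hsq ν e3, one_mul] at e4
        rw [← e2, ← e4]))
    have h10 := n.le c.sing hw0
    have h11 : 60 ≤ (Cls Q x (Q w')).ncard := by
      by_cases e : Q w' = 0
      · have := n.h0
        rw [e]
        omega
      · have := n.le c.sing e
        omega
    have h12 := (k1 w (mem_Cls_self hxw (c.notMem hw0))).trans (mlp_le_zero w)
    rw [NP_true, hp, n.hq] at h9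
    rw [hp] at h12
    change 3 ≤ c.m Ω (fun _ => True) 0 at h12
    omega
  have h7 := c.le_NP k1 (disjoint_span_Cls _)
  obtain ⟨h8, -, h9⟩ := ringChar_mul_le c.sing hw0
  have h10 := Nat.mul_le_mul_left (q - 1) (n.h1 _ hw0)
  rw [NP_true, n.hq] at h7
  rw [n.hq] at h8 h9
  refine Nat.le_of_mul_le_mul_right (c := q) ?_ (by omega)
  by_cases q4 : q = 4
  · subst q4
    have := h9 (by decide)
    omega
  obtain ⟨r, rfl⟩ : ∃ r, q = r + 5 := ⟨q - 5, by omega⟩
  rw [show r + 5 - 1 = r + 4 by omega] at h8 h10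
  have : 2 * (((r + 5) ^ 4 + (r + 5) ^ 3 + (r + 5) + 1) * (r + 5)) ≤
      3 * ((r + 4) * ((r + 5) ^ 4 + (r + 5) ^ 2)) := by
    nlinarith [Nat.zero_le (r ^ 2), Nat.zero_le (r ^ 3), Nat.zero_le (r ^ 4), Nat.zero_le (r ^ 5)]
  omega

theorem le_card_six [MulAction.IsPretransitive (commutator (O Q)) Ω] [Nontrivial Ω]
    (hQ : (polarBilin Q).Nondegenerate) (hn : finrank F V = 6) (hp : ¬ Known.IsPlus Q)
    (hb : ∀ x, x ≠ 0 → Q x = 0 → Num Q x q) (hs : sing Q - 1 = (q ^ 3 + 1) * (q ^ 2 - 1)) :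
    q ^ 4 + q ^ 3 + q + 1 ≤ Nat.card Ω := by
  by_contra hlt
  have pt : ∀ {x}, x ≠ 0 → Q x = 0 → Pt Q x := fun h1 h2 => ⟨hQ, hn, hp, h1, h2⟩
  by_cases hR : ∃ x, Pt Q x ∧ ∃ ω : Ω, RegW Q x (WO Q x ω)
  swap
  · push Not at hR
    obtain ⟨ω⟩ : Nonempty Ω := inferInstance
    exact not_le_St ω (le_of_good hQ (by omega) fun x h1 h2 =>
      ((pt h1 h2).le_or_good (hb x h1 h2) (hR x (pt h1 h2)) ω).resolve_left hlt)
  obtain ⟨x₀, c₀, ω₀, h₀⟩ := hR
  have hF := (hb _ c₀.ne c₀.sing).hq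
  have hq := hF ▸ Fintype.one_lt_card (α := F)
  have hR : ∀ x, (c : Pt Q x) → c.m Ω (RegW Q x) 0 = 1 ∧ NP Q x Ω (RegW Q x) = q ^ 4 := fun x c => by
    obtain ⟨g, rfl⟩ := c₀.exists_apply c
    have h1 := c.one_le_m ((regW_smul g).2 h₀) (zero_mem _)
    have h2 := c.le_NP_regW (Ω := Ω)
    have h3 : NP Q (g.1.1 x₀) Ω (RegW Q (g.1.1 x₀)) ≤ Nat.card Ω := Set.ncard_le_card _
    have h4 := c.NP_le (Ω := Ω) (P := RegW Q (g.1.1 x₀)) (d := q ^ 4) fun ω _ => by
      have : Finite V := Module.finite_of_finite F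
      refine (Nat.card_le_card_of_injective (fun u : WO Q (g.1.1 x₀) ω => (⟨u, mem_orth_spanL.2 (by
        simpa using polar_eq_zero_of_mem_Wx c.sing u.2)⟩ : orth Q (spanL F [g.1.1 x₀])))
        fun a b e => Subtype.ext (congrArg (fun t : orth Q (spanL F [g.1.1 x₀]) => (t : V)) e)).trans ?_
      rw [natCard_submodule, show finrank F (orth Q (spanL F [g.1.1 x₀])) = 5 by
        have := c.finrank_orth; omega, hF, pow_succ]
    rw [hF, hn, show 6 - 2 = 4 from rfl] at h2
    have h5 : c.m Ω (RegW Q (g.1.1 x₀)) 0 = 1 := by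
      by_contra h
      have := Nat.mul_le_mul_right (q ^ 4) (show 2 ≤ c.m Ω (RegW Q (g.1.1 x₀)) 0 by omega)
      have : q ^ 3 * 2 ≤ q ^ 3 * q := Nat.mul_le_mul_left _ hq
      have : q + 1 ≤ q ^ 3 := by nlinarith [Nat.zero_le (q ^ 2), Nat.pow_le_pow_left hq 2]
      have : q ^ 3 * q = q ^ 4 := by ring
      omega
    rw [h5] at h2 h4
    exact ⟨h5, by omega⟩
  have hL : ∀ x, Pt Q x → ∀ ω : Ω, ¬ RegW Q x (WO Q x ω) → ∀ w ∈ WO Q x ω, w ∈ spanL F [x] := by
    intro x c ω hω w hw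
    have n := hb x c.ne c.sing
    have hI := (invP_regW (Q := Q) x).not
    have h1 : NP Q x Ω (RegW Q x) + NP Q x Ω (fun W => ¬ RegW Q x W) = Nat.card Ω :=
      Set.ncard_add_ncard_compl _
    rw [(hR x c).2] at h1
    have h2 : ∀ ω : Ω, ¬ RegW Q x (WO Q x ω) → ∀ w ∈ WO Q x ω, w ∉ spanL F [x] →
        c.m Ω (fun W => ¬ RegW Q x W) 0 * q + (Cls Q x (Q w)).ncard ≤
          NP Q x Ω (fun W => ¬ RegW Q x W) * q := fun ω hω w hw hwx => by
      simpa [hF] using c.le_NP (fun u hu => (c.one_le_m (P := fun W => ¬ RegW Q x W) hω hw).trans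
        (c.m_le hI (mem_Cls_self (polar_eq_zero_of_mem_Wx c.sing hw) hwx) hu)) (disjoint_span_Cls _)
    have h3 : ∀ ω : Ω, ¬ RegW Q x (WO Q x ω) → ∀ w ∈ WO Q x ω, Q w = 0 := fun ω hω w hw => by
      by_contra hw0
      have h4 := h2 ω hω w hw (c.notMem hw0)
      have h5 := n.le c.sing hw0
      have h6 := Nat.mul_le_mul_right q (c.one_le_m (P := fun W => ¬ RegW Q x W) hω (zero_mem _))
      have h7 := Nat.mul_le_mul_right q
        (show NP Q x Ω (fun W => ¬ RegW Q x W) ≤ q ^ 3 + q by omega)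
      nlinarith
    by_contra hwx
    have h4 := h2 ω hω w hw hwx
    have h5 := c.NP_le (Ω := Ω) (P := fun W => ¬ RegW Q x W) (d := q) fun ω hω => by
      obtain ⟨a, ha⟩ := c.le_pair_of_sing (fun _ => polar_eq_zero_of_mem_Wx c.sing) (h3 ω hω)
      simpa [hF, pow_two] using card_le_of_le_spanL ha
    have h6 := n.h0
    rw [h3 ω hω w hw] at h4
    have h7 : NP Q x Ω (fun W => ¬ RegW Q x W) = q ^ 3 + q := by
      refine le_antisymm (by omega) ?_
      obtain ⟨r, rfl⟩ : ∃ r, q = r + 1 := ⟨q - 1, by omega⟩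
      exact Nat.le_of_mul_le_mul_right (c := r) (by nlinarith) (by omega)
    have h8 := ratio_sing c (fun y ω => RegW Q y (WO Q y ω)) (fun g y ω => (regW_smul g).2) ω
    change _ * NP Q x Ω (RegW Q x) = _ at h8
    rw [hs, (hR x c).2, ← h1, h7] at h8
    exact qarith hq h8
  by_cases hE : ∃ x, Pt Q x ∧ ∃ ω : Ω, ¬ RegW Q x (WO Q x ω)
  · obtain ⟨x₁, c₁, ω₁, h₁⟩ := hE
    exact not_le_St ω₁ (le_of_full hQ (by omega) (fun x h1 h2 => or_iff_not_imp_left.2
      (hL x (pt h1 h2) ω₁)) c₁.ne c₁.sing (hL x₁ c₁ ω₁ h₁))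
  push Not at hE
  exact c₀.false_of_all_reg (H := St (commutator (O Q)) ω₀)
    (fun y v h1 h2 h3 h4 => mem_spanL_of_regW hQ (hE y (pt h1 h2) ω₀) h3 h4)
    fun g hg => c₀.cov_of_mem_orb (g := ⟨g, hg⟩) (c₀.exists_eich_of_le_one
      (P := RegW Q x₀) (w := 0) (hR x₀ c₀).1.le h₀ (zero_mem _) (hE x₀ c₀ _) (zero_mem _))

omit [FiniteDimensional F V] in
theorem le_card_aniso {a b : F} (hab : Known.Aniso a b) {d : F} (hd : d ≠ 0) :
    Fintype.card F + 1 ≤ Nat.card {z : Fin 2 → F // z 0 ^ 2 + a * z 0 * z 1 + b * z 1 ^ 2 - d = 0} := by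
  classical
  let N : (Fin 2 → F) → F := fun z => z 0 ^ 2 + a * z 0 * z 1 + b * z 1 ^ 2
  have h0 : ∀ z, N z = 0 → z = 0 := fun z hz => by
    obtain ⟨h1, h2⟩ := hab _ _ hz
    ext i
    fin_cases i <;> assumption
  have key : ∀ e, e ≠ 0 → (Finset.univ.filter fun z => N z = e).card ≤
      (Finset.univ.filter fun z => N z = d).card := fun e he => by
    obtain ⟨v, hv⟩ := Known.exists_quad_eq (quadMinus_nondegenerate (F := F) 0 hab) (by simp) (d / e)
    simp only [quadMinus_apply, quadFormMinus, Finset.univ_eq_empty, Finset.sum_empty,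
      zero_add] at hv
    let m : (Fin 2 → F) → Fin 2 → F := fun z => ![z 0 * v (.inr 0) - b * z 1 * v (.inr 1),
      z 0 * v (.inr 1) + z 1 * v (.inr 0) + a * z 1 * v (.inr 1)]
    have hm : ∀ z, N (m z) = N z * (d / e) := fun z => by
      simp only [N, m, ← hv, Matrix.cons_val_zero, Matrix.cons_val_one]
      ring
    refine Finset.card_le_card_of_injOn m (fun z hz => ?_) fun z _ z' _ h => ?_
    · simp only [Finset.coe_filter, Finset.mem_univ, true_and, Set.mem_ofPred_eq] at hz ⊢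
      rw [hm, hz]
      field_simp
    · have h1 : m (z - z') = 0 := by
        have h1 := congrFun h 0
        have h2 := congrFun h 1
        ext i
        fin_cases i <;> simp [m] at h1 h2 ⊢
        · linear_combination h1
        · linear_combination h2
      have h2 := hm (z - z')
      rw [h1] at h2
      exact sub_eq_zero.1 (h0 _ ((mul_eq_zero.1 (h2.symm.trans (by simp [N]))).resolve_right
        (div_ne_zero hd he)))
  have h1 := Finset.card_eq_sum_card_fiberwise (f := N) (s := Finset.univ) (t := Finset.univ)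
    (by simp)
  rw [← Finset.add_sum_erase _ _ (Finset.mem_univ 0)] at h1
  have h2 : (Finset.univ.filter fun z => N z = 0).card ≤ 1 :=
    Finset.card_le_one.2 fun z hz z' hz' => by
      rw [h0 z (by simpa using hz), h0 z' (by simpa using hz')]
  have h3 := Finset.sum_le_card_nsmul (Finset.univ.erase (0 : F)) _ _
    fun e he => key e (Finset.ne_of_mem_erase he)
  rw [Nat.card_eq_fintype_card, Fintype.card_subtype]
  simp only [sub_eq_zero]
  change _ ≤ (Finset.univ.filter fun z => N z = d).card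
  simp only [Finset.card_univ, Fintype.card_fun, Fintype.card_fin, Finset.mem_univ,
    Finset.card_erase_of_mem, smul_eq_mul] at h1 h3
  obtain ⟨r, hr⟩ : ∃ r, Fintype.card F = r + 2 := ⟨Fintype.card F - 2, by
    have := Fintype.one_lt_card (α := F); omega⟩
  rw [hr] at h1 h3 ⊢
  exact Nat.le_of_mul_le_mul_left (c := r + 1) (by
    rw [show r + 2 - 1 = r + 1 by omega] at h3; nlinarith) (by omega)

theorem num_six {a b : F} (hab : Known.Aniso a b) {x} (hx0 : x ≠ 0) (hx : quadMinus 2 F a b x = 0) :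
    Num (quadMinus 2 F a b) x (Fintype.card F) := by
  have h1 := fun d => cntQ_eq (quadMinus_nondegenerate 2 hab) hx0 hx d
  have h3 : finrank F ((Fin 2 ⊕ Fin 2) ⊕ Fin 2 → F) = 6 := by simp
  have hq := Fintype.one_lt_card (α := F)
  refine ⟨rfl, ?_, fun d hd => ?_⟩
  · have h0 := sing_quadMinus 2 hab
    rw [← cntQ_zero, h1, Nat.card_eq_fintype_card, ← ncard_Cls_zero hx0 hx, h3] at h0
    zify
    push_cast [hq.le] at h0
    linear_combination h0
  let g : (Fin 2 → F) → F := fun z => z 0 ^ 2 + a * z 0 * z 1 + b * z 1 ^ 2 - d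
  have e : {v // quadMinus 2 F a b v = d} ≃
      {p : (Fin 2 → F) × (Fin 2 → F) × (Fin 2 → F) // ∑ i, p.1 i * p.2.1 i + g p.2.2 = 0} :=
    { toFun := fun v => ⟨(fun i => v.1 (.inl (.inl i)), fun i => v.1 (.inl (.inr i)),
        fun i => v.1 (.inr i)), by
          have := v.2
          simp only [quadMinus_apply, quadFormMinus] at this
          simp only [g]
          linear_combination this⟩
      invFun := fun p => ⟨Sum.elim (Sum.elim p.1.1 p.1.2.1) p.1.2.2, by
        have := p.2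
        simp only [g] at this
        simp only [quadMinus_apply, quadFormMinus, Sum.elim_inl, Sum.elim_inr]
        linear_combination this⟩
      left_inv := fun v => by
        apply Subtype.ext
        funext i
        rcases i with (i | i) | i <;> rfl
      right_inv := fun p => rfl }
  have h4 := h1 d
  have h5 := Nat.mul_le_mul_left (Fintype.card F ^ 2) (le_card_aniso hab hd)
  rw [cntQ, (Nat.card_congr e).trans (card_hyperbolic_add _), h3, Nat.card_eq_fintype_card,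
    Fintype.card_fun] at h4
  simp only [Fintype.card_fin, show 2 - 1 = 1 from rfl, show 6 - 2 = 4 from rfl, g] at h4
  have h6 : 1 ≤ Fintype.card F ^ 2 := Nat.one_le_pow _ _ (by omega)
  zify [hq.le, h6] at h4 h5 ⊢
  linarith

theorem pomega_six {a b : F} (hab : Known.Aniso a b) {n : ℕ}
    (hn : n = (Fintype.card F + 1) * (Fintype.card F ^ 3 + 1)) :
    (∀ H : Subgroup (POmega F (quadFormMinus 2 F a b)), H ≠ ⊤ → n ≤ H.index) ∧
      ∃ H : Subgroup (POmega F (quadFormMinus 2 F a b)), H.index = n := by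
  have hQ := quadMinus_nondegenerate 2 hab
  have h3 : finrank F ((Fin 2 ⊕ Fin 2) ⊕ Fin 2 → F) = 6 := by simp
  have hq := Fintype.one_lt_card (α := F)
  have hs : sing (quadMinus 2 F a b) - 1 = (Fintype.card F ^ 3 + 1) * (Fintype.card F ^ 2 - 1) := by
    have h1 := sing_quadMinus 2 hab
    have h2 := one_le_sing (Q := quadMinus 2 F a b)
    have h6 : 1 ≤ Fintype.card F ^ 2 := Nat.one_le_pow _ _ (by omega)
    rw [Nat.card_eq_fintype_card] at h1
    zify [h2, h6]
    rw [h1]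
    ring
  obtain ⟨v, hv0, hv⟩ := Known.exists_isotropic_of_three_le (quadMinus 2 F a b) (by omega)
  rw [← coe_quadMinus]
  refine pomega_min hQ (by omega) (fun Ω _ _ _ _ => le_trans (le_of_eq (by rw [hn]; ring))
    (le_card_six hQ h3 (Known.not_isPlus_quadMinus 2 hab) (fun x => num_six hab) hs)) hv0 ?_
  rw [hv, ncard_ne_zero_field, ncard_ne_zero_sing, hs, hn]
  have h6 : 1 ≤ Fintype.card F ^ 2 := Nat.one_le_pow _ _ (by omega)
  zify [hq.le, h6]
  ring

end Cfsg.Lib.Class.MD.Six
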