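import Cfsg.Agent.DC.SymWr
import Cfsg.Prelude.Def_TwoFusion
import Mathlib.GroupTheory.Perm.Cycle.PossibleTypes

/-!
# Direct decompositions of the Sylow 2-subgroups of the alternating groups
-/

namespace Cfsg.Lib.Class.AltSyl

open Equiv Finset Cfsg.Lib.DC.Wr

variable {I : Type*} [Fintype I] [DecidableEq I]

theorem z2 (a : ZMod 2) : a = 0 ∨ a = 1 := by revert a; decide

theorem even_card {H : Subgroup (Perm I)} (hH : IsPGroup 2 H) {Y : Finset I}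
    (h1 : ∀ σ ∈ H, ∀ y ∈ Y, σ y ∈ Y) (h2 : ∀ y ∈ Y, ∃ σ ∈ H, σ y ≠ y) : Even #Y := by
  let M : SubMulAction H I := ⟨Y, fun σ y hy => h1 σ σ.2 y hy⟩
  have h3 := hH.card_modEq_card_fixedPoints M
  have : IsEmpty (MulAction.fixedPoints H M) := ⟨fun x => by
    obtain ⟨σ, hσ, e⟩ := h2 x.1 x.1.2
    exact e (congrArg Subtype.val (x.2 ⟨σ, hσ⟩))⟩
  rw [Nat.card_of_isEmpty (α := MulAction.fixedPoints H M), Nat.modEq_zero_iff_dvd] at h3
  rw [even_iff_two_dvd, ← Nat.card_eq_finsetCard]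
  exact h3

theorem sum_eq_zero {H : Subgroup (Perm I)} (hH : IsPGroup 2 H) {X : Finset I}
    (h1 : ∀ σ ∈ H, ∀ y ∈ X, σ y ∈ X) (h2 : ∀ y ∈ X, ∃ σ ∈ H, σ y ≠ y) {w : I → ZMod 2}
    (hw : ∀ σ ∈ H, ∀ i, w (σ i) = w i) : ∑ i ∈ X, w i = 0 := by
  have h3 := even_card hH (Y := {x ∈ X | w x = 1}) (fun σ hσ y hy => by
    rw [mem_filter] at hy ⊢
    exact ⟨h1 σ hσ y hy.1, (hw σ hσ y).trans hy.2⟩) fun y hy => h2 y (mem_filter.1 hy).1
  rw [← (ZMod.natCast_eq_zero_iff_even).2 h3, card_filter, Nat.cast_sum]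
  exact sum_congr rfl fun i _ => by rcases z2 (w i) with h | h <;> simp [h]

theorem exists_inv {B : Subgroup (Perm I)} (hB : IsPGroup 2 B) {W : AddSubgroup (I → ZMod 2)}
    (hW : ∀ σ ∈ B, ∀ w ∈ W, w ∘ σ ∈ W) {v : I → ZMod 2} (hv : v ∈ W) (h0 : v ≠ 0) :
    ∃ w ∈ W, w ≠ 0 ∧ ∀ σ ∈ B, ∀ i, w (σ i) = w i := by
  letI : MulAction B W :=
    { smul := fun σ w => ⟨w.1 ∘ (σ⁻¹ : B).1, hW _ (σ⁻¹).2 w w.2⟩
      one_smul := fun _ => rfl
      mul_smul := fun _ _ _ => rfl }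
  have h2 : addOrderOf (⟨v, hv⟩ : W) = 2 := addOrderOf_eq_prime
    (Subtype.ext (funext fun i => by rcases z2 (v i) with h | h <;> simp [h]; rfl))
    fun h => h0 (congrArg Subtype.val h)
  obtain ⟨w, h3, h4⟩ := hB.exists_fixed_point_of_prime_dvd_card_of_fixed_point (α := W)
    (h2.symm.dvd.trans (addOrderOf_dvd_natCard _)) (a := 0) fun _ => rfl
  exact ⟨w, w.2, fun h => h4 (Subtype.ext h).symm, fun σ hσ i =>
    congrFun (congrArg Subtype.val (h3 ⟨σ⁻¹, inv_mem hσ⟩)) i⟩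

/-- the vector with two entries -/
def e2 (i j : I) : I → ZMod 2 := Pi.single i 1 + Pi.single j 1

theorem sum_e2 (i j : I) : ∑ k, e2 i j k = 0 := by
  simp only [e2, Pi.add_apply, sum_add_distrib, sum_pi_single', mem_univ, if_true]; rfl

theorem exists_moved (h3 : 3 ≤ Fintype.card I) {σ : Perm I} {i : I} (h : σ i ≠ i) :
    ∃ d : I → ZMod 2, ∑ k, d k = 0 ∧ d + d ∘ σ ≠ 0 := by
  obtain ⟨j, -, hj⟩ := exists_mem_notMem_of_card_lt_card (s := {i, σ i}) (t := univ)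
    (card_le_two.trans_lt h3)
  simp only [mem_insert, mem_singleton, not_or] at hj
  refine ⟨e2 i j, sum_e2 i j, fun e => ?_⟩
  simpa [e2, h, Ne.symm hj.1, Ne.symm hj.2] using congrFun e i

variable (Q : Sylow 2 (Perm I))

theorem fix_unique {x y : I} (hx : ∀ σ ∈ Q, σ x = x) (hy : ∀ σ ∈ Q, σ y = y) : x = y := by
  have h1 : IsPGroup 2 (Subgroup.zpowers (swap x y)) := IsPGroup.of_card_dvd_pow (n := 1) (by
    rw [Nat.card_zpowers]
    exact orderOf_dvd_of_pow_eq_one (by simp [sq]))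
  have h2 : swap x y ∈ Subgroup.normalizer ((Q : Subgroup (Perm I)) : Set (Perm I)) :=
    Subgroup.centralizer_le_normalizer _ (Subgroup.mem_centralizer_iff.2 fun σ hσ => by
      rw [mul_swap_eq_swap_mul, hx σ hσ, hy σ hσ])
  have h3 : swap x y ∈ Subgroup.zpowers (swap x y) ⊓ (Q : Subgroup (Perm I)) :=
    h1.inf_normalizer_sylow Q ▸ ⟨Subgroup.mem_zpowers _, h2⟩
  simpa [eq_comm] using hx _ h3.2

theorem restrict {X : Finset I} (hX : ∀ σ ∈ Q, ∀ x ∈ X, σ x ∈ X) {σ : Perm I} (hσ : σ ∈ Q) :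
    ∃ ρ ∈ Q, (∀ x ∈ X, ρ x = σ x) ∧ ∀ x ∉ X, ρ x = x := by
  have hX' : ∀ σ ∈ Q, ∀ x, σ x ∈ X ↔ x ∈ X := fun σ hσ x =>
    ⟨fun h => by simpa using hX _ (inv_mem hσ) _ h, hX σ hσ x⟩
  let H : ∀ q : I → Prop, (∀ σ ∈ Q, ∀ x, q x → q (σ x)) → Subgroup (Perm I) := fun q hq =>
    { carrier := {τ | ∃ σ ∈ Q, ∀ x, q x → τ x = σ x}
      one_mem' := ⟨1, one_mem _, fun _ _ => rfl⟩
      mul_mem' := by
        rintro a b ⟨s, hs, h1⟩ ⟨t, ht, h2⟩
        exact ⟨s * t, mul_mem hs ht, fun x hx => by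
          rw [Perm.mul_apply, h2 x hx, h1 _ (hq t ht x hx), Perm.mul_apply]⟩
      inv_mem' := by
        rintro a ⟨s, hs, h1⟩
        exact ⟨s⁻¹, inv_mem hs, fun x hx => by
          rw [Perm.inv_eq_iff_eq, h1 _ (hq _ (inv_mem hs) x hx)]; simp⟩ }
  obtain ⟨k, hk⟩ := IsPGroup.iff_card.1 Q.isPGroup'
  have hp : ∀ q hq, ∀ τ ∈ H q hq, ∀ x, q x → (τ ^ 2 ^ k) x = x := by
    rintro q hq τ ⟨s, hs, h1⟩ x hx
    have : ∀ n : ℕ, (τ ^ n) x = (s ^ n) x := fun n => by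
      induction n with
      | zero => rfl
      | succ n ih =>
        rw [pow_succ', pow_succ', Perm.mul_apply, Perm.mul_apply, ih,
          h1 _ (hq _ (pow_mem hs n) x hx)]
    rw [this, ← hk, show s ^ Nat.card (Q : Subgroup (Perm I)) = 1 from
      congrArg Subtype.val (pow_card_eq_one' (x := (⟨s, hs⟩ : (Q : Subgroup (Perm I)))))]
    rfl
  have hY : ∀ σ ∈ Q, ∀ x, x ∉ X → σ x ∉ X := fun σ hσ x hx h => hx ((hX' σ hσ x).1 h)
  have h1 := Q.is_maximal' (Q := H (· ∈ X) hX ⊓ H (· ∉ X) hY)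
    (fun τ => ⟨k, Subtype.ext (Equiv.ext fun x => by
      by_cases hx : x ∈ X
      · exact hp (· ∈ X) hX τ.1 τ.2.1 x hx
      · exact hp (· ∉ X) hY τ.1 τ.2.2 x hx)⟩)
    fun σ hσ => ⟨⟨σ, hσ, fun _ _ => rfl⟩, σ, hσ, fun _ _ => rfl⟩
  have h2 := fun x (hx : x ∈ X) => Perm.ofSubtype_subtypePerm_of_mem (hX' σ hσ) hx
  have h3 := fun x (hx : x ∉ X) => Perm.ofSubtype_subtypePerm_of_not_mem (hX' σ hσ) hx
  refine ⟨_, ?_, h2, h3⟩
  change _ ∈ (Q : Subgroup (Perm I))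
  rw [← h1]
  exact ⟨⟨σ, hσ, h2⟩, 1, one_mem _, h3⟩

theorem even_erase {x : I} (hx : ∀ σ ∈ Q, σ x = x) : Even #(univ.erase x) :=
  even_card Q.isPGroup' (fun σ hσ y hy => by
    simp only [mem_erase, mem_univ, and_true] at hy ⊢
    exact fun e => hy (σ.injective (e.trans (hx σ hσ).symm))) fun y hy => by
      by_contra hn
      push Not at hn
      exact (mem_erase.1 hy).1 (fix_unique Q hn hx)

theorem nofix (h : Even (Fintype.card I)) (x : I) : ∃ σ ∈ Q, σ x ≠ x := by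
  by_contra hn
  push Not at hn
  have h1 := even_erase Q hn
  rw [← card_univ, ← card_erase_add_one (mem_univ x), Nat.even_add_one] at h
  exact h h1

theorem exists_fix (h : ¬ Even (Fintype.card I)) : ∃ x, ∀ σ ∈ Q, σ x = x := by
  by_contra hn
  push Not at hn
  exact h (even_card Q.isPGroup' (Y := univ) (fun _ _ _ _ => mem_univ _) fun y _ => hn y)

/-- the data attached to a direct decomposition -/
structure Dat (B B₁ B₂ : Subgroup (Perm I)) (N₁ N₂ : AddSubgroup (I → ZMod 2)) : Prop where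
  le₁ : B₁ ≤ B
  le₂ : B₂ ≤ B
  comm : ∀ a ∈ B₁, ∀ b ∈ B₂, a * b = b * a
  gen : ∀ σ ∈ B, ∃ a ∈ B₁, ∃ b ∈ B₂, σ = a * b
  disj : ∀ w ∈ N₁, w ∈ N₂ → w = 0
  ev₁ : ∀ w ∈ N₁, ∑ i, w i = 0
  ev₂ : ∀ w ∈ N₂, ∑ i, w i = 0
  inv₁ : ∀ σ ∈ B, ∀ w ∈ N₁, w ∘ σ ∈ N₁
  inv₂ : ∀ σ ∈ B, ∀ w ∈ N₂, w ∘ σ ∈ N₂
  cm₁ : ∀ σ ∈ B₁, ∀ d : I → ZMod 2, ∑ i, d i = 0 → d + d ∘ σ ∈ N₁
  cm₂ : ∀ σ ∈ B₂, ∀ d : I → ZMod 2, ∑ i, d i = 0 → d + d ∘ σ ∈ N₂
  sum : ∀ d : I → ZMod 2, ∑ i, d i = 0 → ∃ a ∈ N₁, ∃ b ∈ N₂, d = a + b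
  ne₁ : ∃ w ∈ N₁, w ≠ 0
  ne₂ : ∃ w ∈ N₂, w ≠ 0

variable {Q} {B B₁ B₂ : Subgroup (Perm I)} {N₁ N₂ : AddSubgroup (I → ZMod 2)}

theorem Dat.symm (h : Dat B B₁ B₂ N₁ N₂) : Dat B B₂ B₁ N₂ N₁ :=
  ⟨h.le₂, h.le₁, fun a ha b hb => (h.comm b hb a ha).symm, fun σ hσ => by
    obtain ⟨a, ha, b, hb, e⟩ := h.gen σ hσ
    exact ⟨b, hb, a, ha, e.trans (h.comm a ha b hb)⟩, fun w h1 h2 => h.disj w h2 h1, h.ev₂, h.ev₁,
    h.inv₂, h.inv₁, h.cm₂, h.cm₁, fun d hd => by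
      obtain ⟨a, ha, b, hb, e⟩ := h.sum d hd
      exact ⟨b, hb, a, ha, e.trans (add_comm a b)⟩, h.ne₂, h.ne₁⟩

theorem Dat.half (h : Dat B B₁ B₂ N₁ N₂) (hB : IsPGroup 2 B) {X : Finset I}
    (hX : ∀ σ ∈ B, ∀ x ∈ X, σ x ∈ X)
    (h2 : (∀ y ∈ X, ∃ σ ∈ B₂, σ y ≠ y) ∨ ∀ y ∉ X, ∃ σ ∈ B₂, σ y ≠ y) {w : I → ZMod 2}
    (hw : w ∈ N₁) : ∑ i ∈ X, w i = 0 := by
  have h1 : ∀ σ ∈ B₂, ∀ i, w (σ i) = w i := fun σ hσ i => by
    have := congrFun (h.disj _ (add_mem hw (h.inv₁ σ (h.le₂ hσ) w hw)) (h.cm₂ σ hσ w (h.ev₁ w hw))) i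
    simp only [Pi.add_apply, Function.comp_apply, Pi.zero_apply] at this
    exact (by decide : ∀ a b : ZMod 2, a + b = 0 → b = a) _ _ this
  rcases h2 with h2 | h2
  · exact sum_eq_zero (hB.to_le h.le₂) (fun σ hσ => hX σ (h.le₂ hσ)) h2 h1
  · have := sum_eq_zero (hB.to_le h.le₂) (X := Xᶜ) (fun σ hσ y hy => by
      rw [mem_compl] at hy ⊢
      exact fun e => hy (by simpa using hX _ (inv_mem (h.le₂ hσ)) _ e))
      (fun y hy => h2 y (mem_compl.1 hy)) h1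
    rw [← h.ev₁ w hw, ← sum_add_sum_compl X, this, add_zero]

theorem Dat.noX (h : Dat B B₁ B₂ N₁ N₂) (hB : IsPGroup 2 B) {X : Finset I}
    (hX : ∀ σ ∈ B, ∀ x ∈ X, σ x ∈ X)
    (h1 : (∀ y ∈ X, ∃ σ ∈ B₁, σ y ≠ y) ∨ ∀ y ∉ X, ∃ σ ∈ B₁, σ y ≠ y)
    (h2 : (∀ y ∈ X, ∃ σ ∈ B₂, σ y ≠ y) ∨ ∀ y ∉ X, ∃ σ ∈ B₂, σ y ≠ y) {i j : I} (hi : i ∈ X)
    (hj : j ∉ X) : False := by
  obtain ⟨a, ha, b, hb, e⟩ := h.sum _ (sum_e2 i j)
  have h3 : ∑ k ∈ X, e2 i j k = 0 := by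
    simp only [e, Pi.add_apply, sum_add_distrib, h.half hB hX h2 ha, h.symm.half hB hX h1 hb,
      add_zero]
  simp [e2, sum_add_distrib, sum_pi_single', hi, hj] at h3

theorem Dat.fix (h : Dat Q B₁ B₂ N₁ N₂) (h3 : 3 ≤ Fintype.card I) (he : Even (Fintype.card I))
    (i : I) : ∃ σ ∈ B₁, σ i ≠ i := by
  classical
  have hf := nofix Q he
  by_contra hi
  push Not at hi
  have h1 : ∀ σ ∈ B₁, ∀ j, σ j = j := by
    by_contra hn
    push Not at hn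
    obtain ⟨σ, hσ, j, hj⟩ := hn
    have k : ∀ y, (∀ τ ∈ B₁, τ y = y) → ∀ τ ∈ (Q : Subgroup (Perm I)), ∃ b ∈ B₂, τ y = b y :=
      fun y hy τ hτ => by
        obtain ⟨b, hb, a, ha, rfl⟩ := h.symm.gen τ hτ
        exact ⟨b, hb, by rw [Perm.mul_apply, hy a ha]⟩
    refine h.noX Q.isPGroup' (X := {y | ∀ τ ∈ B₁, τ y = y}) (fun τ hτ y hy => ?_)
      (Or.inr fun y hy => by simpa using hy) (Or.inl fun y hy => ?_) (i := i) (j := j)
      (by simpa using hi) (by simpa using ⟨σ, hσ, hj⟩)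
    · rw [mem_filter_univ] at hy ⊢
      obtain ⟨b, hb, e⟩ := k y hy τ hτ
      intro a ha
      rw [e, ← Perm.mul_apply, h.comm a ha b hb, Perm.mul_apply, hy a ha]
    · obtain ⟨τ, hτ, e⟩ := hf y
      obtain ⟨b, hb, e'⟩ := k y ((mem_filter_univ _).1 hy) τ hτ
      exact ⟨b, hb, e' ▸ e⟩
  have h2 : ∀ n, ∀ c : I → ZMod 2, #{x | c x = 1} ≤ n → (∀ σ ∈ Q, ∀ x, c (σ x) = c x) → c ∈ N₂ := by
    intro n
    induction n with
    | zero =>
      intro c hc _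
      have : c = 0 := funext fun x => (z2 (c x)).resolve_right fun e => by
        simpa [e] using filter_eq_empty_iff.1 (card_eq_zero.1 (Nat.le_zero.1 hc)) (mem_univ x)
      exact this ▸ zero_mem _
    | succ n ih =>
      intro c hc hi
      by_cases h0 : ∀ x, c x = 0
      · exact (funext h0 : c = 0) ▸ zero_mem _
      push Not at h0
      obtain ⟨x, hx⟩ := h0
      obtain ⟨σ, hσ, e⟩ := hf x
      obtain ⟨ρ, hρ, r1, r2⟩ := restrict Q (X := {x | c x ≠ 0}) (fun σ hσ y hy => by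
        simpa [hi σ hσ] using hy) hσ
      obtain ⟨d, d1, d2⟩ := exists_moved h3 (σ := ρ) (i := x) (by rwa [r1 x (by simpa using hx)])
      obtain ⟨a, ha, b, hb, rfl⟩ := h.gen ρ hρ
      obtain rfl : a = 1 := Equiv.ext (h1 a ha)
      let W : AddSubgroup (I → ZMod 2) :=
        { carrier := {w | ∀ x, c x = 0 → w x = 0}
          zero_mem' := fun _ _ => rfl
          add_mem' := fun {a b} ha hb x hx => by simp [ha x hx, hb x hx]
          neg_mem' := fun {a} ha x hx => by simp [ha x hx] }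
      obtain ⟨w, w1, w2, w3⟩ := exists_inv Q.isPGroup' (W := N₂ ⊓ W)
        (fun σ hσ w hw => ⟨h.inv₂ σ hσ w hw.1, fun x hx => hw.2 _ ((hi σ hσ x).trans hx)⟩)
        ⟨h.cm₂ _ (by simpa using hb) d d1, fun x hx => by
          rw [Pi.add_apply, Function.comp_apply, r2 x (by simpa using hx)]
          exact CharTwo.add_self_eq_zero _⟩ d2
      obtain ⟨y, hy⟩ := Function.ne_iff.1 w2
      have hcy : c y = 1 := (z2 _).resolve_left fun e => hy (w1.2 y e)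
      have := ih (c - w) (Nat.le_of_lt_succ (lt_of_lt_of_le (card_lt_card ⟨fun z hz => ?_,
        fun hz => ?_⟩) hc)) fun σ hσ x => by simp [hi σ hσ, w3 σ hσ]
      · simpa using add_mem this w1.1
      · rw [mem_filter_univ] at hz ⊢
        refine (z2 _).resolve_left fun e => ?_
        simp [e, w1.2 z e] at hz
      · have := (mem_filter_univ _).1 (hz ((mem_filter_univ y).2 hcy))
        simp [hcy, (z2 _).resolve_left hy] at this
  obtain ⟨v, hv, h0⟩ := h.ne₁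
  obtain ⟨w, w1, w2, w3⟩ := exists_inv Q.isPGroup' h.inv₁ hv h0
  exact w2 (h.disj w w1 (h2 _ w le_rfl w3))

theorem Dat.two (h : Dat B B₁ B₂ N₁ N₂) (hB : IsPGroup 2 B) : ∃ v w : I → ZMod 2, v ≠ 0 ∧ w ≠ 0 ∧
    v ≠ w ∧ ∑ i, v i = 0 ∧ ∑ i, w i = 0 ∧ (∀ σ ∈ B, ∀ i, v (σ i) = v i) ∧
      ∀ σ ∈ B, ∀ i, w (σ i) = w i := by
  obtain ⟨v, hv, h0⟩ := h.ne₁
  obtain ⟨v, v1, v2, v3⟩ := exists_inv hB h.inv₁ hv h0
  obtain ⟨w, hw, h0⟩ := h.ne₂
  obtain ⟨w, w1, w2, w3⟩ := exists_inv hB h.inv₂ hw h0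
  exact ⟨v, w, v2, w2, fun e => v2 (h.disj v v1 (e ▸ w1)), h.ev₁ v v1, h.ev₂ w w1, v3, w3⟩

theorem Dat.not_even (h : Dat Q B₁ B₂ N₁ N₂) (h3 : 3 ≤ Fintype.card I)
    (he : Even (Fintype.card I)) : False := by
  have k : ∀ v : I → ZMod 2, v ≠ 0 → (∀ σ ∈ (Q : Subgroup (Perm I)), ∀ i, v (σ i) = v i) →
      v = fun _ => 1 := fun v h0 hv => funext fun j => (z2 _).resolve_left fun e => by
    obtain ⟨i, hi⟩ := Function.ne_iff.1 h0
    exact h.noX Q.isPGroup' (X := {x | v x ≠ 0}) (fun σ hσ y hy => by simpa [hv σ hσ] using hy)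
      (Or.inl fun y _ => h.fix h3 he y) (Or.inl fun y _ => h.symm.fix h3 he y) (i := i) (j := j)
      (by simpa using hi) (by simpa using e)
  obtain ⟨v, w, v0, w0, e, -, -, v1, w1⟩ := h.two Q.isPGroup'
  exact e ((k v v0 v1).trans (k w w0 w1).symm)

theorem Dat.not_trans (h : Dat Q B₁ B₂ N₁ N₂) {x : I} (hx : ∀ σ ∈ Q, σ x = x)
    (ht : ∀ y ≠ x, ∀ z ≠ x, ∃ σ ∈ Q, σ y = z) : False := by
  have k : ∀ v : I → ZMod 2, v ≠ 0 → ∑ i, v i = 0 →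
      (∀ σ ∈ (Q : Subgroup (Perm I)), ∀ i, v (σ i) = v i) →
      v = fun y => if y = x then 0 else 1 := fun v h0 hs hv => by
    have h1 : v x = 0 := by
      rw [← add_sum_erase _ _ (mem_univ x), sum_eq_zero Q.isPGroup' (fun σ hσ y hy => by
        simp only [mem_erase, mem_univ, and_true] at hy ⊢
        exact fun e => hy (σ.injective (e.trans (hx σ hσ).symm))) (fun y hy => by
          by_contra hn
          push Not at hn
          exact (mem_erase.1 hy).1 (fix_unique Q hn hx)) hv, add_zero] at hs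
      exact hs
    obtain ⟨i, hi⟩ := Function.ne_iff.1 h0
    funext y
    split_ifs with e
    · rw [e, h1]
    · obtain ⟨σ, hσ, rfl⟩ := ht i (fun e => hi (e ▸ h1)) y e
      rw [hv σ hσ]
      exact (z2 _).resolve_left hi
  obtain ⟨v, w, v0, w0, e, v2, w2, v1, w1⟩ := h.two Q.isPGroup'
  exact e ((k v v0 v2 v1).trans (k w w0 w2 w1).symm)

/-- directly decomposable subgroups -/
def Dec {G : Type*} [Group G] (S : Subgroup G) : Prop :=
  ∃ S₁ S₂ : Subgroup G, S₁ ≠ ⊥ ∧ S₂ ≠ ⊥ ∧ IsInternalDirectProduct S₁ S₂ S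

theorem dec_map {G H : Type*} [Group G] [Group H] {f : G →* H} (hf : Function.Injective f)
    (S : Subgroup G) : Dec (S.map f) ↔ Dec S := by
  constructor
  · rintro ⟨A, B, h1, h2, h3, h4, h5, h6, h7⟩
    have r1 := h3.trans (S.map_le_range f)
    have r2 := h4.trans (S.map_le_range f)
    refine ⟨A.comap f, B.comap f, fun e => h1 ?_, fun e => h2 ?_, ?_, ?_, fun a ha b hb => hf ?_,
      ?_, ?_⟩
    · rw [← Subgroup.map_comap_eq_self r1, e, Subgroup.map_bot]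
    · rw [← Subgroup.map_comap_eq_self r2, e, Subgroup.map_bot]
    · exact (Subgroup.comap_mono h3).trans (Subgroup.comap_map_eq_self_of_injective hf S).le
    · exact (Subgroup.comap_mono h4).trans (Subgroup.comap_map_eq_self_of_injective hf S).le
    · rw [map_mul, map_mul, h5 _ ha _ hb]
    · rw [← Subgroup.comap_inf, h6, MonoidHom.comap_bot, (MonoidHom.ker_eq_bot_iff f).2 hf]
    · rw [Subgroup.comap_sup_eq_of_le_range f r1 r2, h7,
        Subgroup.comap_map_eq_self_of_injective hf]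
  · rintro ⟨A, B, h1, h2, h3, h4, h5, h6, h7⟩
    refine ⟨A.map f, B.map f, fun e => h1 ((Subgroup.map_eq_bot_iff_of_injective A hf).1 e),
      fun e => h2 ((Subgroup.map_eq_bot_iff_of_injective B hf).1 e), Subgroup.map_mono h3,
      Subgroup.map_mono h4, ?_, ?_, ?_⟩
    · rintro _ ⟨a, ha, rfl⟩ _ ⟨b, hb, rfl⟩
      rw [← map_mul, h5 a ha b hb, map_mul]
    · rw [← Subgroup.map_inf _ _ _ hf, h6, Subgroup.map_bot]
    · rw [← Subgroup.map_sup, h7]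

section
variable {G : Type*} [Group G] {S₁ S₂ S : Subgroup G}

theorem dp_symm (h : IsInternalDirectProduct S₁ S₂ S) : IsInternalDirectProduct S₂ S₁ S :=
  ⟨h.2.1, h.1, fun a ha b hb => (h.2.2.1 b hb a ha).symm, by rw [inf_comm, h.2.2.2.1],
    by rw [sup_comm, h.2.2.2.2]⟩

theorem dp_dec (h : IsInternalDirectProduct S₁ S₂ S) {t : G} (ht : t ∈ S) :
    ∃ a ∈ S₁, ∃ b ∈ S₂, t = a * b := by
  rw [← h.2.2.2.2] at ht
  have := Subgroup.coe_mul_of_left_le_normalizer_right S₁ S₂ fun a ha =>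
    Subgroup.centralizer_le_normalizer _ (Subgroup.mem_centralizer_iff.2 fun b hb =>
      (h.2.2.1 a ha b hb).symm)
  obtain ⟨a, ha, b, hb, e⟩ := this.subset ht
  exact ⟨a, ha, b, hb, e.symm⟩

theorem dp_norm (h : IsInternalDirectProduct S₁ S₂ S) {t s : G} (ht : t ∈ S) (hs : s ∈ S₁) :
    t * s * t⁻¹ ∈ S₁ := by
  obtain ⟨a, ha, b, hb, rfl⟩ := dp_dec h ht
  rw [mul_assoc a, ← h.2.2.1 s hs b hb, mul_inv_rev, ← mul_assoc, ← mul_assoc,
    mul_inv_cancel_right]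
  exact mul_mem (mul_mem ha hs) (inv_mem ha)

end

variable {J : Type*} [Fintype J] [DecidableEq J]

theorem sign_tt (b : I → ZMod 2) (σ : Perm I) :
    Perm.sign (tr J b * tp 2 J σ) = 1 ↔ ∑ i, b i = 0 := by
  have h1 : ∀ s : Finset I, ∏ i ∈ s, Perm.sign (Equiv.addRight (b i)) =
      Perm.sign (Equiv.addRight (∑ i ∈ s, b i)) := fun s => by
    induction s using Finset.induction_on with
    | empty => simp
    | insert a s ha ih =>
      rw [prod_insert ha, sum_insert ha, ih]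
      exact (by decide : ∀ x y : ZMod 2, Perm.sign (Equiv.addRight x) *
        Perm.sign (Equiv.addRight y) = Perm.sign (Equiv.addRight (x + y))) _ _
  rw [map_mul, tr, tp, Perm.sign_sumCongr, Perm.sign_sumCongr, Perm.sign_prodCongrRight,
    Perm.sign_prodCongrLeft, h1]
  simp only [Perm.sign_refl, mul_one, prod_const, card_univ, ZMod.card, Int.units_sq]
  exact (by decide : ∀ x : ZMod 2, Perm.sign (Equiv.addRight x) = 1 ↔ x = 0) _

/-- the even part of the wreath product -/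
def E (J : Type*) [Fintype J] [DecidableEq J] (B : Subgroup (Perm I)) :
    Subgroup (Perm (Om I 2 J)) := T 2 J B ⊓ alternatingGroup _

theorem mem_E {x : Perm (Om I 2 J)} :
    x ∈ E J B ↔ ∃ b σ, ∑ i, b i = 0 ∧ σ ∈ B ∧ x = tr J b * tp 2 J σ := by
  constructor
  · rintro ⟨⟨b, σ, h1, rfl⟩, h2⟩
    exact ⟨b, σ, (sign_tt b σ).1 h2, h1, rfl⟩
  · rintro ⟨b, σ, h1, h2, rfl⟩
    exact ⟨⟨b, σ, h2, rfl⟩, (sign_tt b σ).2 h1⟩

theorem tr_mem_E {b : I → ZMod 2} (h : ∑ i, b i = 0) : tr J b ∈ E J B :=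
  mem_E.2 ⟨b, 1, h, one_mem _, by simp⟩

theorem tp_mem_E {σ : Perm I} (h : σ ∈ B) : tp 2 J σ ∈ E J B :=
  mem_E.2 ⟨0, σ, by simp, h, by simp⟩

omit [Fintype I] [DecidableEq I] [Fintype J] [DecidableEq J] in
theorem tt_mul (b c : I → ZMod 2) (σ τ : Perm I) : tr J b * tp 2 J σ * (tr J c * tp 2 J τ) =
    tr J (b + fun i => c (σ⁻¹ i)) * tp 2 J (σ * τ) := by
  rw [tr_add, tp_mul, mul_assoc, ← mul_assoc (tp 2 J σ), tp_tr]
  simp only [mul_assoc]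

omit [Fintype I] [DecidableEq I] [Fintype J] [DecidableEq J] in
theorem tr_eq_one {b : I → ZMod 2} (h : tr J b = 1) : b = 0 :=
  (tr_tp_inj (J := J) (b := b) (c := 0) (σ := 1) (τ := 1) (by simp [h])).1

/-- the image in the top group -/
def pr (S : Subgroup (Perm (Om I 2 J))) : Subgroup (Perm I) where
  carrier := {σ | ∃ c, tr J c * tp 2 J σ ∈ S}
  one_mem' := ⟨0, by simp⟩
  mul_mem' := fun ⟨b, hb⟩ ⟨c, hc⟩ => ⟨_, tt_mul (J := J) b c _ _ ▸ mul_mem hb hc⟩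
  inv_mem' := fun ⟨b, hb⟩ => ⟨_, by
    have := inv_mem hb
    rwa [mul_inv_rev, ← tp_inv, ← tr_neg, tp_tr] at this⟩

/-- the intersection with the base group -/
def vec (S : Subgroup (Perm (Om I 2 J))) : AddSubgroup (I → ZMod 2) where
  carrier := {b | tr J b ∈ S}
  zero_mem' := by simp
  add_mem' := fun {a b} ha hb => by
    change _ ∈ S
    rw [tr_add]; exact mul_mem ha hb
  neg_mem' := fun {a} ha => by
    change _ ∈ S
    rw [tr_neg]; exact inv_mem ha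

variable {S₁ S₂ : Subgroup (Perm (Om I 2 J))}

theorem dp_cm (h : IsInternalDirectProduct S₁ S₂ (E J B)) : ∀ σ ∈ pr S₁, ∀ d : I → ZMod 2,
    ∑ i, d i = 0 → d + d ∘ σ ∈ vec S₁ := by
  rintro σ ⟨c, hc⟩ d hd
  have h1 := mul_mem (dp_norm h (tr_mem_E hd) (inv_mem hc)) hc
  have h2 : (tr J d)⁻¹ * (tr J c * tp 2 J σ) = tr J c * tp 2 J σ * tr J (d ∘ σ) := by
    rw [← tr_neg]
    exact om_ext (fun i y => by simp [CharTwo.neg_eq, add_right_comm]) fun _ => rfl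
  rw [mul_assoc, h2, mul_assoc, inv_mul_cancel_left, ← tr_add] at h1
  exact h1

theorem dp_half (h3 : 3 ≤ Fintype.card I) (h : IsInternalDirectProduct S₁ S₂ (E J B))
    (h0 : S₁ ≠ ⊥) : pr S₁ ≤ B ∧ (∀ w ∈ vec S₁, ∑ i, w i = 0) ∧
      (∀ σ ∈ B, ∀ w ∈ vec S₁, w ∘ σ ∈ vec S₁) ∧ ∃ w ∈ vec S₁, w ≠ 0 := by
  refine ⟨?_, fun w hw => ?_, fun σ hσ w hw => ?_, ?_⟩
  · rintro σ ⟨c, hc⟩
    obtain ⟨b, τ, -, h1, h2⟩ := mem_E.1 (h.1 hc)
    exact (tr_tp_inj h2).2 ▸ h1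
  · exact (sign_tt (J := J) w 1).1 (by simpa using (h.1 hw).2)
  · have := dp_norm h (tp_mem_E (inv_mem hσ)) hw
    rwa [tp_tr, mul_inv_cancel_right] at this
  · obtain ⟨⟨x, hx⟩, h1⟩ := Subgroup.ne_bot_iff_exists_ne_one.1 h0
    obtain ⟨b, σ, -, -, rfl⟩ := mem_E.1 (h.1 hx)
    by_cases e : ∀ i, σ i = i
    · obtain rfl : σ = 1 := Equiv.ext e
      exact ⟨b, by simpa [vec] using hx, fun e => h1 (Subtype.ext (by simp [e]))⟩
    · obtain ⟨i, hi⟩ := not_forall.1 e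
      obtain ⟨d, d1, d2⟩ := exists_moved h3 hi
      exact ⟨_, dp_cm h σ ⟨b, hx⟩ d d1, d2⟩

theorem Dec.dat (h3 : 3 ≤ Fintype.card I) (h : Dec (E J B)) :
    ∃ B₁ B₂ N₁ N₂, Dat B B₁ B₂ N₁ N₂ := by
  obtain ⟨S₁, S₂, h1, h2, h⟩ := h
  obtain ⟨a1, a2, a3, a4⟩ := dp_half h3 h h1
  obtain ⟨b1, b2, b3, b4⟩ := dp_half h3 (dp_symm h) h2
  have dj : ∀ w ∈ vec S₁, w ∈ vec S₂ → w = 0 := fun w w1 w2 =>
    tr_eq_one (J := J) (Subgroup.mem_bot.1 (h.2.2.2.1 ▸ Subgroup.mem_inf.2 ⟨w1, w2⟩))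
  have dec : ∀ t ∈ E J B, ∃ b σ c τ, tr J b * tp 2 J σ ∈ S₁ ∧ tr J c * tp 2 J τ ∈ S₂ ∧
      t = tr J b * tp 2 J σ * (tr J c * tp 2 J τ) := fun t ht => by
    obtain ⟨x, hx, y, hy, e⟩ := dp_dec h ht
    obtain ⟨b, σ, -, -, rfl⟩ := mem_E.1 (h.1 hx)
    obtain ⟨c, τ, -, -, rfl⟩ := mem_E.1 (h.2.1 hy)
    exact ⟨b, σ, c, τ, hx, hy, e⟩
  refine ⟨pr S₁, pr S₂, vec S₁, vec S₂, a1, b1, ?_, fun σ hσ => ?_, dj, a2, b2, a3, b3, dp_cm h,
    dp_cm (dp_symm h), fun d hd => ?_, a4, b4⟩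
  · rintro σ ⟨b, hb⟩ τ ⟨c, hc⟩
    have := h.2.2.1 _ hb _ hc
    rw [tt_mul, tt_mul] at this
    exact (tr_tp_inj this).2
  · obtain ⟨b, ρ, c, τ, h1, h2, e⟩ := dec _ (tp_mem_E hσ)
    rw [tt_mul, ← one_mul (tp 2 J σ), ← tr_zero] at e
    exact ⟨ρ, ⟨b, h1⟩, τ, ⟨c, h2⟩, (tr_tp_inj e).2⟩
  · obtain ⟨b, ρ, c, τ, h1, h2, e⟩ := dec _ (tr_mem_E hd)
    rw [tt_mul, ← mul_one (tr J d), ← tp_one] at e
    obtain ⟨e1, e2⟩ := tr_tp_inj e
    obtain rfl : ρ = 1 := Equiv.ext fun i => by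
      by_contra hi
      obtain ⟨d, d1, d2⟩ := exists_moved h3 hi
      exact d2 (dj _ (dp_cm h ρ ⟨b, h1⟩ d d1) (dp_cm (dp_symm h) ρ
        (eq_inv_of_mul_eq_one_left e2.symm ▸ inv_mem ⟨c, h2⟩) d d1))
    obtain rfl : 1 = τ := by simpa using e2
    exact ⟨b, by simpa [vec] using h1, c, by simpa [vec] using h2, e1⟩

/-- the pointwise stabiliser of some blocks -/
def Fx (J : Type*) (q : I → Prop) : Subgroup (Perm (Om I 2 J)) where
  carrier := {t | ∀ y c, q y → t (Sum.inl (y, c)) = Sum.inl (y, c)}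
  one_mem' := fun _ _ _ => rfl
  mul_mem' := fun ha hb y c h => by rw [Perm.mul_apply, hb y c h, ha y c h]
  inv_mem' := fun ha y c h => by rw [Perm.inv_eq_iff_eq, ha y c h]

theorem e2_ne {i j : I} (h : i ≠ j) : tr J (e2 i j) ≠ 1 := fun e => by
  simpa [e2, h] using congrFun (tr_eq_one e) i

theorem dec_intrans {x i j : I} (hx : ∀ σ ∈ Q, σ x = x) {X : Finset I}
    (hX : ∀ σ ∈ Q, ∀ x ∈ X, σ x ∈ X) (h1 : x ∉ X) (hi : i ∈ X) (hj : j ∉ X) (hj' : j ≠ x) :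
    Dec (E J Q.1) := by
  refine ⟨E J Q.1 ⊓ Fx J fun y => y ∉ X ∧ y ≠ x, E J Q.1 ⊓ Fx J (· ∈ X),
    Subgroup.ne_bot_iff_exists_ne_one.2 ⟨⟨_, tr_mem_E (sum_e2 i x), fun y c h => ?_⟩,
      fun e => e2_ne (i := i) (j := x) (fun e => h1 (e ▸ hi)) (congrArg Subtype.val e)⟩,
    Subgroup.ne_bot_iff_exists_ne_one.2 ⟨⟨_, tr_mem_E (sum_e2 j x), fun y c h => ?_⟩,
      fun e => e2_ne hj' (congrArg Subtype.val e)⟩, inf_le_left, inf_le_left, ?_,
    eq_bot_iff.2 ?_, le_antisymm (sup_le inf_le_left inf_le_left) fun t ht => ?_⟩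
  · have : y ≠ i := fun e => h.1 (e ▸ hi)
    simp [e2, this, h.2]
  · have e1 : y ≠ j := fun e => hj (e ▸ h)
    have e2' : y ≠ x := fun e => h1 (e ▸ h)
    simp [e2, e1, e2']
  · rintro s ⟨s1, s2⟩ t ⟨t1, t2⟩
    obtain ⟨b, σ, -, hσ, hs⟩ := mem_E.1 s1
    obtain ⟨c, τ, -, hτ, ht⟩ := mem_E.1 t1
    refine om_ext (fun y z => ?_) fun _ => by rw [hs, ht]; rfl
    by_cases e : y ∈ X
    · rw [Perm.mul_apply, Perm.mul_apply, t2 y z e, hs]
      exact (t2 _ _ (hX σ hσ y e)).symm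
    by_cases e' : y = x
    · simp [hs, ht, e', hx σ hσ, hx τ hτ, add_right_comm]
    · rw [Perm.mul_apply, Perm.mul_apply, s2 y z ⟨e, e'⟩, ht]
      exact s2 _ _ ⟨fun h => e (by simpa using hX _ (inv_mem hτ) _ h),
        fun h => e' (τ.injective (h.trans (hx τ hτ).symm))⟩
  · rintro t ⟨⟨t1, t2⟩, -, t3⟩
    obtain ⟨b, σ, hb, hσ, rfl⟩ := mem_E.1 t1
    have k : ∀ y ≠ x, σ y = y ∧ b (σ y) = 0 := fun y hy => by
      by_cases e : y ∈ X
      · simpa using t3 y 0 e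
      · simpa using t2 y 0 ⟨e, hy⟩
    rw [sum_eq_single x (fun y _ hy => (k y hy).1 ▸ (k y hy).2) (by simp)] at hb
    refine Subgroup.mem_bot.2 (om_ext (fun y z => ?_) fun _ => rfl)
    by_cases e : y = x
    · simp [e, hx σ hσ, hb]
    · simp [(k y e).1, (k y e).1 ▸ (k y e).2]
  · obtain ⟨b, σ, hb, hσ, e⟩ := mem_E.1 ht
    obtain ⟨ρ, hρ, r1, r2⟩ := restrict Q hX hσ
    have k : tr J ((fun y => if y ∈ X then b y else 0) + Pi.single x (∑ y ∈ X, b y)) * tp 2 J ρ ∈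
        E J Q.1 := mem_E.2 ⟨_, ρ, by
          simp [sum_add_distrib, CharTwo.add_self_eq_zero], hρ, rfl⟩
    rw [← mul_inv_cancel_left (tr J ((fun y => if y ∈ X then b y else 0) +
      Pi.single x (∑ y ∈ X, b y)) * tp 2 J ρ) t]
    refine Subgroup.mul_mem_sup ⟨k, fun y c h => ?_⟩ ⟨(E J Q.1).mul_mem ((E J Q.1).inv_mem k) ht, fun y c h => ?_⟩
    · simp [r2 y h.1, h.1, h.2]
    · have e1 := hX σ hσ y h
      have e2 : σ y ≠ x := fun e => h1 (e ▸ e1)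
      rw [Perm.mul_apply, Perm.inv_eq_iff_eq, e]
      simp [r1 y h, e1, e2]

theorem dec_two (h : Fintype.card I = 2) : Dec (E J Q.1) := by
  obtain ⟨i, j, hij, hu⟩ := card_eq_two.1 h
  obtain ⟨σ, hσ, e⟩ := nofix Q (h ▸ even_two) i
  refine ⟨E J Q.1 ⊓ A I 2 J, (Q : Subgroup (Perm I)).map (tpH I 2 J),
    Subgroup.ne_bot_iff_exists_ne_one.2 ⟨⟨_, tr_mem_E (sum_e2 i j), tr_mem _⟩,
      fun e => e2_ne hij (congrArg Subtype.val e)⟩,
    Subgroup.ne_bot_iff_exists_ne_one.2 ⟨⟨_, σ, hσ, rfl⟩, fun e' => e ?_⟩, inf_le_left, ?_, ?_,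
    eq_bot_iff.2 ?_, le_antisymm (sup_le inf_le_left ?_) fun t ht => ?_⟩
  · simpa [tpH] using DFunLike.congr_fun (congrArg Subtype.val e') (Sum.inl (i, 0))
  · rintro _ ⟨τ, hτ, rfl⟩
    exact tp_mem_E hτ
  · rintro s ⟨s1, s2⟩ _ ⟨τ, -, rfl⟩
    obtain ⟨b, rfl⟩ := mem_A.1 s2
    have h1 := (sign_tt (J := J) b 1).1 (by simpa using s1.2)
    rw [hu, sum_pair hij] at h1
    have h2 := (by decide : ∀ a b : ZMod 2, a + b = 0 → b = a) _ _ h1
    have h3 : ∀ y, b y = b i := fun y => by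
      rcases mem_insert.1 (hu ▸ mem_univ y) with e | e
      · rw [e]
      · rw [mem_singleton.1 e, h2]
    exact ((tp_tr τ b).trans (by simp only [h3]; rw [show (fun _ => b i) = b from
      funext fun y => (h3 y).symm]; rfl)).symm
  · rintro _ ⟨⟨-, s2⟩, τ, -, rfl⟩
    obtain ⟨b, e⟩ := mem_A.1 s2
    have := (tr_tp_inj (J := J) (b := 0) (c := b) (σ := τ) (τ := 1) (by simpa [tpH] using e)).2
    rw [this, map_one]
    exact one_mem _
  · rintro _ ⟨τ, hτ, rfl⟩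
    exact tp_mem_E hτ
  · obtain ⟨b, τ, hb, hτ, rfl⟩ := mem_E.1 ht
    exact Subgroup.mul_mem_sup ⟨tr_mem_E hb, tr_mem _⟩ ⟨τ, hτ, rfl⟩

theorem dec_iff {α : Type*} [Fintype α] [DecidableEq α] (hJ : Fintype.card J < 2)
    (e : α ≃ Om I 2 J) (P : Sylow 2 (alternatingGroup α)) (Q : Sylow 2 (Perm I)) :
    Dec (P : Subgroup (alternatingGroup α)) ↔ Dec (E J Q.1) := by
  obtain ⟨R, hR⟩ := exists_sylow_T hJ Q
  obtain ⟨R', hR'⟩ := (P.isPGroup'.map (e.permCongrHom.toMonoidHom.comp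
    (alternatingGroup α).subtype)).exists_le_sylow
  obtain ⟨g, rfl⟩ := MulAction.exists_smul_eq (Perm (Om I 2 J)) R R'
  let φ := e.permCongrHom.trans (MulAut.conj g).symm
  have hφ : ∀ x, Perm.sign (φ x) = Perm.sign x := fun x => by
    simp [φ, mul_right_comm _ (Perm.sign x)]
  have hf : Function.Injective (φ.toMonoidHom.comp (alternatingGroup α).subtype) :=
    φ.injective.comp Subtype.val_injective
  have h1 := P.is_maximal' (Q := (E J Q.1).comap (φ.toMonoidHom.comp (alternatingGroup α).subtype))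
    ((hR ▸ R.isPGroup' : IsPGroup 2 (T 2 J Q.1)).to_inf_left.comap_of_injective _ hf) fun x hx =>
      ⟨hR ▸ Subgroup.mem_pointwise_smul_iff_inv_smul_mem.1 (hR' ⟨x, hx, rfl⟩), (hφ x).trans x.2⟩
  rw [← dec_map hf, ← h1, Subgroup.map_comap_eq_self fun x hx =>
    ⟨⟨φ.symm x, (hφ _).symm.trans (by rw [φ.apply_symm_apply]; exact hx.2)⟩, φ.apply_symm_apply x⟩]

theorem dec_odd (J : Type*) [Fintype J] [DecidableEq J] (h3 : 3 ≤ Fintype.card I)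
    (h : ¬ Even (Fintype.card I)) : ∃ Q : Sylow 2 (Perm I),
      (Dec (E J Q.1) ↔ ∀ r, Fintype.card I - 1 ≠ 2 ^ r) := by
  by_cases hr : ∀ r, Fintype.card I - 1 ≠ 2 ^ r
  · obtain ⟨Q⟩ : Nonempty (Sylow 2 (Perm I)) := inferInstance
    refine ⟨Q, iff_of_true ?_ hr⟩
    obtain ⟨x, hx⟩ := exists_fix Q h
    obtain ⟨i, hi⟩ := Fintype.exists_ne_of_one_lt_card (by omega : 1 < Fintype.card I) x
    classical
    obtain ⟨k, hk⟩ := Q.isPGroup'.card_orbit i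
    have h1 : x ∉ MulAction.orbit Q.1 i := by
      rintro ⟨σ, e⟩
      exact hi (σ.1.injective (e.trans (hx σ σ.2).symm))
    have h2 : ∃ j ≠ x, j ∉ MulAction.orbit Q.1 i := by
      by_contra hn
      push Not at hn
      refine hr k ?_
      rw [← hk, Nat.card_eq_card_toFinset, ← card_univ, ← card_erase_of_mem (mem_univ x)]
      congr 1
      ext y
      simpa using ⟨hn y, fun hy e => h1 (e ▸ hy)⟩
    obtain ⟨j, j1, j2⟩ := h2
    exact dec_intrans hx (X := (MulAction.orbit Q.1 i).toFinset) (i := i) (j := j)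
      (fun σ hσ y hy => by
        rw [Set.mem_toFinset] at hy ⊢
        exact MulAction.mem_orbit_of_mem_orbit (⟨σ, hσ⟩ : Q.1) hy)
      (by simpa using h1) (by simp) (by simpa using j2) j1
  · obtain ⟨r, hr'⟩ := not_forall.1 hr
    rw [not_not] at hr'
    obtain ⟨c, hc⟩ := (Perm.exists_with_cycleType_iff I (m := {2 ^ r})).2
      ⟨by simp; omega, by simp; omega⟩
    have h1 : c.IsCycle := Perm.card_cycleType_eq_one.1 (by simp [hc])
    have h2 : #c.support = 2 ^ r := by simp [← Perm.sum_cycleType, hc]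
    obtain ⟨Q, hQ⟩ := (IsPGroup.of_card (G := Subgroup.zpowers c) (p := 2) (n := r) (by
      rw [Nat.card_zpowers, h1.orderOf, h2])).exists_le_sylow
    refine ⟨Q, iff_of_false (fun hd => ?_) hr⟩
    obtain ⟨x, hx⟩ := exists_fix Q h
    obtain ⟨_, _, _, _, hd⟩ := hd.dat h3
    have h4 : c.support = univ.erase x := eq_of_subset_of_card_le (fun y hy => by
      simp only [mem_erase, mem_univ, and_true]
      rintro rfl
      exact Perm.mem_support.1 hy (hx c (hQ (Subgroup.mem_zpowers c)))) (by simp [h2, hr'])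
    refine hd.not_trans hx fun y hy z hz => ?_
    obtain ⟨n, e⟩ := h1.exists_zpow_eq (x := y) (y := z) (Perm.mem_support.1 (by simp [h4, hy]))
      (Perm.mem_support.1 (by simp [h4, hz]))
    exact ⟨_, hQ ⟨n, rfl⟩, e⟩

end Cfsg.Lib.Class.AltSyl
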