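import Mathlib

/-!
# Vector spaces over an extension field: basic lemmas

`V` is a vector space over `K`, a finite extension of the finite field `F`.
-/

set_option autoImplicit false
set_option linter.unusedSectionVars false

namespace Cfsg.Lib.Class.FE

open Module Submodule

section Dual

variable {K V : Type*} [Field K] [AddCommGroup V] [Module K V]

theorem exists_dual_of_notMem {W : Submodule K V} {x : V} (hx : x ∉ W) (c : K) :
    ∃ φ : Dual K V, φ x = c ∧ ∀ y ∈ W, φ y = 0 := by
  obtain ⟨f, hf, hW⟩ := W.exists_le_ker_of_notMem hx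
  refine ⟨(c / f x) • f, by simp [hf], fun y hy ↦ ?_⟩
  simp [LinearMap.mem_ker.1 (hW hy)]

theorem exists_dual_pair {v x : V} (hx : x ∉ span K {v}) (a : K) :
    ∃ φ : Dual K V, φ v = 0 ∧ φ x = a := by
  obtain ⟨φ, h1, h2⟩ := exists_dual_of_notMem hx a
  exact ⟨φ, h2 v (mem_span_singleton_self v), h1⟩

theorem exists_dual_eq {v : V} (hv : v ≠ 0) (a : K) : ∃ φ : Dual K V, φ v = a := by
  obtain ⟨φ, h1, -⟩ := exists_dual_of_notMem (W := (⊥ : Submodule K V)) (by simpa using hv) a
  exact ⟨φ, h1⟩

theorem notMem_span_symm {v x : V} (hv : v ≠ 0) (hx : x ∉ span K {v}) : v ∉ span K {x} := by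
  intro h
  obtain ⟨a, rfl⟩ := mem_span_singleton.1 h
  have ha : a ≠ 0 := by rintro rfl; simp at hv
  exact hx (mem_span_singleton.2 ⟨a⁻¹, by simp [ha]⟩)

theorem exists_dual_pair' {v x : V} (hv : v ≠ 0) (hx : x ∉ span K {v}) (a b : K) :
    ∃ φ : Dual K V, φ v = a ∧ φ x = b := by
  obtain ⟨φ, h1, h2⟩ := exists_dual_pair hx b
  obtain ⟨ψ, h3, h4⟩ := exists_dual_pair (notMem_span_symm hv hx) a
  exact ⟨φ + ψ, by simp [h1, h4], by simp [h2, h3]⟩

theorem dual_eq_zero_of_mem_span {v y : V} {φ : Dual K V} (h : φ v = 0) (hy : y ∈ span K {v}) :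
    φ y = 0 := by
  obtain ⟨a, rfl⟩ := mem_span_singleton.1 hy
  simp [h]

theorem exists_notMem_span [FiniteDimensional K V] (hm : 2 ≤ finrank K V) (v : V) :
    ∃ x, x ∉ span K {v} := by
  by_contra! h
  have h1 : span K {v} = ⊤ := eq_top_iff.2 fun x _ ↦ h x
  have h2 := finrank_span_le_card (R := K) ({v} : Set V)
  rw [h1, finrank_top] at h2
  simp at h2
  omega

theorem exists_notMem_span_pair [FiniteDimensional K V] (hm : 3 ≤ finrank K V) (v w : V) :
    ∃ x, x ∉ span K {v, w} := by
  classical
  by_contra! h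
  have h1 : span K {v, w} = ⊤ := eq_top_iff.2 fun x _ ↦ h x
  have h2 := finrank_span_finset_le_card (R := K) ({v, w} : Finset V)
  rw [Set.finrank, Finset.coe_pair, h1, finrank_top] at h2
  have := Finset.card_le_two (a := v) (b := w)
  omega

theorem span_singleton_eq_of_mem {v y : V} (hy : y ∈ span K {v}) (h0 : y ≠ 0) :
    span K {y} = span K {v} := by
  obtain ⟨a, rfl⟩ := mem_span_singleton.1 hy
  exact span_singleton_smul_eq (IsUnit.mk0 a (by rintro rfl; simp at h0)) v

end Dual

variable {F K V : Type*} [Field F] [Field K] [Algebra F K] [AddCommGroup V] [Module F V]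
  [Module K V] [IsScalarTower F K V]

section Norm

variable [Finite K]

theorem card_lt_card_mul_normOne (hr : 2 ≤ finrank F K) :
    Nat.card K < Nat.card F * Nat.card {c : K // Algebra.norm F c = 1} := by
  have : Finite F := Finite.of_injective _ (algebraMap F K).injective
  let N : Kˣ →* Fˣ := Units.map (Algebra.norm F)
  have h1 : Nat.card N.ker * N.ker.index = Nat.card Kˣ := N.ker.card_mul_index
  have h2 : N.ker.index ≤ Nat.card Fˣ := by
    rw [Subgroup.index_ker]
    exact Nat.card_le_card_of_injective _ Subtype.val_injective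
  have h3 : Nat.card N.ker ≤ Nat.card {c : K // Algebra.norm F c = 1} :=
    Nat.card_le_card_of_injective
      (fun x : N.ker ↦ (⟨x.1.1, congrArg Units.val x.2⟩ : {c : K // Algebra.norm F c = 1}))
      fun x y h ↦ Subtype.ext (Units.ext (congrArg Subtype.val h))
  rw [Nat.card_units] at h1 h2
  have hq : 2 ≤ Nat.card F := Finite.one_lt_card
  have h4 : Nat.card F * Nat.card F ≤ Nat.card K := by
    rw [Module.natCard_eq_pow_finrank (K := F) (V := K), ← pow_two]
    exact Nat.pow_le_pow_right (by omega) hr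
  have h5 := h1 ▸ Nat.mul_le_mul h3 h2
  clear h1 h2 h3
  generalize Nat.card {c : K // Algebra.norm F c = 1} = a at *
  generalize Nat.card F = q at *
  generalize Nat.card K = k at *
  obtain ⟨q, rfl⟩ : ∃ q', q = q' + 1 := ⟨q - 1, by omega⟩
  simp only [Nat.add_sub_cancel] at h5
  rcases Nat.lt_or_ge a 2 with h | h
  · have : a * q ≤ 1 * q := Nat.mul_le_mul_right _ (by omega)
    have : k ≤ q + 1 := by omega
    nlinarith
  · have : k ≤ a * q + 1 := by omega
    nlinarith

theorem sq_card_le (hr : 2 ≤ finrank F K) : Nat.card F * Nat.card F ≤ Nat.card K := by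
  have : Finite F := Finite.of_injective _ (algebraMap F K).injective
  rw [Module.natCard_eq_pow_finrank (K := F) (V := K), ← pow_two]
  exact Nat.pow_le_pow_right Nat.card_pos hr

/-- The elements of norm one generate `K` as a ring. -/
theorem subring_eq_top_of_normOne (hr : 2 ≤ finrank F K) (L : Subring K)
    (hL : ∀ c : K, Algebra.norm F c = 1 → c ∈ L) : L = ⊤ := by
  have := Fintype.ofFinite K
  let L' : Subfield K :=
    { L with
      inv_mem' := fun x hx ↦ by
        by_cases h0 : x = 0
        · simp [h0]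
        · have h1 : x ^ (Fintype.card K - 1) = 1 := FiniteField.pow_card_sub_one_eq_one x h0
          have h2 : 2 ≤ Fintype.card K := Fintype.one_lt_card
          have : x⁻¹ = x ^ (Fintype.card K - 2) := by
            apply inv_eq_of_mul_eq_one_right
            rw [← pow_succ', ← h1]
            congr 1
            omega
          rw [this]
          exact L.pow_mem hx _ }
  have h1 := card_lt_card_mul_normOne hr
  have h2 : Nat.card {c : K // Algebra.norm F c = 1} ≤ Nat.card L' :=
    Nat.card_le_card_of_injective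
      (fun x : {c : K // Algebra.norm F c = 1} ↦ (⟨x.1, hL x.1 x.2⟩ : L'))
      fun x y h ↦ Subtype.ext (congrArg (fun z : L' ↦ (z : K)) h)
  have h3 := sq_card_le hr
  have h4 := Module.natCard_eq_pow_finrank (K := L') (V := K)
  have h5 : finrank L' K = 1 := by
    by_contra h
    have h6 : 2 ≤ finrank L' K := by
      have : 0 < finrank L' K := finrank_pos
      omega
    have h7 : Nat.card L' * Nat.card L' ≤ Nat.card K := by
      rw [h4, ← pow_two]
      exact Nat.pow_le_pow_right Nat.card_pos h6
    have h8 : Nat.card K < Nat.card F * Nat.card L' :=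
      h1.trans_le (Nat.mul_le_mul_left _ h2)
    nlinarith
  rw [h5, pow_one] at h4
  have h9 : (L : Set K) = Set.univ :=
    Set.eq_of_subset_of_ncard_le (Set.subset_univ _) (by
      rw [Set.ncard_univ, h4, ← Nat.card_coe_set_eq]; rfl)
  exact SetLike.coe_injective h9

end Norm

theorem exists_notMem_range (hr : 2 ≤ finrank F K) : ∃ k : K, k ∉ Set.range (algebraMap F K) := by
  by_contra! h
  have : (⊥ : Subalgebra F K) = ⊤ := eq_top_iff.2 fun x _ ↦ Algebra.mem_bot.2 (h x)
  rw [Subalgebra.bot_eq_top_iff_finrank_eq_one] at this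
  omega

/-- In an extension of prime degree, an element outside `F` stabilises no proper non-zero
`F`-subspace of a `K`-line. -/
theorem exists_smul_notMem (hr : (finrank F K).Prime) {W : Submodule F V} {v : V}
    (hW : ∀ y ∈ W, y ∈ span K {v}) (h0 : W ≠ ⊥) (h1 : ∃ x ∈ span K {v}, x ∉ W) {k : K}
    (hk : k ∉ Set.range (algebraMap F K)) : ∃ y ∈ W, k • y ∉ W := by
  by_contra! h
  let E : Subalgebra F K :=
    { carrier := {a | ∀ y ∈ W, a • y ∈ W}
      mul_mem' := fun {a b} ha hb y hy ↦ by rw [mul_smul]; exact ha _ (hb y hy)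
      add_mem' := fun {a b} ha hb y hy ↦ by rw [add_smul]; exact W.add_mem (ha y hy) (hb y hy)
      algebraMap_mem' := fun c y hy ↦ by rw [algebraMap_smul]; exact W.smul_mem c hy }
  rcases (Subalgebra.isSimpleOrder_of_finrank_prime F K hr).eq_bot_or_eq_top E with hE | hE
  · exact hk (Algebra.mem_bot.1 (hE ▸ (h : k ∈ E)))
  · obtain ⟨y, hy, hy0⟩ := (Submodule.ne_bot_iff W).1 h0
    obtain ⟨x, hx, hxW⟩ := h1
    rw [← span_singleton_eq_of_mem (hW y hy) hy0] at hx
    obtain ⟨a, rfl⟩ := mem_span_singleton.1 hx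
    exact hxW ((hE ▸ Algebra.mem_top : a ∈ E) y hy)

theorem finrank_span_singleton_restrict {v : V} (hv : v ≠ 0) :
    finrank F ((span K {v}).restrictScalars F) = finrank F K :=
  ((LinearEquiv.toSpanNonzeroSingleton K V v hv).restrictScalars F).finrank_eq.symm

theorem card_span_singleton_le [Finite K] (v : V) : Nat.card (span K {v}) ≤ Nat.card K :=
  Nat.card_le_card_of_surjective
    (fun a : K ↦ (⟨a • v, mem_span_singleton.2 ⟨a, rfl⟩⟩ : span K {v})) fun x ↦ by
      obtain ⟨a, ha⟩ := mem_span_singleton.1 x.2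
      exact ⟨a, Subtype.ext ha⟩

/-- An `F`-linear map sending every vector into its `K`-line is a `K`-scalar. -/
theorem exists_eq_smul_of_forall_mem [FiniteDimensional K V] (hm : 2 ≤ finrank K V)
    (h : V →+ V) (hh : ∀ x, h x ∈ span K {x}) : ∃ k : K, ∀ x, h x = k • x := by
  have key : ∀ v x, v ≠ 0 → x ∉ span K {v} → ∀ k : K, h v = k • v → h x = k • x := by
    intro v x hv hx k hk
    obtain ⟨a, ha⟩ := mem_span_singleton.1 (hh x)
    obtain ⟨b, hb⟩ := mem_span_singleton.1 (hh (v + x))
    rw [map_add, hk, ← ha] at hb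
    obtain ⟨φ, h1, h2⟩ := exists_dual_pair' hv hx 1 0
    obtain ⟨ψ, h3, h4⟩ := exists_dual_pair' hv hx 0 1
    have e1 := congrArg φ hb
    have e2 := congrArg ψ hb
    simp [h1, h2, h3, h4] at e1 e2
    rw [← ha, ← e1, e2]
  obtain ⟨v, hv⟩ := exists_notMem_span hm (0 : V)
  have hv0 : v ≠ 0 := fun h ↦ hv (by rw [h]; exact zero_mem _)
  obtain ⟨k, hk⟩ := mem_span_singleton.1 (hh v)
  obtain ⟨u, hu⟩ := exists_notMem_span hm v
  have hu0 : u ≠ 0 := fun h ↦ hu (h ▸ zero_mem _)
  refine ⟨k, fun x ↦ ?_⟩
  by_cases hx : x ∈ span K {v}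
  · by_cases hx0 : x = 0
    · simp [hx0]
    refine key u x hu0 ?_ k (key v u hv0 hu k hk.symm)
    refine notMem_span_symm hx0 ?_
    rwa [span_singleton_eq_of_mem hx hx0]
  · exact key v x hv0 hx k hk.symm

/-- The `K`-linear map `x ↦ φ x • v`, as an `F`-linear map. -/
def kt (F : Type*) [Field F] [Algebra F K] [Module F V] [IsScalarTower F K V]
    (φ : Dual K V) (v : V) : Module.End F V :=
  (φ.smulRight v).restrictScalars F

@[simp] theorem kt_apply (φ : Dual K V) (v x : V) : kt F φ v x = φ x • v := rfl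

theorem exists_unit_dilatransvection [FiniteDimensional F K] [FiniteDimensional K V]
    (φ : Dual K V) (v : V) (h : 1 + φ v ≠ 0) :
    ∃ g : (Module.End F V)ˣ, (∀ x, (g : Module.End F V) x = x + φ x • v) ∧
      LinearMap.det (g : Module.End F V) = Algebra.norm F (1 + φ v) := by
  have : FiniteDimensional F V := Module.Finite.trans K V
  have hd : LinearMap.det ((LinearMap.transvection φ v).restrictScalars F) =
      Algebra.norm F (1 + φ v) := by
    rw [LinearMap.det_restrictScalars, LinearMap.transvection.det]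
  have hu : IsUnit ((LinearMap.transvection φ v).restrictScalars F : Module.End F V) := by
    rw [LinearMap.isUnit_iff_isUnit_det, hd, isUnit_iff_ne_zero]
    exact Algebra.norm_ne_zero_iff.2 h
  exact ⟨hu.unit, fun x ↦ rfl, hd⟩

/-- An invertible map normalising `K` has a fixed space which is a `K`-subspace or has at most
half the dimension. -/
theorem finrank_fixed_of_normalizes [FiniteDimensional F K] [FiniteDimensional K V]
    (g : Module.End F V) (hg : ∀ k : K, ∃ k' : K, ∀ x, g (k • x) = k' • g x) :
    finrank F K ∣ finrank F (LinearMap.ker (g - 1)) ∨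
      2 * finrank F (LinearMap.ker (g - 1)) ≤ finrank F V := by
  have : FiniteDimensional F V := Module.Finite.trans K V
  set W := LinearMap.ker (g - 1) with hW
  have hmem : ∀ x, x ∈ W ↔ g x = x := fun x ↦ by simp [hW, sub_eq_zero]
  by_cases h : ∀ (k : K), ∀ x ∈ W, k • x ∈ W
  · left
    let W' : Submodule K V :=
      { W.toAddSubmonoid with smul_mem' := fun k x hx ↦ h k x hx }
    have : finrank F W = finrank F W' := rfl
    rw [this, ← Module.finrank_mul_finrank F K W']
    exact dvd_mul_right _ _
  · right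
    push Not at h
    obtain ⟨k, x, hx, hkx⟩ := h
    obtain ⟨k', hk'⟩ := hg k
    have hne : k' ≠ k := by
      rintro rfl
      exact hkx ((hmem _).2 (by rw [hk', (hmem x).1 hx]))
    have hk0 : k ≠ 0 := by rintro rfl; simp at hkx
    let s : Module.End F V := (LinearMap.lsmul K V k).restrictScalars F
    have hs : Function.Injective s := smul_right_injective V hk0
    have h1 : finrank F (W.map s) = finrank F W :=
      (Submodule.equivMapOfInjective s hs W).finrank_eq.symm
    have h2 : W ⊓ W.map s = ⊥ := by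
      rw [eq_bot_iff]
      rintro _ ⟨hy, y, hy', rfl⟩
      have e := (hmem _).1 hy
      change g (k • y) = k • y at e
      rw [hk', (hmem y).1 hy', ← sub_eq_zero, ← sub_smul, smul_eq_zero] at e
      rcases e with e | e
      · exact absurd (sub_eq_zero.1 e) hne
      · simp [e]
    have h3 := Submodule.finrank_sup_add_finrank_inf_eq W (W.map s)
    rw [h2, finrank_bot, h1] at h3
    have := Submodule.finrank_le (W ⊔ W.map s)
    omega

end Cfsg.Lib.Class.FE
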