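import Cfsg.Agent.Class.FieldExtMax
import Cfsg.Agent.Class.Asch.FieldSub
import Cfsg.Agent.Class.Tv

/-!
# Normalisers of subfields of the matrix algebra
-/

set_option autoImplicit false
set_option linter.unusedSectionVars false

namespace Cfsg.Lib.Class

open Matrix Module Cfsg.Geo Cfsg.Lib.Class.Asch
open scoped MatrixGroups

variable {ι : Type} [Fintype ι] [DecidableEq ι] {F : Type*} [Field F]

theorem mem_subalgebraNormalizer_of_comm {K : Subalgebra F (Matrix ι ι F)} {g : GL ι F}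
    (h : ∀ k ∈ K, (g : Matrix ι ι F) * k = k * g) : g ∈ subalgebraNormalizer K := by
  intro k
  constructor
  · intro hk
    rwa [h k hk, mul_assoc, Units.mul_inv, mul_one]
  · intro hk
    have := h _ hk
    rw [mul_assoc, mul_assoc, mul_assoc, Units.inv_mul, mul_one, Units.mul_right_inj,
      ← mul_assoc] at this
    rwa [← this]

theorem exists_GL_of_unit (g : (Module.End F (ι → F))ˣ) : ∃ g₀ : GL ι F,
    GeneralLinearGroup.toLin g₀ = g ∧
    (∀ x, (g₀ : Matrix ι ι F) *ᵥ x = (g : Module.End F (ι → F)) x) ∧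
    (g₀ : Matrix ι ι F).det = LinearMap.det (g : Module.End F (ι → F)) := by
  obtain ⟨g₀, rfl⟩ := (GeneralLinearGroup.toLin (n := ι) (R := F)).surjective g
  exact ⟨g₀, rfl, fun x ↦ rfl, (LinearMap.det_toLin' _).symm⟩

theorem finrank_fixed_of_mem_normalizer [Nonempty ι] {r : ℕ} {K : Subalgebra F (Matrix ι ι F)}
    (hK : IsFieldSubalgebra r K) {g : GL ι F} (hg : g ∈ subalgebraNormalizer K) :
    r ∣ finrank F (LinearMap.ker (toLin' (g : Matrix ι ι F) - 1)) ∨
      2 * finrank F (LinearMap.ker (toLin' (g : Matrix ι ι F) - 1)) ≤ Fintype.card ι := by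
  let _ := (isField_of_isFieldSubalgebra hK).toField
  have : FiniteDimensional K (ι → F) := Module.Finite.of_restrictScalars_finite F K _
  have := FE.finrank_fixed_of_normalizes (K := K) (toLin' (g : Matrix ι ι F)) fun k ↦
    ⟨⟨_, (hg k).1 k.2⟩, fun x ↦ by
      change (g : Matrix ι ι F) *ᵥ ((k : Matrix ι ι F) *ᵥ x) = _ *ᵥ ((g : Matrix ι ι F) *ᵥ x)
      simp only [mulVec_mulVec, mul_assoc, Units.inv_mul, mul_one]⟩
  rwa [hK.finrank_eq, finrank_fintype_fun_eq_card] at this

theorem two_le_finrank_of_lt [Nonempty ι] {r : ℕ} {K : Subalgebra F (Matrix ι ι F)}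
    (hK : IsFieldSubalgebra r K) (hlt : r < Fintype.card ι) :
    letI := (isField_of_isFieldSubalgebra hK).toField
    2 ≤ finrank K (ι → F) := by
  let _ := (isField_of_isFieldSubalgebra hK).toField
  have h1 := Module.finrank_mul_finrank F K (ι → F)
  rw [hK.finrank_eq, Module.finrank_fintype_fun_eq_card] at h1
  by_contra h
  have : r * finrank K (ι → F) ≤ r * 1 := Nat.mul_le_mul_left _ (by omega)
  omega

theorem exists_mem_normalizer_dil [Nonempty ι] {r : ℕ} {K : Subalgebra F (Matrix ι ι F)}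
    (hK : IsFieldSubalgebra r K) :
    letI := (isField_of_isFieldSubalgebra hK).toField
    ∀ (φ : Dual K (ι → F)) (v : ι → F), 1 + φ v ≠ 0 → ∃ g ∈ subalgebraNormalizer K,
      (∀ x, (g : Matrix ι ι F) *ᵥ x = x + φ x • v) ∧
        (g : Matrix ι ι F).det = Algebra.norm F (1 + φ v) := by
  let _ := (isField_of_isFieldSubalgebra hK).toField
  have : FiniteDimensional K (ι → F) := Module.Finite.of_restrictScalars_finite F K _
  intro φ v h
  obtain ⟨g, e, hd⟩ := FE.exists_unit_dilatransvection (F := F) φ v h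
  obtain ⟨g₀, -, e₀, hd₀⟩ := exists_GL_of_unit g
  refine ⟨g₀, mem_subalgebraNormalizer_of_comm fun k hk ↦ mat_ext_mulVec fun x ↦ ?_,
    fun x ↦ by rw [e₀, e], hd₀.trans hd⟩
  rw [← mulVec_mulVec, ← mulVec_mulVec, e₀, e₀, e, e]
  change (⟨k, hk⟩ : K) • x + φ ((⟨k, hk⟩ : K) • x) • v = (⟨k, hk⟩ : K) • (x + φ x • v)
  rw [map_smul, smul_add, smul_eq_mul, mul_smul]

theorem exists_mem_normalizer_finrank_fixed [Nonempty ι] {r : ℕ}
    {K : Subalgebra F (Matrix ι ι F)} (hK : IsFieldSubalgebra r K) (hlt : r < Fintype.card ι) :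
    ∃ g ∈ subalgebraNormalizer K ⊓ specialLinear ι F,
      finrank F (LinearMap.ker (toLin' (g : Matrix ι ι F) - 1)) + r = Fintype.card ι := by
  let _ := (isField_of_isFieldSubalgebra hK).toField
  have : FiniteDimensional K (ι → F) := Module.Finite.of_restrictScalars_finite F K _
  have hm := two_le_finrank_of_lt hK hlt
  obtain ⟨v, hv⟩ := FE.exists_notMem_span hm (0 : ι → F)
  replace hv : v ≠ 0 := fun h ↦ hv (by rw [h]; exact zero_mem _)
  obtain ⟨u, hu⟩ := FE.exists_notMem_span hm v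
  obtain ⟨φ, h1, h2⟩ := FE.exists_dual_pair hu 1
  obtain ⟨g, hg, e, hd⟩ := exists_mem_normalizer_dil hK φ v (by simp [h1])
  refine ⟨g, ⟨hg, Units.ext (by simpa [h1] using hd)⟩, ?_⟩
  have hr : LinearMap.range (toLin' (g : Matrix ι ι F) - 1) =
      (Submodule.span K {v}).restrictScalars F := by
    ext y
    simp only [LinearMap.mem_range, LinearMap.sub_apply, toLin'_apply, e, Module.End.one_apply,
      add_sub_cancel_left, Submodule.restrictScalars_mem, Submodule.mem_span_singleton]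
    constructor
    · rintro ⟨x, hx⟩
      exact ⟨_, hx⟩
    · rintro ⟨a, ha⟩
      refine ⟨a • u, ?_⟩
      rw [map_smul, h2, smul_eq_mul, mul_one, ha]
  have := (toLin' (g : Matrix ι ι F) - 1).finrank_range_add_finrank_ker
  rw [hr, FE.finrank_span_singleton_restrict hv, hK.finrank_eq, finrank_fintype_fun_eq_card] at this
  omega

theorem not_SL_le_subalgebraNormalizer [Nonempty ι] [Finite F] {r : ℕ}
    {K : Subalgebra F (Matrix ι ι F)} (hK : IsFieldSubalgebra r K) (hr : 2 ≤ r)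
    (hlt : r < Fintype.card ι) : ¬ specialLinear ι F ≤ subalgebraNormalizer K := by
  intro h
  obtain ⟨K₁, -, hK₁⟩ := IsFieldSubalgebra.exists_le hK (one_dvd r)
  obtain ⟨g, hg, hd⟩ := exists_mem_normalizer_finrank_fixed hK₁ (by omega)
  have hdvd := IsFieldSubalgebra.dvd_card hK
  rcases finrank_fixed_of_mem_normalizer hK (h hg.2) with h1 | h1
  · rw [← hd] at hdvd
    have := Nat.le_of_dvd one_pos ((Nat.dvd_add_right h1).1 hdvd)
    omega
  · omega

theorem exists_mem_subalgebraNormalizer_det [Nonempty ι] [Finite F] {r : ℕ}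
    {K : Subalgebra F (Matrix ι ι F)} (hK : IsFieldSubalgebra r K) (c : Fˣ) :
    ∃ g ∈ subalgebraNormalizer K, GeneralLinearGroup.det g = c := by
  let _ := (isField_of_isFieldSubalgebra hK).toField
  obtain ⟨k, hk⟩ := FiniteField.norm_surjective F K c
  obtain ⟨v, hv⟩ := exists_ne (0 : ι → F)
  obtain ⟨φ, hφ⟩ := FE.exists_dual_eq hv (k - 1)
  have hk0 : k ≠ 0 := by
    rintro rfl
    exact c.ne_zero (by rw [← hk, Algebra.norm_zero])
  obtain ⟨g, hg, -, hd⟩ := exists_mem_normalizer_dil hK φ v (by simpa [hφ] using hk0)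
  exact ⟨g, hg, Units.ext (by simpa [hφ, hk] using hd)⟩

/-- **Li Shangzhi, Dye**: an overgroup of `N(K) ∩ SL` not normalising `K` contains `SL`. -/
theorem SL_le_of_not_le_subalgebraNormalizer [Nonempty ι] [Finite F] {r : ℕ}
    {K : Subalgebra F (Matrix ι ι F)} (hK : IsFieldSubalgebra r K) (hr : r.Prime)
    (hlt : r < Fintype.card ι) {X : Subgroup (GL ι F)}
    (hX : subalgebraNormalizer K ⊓ specialLinear ι F ≤ X) (hN : ¬ X ≤ subalgebraNormalizer K) :
    specialLinear ι F ≤ X := by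
  let _ := (isField_of_isFieldSubalgebra hK).toField
  have : FiniteDimensional K (ι → F) := Module.Finite.of_restrictScalars_finite F K _
  have hm := two_le_finrank_of_lt hK hlt
  let X' : Subgroup (Module.End F (ι → F))ˣ :=
    X.map (GeneralLinearGroup.toLin (n := ι) (R := F)).toMonoidHom
  have hX' : FE.KGen K X' := fun φ v h ↦ by
    obtain ⟨g, hg, e, hd⟩ := exists_mem_normalizer_dil hK φ v (by
      intro h0
      rw [h0, Algebra.norm_zero] at h
      exact zero_ne_one h)
    exact ⟨_, ⟨g, hX ⟨hg, Units.ext (hd.trans h)⟩, rfl⟩, e⟩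
  have hN' : ∃ g ∈ X', ∃ k : K, ∀ k' : K,
      ∃ x, (g : Module.End F (ι → F)) (k • x) ≠ k' • (g : Module.End F (ι → F)) x := by
    by_contra! h
    refine hN (Nrm.le_subalgebraNormalizer fun g hg k hk ↦ ?_)
    obtain ⟨k', hk'⟩ := h _ ⟨g, hg, rfl⟩ ⟨k, hk⟩
    have : (g : Matrix ι ι F) * k = k' * g := mat_ext_mulVec fun x ↦ by
      rw [← mulVec_mulVec, ← mulVec_mulVec]
      exact hk' x
    rw [cj_apply, this, mul_assoc, Units.mul_inv, mul_one]
    exact k'.2
  refine ker_det_le_of_tv X fun v f h ↦ ?_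
  obtain ⟨_, ⟨g, hg, rfl⟩, e⟩ := hX'.tvIn (hK.finrank_eq ▸ hr) hm hN'
    (w := v) (f := dotProductEquiv F ι f) h
  have : g = tv v f := GL_ext_mulVec fun x ↦ by
    rw [tv_mulVec h]
    exact e x
  exact this ▸ hg

theorem isMaximalIn_SL_subalgebraNormalizer [Nonempty ι] [Finite F] {r : ℕ}
    {K : Subalgebra F (Matrix ι ι F)} (hK : IsFieldSubalgebra r K) (hr : r.Prime)
    (hlt : r < Fintype.card ι) :
    IsMaximalIn (specialLinear ι F) (subalgebraNormalizer K ⊓ specialLinear ι F) := by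
  refine ⟨lt_of_le_of_ne inf_le_right fun h ↦
    not_SL_le_subalgebraNormalizer hK hr.two_le hlt (h.ge.trans inf_le_left), fun M h1 h2 ↦ ?_⟩
  by_cases h : M ≤ subalgebraNormalizer K
  · exact Or.inl (le_antisymm (le_inf h h2) h1)
  · exact Or.inr (le_antisymm h2 (SL_le_of_not_le_subalgebraNormalizer hK hr hlt h1 h))

theorem isCoatom_subalgebraNormalizer [Nonempty ι] [Finite F] {r : ℕ}
    {K : Subalgebra F (Matrix ι ι F)} (hK : IsFieldSubalgebra r K) (hr : r.Prime)
    (hlt : r < Fintype.card ι) : IsCoatom (subalgebraNormalizer K) := by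
  refine ⟨fun h ↦ not_SL_le_subalgebraNormalizer hK hr.two_le hlt (h ▸ le_top), fun M hM ↦ ?_⟩
  refine eq_top_of_ker_det_le M (SL_le_of_not_le_subalgebraNormalizer hK hr hlt
    (inf_le_left.trans hM.le) hM.not_ge) fun c ↦ ?_
  obtain ⟨g, hg, hd⟩ := exists_mem_subalgebraNormalizer_det hK c
  exact ⟨g, hM.le hg, hd⟩

end Cfsg.Lib.Class
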