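import Cfsg.Agent.Class.FieldExtOrb

/-!
# Overgroups of `GL_m(K) ∩ SL_n(F)` for `K/F` of prime degree (Li Shangzhi, Dye)
-/

set_option autoImplicit false
set_option linter.unusedSectionVars false

namespace Cfsg.Lib.Class.FE

open Module Submodule

variable {F K V : Type*} [Field F] [Field K] [Algebra F K] [AddCommGroup V] [Module F V]
  [Module K V] [IsScalarTower F K V]

/-- Elements `1 + A` of `X` with `im A ≤ K v ≤ ker A`. -/
def InM (K : Type*) [Field K] [Module K V] (X : Subgroup (Module.End F V)ˣ) (v : V)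
    (A : Module.End F V) : Prop :=
  (∀ x, A x ∈ span K {v}) ∧ (∀ y ∈ span K {v}, A y = 0) ∧
    ∃ g ∈ X, ∀ x, (g : Module.End F V) x = x + A x

variable {X : Subgroup (Module.End F V)ˣ} {v : V}

theorem InM.add {A B : Module.End F V} (hA : InM K X v A) (hB : InM K X v B) :
    InM K X v (A + B) := by
  obtain ⟨a1, a2, a, ha, ea⟩ := hA
  obtain ⟨b1, b2, b, hb, eb⟩ := hB
  refine ⟨fun x ↦ add_mem (a1 x) (b1 x), fun y hy ↦ by simp [a2 y hy, b2 y hy],
    a * b, X.mul_mem ha hb, fun x ↦ ?_⟩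
  simp only [unit_mul_apply, ea, eb, map_add, a2 _ (b1 x), LinearMap.add_apply]
  abel

theorem InM.neg {A : Module.End F V} (hA : InM K X v A) : InM K X v (-A) := by
  obtain ⟨a1, a2, a, ha, ea⟩ := hA
  refine ⟨fun x ↦ neg_mem (a1 x), fun y hy ↦ by simp [a2 y hy],
    a⁻¹, X.inv_mem ha, fun x ↦ unit_injective a ?_⟩
  rw [apply_inv_apply]
  simp [ea, a2 _ (a1 x)]

theorem InM.conj {A : Module.End F V} (hA : InM K X v A) {b : (Module.End F V)ˣ} (hb : b ∈ X)
    (h1 : ∀ y ∈ span K {v}, (b : Module.End F V) y ∈ span K {v})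
    (h2 : ∀ y ∈ span K {v}, ((b⁻¹ : (Module.End F V)ˣ) : Module.End F V) y ∈ span K {v}) :
    InM K X v (b * A * (b⁻¹ : (Module.End F V)ˣ)) := by
  obtain ⟨a1, a2, a, ha, ea⟩ := hA
  refine ⟨fun x ↦ h1 _ (a1 _), fun y hy ↦ by simp [a2 _ (h2 y hy)],
    b * a * b⁻¹, X.mul_mem (X.mul_mem hb ha) (X.inv_mem hb), fun x ↦ ?_⟩
  simp only [unit_mul_apply, ea, map_add, apply_inv_apply, Module.End.mul_apply]

/-- The ring of left multipliers of `InM`. -/
def mulRing (K : Type*) [Field K] [Algebra F K] [Module K V] [IsScalarTower F K V]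
    (X : Subgroup (Module.End F V)ˣ) (v : V) : Subring (Module.End F V) where
  carrier := {ρ | ∀ A, InM K X v A → InM K X v (ρ * A)}
  mul_mem' ha hb A hA := by rw [mul_assoc]; exact ha _ (hb A hA)
  one_mem' A hA := by rwa [one_mul]
  add_mem' ha hb A hA := by rw [add_mul]; exact (ha A hA).add (hb A hA)
  zero_mem' A hA := by simpa using hA.add hA.neg
  neg_mem' ha A hA := by rw [neg_mul]; exact (ha A hA).neg

theorem conj_mem_mulRing {ρ : Module.End F V} (hρ : ρ ∈ mulRing K X v) {b : (Module.End F V)ˣ}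
    (hb : b ∈ X) (h1 : ∀ y ∈ span K {v}, (b : Module.End F V) y ∈ span K {v})
    (h2 : ∀ y ∈ span K {v}, ((b⁻¹ : (Module.End F V)ˣ) : Module.End F V) y ∈ span K {v}) :
    b * ρ * (b⁻¹ : (Module.End F V)ˣ) ∈ mulRing K X v := by
  intro A hA
  have := (hρ _ (hA.conj (X.inv_mem hb) h2 (by simpa using h1))).conj hb h1 h2
  simpa [mul_assoc] using this

/-- Multiplication by `k : K` as an `F`-linear map. -/
abbrev ls (F : Type*) [Field F] [Algebra F K] (V : Type*) [AddCommGroup V] [Module F V]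
    [Module K V] [IsScalarTower F K V] : K →+* Module.End F V :=
  Module.toModuleEnd F V

theorem ls_apply (k : K) (x : V) : ls F V k x = k • x := rfl

variable [Finite K] [FiniteDimensional K V]

theorem KGen.ls_mem (hX : KGen K X) (hr : 2 ≤ finrank F K) (hv : v ≠ 0) (k : K) :
    ls F V k ∈ mulRing K X v := by
  have := subring_eq_top_of_normOne hr ((mulRing K X v).comap (ls F V)) fun c hc A hA ↦ by
    obtain ⟨a1, a2, a, ha, ea⟩ := hA
    obtain ⟨φ, hφ⟩ := exists_dual_eq hv (c - 1)
    obtain ⟨h, hh, e⟩ := hX φ v (by simpa [hφ] using hc)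
    refine ⟨fun x ↦ smul_mem _ _ (a1 x), fun y hy ↦ by simp [a2 y hy],
      h * a * h⁻¹, X.mul_mem (X.mul_mem hh ha) (X.inv_mem hh), fun x ↦ ?_⟩
    obtain ⟨x, rfl⟩ := unit_surjective h x
    rw [unit_mul_apply, unit_mul_apply, inv_apply_apply, ea, map_add, Module.End.mul_apply,
      ls_apply, e x, map_add, a2 _ (smul_mem _ _ (mem_span_singleton_self v)), add_zero, e]
    obtain ⟨s, hs⟩ := mem_span_singleton.1 (a1 x)
    rw [← hs, map_smul, hφ, smul_eq_mul]
    module
  exact (this ▸ Subring.mem_top k : k ∈ (mulRing K X v).comap (ls F V))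

theorem KGen.hasTv_of_mem_mulRing (hX : KGen K X) (hm : 2 ≤ finrank K V) {ρ : Module.End F V}
    (hρ : ρ ∈ mulRing K X v) {w : V} (h1 : ∀ y ∈ span K {v}, ∃ s : F, ρ y = s • w)
    (h2 : ∃ y ∈ span K {v}, ρ y ≠ 0) : HasTv X := by
  obtain ⟨u, hu⟩ := exists_notMem_span hm v
  obtain ⟨φ, e1, e2⟩ := exists_dual_pair hu 1
  obtain ⟨a1, a2, a, ha, ea⟩ := hρ (kt F φ v) ⟨fun x ↦ smul_mem _ _ (mem_span_singleton_self v),
    fun y hy ↦ by simp [dual_eq_zero_of_mem_span e1 hy], hX.tv e1⟩
  obtain ⟨y, hy, hy0⟩ := h2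
  obtain ⟨c, rfl⟩ := mem_span_singleton.1 hy
  have e3 : (ρ * kt F φ v) (c • u) = ρ (c • v) := by simp [e2]
  refine hasTv_of_rank_one ha (w := w) (fun x ↦ ?_) ?_ ⟨c • u, by simpa [ea, e2] using hy0⟩
  · obtain ⟨s, hs⟩ := h1 (φ x • v) (smul_mem _ _ (mem_span_singleton_self v))
    exact ⟨s, by rw [ea, ← hs]; rfl⟩
  · obtain ⟨s, hs⟩ := h1 _ hy
    have hs0 : s ≠ 0 := by rintro rfl; simp [hs] at hy0
    have : w ∈ span K {v} := by
      rw [show w = s⁻¹ • (ρ * kt F φ v) (c • u) by rw [e3, hs, smul_smul]; simp [hs0]]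
      exact smul_of_tower_mem _ _ (a1 _)
    rw [ea, a2 w this, add_zero]

/-- An element of `X` inducing a transvection on a `K`-line. -/
theorem KGen.hasTv_of_line (hX : KGen K X) (hr : (finrank F K).Prime) (hm : 2 ≤ finrank K V)
    (h2 : 3 ≤ finrank F K ∨ 3 ≤ Nat.card F) (hv : v ≠ 0) {f : Dual F V} {x e₀ : V}
    (hx : x ∈ span K {v}) (hfx : f x = 1) (he₀ : e₀ ∈ span K {v}) (he0 : e₀ ≠ 0) (hfe : f e₀ = 0)
    (hb : ∀ e ∈ span K {v}, f e = 0 →
      ∃ b ∈ X, ∀ y ∈ span K {v}, (b : Module.End F V) y = y + f y • e) : HasTv X := by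
  have : Finite V := Module.finite_of_finite K
  have : Finite F := Finite.of_injective _ (algebraMap F K).injective
  have : FiniteDimensional F V := Module.Finite.of_finite
  have key : ∀ e ∈ span K {v}, f e = 0 → ∀ k : K, ∃ ρ ∈ mulRing K X v, ∀ y ∈ span K {v},
      ρ y = k • y - f y • k • e + (f (k • y) - f y * f (k • e)) • e := by
    intro e he hfe k
    obtain ⟨b, hb, eb⟩ := hb e he hfe
    have hm1 : ∀ y ∈ span K {v}, ∀ s : F, y + s • e ∈ span K {v} :=
      fun y hy s ↦ add_mem hy (smul_of_tower_mem _ _ he)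
    have eb' : ∀ y ∈ span K {v},
        ((b⁻¹ : (Module.End F V)ˣ) : Module.End F V) y = y + (-f y) • e := fun y hy ↦ by
      apply unit_injective b
      rw [apply_inv_apply, eb _ (hm1 y hy _)]
      simp [hfe]
    refine ⟨_, conj_mem_mulRing (hX.ls_mem hr.two_le hv k) hb (fun y hy ↦ eb y hy ▸ hm1 y hy _)
      (fun y hy ↦ eb' y hy ▸ hm1 y hy _), fun y hy ↦ ?_⟩
    rw [Module.End.mul_apply, Module.End.mul_apply, eb' y hy, ls_apply,
      eb _ (smul_mem _ _ (hm1 y hy _)), smul_add, smul_comm k (-f y) e, map_add,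
      f.map_smul (-f y)]
    simp only [smul_eq_mul]
    module
  rcases Nat.lt_or_ge 2 (finrank F K) with h3 | h3
  · obtain ⟨k, hk⟩ := exists_notMem_range (F := F) (K := K) hr.two_le
    obtain ⟨ρ, hρ, eρ⟩ := key e₀ he₀ hfe k
    set E := ρ - ls F V k with hE
    have hER : E ∈ mulRing K X v := sub_mem hρ (hX.ls_mem hr.two_le hv k)
    have eE : ∀ y ∈ span K {v},
        E y = -(f y • k • e₀) + (f (k • y) - f y * f (k • e₀)) • e₀ := fun y hy ↦ by
      rw [hE, LinearMap.sub_apply, eρ y hy, ls_apply]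
      abel
    let L : Submodule F V := (span K {v}).restrictScalars F ⊓ LinearMap.ker E
    have hL0 : L ≠ ⊥ := by
      intro h
      let E' := E.domRestrict ((span K {v}).restrictScalars F)
      have hinj : Function.Injective E' := by
        rw [injective_iff_map_eq_zero]
        intro y hy
        have : (y : V) ∈ L := ⟨y.2, hy⟩
        rw [h] at this
        exact Subtype.ext this
      have h4 : LinearMap.range E' ≤ span F {k • e₀, e₀} := by
        rintro _ ⟨y, rfl⟩
        change E y ∈ _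
        rw [eE y y.2]
        exact add_mem (neg_mem (smul_mem _ _ (subset_span (by simp))))
          (smul_mem _ _ (subset_span (by simp)))
      have h5 := Submodule.finrank_mono h4
      rw [LinearMap.finrank_range_of_inj hinj, finrank_span_singleton_restrict hv] at h5
      classical
      have h6 := finrank_span_finset_le_card (R := F) ({k • e₀, e₀} : Finset V)
      rw [Set.finrank, Finset.coe_pair] at h6
      have := Finset.card_le_two (a := k • e₀) (b := e₀)
      omega
    have hxL : x ∉ L := by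
      rintro ⟨-, h⟩
      rw [SetLike.mem_coe, LinearMap.mem_ker, eE x hx, hfx, one_smul, neg_add_eq_zero,
        ← algebraMap_smul K (_ - _ : F) e₀, ← sub_eq_zero, ← sub_smul, smul_eq_zero] at h
      exact hk ⟨_, (sub_eq_zero.1 (h.resolve_right he0)).symm⟩
    obtain ⟨l, ⟨hl1, hl2⟩, hl⟩ := exists_smul_notMem hr (W := L) (fun y hy ↦ hy.1) hL0
      ⟨x, hx, hxL⟩ hk
    obtain ⟨c, rfl⟩ := mem_span_singleton.1 ((span_singleton_eq_of_mem he₀ he0).ge hl1)
    have hw : E (k • c • e₀) ≠ 0 := fun h ↦ hl ⟨smul_mem (span K {v}) k hl1, h⟩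
    have eρ' : ∀ y ∈ span K {v}, (E * ls F V c * E) y = (-f y) • E (k • c • e₀) := by
      intro y hy
      rw [Module.End.mul_apply, Module.End.mul_apply, eE y hy, ls_apply, smul_add, smul_neg,
        smul_comm c (f y), smul_comm c k, smul_comm c _ e₀, map_add, map_neg, E.map_smul,
        E.map_smul, LinearMap.mem_ker.1 hl2]
      simp
    exact hX.hasTv_of_mem_mulRing hm
      (mul_mem (mul_mem hER (hX.ls_mem hr.two_le hv c)) hER) (fun y hy ↦ ⟨_, eρ' y hy⟩)
      ⟨x, hx, by rw [eρ' x hx]; simpa [hfx] using hw⟩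
  · have hq : 3 ≤ Nat.card F := by omega
    obtain ⟨k, rfl⟩ := mem_span_singleton.1 ((span_singleton_eq_of_mem he₀ he0).ge hx)
    obtain ⟨t, ht0, ht⟩ : ∃ t : F, t ≠ 0 ∧ t ≠ f (k • k • e₀) := by
      by_contra! h
      have : (Set.univ : Set F) ⊆ {0, f (k • k • e₀)} := fun t _ ↦ by
        by_cases h0 : t = 0
        · simp [h0]
        · simp [h t h0]
      have h5 := Set.ncard_le_ncard this
      rw [Set.ncard_univ] at h5
      have := Set.ncard_insert_le (0 : F) {f (k • k • e₀)}
      rw [Set.ncard_singleton] at this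
      omega
    obtain ⟨ρ, hρ, eρ⟩ := key (t • e₀) (smul_of_tower_mem _ _ he₀) (by simp [hfe]) k
    set E := ρ - ls F V (k + algebraMap F K t) with hE
    have hER : E ∈ mulRing K X v := sub_mem hρ (hX.ls_mem hr.two_le hv _)
    have hEe : E e₀ = 0 := by
      rw [hE, LinearMap.sub_apply, eρ _ he₀, ls_apply, add_smul, algebraMap_smul, hfe, hfx]
      simp
    have hEx : E (k • e₀) = (-t - t) • k • e₀ + (t * (f (k • k • e₀) - t)) • e₀ := by
      rw [hE, LinearMap.sub_apply, eρ _ hx, ls_apply, add_smul, algebraMap_smul, hfx,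
        smul_comm k t e₀, f.map_smul t, hfx]
      simp only [smul_eq_mul]
      module
    refine hX.hasTv_of_mem_mulRing hm hER (w := E (k • e₀)) (fun y hy ↦ ?_) ⟨_, hx, fun h ↦ ?_⟩
    · have hsp : span F {e₀} ⊔ span F {k • e₀} = (span K {v}).restrictScalars F := by
        apply Submodule.eq_of_le_of_finrank_le
        · exact sup_le ((span_singleton_le_iff_mem _ _).2 he₀) ((span_singleton_le_iff_mem _ _).2 hx)
        · rw [Submodule.finrank_sup_span_singleton, finrank_span_singleton he0,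
            finrank_span_singleton_restrict hv]
          · exact h3
          · intro h
            obtain ⟨a, ha⟩ := mem_span_singleton.1 h
            have := congrArg f ha
            simp [hfe, hfx] at this
      obtain ⟨_, ha, _, hb, rfl⟩ := mem_sup.1 (hsp.ge hy)
      obtain ⟨a, rfl⟩ := mem_span_singleton.1 ha
      obtain ⟨b, rfl⟩ := mem_span_singleton.1 hb
      exact ⟨b, by simp [hEe]⟩
    · have h4 := congrArg f h
      rw [hEx] at h h4
      simp only [map_add, map_smul, hfx, hfe, smul_eq_mul, mul_one, mul_zero, add_zero,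
        map_zero] at h4
      rw [h4, zero_smul, zero_add, smul_eq_zero, mul_eq_zero, sub_eq_zero] at h
      tauto

/-- The exceptional case `ΓL₂(4) < GL₄(2)`. -/
theorem KGen.hasTv_two (hX : KGen K X) (hq : Nat.card F = 2) (hr : finrank F K = 2)
    (hm : finrank K V = 2) {e u : V} (he : e ≠ 0) (hu : u ∉ span K {e}) {ω : K}
    (hω : ω ∉ Set.range (algebraMap F K)) {b : (Module.End F V)ˣ} (hb : b ∈ X)
    (b0 : (b : Module.End F V) e = e) (b2 : (b : Module.End F V) u = u)
    (b1 : (b : Module.End F V) (ω • e) = ω • e + u)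
    (b3 : (b : Module.End F V) (ω • u) = ω • u + e ∨
      (b : Module.End F V) (ω • u) = ω • u + e + u) : HasTv X := by
  have hF : ∀ a : F, a = 0 ∨ a = 1 := fun a ↦ by
    obtain ⟨y, -, hy⟩ := (Nat.card_eq_two_iff' (0 : F)).1 hq
    by_cases h : a = 0
    · exact Or.inl h
    · exact Or.inr ((hy a h).trans (hy 1 one_ne_zero).symm)
  have h2F : (2 : F) = 0 := by
    rcases hF 2 with h | h
    · exact h
    · exact absurd (by linear_combination h) (one_ne_zero (α := F))
  have : CharP F 2 := CharTwo.of_one_ne_zero_of_two_eq_zero one_ne_zero h2F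
  have h2K : (2 : K) = 0 := by rw [← map_ofNat (algebraMap F K) 2, h2F, map_zero]
  have : FiniteDimensional F K := Module.finite_of_finrank_pos (by omega)
  have hω2 : ω * ω = ω + 1 := by
    have := Fintype.ofFinite K
    have h4 : Fintype.card K = 4 := by
      rw [← Nat.card_eq_fintype_card, Module.natCard_eq_pow_finrank (K := F), hq, hr]
      rfl
    have h0 : ω ≠ 0 := fun h ↦ hω ⟨0, by simp [h]⟩
    have h1 : ω - 1 ≠ 0 := fun h ↦ hω ⟨1, by simp [sub_eq_zero.1 h]⟩
    have h3 := FiniteField.pow_card_sub_one_eq_one ω h0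
    rw [h4] at h3
    apply mul_left_cancel₀ h1
    linear_combination h3 - (ω ^ 2 - 1) * h2K
  have hN : ∀ c : K, c ≠ 0 → Algebra.norm F c = 1 :=
    fun c hc ↦ (hF _).resolve_left (Algebra.norm_ne_zero_iff.2 hc)
  have hK : ∀ c : K, ∃ a d : F, c = a • (1 : K) + d • ω := fun c ↦ by
    have : span F {(1 : K)} ⊔ span F {ω} = ⊤ := by
      apply Submodule.eq_top_of_finrank_eq
      rw [Submodule.finrank_sup_span_singleton, finrank_span_singleton one_ne_zero, hr]
      intro h
      obtain ⟨a, ha⟩ := mem_span_singleton.1 h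
      exact hω ⟨a, by rw [← ha, Algebra.algebraMap_eq_smul_one]⟩
    obtain ⟨_, ha, _, hb, rfl⟩ := mem_sup.1 (this.ge (mem_top (x := c)))
    obtain ⟨a, rfl⟩ := mem_span_singleton.1 ha
    obtain ⟨b, rfl⟩ := mem_span_singleton.1 hb
    exact ⟨a, b, rfl⟩
  have hV : ∀ y : V, ∃ a₀ a₁ a₂ a₃ : F, y = a₀ • e + a₁ • ω • e + a₂ • u + a₃ • ω • u := fun y ↦ by
    have : span K {e} ⊔ span K {u} = ⊤ := by
      apply Submodule.eq_top_of_finrank_eq
      rw [Submodule.finrank_sup_span_singleton hu, finrank_span_singleton he, hm]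
    obtain ⟨_, ha, _, hb, rfl⟩ := mem_sup.1 (this.ge (mem_top (x := y)))
    obtain ⟨a, rfl⟩ := mem_span_singleton.1 ha
    obtain ⟨b, rfl⟩ := mem_span_singleton.1 hb
    obtain ⟨a₀, a₁, rfl⟩ := hK a
    obtain ⟨a₂, a₃, rfl⟩ := hK b
    exact ⟨a₀, a₁, a₂, a₃, by simp only [add_smul, smul_assoc, one_smul, add_assoc]⟩
  have hω0 : 1 + ω ≠ 0 := fun h ↦ hω ⟨-1, by rw [map_neg, map_one]; linear_combination -h⟩
  obtain ⟨φ, φe, φu⟩ := exists_dual_pair hu 1
  rcases b3 with b3 | b3
  · obtain ⟨n, hn, en⟩ := hX φ (ω • u) (hN _ (by simpa [φu] using hω0))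
    have n0 : (n : Module.End F V) e = e := by simp [en, φe]
    have n1 : (n : Module.End F V) (ω • e) = ω • e := by simp [en, φe]
    have n2 : (n : Module.End F V) u = u + ω • u := by simp [en, φu]
    have n3 : (n : Module.End F V) (ω • u) = u := by
      rw [en, map_smul, φu]
      match_scalars
      linear_combination hω2 + ω * h2K
    generalize ω • e = a₁ at *
    generalize ω • u = a₃ at *
    have key : ∀ y, ∃ s : F, ((b * n * (b * n) * (b * n) : (Module.End F V)ˣ) :
        Module.End F V) y = y + s • e := fun y ↦ by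
      obtain ⟨a₀, a₁, a₂, a₃, rfl⟩ := hV y
      refine ⟨a₁, ?_⟩
      simp only [unit_mul_apply, map_add, map_smul, n0, n1, n2, n3, b0, b1, b2, b3]
      match_scalars <;> ring_nf <;> reduce_mod_char!
    refine hasTv_of_rank_one (X.mul_mem (X.mul_mem (X.mul_mem hb hn) (X.mul_mem hb hn))
      (X.mul_mem hb hn)) key (by simp only [unit_mul_apply, n0, b0]) ⟨a₁, fun h ↦ he ?_⟩
    simp only [unit_mul_apply, map_add, n0, n1, n2, n3, b0, b1, b2, b3] at h
    rw [← one_smul F e]
    linear_combination (norm := skip) h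
    match_scalars <;> ring_nf <;> reduce_mod_char!
  · obtain ⟨n, hn, en⟩ := hX.tv (φ := φ) (v := ω • e) (by simp [φe])
    obtain ⟨ψ, ψe, ψu⟩ := exists_dual_pair' he hu 1 (ω + 1)
    obtain ⟨n', hn', en'⟩ := hX ψ u (hN _ (by
      rw [ψu]
      intro h
      exact hω ⟨0, by rw [map_zero]; linear_combination h2K - h⟩))
    have n0 : (n : Module.End F V) e = e := by simp [en, φe]
    have n1 : (n : Module.End F V) (ω • e) = ω • e := by simp [en, φe]
    have n2 : (n : Module.End F V) u = u + ω • e := by simp [en, φu]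
    have n3 : (n : Module.End F V) (ω • u) = ω • u + ω • e + e := by
      rw [en, map_smul, φu]
      match_scalars
      · ring
      · linear_combination hω2
    have m0 : (n' : Module.End F V) e = e + u := by simp [en', ψe]
    have m1 : (n' : Module.End F V) (ω • e) = ω • e + ω • u := by simp [en', ψe]
    have m2 : (n' : Module.End F V) u = ω • u := by
      rw [en', ψu]
      match_scalars
      linear_combination h2K
    have m3 : (n' : Module.End F V) (ω • u) = ω • u + u := by
      rw [en', map_smul, ψu]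
      match_scalars
      linear_combination hω2 + ω * h2K
    have hw : ω • e + u + ω • u ≠ 0 := fun h ↦ hω0 (by simpa [φe, φu] using congrArg φ h)
    generalize ω • e = a₁ at *
    generalize ω • u = a₃ at *
    have key : ∀ y, ∃ s : F, ((b * n * n' * (b * n * n') : (Module.End F V)ˣ) :
        Module.End F V) y = y + s • (a₁ + u + a₃) := fun y ↦ by
      obtain ⟨a₀, a₁, a₂, a₃, rfl⟩ := hV y
      refine ⟨a₀, ?_⟩
      simp only [unit_mul_apply, map_add, map_smul, n0, n1, n2, n3, b0, b1, b2, b3, m0, m1, m2, m3]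
      match_scalars <;> ring_nf <;> reduce_mod_char!
    refine hasTv_of_rank_one (X.mul_mem (X.mul_mem (X.mul_mem hb hn) hn')
      (X.mul_mem (X.mul_mem hb hn) hn')) key ?_ ⟨e, fun h ↦ hw ?_⟩
    · simp only [unit_mul_apply, map_add, n0, n1, n2, n3, b0, b1, b2, b3, m0, m1, m2, m3]
      rw [← one_smul F (a₁ + u + a₃)]
      match_scalars <;> ring_nf <;> reduce_mod_char!
    · simp only [unit_mul_apply, map_add, n0, n1, n2, n3, b0, b1, b2, b3, m0, m1, m2] at h
      rw [← one_smul F (a₁ + u + a₃)]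
      linear_combination (norm := skip) h
      match_scalars <;> ring_nf <;> reduce_mod_char!

/-- **Overgroups of `GL_m(K) ∩ SL_n(F)`**: a subgroup of `GL(V, F)` containing the `K`-linear
dilatransvections of determinant one and not normalising `K` contains all transvections. -/
theorem KGen.tvIn (hX : KGen K X) (hr : (finrank F K).Prime) (hm : 2 ≤ finrank K V)
    (hN : ∃ g ∈ X, ∃ k : K, ∀ k' : K,
      ∃ x, (g : Module.End F V) (k • x) ≠ k' • (g : Module.End F V) x)
    {w : V} {f : Dual F V} (hf : f w = 0) : TvIn X w f := by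
  refine hX.tvIn_of_hasTv hr.two_le hm ?_ hf
  clear hf w f
  have : Finite V := Module.finite_of_finite K
  have : Finite F := Finite.of_injective _ (algebraMap F K).injective
  have : FiniteDimensional F V := Module.Finite.of_finite
  obtain ⟨v, hv⟩ := exists_notMem_span hm (0 : V)
  replace hv : v ≠ 0 := fun h ↦ hv (by rw [h]; exact zero_mem _)
  obtain ⟨J, hJ, hd, hP⟩ := hX.exists_fix_hyperplane hr hm hN hv
  obtain ⟨x, hx, hxJ⟩ : ∃ y ∈ span K {v}, y ∉ J := by
    by_contra! h
    have := Submodule.finrank_mono (show (span K {v}).restrictScalars F ≤ J from h)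
    rw [finrank_span_singleton_restrict hv] at this
    omega
  obtain ⟨g, hg, hgx⟩ := hP x hxJ
  obtain ⟨hgX, hgJ⟩ := mem_fixer.1 hg
  have hgJ' : ∀ y ∈ J, ((g⁻¹ : (Module.End F V)ˣ) : Module.End F V) y = y := fun y hy ↦ by
    rw [← hgJ y hy, inv_apply_apply, hgJ y hy]
  obtain ⟨e₀, he₀, he0⟩ := (Submodule.ne_bot_iff J).1 (by
    rintro rfl
    have := hr.two_le
    rw [finrank_bot] at hd
    omega)
  obtain ⟨f, hfx, hfJ⟩ := exists_dual_of_notMem hxJ 1
  have hsp : J ⊔ span F {x} = (span K {v}).restrictScalars F := by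
    apply Submodule.eq_of_le_of_finrank_eq
    · exact sup_le hJ ((span_singleton_le_iff_mem _ _).2 hx)
    · rw [Submodule.finrank_sup_span_singleton hxJ, finrank_span_singleton_restrict hv, hd]
  have hdec : ∀ y ∈ span K {v}, y - f y • x ∈ J := fun y hy ↦ by
    obtain ⟨a, ha, _, hb, rfl⟩ := mem_sup.1 (hsp.ge hy)
    obtain ⟨b, rfl⟩ := mem_span_singleton.1 hb
    simpa [hfJ a ha, hfx] using ha
  -- conjugates of the `K`-transvections with centre `v`
  have hQ : ∀ φ : Dual K V, φ v = 0 → ∃ b ∈ X, ∀ y, (b : Module.End F V) y =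
      y + ((g⁻¹ : (Module.End F V)ˣ) : Module.End F V) (φ ((g : Module.End F V) y) • v) := by
    intro φ hφ
    obtain ⟨t, ht, e⟩ := hX.tv hφ
    refine ⟨g⁻¹ * t * g, X.mul_mem (X.mul_mem (X.inv_mem hgX) ht) hgX, fun y ↦ ?_⟩
    rw [unit_mul_apply, unit_mul_apply, e, map_add, inv_apply_apply]
  have hQ' : ∀ φ : Dual K V, φ v = 0 → ∀ y ∈ span K {v},
      φ ((g : Module.End F V) y) = algebraMap F K (f y) * φ ((g : Module.End F V) x) := by
    intro φ hφ y hy
    have h1 := hgJ _ (hdec y hy)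
    rw [map_sub, sub_eq_iff_eq_add] at h1
    rw [h1, map_add, dual_eq_zero_of_mem_span hφ (hJ _ (hdec y hy)), zero_add, map_smul,
      ← algebraMap_smul K, map_smul, smul_eq_mul]
  by_cases h2 : 3 ≤ finrank F K ∨ 3 ≤ Nat.card F
  · refine hX.hasTv_of_line hr hm h2 hv hx hfx (hJ _ he₀) he0 (hfJ _ he₀) fun e he hfe ↦ ?_
    obtain ⟨c, rfl⟩ := mem_span_singleton.1 he
    obtain ⟨φ, h1, h3⟩ := exists_dual_pair hgx c
    obtain ⟨b, hb, eb⟩ := hQ φ h1
    refine ⟨b, hb, fun y hy ↦ ?_⟩
    rw [eb, hQ' φ h1 y hy, h3, mul_smul, algebraMap_smul, map_smul,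
      hgJ' _ (by simpa [hfe] using hdec _ he)]
  have hr2 : finrank F K = 2 := by have := hr.two_le; omega
  have hq2 : Nat.card F = 2 := by have := Finite.one_lt_card (α := F); omega
  set u := ((g⁻¹ : (Module.End F V)ˣ) : Module.End F V) x with hu
  have hgu : (g : Module.End F V) u = x := apply_inv_apply g x
  have hgi : ∀ y ∈ span K {v}, ((g⁻¹ : (Module.End F V)ˣ) : Module.End F V) y =
      y - f y • x + f y • u := fun y hy ↦ by
    rw [← hgJ' _ (hdec y hy), map_sub, map_smul, sub_add_cancel]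
  have huv : u ∉ span K {v} := by
    intro h
    have h1 := hgJ _ (hdec u h)
    rw [map_sub, map_smul, hgu] at h1
    by_cases h0 : f u = 0
    · rw [h0, zero_smul, zero_smul, sub_zero, sub_zero] at h1
      rw [← h1, hfx] at h0
      exact one_ne_zero h0
    · apply hgx
      rw [show (g : Module.End F V) x = (f u)⁻¹ • (x - (u - f u • x)) by
        rw [← h1]; simp [h0]]
      exact smul_of_tower_mem _ _ (sub_mem hx (sub_mem h (smul_of_tower_mem _ _ hx)))
  rcases Nat.lt_or_ge 2 (finrank K V) with h3 | h3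
  · obtain ⟨z, hz⟩ := exists_notMem_span_pair h3 v u
    obtain ⟨c, rfl⟩ := mem_span_singleton.1 hx
    obtain ⟨ψ, h4, h5⟩ := exists_dual_of_notMem hz c
    have h6 : ψ v = 0 := h5 v (subset_span (by simp))
    have h7 : ψ u = 0 := h5 u (subset_span (by simp))
    obtain ⟨c₀, rfl⟩ := mem_span_singleton.1 (hJ _ he₀)
    obtain ⟨φ, h1, h8⟩ := exists_dual_pair hgx c₀
    obtain ⟨b, hb, eb⟩ := hQ φ h1
    obtain ⟨t, ht, et⟩ := hX.tv h6
    have hbv : ∀ y ∈ span K {v}, (b : Module.End F V) y = y + f y • c₀ • v := fun y hy ↦ by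
      rw [eb, hQ' φ h1 y hy, h8, mul_smul, algebraMap_smul, map_smul, hgJ' _ he₀]
    have hψb : ∀ y, ψ ((b : Module.End F V) y) = ψ y := fun y ↦ by
      rw [eb, hgi _ (smul_mem _ _ (mem_span_singleton_self v))]
      simp [LinearMap.map_smul_of_tower, h6, h7]
    have et' : ∀ y, ((t⁻¹ : (Module.End F V)ˣ) : Module.End F V) y = y - ψ y • v := fun y ↦ by
      apply unit_injective t
      rw [apply_inv_apply]
      simp [et, h6]
    have ec : ∀ y, ((t⁻¹ * (b * t * b⁻¹) : (Module.End F V)ˣ) : Module.End F V) y =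
        y + f (ψ y • v) • c₀ • v := fun y ↦ by
      obtain ⟨y, rfl⟩ := unit_surjective b y
      rw [unit_mul_apply, unit_mul_apply, unit_mul_apply, inv_apply_apply, et, map_add,
        hbv _ (smul_mem _ _ (mem_span_singleton_self v)), et', hψb]
      simp [LinearMap.map_smul_of_tower, h6, hψb]
      abel
    refine hasTv_of_rank_one (X.mul_mem (X.inv_mem ht) (X.mul_mem (X.mul_mem hb ht) (X.inv_mem hb)))
      (fun y ↦ ⟨_, ec y⟩) (by rw [ec]; simp [h6]) ⟨z, by rw [ec]; simpa [h4, hfx] using he0⟩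
  · have hm2 : finrank K V = 2 := by omega
    have hsv := span_singleton_eq_of_mem (hJ _ he₀) he0
    obtain ⟨ω, hω⟩ := mem_span_singleton.1 (hsv.ge hx)
    obtain ⟨c, hc⟩ := mem_span_singleton.1 hx
    obtain ⟨φ, h1, h8⟩ := exists_dual_pair hgx c
    obtain ⟨b, hb, eb⟩ := hQ φ h1
    have hωF : ω ∉ Set.range (algebraMap F K) := by
      rintro ⟨a, rfl⟩
      exact hxJ (hω ▸ (algebraMap_smul K a e₀).symm ▸ smul_mem _ _ he₀)
    have hF : ∀ a : F, a = 0 ∨ a = 1 := fun a ↦ by
      obtain ⟨y, -, hy⟩ := (Nat.card_eq_two_iff' (0 : F)).1 hq2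
      by_cases h : a = 0
      · exact Or.inl h
      · exact Or.inr ((hy a h).trans (hy 1 one_ne_zero).symm)
    have hJe : ∀ y ∈ J, y = 0 ∨ y = e₀ := fun y hy ↦ by
      have : span F {e₀} = J := Submodule.eq_of_le_of_finrank_eq
        ((span_singleton_le_iff_mem _ _).2 he₀) (by rw [finrank_span_singleton he0]; omega)
      obtain ⟨a, rfl⟩ := mem_span_singleton.1 (this.ge hy)
      rcases hF a with rfl | rfl <;> simp
    have hker : ∀ y, φ y = 0 → y ∈ span K {v} := fun y hy ↦ by
      have hφ0 : φ ≠ 0 := by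
        rintro rfl
        rw [LinearMap.zero_apply] at h8
        exact hxJ (by rw [← hc, ← h8, zero_smul]; exact zero_mem _)
      have : span K {v} = LinearMap.ker φ := Submodule.eq_of_le_of_finrank_eq
        ((span_singleton_le_iff_mem _ _).2 h1) (by
          have := Module.Dual.finrank_ker_add_one_of_ne_zero hφ0
          rw [finrank_span_singleton hv]; omega)
      exact this.ge hy
    -- a vector `y` with `g y ∈ K v` lies in `{0, e₀, u, e₀ + u}`
    have hU : ∀ y ∈ span K {v}, ∃ a d : F, ((g⁻¹ : (Module.End F V)ˣ) : Module.End F V) y =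
        a • e₀ + d • u := fun y hy ↦ by
      rw [hgi y hy]
      rcases hJe _ (hdec y hy) with h | h
      · exact ⟨0, f y, by rw [h, zero_smul]⟩
      · exact ⟨1, f y, by rw [h, one_smul]⟩
    obtain ⟨χ, hχ1, hχ2⟩ := exists_dual_pair (hsv ▸ huv) 1
    have hne : ∀ k : K, φ ((g : Module.End F V) (ω • u + k • e₀)) ≠ 0 := fun k h ↦ by
      obtain ⟨a, d, had⟩ := hU _ (hker _ h)
      rw [inv_apply_apply] at had
      have := congrArg χ had
      simp only [LinearMap.map_smul_of_tower, map_add, map_smul, hχ1, hχ2, smul_eq_mul,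
        mul_zero, mul_one, add_zero, zero_add, smul_zero] at this
      exact hωF ⟨d, by rw [this, Algebra.algebraMap_eq_smul_one]⟩
    refine hX.hasTv_two hq2 hr2 hm2 he0 (hsv ▸ huv) hωF hb ?_ ?_ ?_ ?_
    · rw [eb, hgJ _ he₀, dual_eq_zero_of_mem_span h1 (hJ _ he₀)]; simp
    · rw [eb, hgu, dual_eq_zero_of_mem_span h1 hx]; simp
    · rw [eb, hω, h8, hc]
    · rw [eb]
      obtain ⟨a, d, had⟩ := hU (φ ((g : Module.End F V) (ω • u)) • v)
        (smul_mem _ _ (mem_span_singleton_self v))
      rcases hF a with rfl | rfl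
      · exfalso
        have h9 := congrArg (g : Module.End F V) had
        rw [apply_inv_apply, zero_smul, zero_add, LinearMap.map_smul _ d, hgu, ← hc,
          ← algebraMap_smul K d, smul_smul] at h9
        apply hne (-(algebraMap F K d * ω))
        rw [neg_smul, mul_smul, hω, algebraMap_smul, map_add, map_neg, LinearMap.map_smul _ d,
          map_add, map_neg, φ.map_smul_of_tower d, h8, smul_left_injective K hv h9,
          Algebra.smul_def, add_neg_cancel]
      · rcases hF d with rfl | rfl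
        · left; rw [had]; simp
        · right; rw [had]; simp [add_assoc]

end Cfsg.Lib.Class.FE
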