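import Cfsg.Agent.Class.FieldExtTv

/-!
# Overgroups of `GL_m(K) ∩ SL_n(F)`: orbits of pointwise stabilisers
-/

set_option autoImplicit false
set_option linter.unusedSectionVars false

namespace Cfsg.Lib.Class.FE

open Module Submodule

variable {F K V : Type*} [Field F] [Field K] [Algebra F K] [AddCommGroup V] [Module F V]
  [Module K V] [IsScalarTower F K V]

/-- The pointwise stabiliser of `J` in `X`. -/
def fixer (X : Subgroup (Module.End F V)ˣ) (J : Submodule F V) : Subgroup (Module.End F V)ˣ :=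
  X ⊓ fixingSubgroup (Module.End F V)ˣ (J : Set V)

/-- The orbit of `x` under `Y`. -/
def orbS (Y : Subgroup (Module.End F V)ˣ) (x : V) : Set V :=
  {y | ∃ g ∈ Y, (g : Module.End F V) x = y}

variable {X : Subgroup (Module.End F V)ˣ}

theorem mem_fixer {J : Submodule F V} {g : (Module.End F V)ˣ} :
    g ∈ fixer X J ↔ g ∈ X ∧ ∀ y ∈ J, (g : Module.End F V) y = y := by
  simp only [fixer, Subgroup.mem_inf, mem_fixingSubgroup_iff]
  rfl

theorem ncard_orbS (Y : Subgroup (Module.End F V)ˣ) (x : V) :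
    (orbS Y x).ncard = (MulAction.stabilizer (Module.End F V)ˣ x).relIndex Y := by
  rw [Subgroup.relIndex, show (MulAction.stabilizer (Module.End F V)ˣ x).subgroupOf Y =
    MulAction.stabilizer Y x from rfl, MulAction.index_stabilizer]
  congr 1
  ext y
  simp only [orbS, Set.mem_ofPred_eq, MulAction.mem_orbit_iff, Subtype.exists]
  exact ⟨fun ⟨g, hg, e⟩ ↦ ⟨g, hg, e⟩, fun ⟨g, hg, e⟩ ↦ ⟨g, hg, e⟩⟩

theorem fixer_sup_span (J : Submodule F V) (a : V) :
    fixer X (J ⊔ span F {a}) = MulAction.stabilizer (Module.End F V)ˣ a ⊓ fixer X J := by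
  ext g
  simp only [Subgroup.mem_inf, mem_fixer, MulAction.mem_stabilizer_iff]
  constructor
  · rintro ⟨hg, h⟩
    exact ⟨h a (mem_sup_right (mem_span_singleton_self a)), hg, fun y hy ↦ h y (mem_sup_left hy)⟩
  · rintro ⟨ha, hg, h⟩
    refine ⟨hg, fun y hy ↦ ?_⟩
    obtain ⟨y, hy', z, hz, rfl⟩ := mem_sup.1 hy
    obtain ⟨c, rfl⟩ := mem_span_singleton.1 hz
    rw [map_add, map_smul, h y hy', show (g : Module.End F V) a = a from ha]

theorem ncard_orbS_exchange (J : Submodule F V) (a b : V) :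
    (orbS (fixer X (J ⊔ span F {a})) b).ncard * (orbS (fixer X J) a).ncard =
      (orbS (fixer X (J ⊔ span F {b})) a).ncard * (orbS (fixer X J) b).ncard := by
  simp only [ncard_orbS, fixer_sup_span, Subgroup.relIndex_inf_mul_relIndex]
  rw [inf_comm]

theorem orbS_fixer_map (J : Submodule F V) {g : (Module.End F V)ˣ} (hg : g ∈ X) (x : V) :
    orbS (fixer X (J.map (g : Module.End F V))) ((g : Module.End F V) x) =
      (g : Module.End F V) '' orbS (fixer X J) x := by
  ext z
  constructor
  · rintro ⟨h, hh, rfl⟩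
    obtain ⟨hX, hh⟩ := mem_fixer.1 hh
    refine ⟨_, ⟨g⁻¹ * h * g, mem_fixer.2 ⟨X.mul_mem (X.mul_mem (X.inv_mem hg) hX) hg,
      fun y hy ↦ ?_⟩, rfl⟩, by simp only [unit_mul_apply, apply_inv_apply]⟩
    simp only [unit_mul_apply, hh _ (mem_map_of_mem hy), inv_apply_apply]
  · rintro ⟨_, ⟨h, hh, rfl⟩, rfl⟩
    obtain ⟨hX, hh⟩ := mem_fixer.1 hh
    refine ⟨g * h * g⁻¹, mem_fixer.2 ⟨X.mul_mem (X.mul_mem hg hX) (X.inv_mem hg), ?_⟩,
      by simp only [unit_mul_apply, inv_apply_apply]⟩
    rintro _ ⟨y, hy, rfl⟩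
    simp only [unit_mul_apply, hh _ hy, inv_apply_apply]

/-- The orbit of `x` under the pointwise stabiliser of `J` is small. -/
def Small (K : Type*) (X : Subgroup (Module.End F V)ˣ) (J : Submodule F V) (x : V) : Prop :=
  (orbS (fixer X J) x).ncard ≤ Nat.card K

theorem small_map_iff (J : Submodule F V) {g : (Module.End F V)ˣ} (hg : g ∈ X) (x : V) :
    Small K X (J.map (g : Module.End F V)) ((g : Module.End F V) x) ↔ Small K X J x := by
  rw [Small, orbS_fixer_map J hg, Set.ncard_image_of_injective _ (unit_injective g), Small]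

variable [Finite K] [FiniteDimensional K V]

theorem small_of_mem {J : Submodule F V} {x : V} (hx : x ∈ J) : Small K X J x := by
  have : orbS (fixer X J) x = {x} := by
    ext z
    constructor
    · rintro ⟨g, hg, rfl⟩
      exact (mem_fixer.1 hg).2 x hx
    · rintro rfl
      exact ⟨1, Subgroup.one_mem _, rfl⟩
  rw [Small, this, Set.ncard_singleton]
  exact Nat.card_pos

theorem KGen.large (hX : KGen K X) (hr : 2 ≤ finrank F K) {v : V} {J : Submodule F V}
    (hJ : ∀ y ∈ J, y ∈ span K {v}) {x : V} {g : (Module.End F V)ˣ} (hg : g ∈ fixer X J)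
    (hx : (g : Module.End F V) x ∉ span K {v}) :
    Nat.card V < Nat.card F * (orbS (fixer X J) x).ncard := by
  have : Finite V := Module.finite_of_finite K
  obtain ⟨φ, h1, h2⟩ := exists_dual_pair hx 1
  set x' := (g : Module.End F V) x with hx'
  have e1 : Nat.card V ≤ Nat.card (LinearMap.ker φ) * Nat.card K := by
    rw [← Nat.card_prod]
    refine Nat.card_le_card_of_injective
      (fun y : V ↦ ((⟨y - φ y • x', by simp [h2]⟩ : LinearMap.ker φ), φ y)) fun y z h ↦ ?_
    have h3 : φ y = φ z := congrArg Prod.snd h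
    have h4 : y - φ y • x' = z - φ z • x' := congrArg (fun p ↦ (p.1 : V)) h
    rwa [h3, sub_left_inj] at h4
  have e2 : Nat.card (LinearMap.ker φ) * Nat.card {c : K // Algebra.norm F c = 1} ≤
      (orbS (fixer X J) x).ncard := by
    rw [← Nat.card_prod, ← Nat.card_coe_set_eq]
    have hmem : ∀ p : LinearMap.ker φ × {c : K // Algebra.norm F c = 1},
        (p.1 : V) + (p.2 : K) • x' ∈ orbS (fixer X J) x := by
      rintro ⟨⟨z, hz⟩, c, hc⟩
      obtain ⟨t, ht, e⟩ := hX φ (z + c • x' - x') (by simp [LinearMap.mem_ker.1 hz, h2, hc])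
      refine ⟨t * g, Subgroup.mul_mem _ (mem_fixer.2 ⟨ht, fun y hy ↦ ?_⟩) hg, ?_⟩
      · simp [e, dual_eq_zero_of_mem_span h1 (hJ y hy)]
      · rw [unit_mul_apply, ← hx', e, h2]
        simp
    refine Nat.card_le_card_of_injective (fun p ↦ (⟨_, hmem p⟩ : orbS (fixer X J) x)) ?_
    rintro ⟨⟨z, hz⟩, c, hc⟩ ⟨⟨z', hz'⟩, c', hc'⟩ h
    have h3 : z + c • x' = z' + c' • x' := congrArg Subtype.val h
    have h4 : c = c' := by
      simpa [LinearMap.mem_ker.1 hz, LinearMap.mem_ker.1 hz', h2] using congrArg φ h3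
    subst h4
    obtain rfl : z = z' := add_right_cancel h3
    rfl
  have e3 := card_lt_card_mul_normOne (F := F) (K := K) hr
  have e4 : 0 < Nat.card (LinearMap.ker φ) := Nat.card_pos
  calc Nat.card V ≤ _ := e1
    _ < Nat.card (LinearMap.ker φ) * (Nat.card F * Nat.card {c : K // Algebra.norm F c = 1}) :=
      Nat.mul_lt_mul_of_pos_left e3 e4
    _ = Nat.card F * (Nat.card (LinearMap.ker φ) * Nat.card {c : K // Algebra.norm F c = 1}) := by
      ring
    _ ≤ _ := Nat.mul_le_mul_left _ e2

theorem card_mul_le (hr : 2 ≤ finrank F K) (hm : 2 ≤ finrank K V) :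
    Nat.card F * Nat.card F * Nat.card K ≤ Nat.card V := by
  have h1 := sq_card_le (F := F) (K := K) hr
  have h2 : Nat.card K * Nat.card K ≤ Nat.card V := by
    rw [Module.natCard_eq_pow_finrank (K := K) (V := V), ← pow_two]
    exact Nat.pow_le_pow_right Nat.card_pos hm
  exact (Nat.mul_le_mul_right _ h1).trans h2

theorem KGen.small_iff (hX : KGen K X) (hr : 2 ≤ finrank F K) (hm : 2 ≤ finrank K V) {v : V}
    {J : Submodule F V} (hJ : ∀ y ∈ J, y ∈ span K {v}) {x : V} :
    Small K X J x ↔ ∀ g ∈ fixer X J, (g : Module.End F V) x ∈ span K {v} := by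
  have : Finite V := Module.finite_of_finite K
  have : Finite F := Finite.of_injective _ (algebraMap F K).injective
  constructor
  · intro h g hg
    by_contra hx
    have h1 := hX.large hr hJ hg hx
    have h2 := card_mul_le (F := F) hr hm
    have h3 : 0 < Nat.card F := Nat.card_pos
    have h4 : Nat.card F * (orbS (fixer X J) x).ncard ≤ Nat.card F * Nat.card K :=
      Nat.mul_le_mul_left _ h
    have h5 : Nat.card F * Nat.card K ≤ Nat.card F * Nat.card F * Nat.card K := by
      rw [mul_assoc]; exact Nat.le_mul_of_pos_left _ h3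
    omega
  · intro h
    refine le_trans ?_ (card_span_singleton_le (K := K) v)
    rw [← SetLike.coe_sort_coe, Nat.card_coe_set_eq]
    refine Set.ncard_le_ncard ?_
    rintro _ ⟨g, hg, rfl⟩
    exact h g hg

theorem KGen.small_sub (hX : KGen K X) (hr : 2 ≤ finrank F K) (hm : 2 ≤ finrank K V) {v : V}
    {J : Submodule F V} (hJ : ∀ y ∈ J, y ∈ span K {v}) {g : (Module.End F V)ˣ} (hg : g ∈ X)
    {a b : V} (ha : Small K X (J.map (g : Module.End F V)) a)
    (hb : Small K X (J.map (g : Module.End F V)) b) :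
    Small K X (J.map (g : Module.End F V)) (a - b) := by
  obtain ⟨a, rfl⟩ := unit_surjective g a
  obtain ⟨b, rfl⟩ := unit_surjective g b
  rw [← map_sub]
  rw [small_map_iff J hg, hX.small_iff hr hm hJ] at ha hb ⊢
  intro h hh
  rw [map_sub]
  exact sub_mem (ha h hh) (hb h hh)

/-- If `X` does not normalise `K`, the only vectors with a small orbit under the stabiliser
of `v` are the `F`-multiples of `v`. -/
theorem KGen.mem_of_small_base (hX : KGen K X) (hr : (finrank F K).Prime) (hm : 2 ≤ finrank K V)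
    (hN : ∃ g ∈ X, ∃ k : K, ∀ k' : K,
      ∃ x, (g : Module.End F V) (k • x) ≠ k' • (g : Module.End F V) x)
    {v : V} (hv : v ≠ 0) {x : V} (hx : Small K X (span F {v}) x) : x ∈ span F {v} := by
  have hJ : ∀ y ∈ span F {v}, y ∈ span K {v} := fun y hy ↦ span_le_restrictScalars F K _ hy
  rw [hX.small_iff hr.two_le hm hJ] at hx
  obtain ⟨e, rfl⟩ := mem_span_singleton.1
    (show x ∈ span K {v} from hx 1 (Subgroup.one_mem _))
  let E : Subalgebra F K :=
    { carrier := {a | ∀ g ∈ X, ∀ w,
        (g : Module.End F V) (a • w) ∈ span K {(g : Module.End F V) w}}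
      mul_mem' := fun {a b} ha hb g hg w ↦ by
        rw [mul_smul]
        exact (span_singleton_le_iff_mem _ _).2 (hb g hg w) (ha g hg _)
      add_mem' := fun {a b} ha hb g hg w ↦ by
        rw [add_smul, map_add]; exact add_mem (ha g hg w) (hb g hg w)
      algebraMap_mem' := fun c g hg w ↦ by
        rw [algebraMap_smul, map_smul]
        exact smul_of_tower_mem _ _ (mem_span_singleton_self _) }
  have he : e ∈ E := by
    intro g hg w
    by_cases hw : w = 0
    · simp [hw]
    obtain ⟨h, hh, e1, l⟩ := hX.exists_apply_eq hm hv hw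
    obtain ⟨h', hh', e1', l'⟩ := hX.exists_apply_eq hm hv (unit_apply_ne_zero g hw)
    have := hx (h'⁻¹ * g * h) (mem_fixer.2 ⟨X.mul_mem (X.mul_mem (X.inv_mem hh') hg) hh,
      fun y hy ↦ by
        obtain ⟨c, rfl⟩ := mem_span_singleton.1 hy
        rw [map_smul, unit_mul_apply, unit_mul_apply, e1, ← e1', inv_apply_apply]⟩)
    obtain ⟨a, ha⟩ := mem_span_singleton.1 this
    have h2 := congrArg (h' : Module.End F V) ha
    rw [unit_mul_apply, unit_mul_apply, apply_inv_apply, l', l, e1, e1'] at h2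
    exact mem_span_singleton.2 ⟨a, h2⟩
  rcases (Subalgebra.isSimpleOrder_of_finrank_prime F K hr).eq_bot_or_eq_top E with hE | hE
  · obtain ⟨c, rfl⟩ := Algebra.mem_bot.1 (hE ▸ he)
    exact mem_span_singleton.2 ⟨c, (algebraMap_smul K c v).symm⟩
  · exfalso
    obtain ⟨g, hg, k, hk⟩ := hN
    have hkE : k ∈ E := hE ▸ Algebra.mem_top
    obtain ⟨k', hk'⟩ := exists_eq_smul_of_forall_mem (K := K) hm
      ((g : Module.End F V).toAddMonoidHom.comp ((DistribSMul.toAddMonoidHom V k).comp
        ((g⁻¹ : (Module.End F V)ˣ) : Module.End F V).toAddMonoidHom)) fun x ↦ by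
      simpa using hkE g hg (((g⁻¹ : (Module.End F V)ˣ) : Module.End F V) x)
    obtain ⟨x, hx⟩ := hk k'
    exact hx (by simpa using hk' ((g : Module.End F V) x))

theorem KGen.mem_of_small_step (hX : KGen K X) (hr : (finrank F K).Prime) (hm : 2 ≤ finrank K V)
    {v : V} {J : Submodule F V} (hJ : ∀ y ∈ J, y ∈ span K {v}) (h0 : J ≠ ⊥)
    (hP : ∀ x, Small K X J x → x ∈ J) {y : V} (hy : y ∈ span K {v}) (hyJ : y ∉ J) {x : V}
    (hx : Small K X (J ⊔ span F {y}) x) : x ∈ J ⊔ span F {y} := by
  have : Finite V := Module.finite_of_finite K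
  have : Finite F := Finite.of_injective _ (algebraMap F K).injective
  have : FiniteDimensional F V := Module.Finite.of_finite
  have hsup : ∀ y ∈ span K {v}, ∀ z ∈ J ⊔ span F {y}, z ∈ span K {v} := by
    intro y hy z hz
    obtain ⟨a, ha, b, hb, rfl⟩ := mem_sup.1 hz
    obtain ⟨c, rfl⟩ := mem_span_singleton.1 hb
    exact add_mem (hJ a ha) (smul_of_tower_mem _ _ hy)
  by_contra hxJ
  obtain ⟨g, hg, hgy⟩ : ∃ g ∈ fixer X J, (g : Module.End F V) y ∉ span K {v} := by
    by_contra! h
    exact hyJ (hP y ((hX.small_iff hr.two_le hm hJ).2 h))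
  obtain ⟨hgX, hgJ⟩ := mem_fixer.1 hg
  set u := (g : Module.End F V) y with hu
  have hmap : (J ⊔ span F {y}).map (g : Module.End F V) = J ⊔ span F {u} := by
    rw [Submodule.map_sup, map_span, Set.image_singleton]
    congr 1
    ext z
    exact ⟨fun ⟨a, ha, e⟩ ↦ e ▸ (hgJ a ha).symm ▸ ha, fun hz ↦ ⟨z, hz, hgJ z hz⟩⟩
  set z := (g : Module.End F V) x with hz
  have hzs : Small K X (J ⊔ span F {u}) z := hmap ▸ (small_map_iff _ hgX x).2 hx
  have hzJ : z ∉ J ⊔ span F {u} := by
    rw [← hmap]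
    rintro ⟨a, ha, e⟩
    exact hxJ (unit_injective g e ▸ ha)
  have hsub : ∀ a b, Small K X (J ⊔ span F {u}) a → Small K X (J ⊔ span F {u}) b →
      Small K X (J ⊔ span F {u}) (a - b) := fun a b ha hb ↦
    hmap ▸ hX.small_sub hr.two_le hm (hsup y hy) hgX (hmap ▸ ha) (hmap ▸ hb)
  obtain ⟨y', hy'v, hy'J, hy's⟩ : ∃ y' ∈ span K {v}, y' ∉ J ∧ Small K X (J ⊔ span F {u}) y' := by
    by_cases hφ : ∃ φ : Dual K V, φ v = 0 ∧ φ u = 1 ∧ φ z ∉ Set.range (algebraMap F K)
    · obtain ⟨φ, h1, h2, h3⟩ := hφ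
      obtain ⟨y₀, hy₀, h4⟩ := exists_smul_notMem hr hJ h0 ⟨y, hy, hyJ⟩ h3
      obtain ⟨t, ht, e⟩ := hX.tv (φ := φ) (v := y₀) (dual_eq_zero_of_mem_span h1 (hJ _ hy₀))
      have hmap' : (J ⊔ span F {u}).map (t : Module.End F V) = J ⊔ span F {u} := by
        apply Submodule.eq_of_le_of_finrank_eq
        · rw [Submodule.map_sup, map_span, Set.image_singleton, sup_le_iff]
          constructor
          · rintro _ ⟨a, ha, rfl⟩
            rw [e, dual_eq_zero_of_mem_span h1 (hJ a ha), zero_smul, add_zero]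
            exact mem_sup_left ha
          · rw [span_singleton_le_iff_mem, e, h2, one_smul]
            exact add_mem (mem_sup_right (mem_span_singleton_self u)) (mem_sup_left hy₀)
        · exact (Submodule.equivMapOfInjective _ (unit_injective t) _).finrank_eq.symm
      refine ⟨φ z • y₀, smul_mem _ _ (hJ _ hy₀), h4, ?_⟩
      have := hsub _ _ (hmap' ▸ (small_map_iff _ ht z).2 hzs) hzs
      rwa [e, add_sub_cancel_left] at this
    · push Not at hφ
      obtain ⟨φ, h1, h2⟩ := exists_dual_pair hgy 1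
      obtain ⟨c, hc⟩ := hφ φ h1 h2
      refine ⟨z - c • u, ?_, fun h ↦ hzJ ?_, hsub _ _ hzs
        (small_of_mem (mem_sup_right (smul_mem _ _ (mem_span_singleton_self u))))⟩
      · have hφz : φ (z - c • u) = 0 := by
          rw [map_sub, ← algebraMap_smul K c u, map_smul, h2, ← hc, smul_eq_mul, mul_one, sub_self]
        by_cases h : z - c • u ∈ span K {v, u}
        · obtain ⟨a, b, hab⟩ := mem_span_pair.1 h
          have := congrArg φ hab
          rw [hφz] at this
          simp only [map_add, map_smul, h1, h2, smul_eq_mul, mul_zero, mul_one, zero_add] at this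
          rw [← hab, this, zero_smul, add_zero]
          exact smul_mem _ _ (mem_span_singleton_self v)
        · exfalso
          obtain ⟨k, hk⟩ := exists_notMem_range (F := F) (K := K) hr.two_le
          obtain ⟨ψ, h3, h4⟩ := exists_dual_of_notMem h k
          have h5 : ψ v = 0 := h4 v (subset_span (by simp))
          have h6 : ψ u = 0 := h4 u (subset_span (by simp))
          obtain ⟨d, hd⟩ := hφ (φ + ψ) (by simp [h1, h5]) (by simp [h2, h6])
          rw [map_sub, ← algebraMap_smul K c u, map_smul, h6, smul_zero, sub_zero] at h3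
          refine hk ⟨d - c, ?_⟩
          rw [map_sub, hd, hc, LinearMap.add_apply, h3, add_sub_cancel_left]
      · rw [← sub_add_cancel z (c • u)]
        exact add_mem (mem_sup_left h) (mem_sup_right (smul_mem _ _ (mem_span_singleton_self u)))
  obtain ⟨g', hg', hg'y⟩ : ∃ g ∈ fixer X J, (g : Module.End F V) y' ∉ span K {v} := by
    by_contra! h
    exact hy'J (hP y' ((hX.small_iff hr.two_le hm hJ).2 h))
  have l1 := hX.large hr.two_le hJ hg' hg'y
  have l2 := hX.large hr.two_le (hsup y' hy'v) (x := u) (Subgroup.one_mem _) hgy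
  have ex := ncard_orbS_exchange (X := X) J y' u
  have l3 : (orbS (fixer X J) u).ncard ≤ Nat.card V := by
    rw [← Set.ncard_univ]; exact Set.ncard_le_ncard (Set.subset_univ _)
  have l4 := card_mul_le (F := F) hr.two_le hm
  have l5 := Nat.mul_le_mul hy's l3
  rw [← ex] at l5
  have l6 := Nat.mul_lt_mul'' l1 l2
  generalize (orbS (fixer X (J ⊔ span F {y'})) u).ncard = A at *
  generalize (orbS (fixer X J) y').ncard = B at *
  have : Nat.card F * B * (Nat.card F * A) ≤ Nat.card V * Nat.card V :=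
    calc _ = Nat.card F * Nat.card F * (A * B) := by ring
      _ ≤ Nat.card F * Nat.card F * (Nat.card K * Nat.card V) := Nat.mul_le_mul_left _ l5
      _ = Nat.card F * Nat.card F * Nat.card K * Nat.card V := by ring
      _ ≤ _ := Nat.mul_le_mul_right _ l4
  omega

/-- If `X` does not normalise `K`, some element of `X` fixes an `F`-hyperplane of a `K`-line
pointwise but moves the `K`-line. -/
theorem KGen.exists_fix_hyperplane (hX : KGen K X) (hr : (finrank F K).Prime)
    (hm : 2 ≤ finrank K V)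
    (hN : ∃ g ∈ X, ∃ k : K, ∀ k' : K,
      ∃ x, (g : Module.End F V) (k • x) ≠ k' • (g : Module.End F V) x)
    {v : V} (hv : v ≠ 0) : ∃ J : Submodule F V, (∀ y ∈ J, y ∈ span K {v}) ∧
      finrank F J + 1 = finrank F K ∧ ∀ x ∉ J, ∃ g ∈ fixer X J,
        (g : Module.End F V) x ∉ span K {v} := by
  have : Finite V := Module.finite_of_finite K
  have : Finite F := Finite.of_injective _ (algebraMap F K).injective
  have : FiniteDimensional F V := Module.Finite.of_finite
  have key : ∀ j, j + 2 ≤ finrank F K → ∃ J : Submodule F V, (∀ y ∈ J, y ∈ span K {v}) ∧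
      finrank F J = j + 1 ∧ ∀ x, Small K X J x → x ∈ J := by
    intro j
    induction j with
    | zero =>
      exact fun _ ↦ ⟨span F {v}, fun y hy ↦ span_le_restrictScalars F K _ hy,
        finrank_span_singleton hv, fun x hx ↦ hX.mem_of_small_base hr hm hN hv hx⟩
    | succ j ih =>
      intro hj
      obtain ⟨J, hJ, hd, hP⟩ := ih (by omega)
      obtain ⟨y, hy, hyJ⟩ : ∃ y ∈ span K {v}, y ∉ J := by
        by_contra! h
        have := Submodule.finrank_mono (show (span K {v}).restrictScalars F ≤ J from h)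
        rw [finrank_span_singleton_restrict hv] at this
        omega
      refine ⟨J ⊔ span F {y}, fun z hz ↦ ?_, ?_, fun x hx ↦ hX.mem_of_small_step hr hm hJ
        (by rintro rfl; simp at hd) hP hy hyJ hx⟩
      · obtain ⟨a, ha, b, hb, rfl⟩ := mem_sup.1 hz
        obtain ⟨c, rfl⟩ := mem_span_singleton.1 hb
        exact add_mem (hJ a ha) (smul_of_tower_mem _ _ hy)
      · rw [Submodule.finrank_sup_span_singleton hyJ, hd]
  obtain ⟨J, hJ, hd, hP⟩ := key (finrank F K - 2) (by have := hr.two_le; omega)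
  refine ⟨J, hJ, by have := hr.two_le; omega, fun x hx ↦ ?_⟩
  by_contra! h
  exact hx (hP x ((hX.small_iff hr.two_le hm hJ).2 h))

end Cfsg.Lib.Class.FE
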