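import Cfsg.Agent.Class.FieldExt

/-!
# Overgroups of `GL_m(K) ∩ SL_n(F)` containing an `F`-transvection
-/

set_option autoImplicit false
set_option linter.unusedSectionVars false

namespace Cfsg.Lib.Class.FE

open Module Submodule

variable {F K V : Type*} [Field F] [Field K] [Algebra F K] [AddCommGroup V] [Module F V]
  [Module K V] [IsScalarTower F K V]

/-- `X` contains every map `x ↦ x + φ x • v` (`φ` a `K`-functional) of `F`-determinant one. -/
def KGen (K : Type*) [Field K] [Algebra F K] [Module K V] (X : Subgroup (Module.End F V)ˣ) :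
    Prop :=
  ∀ (φ : Dual K V) (v : V), Algebra.norm F (1 + φ v) = 1 →
    ∃ g ∈ X, ∀ x, (g : Module.End F V) x = x + φ x • v

/-- `X` contains the map `x ↦ x + f x • v`. -/
def TvIn (X : Subgroup (Module.End F V)ˣ) (v : V) (f : Dual F V) : Prop :=
  ∃ g ∈ X, ∀ x, (g : Module.End F V) x = x + f x • v

/-- `X` contains a non-trivial `F`-transvection. -/
def HasTv (X : Subgroup (Module.End F V)ˣ) : Prop :=
  ∃ (w : V) (f : Dual F V), w ≠ 0 ∧ f ≠ 0 ∧ f w = 0 ∧ TvIn X w f

variable {X : Subgroup (Module.End F V)ˣ}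

@[simp] theorem inv_apply_apply (g : (Module.End F V)ˣ) (x : V) :
    ((g⁻¹ : (Module.End F V)ˣ) : Module.End F V) ((g : Module.End F V) x) = x := by
  rw [← Module.End.mul_apply, Units.inv_mul, Module.End.one_apply]

@[simp] theorem apply_inv_apply (g : (Module.End F V)ˣ) (x : V) :
    (g : Module.End F V) (((g⁻¹ : (Module.End F V)ˣ) : Module.End F V) x) = x := by
  rw [← Module.End.mul_apply, Units.mul_inv, Module.End.one_apply]

theorem unit_injective (g : (Module.End F V)ˣ) : Function.Injective (g : Module.End F V) :=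
  Function.LeftInverse.injective (inv_apply_apply g)

theorem unit_surjective (g : (Module.End F V)ˣ) : Function.Surjective (g : Module.End F V) :=
  Function.RightInverse.surjective (apply_inv_apply g)

theorem unit_mul_apply (g h : (Module.End F V)ˣ) (x : V) :
    ((g * h : (Module.End F V)ˣ) : Module.End F V) x =
      (g : Module.End F V) ((h : Module.End F V) x) := rfl

theorem unit_apply_ne_zero (g : (Module.End F V)ˣ) {x : V} (hx : x ≠ 0) :
    (g : Module.End F V) x ≠ 0 := fun h ↦ hx (unit_injective g (by rw [h, map_zero]))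

theorem KGen.tv (hX : KGen K X) {φ : Dual K V} {v : V} (h : φ v = 0) :
    ∃ g ∈ X, ∀ x, (g : Module.End F V) x = x + φ x • v :=
  hX φ v (by simp [h])

theorem TvIn.conj {v : V} {f f' : Dual F V} (h : TvIn X v f) {g : (Module.End F V)ˣ}
    (hg : g ∈ X) (hf : ∀ x, f' ((g : Module.End F V) x) = f x) :
    TvIn X ((g : Module.End F V) v) f' := by
  obtain ⟨t, ht, e⟩ := h
  refine ⟨g * t * g⁻¹, X.mul_mem (X.mul_mem hg ht) (X.inv_mem hg), fun x ↦ ?_⟩
  obtain ⟨x, rfl⟩ := unit_surjective g x
  simp [e, hf]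

theorem TvIn.add {v : V} {f f' : Dual F V} (h : TvIn X v f) (h' : TvIn X v f') (hv : f v = 0) :
    TvIn X v (f + f') := by
  obtain ⟨t, ht, e⟩ := h
  obtain ⟨t', ht', e'⟩ := h'
  refine ⟨t * t', X.mul_mem ht ht', fun x ↦ ?_⟩
  simp only [unit_mul_apply, e, e', map_add, map_smul, hv, LinearMap.add_apply]
  module

theorem TvIn.neg {v : V} {f : Dual F V} (h : TvIn X v f) (hv : f v = 0) : TvIn X v (-f) := by
  obtain ⟨t, ht, e⟩ := h
  refine ⟨t⁻¹, X.inv_mem ht, fun x ↦ unit_injective t ?_⟩
  rw [apply_inv_apply]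
  simp [e, hv]

theorem tvIn_zero (v : V) : TvIn X v 0 := ⟨1, X.one_mem, by simp⟩

theorem hasTv_of_rank_one {g : (Module.End F V)ˣ} (hg : g ∈ X) {w : V}
    (h1 : ∀ x, ∃ s : F, (g : Module.End F V) x = x + s • w) (h2 : (g : Module.End F V) w = w)
    (h3 : ∃ x, (g : Module.End F V) x ≠ x) : HasTv X := by
  obtain ⟨x, hx⟩ := h3
  have hw : w ≠ 0 := by
    rintro rfl
    obtain ⟨s, hs⟩ := h1 x
    exact hx (by simpa using hs)
  obtain ⟨c, hc⟩ := exists_dual_eq (K := F) hw 1
  have key : ∀ x, (g : Module.End F V) x = x + (c ∘ₗ ((g : Module.End F V) - 1)) x • w := by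
    intro x
    obtain ⟨s, hs⟩ := h1 x
    simp [hs, hc]
  refine ⟨w, c ∘ₗ ((g : Module.End F V) - 1), hw, fun h ↦ hx ?_, by simp [h2], g, hg, key⟩
  rw [key, h]
  simp

variable [Finite K] [FiniteDimensional K V]

/-- The `K`-linear elements of `X` are transitive on non-zero vectors. -/
theorem KGen.exists_apply_eq (hX : KGen K X) (hm : 2 ≤ finrank K V) {v w : V} (hv : v ≠ 0)
    (hw : w ≠ 0) : ∃ h ∈ X, (h : Module.End F V) v = w ∧
      ∀ (k : K) x, (h : Module.End F V) (k • x) = k • (h : Module.End F V) x := by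
  have key : ∀ v w : V, v ≠ 0 → w ∉ span K {v} → ∃ h ∈ X, (h : Module.End F V) v = w ∧
      ∀ (k : K) x, (h : Module.End F V) (k • x) = k • (h : Module.End F V) x := by
    intro v w hv hw
    obtain ⟨φ, h1, h2⟩ := exists_dual_pair' hv hw 1 1
    obtain ⟨g, hg, e⟩ := hX.tv (φ := φ) (v := w - v) (by simp [h1, h2])
    refine ⟨g, hg, by simp [e, h1], fun k x ↦ ?_⟩
    simp only [e, map_smul, smul_add, smul_eq_mul, mul_smul]
  by_cases h : w ∈ span K {v}
  · obtain ⟨u, hu⟩ := exists_notMem_span hm v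
    obtain ⟨g, hg, e, l⟩ := key v u hv hu
    obtain ⟨g', hg', e', l'⟩ := key u w (fun h ↦ hu (h ▸ zero_mem _))
      (notMem_span_symm hw (by rwa [span_singleton_eq_of_mem h hw]))
    exact ⟨g' * g, X.mul_mem hg' hg, by rw [unit_mul_apply, e, e'],
      fun k x ↦ by simp only [unit_mul_apply, l, l']⟩
  · exact key v w hv h

theorem exists_eq_comp_dual [FiniteDimensional F K] {τ : Dual F K} (hτ : τ ≠ 0) (f : Dual F V) :
    ∃ φ : Dual K V, f = τ ∘ₗ φ.restrictScalars F := by
  have : FiniteDimensional F V := Module.Finite.trans K V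
  let L : Dual K V →ₗ[F] Dual F V :=
    { toFun := fun φ ↦ τ ∘ₗ φ.restrictScalars F
      map_add' := fun φ ψ ↦ by ext; simp
      map_smul' := fun c φ ↦ by ext; simp }
  have : FiniteDimensional F (Dual K V) := Module.Finite.trans K _
  have hinj : Function.Injective L := by
    rw [injective_iff_map_eq_zero]
    intro φ hφ
    by_contra h0
    obtain ⟨x, hx⟩ := DFunLike.ne_iff.1 h0
    apply hτ
    ext k
    have := LinearMap.congr_fun hφ ((k / φ x) • x)
    simp only [LinearMap.zero_apply] at hx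
    simpa [L, div_mul_cancel₀ k hx] using this
  have hsurj := (LinearMap.injective_iff_surjective_of_finrank_eq_finrank (f := L) (by
    rw [Subspace.dual_finrank_eq, ← Module.finrank_mul_finrank F K V,
      ← Module.finrank_mul_finrank F K (Dual K V), Subspace.dual_finrank_eq])).1 hinj
  obtain ⟨φ, hφ⟩ := hsurj f
  exact ⟨φ, hφ.symm⟩

/-- If `X` contains one `F`-transvection, it contains all of them. -/
theorem KGen.tvIn_of_hasTv (hX : KGen K X) (hr : 2 ≤ finrank F K) (hm : 2 ≤ finrank K V)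
    (hT : HasTv X) {w : V} {f : Dual F V} (hf : f w = 0) : TvIn X w f := by
  have : FiniteDimensional F K := Module.finite_of_finrank_pos (by omega)
  obtain ⟨τ, hτ1⟩ := exists_dual_eq (K := F) (one_ne_zero (α := K)) 1
  have hτ : τ ≠ 0 := by rintro rfl; simp at hτ1
  let T : Dual K V → Dual F V := fun φ ↦ τ ∘ₗ φ.restrictScalars F
  have hT0 : ∀ φ x, T φ x = τ (φ x) := fun _ _ ↦ rfl
  have hTadd : ∀ φ ψ, T (φ + ψ) = T φ + T ψ := fun _ _ ↦ by ext; simp [hT0]
  have hTneg : ∀ φ, T (-φ) = -T φ := fun _ ↦ by ext; simp [hT0]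
  have hA : ∃ v, v ≠ 0 ∧ ∀ φ : Dual K V, φ v = 0 → TvIn X v (T φ) := by
    obtain ⟨v, f₀, hv, hf₀, hfv, h₀⟩ := hT
    obtain ⟨φ₀, rfl⟩ := exists_eq_comp_dual hτ f₀
    have hφ₀ : φ₀ ≠ 0 := by rintro rfl; exact hf₀ (by ext; simp)
    refine ⟨v, hv, fun ψ hψ ↦ ?_⟩
    by_cases hc : φ₀ v = 0
    · -- closure under multiplication by `K`
      have hK : ∀ (k : K) (φ : Dual K V), φ v = 0 → TvIn X v (T φ) → TvIn X v (T (k • φ)) := by
        let L : Subring K :=
          { carrier := {k | ∀ φ : Dual K V, φ v = 0 → TvIn X v (T φ) → TvIn X v (T (k • φ))}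
            mul_mem' := fun {a b} ha hb φ h1 h2 ↦ by
              rw [mul_smul]; exact ha _ (by simp [h1]) (hb φ h1 h2)
            one_mem' := fun φ _ h2 ↦ by rwa [one_smul]
            add_mem' := fun {a b} ha hb φ h1 h2 ↦ by
              rw [add_smul, hTadd]; exact (ha φ h1 h2).add (hb φ h1 h2) (by simp [hT0, h1])
            zero_mem' := fun φ _ _ ↦ by
              rw [zero_smul, show T 0 = 0 by ext; simp [hT0]]; exact tvIn_zero v
            neg_mem' := fun {a} ha φ h1 h2 ↦ by
              rw [show (-a) • φ = -(a • φ) by ext; simp, hTneg]; exact (ha φ h1 h2).neg (by simp [hT0, h1]) }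
        have hL : L = ⊤ := subring_eq_top_of_normOne hr L fun c hc φ h1 h2 ↦ by
          by_cases hφ : φ = 0
          · rwa [hφ, smul_zero, ← hφ]
          have hc0 : c ≠ 0 := by rintro rfl; simp at hc
          obtain ⟨u, hu⟩ := DFunLike.ne_iff.1 hφ
          simp only [LinearMap.zero_apply] at hu
          obtain ⟨g, hg, e⟩ := hX ((c⁻¹ - 1) • φ) ((φ u)⁻¹ • u) (by
            rw [show 1 + ((c⁻¹ - 1) • φ) ((φ u)⁻¹ • u) = c⁻¹ by simp; field_simp; ring,
              Algebra.norm_inv, hc, inv_one])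
          have := h2.conj (f' := T (c • φ)) hg fun x ↦ by
            rw [hT0, hT0]
            congr 1
            simp only [e, map_add, map_smul, LinearMap.smul_apply, smul_eq_mul]
            field_simp
            ring
          rwa [e, LinearMap.smul_apply, h1, smul_zero, zero_smul, add_zero] at this
        exact fun k ↦ (hL ▸ Subring.mem_top k : k ∈ L)
      obtain ⟨u, hu⟩ := DFunLike.ne_iff.1 hφ₀
      simp only [LinearMap.zero_apply] at hu
      by_cases hz : ∀ z, φ₀ z = 0 → ψ z = 0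
      · have : ψ = (ψ u / φ₀ u) • φ₀ := by
          ext x
          have := hz (x - (φ₀ x / φ₀ u) • u) (by simp [hu])
          simp only [map_sub, map_smul, smul_eq_mul, sub_eq_zero] at this
          simp only [this, LinearMap.smul_apply, smul_eq_mul]
          ring
        rw [this]
        exact hK _ _ hc h₀
      · push Not at hz
        obtain ⟨z, hz1, hz2⟩ := hz
        set u' := (φ₀ u)⁻¹ • u + ((1 - ψ u / φ₀ u) / ψ z) • z with hu'
        have e1 : φ₀ u' = 1 := by simp [hu', hz1, hu]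
        have e2 : ψ u' = 1 := by
          simp only [hu', map_add, map_smul, smul_eq_mul]
          field_simp
          ring
        obtain ⟨g, hg, e⟩ := hX.tv (φ := φ₀ - ψ) (v := u') (by simp [e1, e2])
        have := TvIn.conj (f' := T ψ) h₀ hg fun x ↦ by
          simp [hT0, e, e2]
        rwa [e, LinearMap.sub_apply, hc, hψ, sub_zero, zero_smul, add_zero] at this
    · obtain ⟨g, hg, e⟩ := hX.tv (φ := -(φ₀ v)⁻¹ • ψ) (v := v) (by simp [hψ])
      have := TvIn.conj (f' := T (φ₀ + ψ)) h₀ hg fun x ↦ by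
        simp only [hT0, e, map_add, map_smul, LinearMap.smul_apply, smul_eq_mul,
          LinearMap.add_apply, hψ, LinearMap.comp_apply, LinearMap.restrictScalars_apply]
        rw [← map_add, ← map_add]
        congr 1
        field_simp
        ring
      rw [e, LinearMap.smul_apply, hψ, smul_zero, zero_smul, add_zero] at this
      have h2 := (h₀.neg hfv).add this (by simpa using hfv)
      rwa [hTadd, neg_add_cancel_left] at h2
  have hB : ∀ v, v ≠ 0 → ∀ φ : Dual K V, φ v = 0 → TvIn X v (T φ) := by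
    obtain ⟨v₀, hv₀, h₀⟩ := hA
    intro v hv φ hφ
    obtain ⟨h, hh, e, l⟩ := hX.exists_apply_eq hm hv₀ hv
    let φ₀ : Dual K V :=
      { toFun := fun x ↦ φ ((h : Module.End F V) x)
        map_add' := fun x y ↦ by simp
        map_smul' := fun k x ↦ by simp [l] }
    exact e ▸ (h₀ φ₀ (by simp [φ₀, e, hφ])).conj hh fun x ↦ rfl
  by_cases hw : w = 0
  · exact ⟨1, X.one_mem, by simp [hw]⟩
  obtain ⟨φ, rfl⟩ := exists_eq_comp_dual hτ f
  by_cases hc : φ w = 0
  · exact hB w hw φ hc
  obtain ⟨u, hu⟩ := exists_notMem_span hm w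
  set v := u - (φ u / φ w) • w with hv
  have hφv : φ v = 0 := by simp [hv, hc]
  have hv0 : v ≠ 0 := fun h ↦ hu (mem_span_singleton.2 ⟨_, (sub_eq_zero.1 h).symm⟩)
  have hvw : v ∉ span K {w - v} := by
    intro h
    obtain ⟨a, ha⟩ := mem_span_singleton.1 h
    have := congrArg φ ha
    simp only [map_smul, map_sub, hφv, sub_zero, smul_eq_mul, mul_eq_zero, hc, or_false] at this
    exact hv0 (by rw [← ha, this, zero_smul])
  obtain ⟨ψ, h1, h2⟩ := exists_dual_pair hvw 1
  have hwv : w - v ≠ 0 := fun h ↦ hc (by rw [sub_eq_zero.1 h, hφv])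
  obtain ⟨g, hg, e⟩ := hB _ hwv ψ h1
  have := (hB v hv0 φ hφv).conj (f' := T φ) hg fun x ↦ by
    have : τ (φ w) = 0 := hf
    simp [e, hT0, hφv, this]
  rwa [e, hT0, h2, hτ1, one_smul, add_sub_cancel] at this

end Cfsg.Lib.Class.FE
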