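import Mathlib
import Cfsg.Prelude.Def_Solvable
import Cfsg.Agent.Class.SLTv
import Cfsg.Agent.Class.AltTransv

/-!
McLaughlin's theorem on linear groups generated by full transvection subgroups, in odd characteristic.
-/

set_option autoImplicit false

namespace Cfsg.Lib.Class

open Module

variable {F V : Type*} [Field F] [AddCommGroup V] [Module F V]

theorem pairing_surj {X Y : Type*} [AddCommGroup X] [Module F X] [AddCommGroup Y] [Module F Y]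
    [FiniteDimensional F X] [FiniteDimensional F Y] (α : X →ₗ[F] Dual F Y) (h1 : ∀ x, (∀ y, α x y = 0) → x = 0)
    (h2 : ∀ y, (∀ x, α x y = 0) → y = 0) : Function.Surjective α := by
  have hα : Function.Injective α := (injective_iff_map_eq_zero α).2 fun φ e => h1 _ (LinearMap.congr_fun e)
  have hβ : Function.Injective α.flip :=
    (injective_iff_map_eq_zero α.flip).2 fun w e => h2 _ (LinearMap.congr_fun e)
  have a1 := LinearMap.finrank_le_finrank_of_injective hα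
  have a2 : _ ≤ finrank F (Dual F X) := LinearMap.finrank_le_finrank_of_injective hβ
  rw [Subspace.dual_finrank_eq] at a1 a2
  exact (LinearMap.injective_iff_surjective_of_finrank_eq_finrank (by rw [Subspace.dual_finrank_eq]; omega)).1 hα

/-- A perfect pairing between a subspace and a space of functionals. -/
theorem pairing_perfect [FiniteDimensional F V] (W : Submodule F V) (Φ : Submodule F (Dual F V))
    (h1 : ∀ w ∈ W, (∀ φ ∈ Φ, φ w = 0) → w = 0) (h2 : ∀ φ ∈ Φ, (∀ w ∈ W, φ w = 0) → φ = 0) :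
    (∀ x, ∃ w ∈ W, ∀ φ ∈ Φ, φ x = φ w) ∧ ∀ ψ : Dual F W, ∃ φ ∈ Φ, ∀ w : W, φ w = ψ w := by
  have k1 : ∀ φ : Φ, (∀ w : W, φ.1 w = 0) → φ = 0 := fun φ e => Subtype.ext (h2 φ φ.2 fun w hw => e ⟨w, hw⟩)
  have k2 : ∀ w : W, (∀ φ : Φ, φ.1 w = 0) → w = 0 := fun w e => Subtype.ext (h1 w w.2 fun φ hφ => e ⟨φ, hφ⟩)
  constructor
  · intro x
    obtain ⟨w, e⟩ := pairing_surj (X := W) (Y := Φ) (W.subtype.dualMap ∘ₗ Φ.subtype).flip k2 k1 (Φ.subtype.flip x)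
    exact ⟨w, w.2, fun φ hφ => (LinearMap.congr_fun e ⟨φ, hφ⟩).symm⟩
  · intro ψ
    obtain ⟨φ, e⟩ := pairing_surj (X := Φ) (Y := W) (W.subtype.dualMap ∘ₗ Φ.subtype).flip.flip k1 k2 ψ
    exact ⟨φ, φ.2, fun w => LinearMap.congr_fun e w⟩

/-- The hypotheses of McLaughlin's theorem: `M` is generated by full transvection subgroups and has no
non-trivial normal unipotent subgroup. -/
structure McL (M : Subgroup (V ≃ₗ[F] V)) : Prop where
  two : (2 : F) ≠ 0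
  smul : ∀ a φ, TvIn M a φ → ∀ c : F, TvIn M (c • a) φ
  gen : ∀ N : Subgroup (V ≃ₗ[F] V), (∀ g ∈ M, ∀ (a : V) (φ : Dual F V), φ a = 0 → (∀ x, g x = x + φ x • a) → g ∈ N) →
    M ≤ N
  unip : ∀ W R : Submodule F V, (∀ g ∈ M, ∀ x ∈ W, g x ∈ W) → (∀ g ∈ M, ∀ x ∈ R, g x ∈ R) →
    ∀ k ∈ M, (∀ x, k x - x ∈ W) → (∀ x ∈ W, k x - x ∈ R) → (∀ x ∈ R, k x = x) → k = 1

/-- A path of length two from the axis `φ` to the centre `w`. -/
def TvRel (M : Subgroup (V ≃ₗ[F] V)) (φ : Dual F V) (w : V) : Prop := ∃ b ψ, TvIn M b ψ ∧ φ b ≠ 0 ∧ ψ w ≠ 0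

/-- A non-trivial transvection of `M`. -/
structure NTv (M : Subgroup (V ≃ₗ[F] V)) (a : V) (φ : Dual F V) : Prop where
  tv : TvIn M a φ
  ne_left : a ≠ 0
  ne_right : φ ≠ 0

variable {M : Subgroup (V ≃ₗ[F] V)} {a b u v w a₀ : V} {φ ψ χ φ₀ : Dual F V}

theorem NTv.of_ne (h : TvIn M a φ) (h1 : ψ a ≠ 0) (h2 : φ b ≠ 0) : NTv M a φ :=
  ⟨h, fun e => h1 (by rw [e, map_zero]), fun e => h2 (by rw [e, LinearMap.zero_apply])⟩

theorem tvRel_shorten {u' : V} {χ' : Dual F V} (h : TvIn M u χ) (h' : TvIn M u' χ') (e1 : φ u ≠ 0) (e2 : χ u' ≠ 0)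
    (e3 : χ' w ≠ 0) : TvRel M φ w := by
  by_cases k1 : φ u' = 0
  · by_cases k2 : χ w = 0
    · exact ⟨_, _, h'.conj_tv h, by simp [k1, e1, e2], by simp [k2, e3]⟩
    · exact ⟨u, χ, h, e1, k2⟩
  · exact ⟨u', χ', h', k1, e3⟩

theorem TvRel.tail (h : TvRel M φ₀ a) (h' : TvIn M a φ) (e : φ b ≠ 0) : TvRel M φ₀ b := by
  obtain ⟨u, χ, h1, h2, h3⟩ := h
  exact tvRel_shorten h1 h' h2 h3 e

theorem TvRel.trans (h : TvRel M φ₀ a) (h' : TvIn M a φ) (e : TvRel M φ b) : TvRel M φ₀ b := by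
  obtain ⟨u, χ, h1, h2, h3⟩ := e
  exact (h.tail h' h2).tail h1 h3

/-- The centres of the transvections in the component of `φ₀` span `tvW M φ₀`. -/
def tvW (M : Subgroup (V ≃ₗ[F] V)) (φ₀ : Dual F V) : Submodule F V :=
  Submodule.span F {a | ∃ φ, NTv M a φ ∧ TvRel M φ₀ a}

/-- The span of the axes of the transvections in the component of `φ₀`. -/
def tvPhi (M : Subgroup (V ≃ₗ[F] V)) (φ₀ : Dual F V) : Submodule F (Dual F V) :=
  Submodule.span F {φ | ∃ a, NTv M a φ ∧ TvRel M φ₀ a}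

/-- The group generated by the transvections in the component of `φ₀`. -/
def tvK (M : Subgroup (V ≃ₗ[F] V)) (φ₀ : Dual F V) : Subgroup (V ≃ₗ[F] V) :=
  Subgroup.closure {g | ∃ a φ, NTv M a φ ∧ TvRel M φ₀ a ∧ ∀ x, g x = x + φ x • a}

theorem mem_tvW (h : NTv M a φ) (h' : TvRel M φ₀ a) : a ∈ tvW M φ₀ := Submodule.subset_span ⟨φ, h, h'⟩

theorem mem_tvPhi (h : NTv M a φ) (h' : TvRel M φ₀ a) : φ ∈ tvPhi M φ₀ := Submodule.subset_span ⟨a, h, h'⟩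

theorem tvIn_tvK (h : TvIn M a φ) (h' : a ≠ 0 → TvRel M φ₀ a) : TvIn (tvK M φ₀) a φ := by
  by_cases ha : a = 0
  · rw [ha]; exact TvIn.zero_left _ _
  by_cases hφ : φ = 0
  · rw [hφ]; exact TvIn.zero_right _ _
  exact TvIn.of_forall_mem h.1 fun g hg => Subgroup.subset_closure ⟨a, φ, ⟨h, ha, hφ⟩, h' ha, hg⟩

theorem apply_eq_zero_of_tvW {θ : Dual F V} (h : ∀ a φ, NTv M a φ → TvRel M φ₀ a → θ a = 0) :
    ∀ x ∈ tvW M φ₀, θ x = 0 := by
  have : tvW M φ₀ ≤ LinearMap.ker θ := Submodule.span_le.2 fun a ⟨φ, h1, h2⟩ => h a φ h1 h2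
  exact this

theorem apply_eq_zero_of_tvPhi {x : V} (h : ∀ a φ, NTv M a φ → TvRel M φ₀ a → φ x = 0) :
    ∀ θ ∈ tvPhi M φ₀, θ x = 0 := by
  have : tvPhi M φ₀ ≤ LinearMap.ker (Dual.eval F V x) := Submodule.span_le.2 fun φ ⟨a, h1, h2⟩ => h a φ h1 h2
  exact this

namespace McL

variable (hM : McL M)
include hM

theorem smul_right (h : TvIn M a φ) (c : F) : TvIn M a (c • φ) := (TvIn.smul_iff c).1 (hM.smul a φ h c)

theorem conj_smul (h : TvIn M a φ) (h' : TvIn M b ψ) (c : F) :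
    TvIn M (a + (c * ψ a) • b) (φ - (c * φ b) • ψ) := by
  have := h.conj_tv (hM.smul b ψ h' c)
  rwa [smul_smul, map_smul, smul_eq_mul, mul_comm (ψ a)] at this

theorem comm (h : TvIn M a φ) (h' : TvIn M b ψ) (e : φ b = 0) (e' : ψ a ≠ 0) : TvIn M b φ := by
  have := hM.smul _ _ (h.comm h' e) (ψ a)⁻¹
  rwa [smul_smul, inv_mul_cancel₀ e', one_smul] at this

theorem invariant (W : Submodule F V) (h : ∀ a φ, TvIn M a φ → ∀ x ∈ W, φ x ≠ 0 → a ∈ W) :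
    ∀ g ∈ M, ∀ x ∈ W, g x ∈ W := by
  let N : Subgroup (V ≃ₗ[F] V) :=
    { carrier := {g | ∀ x, x ∈ W ↔ g x ∈ W}
      mul_mem' := fun {g g'} hg hg' x => (hg' x).trans (hg _)
      one_mem' := fun _ => Iff.rfl
      inv_mem' := fun {g} hg x => by rw [hg (g⁻¹ x)]; simp }
  refine fun g hg x => (hM.gen N (fun g hg a φ h0 e x => ?_) hg x).1
  have h1 : TvIn M a φ := ⟨h0, g, hg, e⟩
  rw [e]
  by_cases h2 : φ x = 0
  · rw [h2, zero_smul, add_zero]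
  refine ⟨fun hx => W.add_mem hx (W.smul_mem _ (h a φ h1 x hx h2)), fun hx => ?_⟩
  exact (W.add_mem_iff_left (W.smul_mem _ (h a φ h1 _ hx (by simpa [h0] using h2)))).1 hx

theorem exists_opp (h : NTv M a φ) : TvRel M φ a := by
  by_contra hn
  let U := Submodule.span F {b | b = a ∨ ∃ ψ, TvIn M b ψ ∧ (ψ a ≠ 0 ∨ TvRel M ψ a)}
  have hU := hM.invariant U fun c θ hc x hx e => Submodule.subset_span (Or.inr ⟨θ, hc, by
    by_contra h1
    push Not at h1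
    have : U ≤ LinearMap.ker θ := Submodule.span_le.2 (by
      rintro b (rfl | ⟨ψ, h2, h3 | ⟨u, χ, h3, h4, h5⟩⟩)
      · exact h1.1
      · by_contra h4
        exact h1.2 ⟨b, ψ, h2, h4, h3⟩
      · by_contra h6
        exact h1.2 (tvRel_shorten h2 h3 h6 h4 h5))
    exact e (this hx)⟩)
  have hφ : U ≤ LinearMap.ker φ := Submodule.span_le.2 (by
    rintro b (rfl | ⟨ψ, h2, h3 | ⟨u, χ, h3, h4, h5⟩⟩)
    · exact h.tv.1
    · by_contra h4
      exact hn ⟨b, ψ, h2, h4, h3⟩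
    · by_contra h6
      exact hn (tvRel_shorten h2 h3 h6 h4 h5))
  obtain ⟨-, g, hg, e⟩ := h.tv
  have h1 : ∀ x, g x - x ∈ U := fun x => by
    rw [e, add_sub_cancel_left]; exact U.smul_mem _ (Submodule.subset_span (Or.inl rfl))
  have := hM.unip U U hU hU g hg h1 (fun x _ => h1 x) fun x hx => by rw [e, hφ hx, zero_smul, add_zero]
  refine h.ne_right (LinearMap.ext fun x => ?_)
  have h2 := e x
  rw [this, LinearEquiv.coe_one, id, left_eq_add, smul_eq_zero] at h2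
  exact h2.resolve_right h.ne_left

theorem rel_of_ne (h : NTv M a φ) (h' : NTv M b ψ) (e : φ b ≠ 0) : TvRel M ψ a := by
  by_cases h1 : ψ a = 0
  · obtain ⟨u, χ, k1, k2, k3⟩ := hM.exists_opp ⟨hM.comm h'.tv h.tv h1 e, h.ne_left, h'.ne_right⟩
    exact ⟨u, χ, k1, k2, k3⟩
  · exact (hM.exists_opp h').tail h'.tv h1

theorem rel_symm (h : NTv M a φ) (h' : NTv M b ψ) (e : TvRel M φ b) : TvRel M ψ a := by
  obtain ⟨u, χ, k1, k2, k3⟩ := e
  have k := NTv.of_ne k1 k2 k3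
  exact (hM.rel_of_ne k h' k3).trans k1 (hM.rel_of_ne h k k2)

theorem rel_head (h : NTv M a φ) (h' : NTv M b ψ) (e : φ b ≠ 0) (r : TvRel M φ₀ b) : TvRel M φ₀ a :=
  r.trans h'.tv (hM.rel_of_ne h h' e)

theorem rel_of_tvW (h : NTv M a φ) {x : V} (hx : x ∈ tvW M φ₀) (e : φ x ≠ 0) : TvRel M φ₀ a := by
  by_contra hn
  exact e (apply_eq_zero_of_tvW (fun b ψ h' r => by
    by_contra e'
    exact hn (hM.rel_head h h' e' r)) x hx)

theorem rel_rel (h₀ : NTv M a₀ φ₀) (h : NTv M a φ) (r : TvRel M φ₀ a) (r' : TvRel M φ₀ b) : TvRel M φ b :=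
  (hM.rel_symm h₀ h r).trans h₀.tv r'

theorem tvW_invariant (φ₀ : Dual F V) : ∀ g ∈ M, ∀ x ∈ tvW M φ₀, g x ∈ tvW M φ₀ :=
  hM.invariant _ fun a φ h x hx e => by
    by_cases ha : a = 0
    · rw [ha]; exact Submodule.zero_mem _
    have k : NTv M a φ := ⟨h, ha, fun e' => e (by rw [e', LinearMap.zero_apply])⟩
    exact mem_tvW k (hM.rel_of_tvW k hx e)

section SL

theorem n1 (h : NTv M v φ) {q : V} (h' : TvIn M q φ) : (∃ c : F, q = c • v) ∨ ∃ θ, TvIn M v θ ∧ θ q ≠ 0 := by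
  obtain ⟨u, χ, k1, k2, k3⟩ := hM.exists_opp h
  set q₁ := q - (χ q * (χ v)⁻¹) • v with hq₁
  have e1 : χ q₁ = 0 := by simp [hq₁, k3]
  have t1 : TvIn M q₁ φ := h'.sub_left (hM.smul _ _ h.tv _)
  by_cases h0 : q₁ = 0
  · exact Or.inl ⟨_, sub_eq_zero.1 h0⟩
  right
  obtain ⟨u', χ', l1, l2, l3⟩ := hM.exists_opp ⟨t1, h0, h.ne_right⟩
  have t2 : TvIn M q₁ χ := hM.comm k1 t1 e1 k2
  set α := χ' v * (χ' q₁)⁻¹
  have t3 : TvIn M (v - α • q₁) χ' := hM.comm l1 (h.tv.sub_left (hM.smul _ _ t1 _)) (by simp [α, l3]) l2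
  have t4 := hM.conj_smul t3 t2 (α * (χ v)⁻¹)
  rw [map_sub, map_smul, e1, smul_zero, sub_zero, inv_mul_cancel_right₀ k3, sub_add_cancel] at t4
  refine ⟨_, t4, fun e => l3 ?_⟩
  have e2 : ((χ' - (α * (χ v)⁻¹ * χ' q₁) • χ) : Dual F V) q₁ = 0 := by
    rw [hq₁, map_sub, e, map_smul, t4.1, smul_zero, sub_zero]
  simpa [e1] using e2

omit hM in
/-- The axis `φ` belongs to at least two independent centres. -/
def Wide (M : Subgroup (V ≃ₗ[F] V)) (φ : Dual F V) : Prop := ∀ χ : Dual F V, ∃ v, NTv M v φ ∧ χ v = 0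

omit hM in
theorem wide_of_sep (hM : McL M) (h : NTv M v φ) (h' : NTv M w φ) (e : ψ v ≠ 0) (e' : ψ w = 0) : Wide M φ := by
  intro χ
  by_cases h1 : χ w = 0
  · exact ⟨w, h', h1⟩
  · refine ⟨v - (χ v * (χ w)⁻¹) • w, ⟨h.tv.sub_left (hM.smul _ _ h'.tv _), fun e1 => e ?_, h.ne_right⟩, by simp [h1]⟩
    rw [sub_eq_zero.1 e1, map_smul, e', smul_zero]

theorem wide_step (h : Wide M φ) (h' : NTv M u χ) (e : φ u ≠ 0) : Wide M χ := by
  obtain ⟨v, k1, k2⟩ := h χ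
  exact hM.wide_of_sep h' ⟨hM.comm h'.tv k1.tv k2 e, k1.ne_left, h'.ne_right⟩ e k1.tv.1

theorem wide_rel (h : Wide M φ) (h' : NTv M w ψ) (e : TvRel M φ w) : Wide M ψ := by
  obtain ⟨u, χ, k1, k2, k3⟩ := e
  exact hM.wide_step (hM.wide_step h (NTv.of_ne k1 k2 k3) k2) h' k3

theorem tv_of_wide (h : Wide M φ) (h' : NTv M w ψ) (r : TvRel M φ w) (e : φ w = 0) : TvIn M w φ := by
  obtain ⟨u, χ, k1, k2, k3⟩ := r
  obtain ⟨v, l1, l2⟩ := h χ
  by_cases h1 : ψ v = 0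
  · have t1 := hM.comm h'.tv (hM.comm k1 l1.tv l2 k2) h1 k3
    rcases hM.n1 h' t1 with ⟨c, rfl⟩ | ⟨θ, t2, t3⟩
    · have := hM.smul _ _ l1.tv c⁻¹
      rwa [smul_smul, inv_mul_cancel₀ (fun e => l1.ne_left (by rw [e, zero_smul])), one_smul] at this
    · exact hM.comm l1.tv t2 e t3
  · exact hM.comm l1.tv h'.tv e h1

variable (h₀ : NTv M a₀ φ₀) (hw : Wide M φ₀)
include h₀ hw

theorem tv_of_comp (h : NTv M a φ) (r : TvRel M φ₀ a) (h' : NTv M b ψ) (r' : TvRel M φ₀ b) (e : φ b = 0) :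
    TvIn M b φ :=
  hM.tv_of_wide (hM.wide_rel hw h r) h' (hM.rel_rel h₀ h r r') e

theorem centre_of_mem {x : V} (hx : x ∈ tvW M φ₀) : x = 0 ∨ ∃ φ, NTv M x φ ∧ TvRel M φ₀ x := by
  have key : ∀ x ∈ tvW M φ₀, (∃ φ, φ ≠ 0 ∧ TvIn M x φ) → x = 0 ∨ ∃ φ, NTv M x φ ∧ TvRel M φ₀ x := by
    rintro x hx ⟨φ, h1, h2⟩
    refine or_iff_not_imp_left.2 fun h3 => ⟨φ, ⟨h2, h3, h1⟩, ?_⟩
    obtain ⟨u, χ, k1, k2, k3⟩ := hM.exists_opp ⟨h2, h3, h1⟩
    exact (hM.rel_of_tvW (NTv.of_ne k1 k2 k3) hx k3).tail k1 k3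
  induction hx using Submodule.span_induction with
  | mem x hx => exact Or.inr hx
  | zero => exact Or.inl rfl
  | add x y hx hy ihx ihy =>
    rcases ihx with rfl | ⟨φ, k1, k2⟩
    · rwa [zero_add]
    rcases ihy with rfl | ⟨ψ, l1, l2⟩
    · rw [add_zero]; exact Or.inr ⟨φ, k1, k2⟩
    refine key _ (Submodule.add_mem _ hx hy) ?_
    by_cases e : φ y = 0
    · exact ⟨φ, k1.ne_right, k1.tv.add_left (hM.tv_of_comp h₀ hw k1 k2 l1 l2 e)⟩
    · have := hM.conj_smul l1.tv k1.tv (φ y)⁻¹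
      rw [inv_mul_cancel₀ e, one_smul, add_comm] at this
      refine ⟨_, fun e1 => l1.ne_right ?_, this⟩
      rw [sub_eq_zero] at e1
      have e2 := LinearMap.congr_fun e1 x
      rw [LinearMap.smul_apply, k1.tv.1, smul_zero] at e2
      rw [e1, e2, mul_zero, zero_smul]
  | smul c x hx ih =>
    rcases ih with rfl | ⟨φ, k1, -⟩
    · exact Or.inl (smul_zero c)
    · exact key _ (Submodule.smul_mem _ c hx) ⟨φ, k1.ne_right, hM.smul _ _ k1.tv c⟩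

theorem axis_of_mem {θ : Dual F V} (hθ : θ ∈ tvPhi M φ₀) : θ = 0 ∨ ∃ a, NTv M a θ ∧ TvRel M φ₀ a := by
  induction hθ using Submodule.span_induction with
  | mem x hx => exact Or.inr hx
  | zero => exact Or.inl rfl
  | add φ ψ _ _ ihx ihy =>
    rcases ihx with rfl | ⟨x, k1, k2⟩
    · rwa [zero_add]
    rcases ihy with rfl | ⟨y, l1, l2⟩
    · rw [add_zero]; exact Or.inr ⟨x, k1, k2⟩
    refine or_iff_not_imp_left.2 fun h0 => ?_
    obtain ⟨v, m1, m2⟩ := hM.wide_rel hw k1 k2 ψ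
    have m3 : TvRel M φ₀ v := by
      obtain ⟨u, χ, n1, n2, n3⟩ := hM.exists_opp m1
      exact (k2.tail k1.tv n2).tail n1 n3
    exact ⟨v, ⟨m1.tv.add_right (hM.tv_of_comp h₀ hw l1 l2 m1 m3 m2), m1.ne_left, h0⟩, m3⟩
  | smul c φ _ ih =>
    rcases ih with rfl | ⟨x, k1, k2⟩
    · exact Or.inl (smul_zero c)
    · exact or_iff_not_imp_left.2 fun h0 => ⟨x, ⟨hM.smul_right k1.tv c, k1.ne_left, h0⟩, k2⟩

theorem wide_sep_left : ∀ w ∈ tvW M φ₀, (∀ φ ∈ tvPhi M φ₀, φ w = 0) → w = 0 := fun w hw' h => by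
  rcases hM.centre_of_mem h₀ hw hw' with e | ⟨φ, k1, k2⟩
  · exact e
  · obtain ⟨u, χ, n1, n2, n3⟩ := hM.exists_opp k1
    exact absurd (h χ (mem_tvPhi (NTv.of_ne n1 n2 n3) (k2.tail k1.tv n2))) n3

theorem wide_sep_right : ∀ φ ∈ tvPhi M φ₀, (∀ w ∈ tvW M φ₀, φ w = 0) → φ = 0 := fun φ hφ h => by
  rcases hM.axis_of_mem h₀ hw hφ with e | ⟨a, k1, k2⟩
  · exact e
  · obtain ⟨u, χ, n1, n2, n3⟩ := hM.exists_opp k1
    exact absurd (h u (mem_tvW (NTv.of_ne n1 n2 n3) (k2.tail k1.tv n2))) n2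

theorem wide_tv {x : V} (hx : x ∈ tvW M φ₀) {θ : Dual F V} (hθ : θ ∈ tvPhi M φ₀) (e : θ x = 0) :
    TvIn (tvK M φ₀) x θ := by
  rcases hM.centre_of_mem h₀ hw hx with rfl | ⟨φ, k1, k2⟩
  · exact TvIn.zero_left _ _
  rcases hM.axis_of_mem h₀ hw hθ with rfl | ⟨a, l1, l2⟩
  · exact TvIn.zero_right _ _
  exact tvIn_tvK (hM.tv_of_comp h₀ hw l1 l2 k1 k2 e) fun _ => k2

end SL

section Sp

variable (h₀ : NTv M a₀ φ₀) (hw : ¬ Wide M φ₀)
include h₀ hw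

theorem deg (h : NTv M a φ) (r : TvRel M φ₀ a) (h' : NTv M b ψ) (e : φ b = 0) : ψ a = 0 := by
  by_contra e'
  exact hw (hM.wide_rel (hM.wide_of_sep h ⟨hM.comm h.tv h'.tv e e', h'.ne_left, h.ne_right⟩ e' h'.tv.1) h₀
    (hM.rel_symm h₀ h r))

omit hM h₀ hw in
/-- The span of the normalized transvections opposite to a fixed one. -/
def tvGraph (M : Subgroup (V ≃ₗ[F] V)) (a₀ : V) (φ₀ : Dual F V) : Submodule F (V × Dual F V) :=
  Submodule.span F {p | NTv M p.1 p.2 ∧ (p = (a₀, φ₀) ∨ (φ₀ p.1 ≠ 0 ∧ p.2 a₀ = -φ₀ p.1))}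

omit hM h₀ hw in
/-- A member of `tvGraph` which is a transvection. -/
structure TvC (M : Subgroup (V ≃ₗ[F] V)) (a₀ : V) (φ₀ : Dual F V) (p : V × Dual F V) : Prop where
  mem : p ∈ tvGraph M a₀ φ₀
  ntv : NTv M p.1 p.2
  rel : TvRel M φ₀ p.1

theorem compat {p q : V × Dual F V} (hp : p ∈ tvGraph M a₀ φ₀) (hq : q ∈ tvGraph M a₀ φ₀) :
    p.2 q.1 = -q.2 p.1 := by
  rw [eq_neg_iff_add_eq_zero]
  induction hp, hq using Submodule.span_induction₂ with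
  | mem_mem p q hp hq =>
    obtain ⟨k1, rfl | ⟨k2, k3⟩⟩ := hp <;> obtain ⟨l1, rfl | ⟨l2, l3⟩⟩ := hq
    · simp [h₀.tv.1]
    · simp [l3]
    · simp [k3]
    · have t := hM.conj_smul k1.tv h₀.tv (q.2 p.1 * (φ₀ p.1 * φ₀ q.1)⁻¹)
      have := hM.deg h₀ hw l1 ((hM.exists_opp h₀).tail h₀.tv l2)
        (NTv.of_ne t (ψ := φ₀) (b := a₀) (by simpa [h₀.tv.1] using k2) (by simpa [h₀.tv.1, k3] using k2))
        (by simp only [map_add, map_smul, smul_eq_mul, l3]; field_simp; ring)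
      simp only [LinearMap.sub_apply, LinearMap.smul_apply, smul_eq_mul, k3] at this
      rw [← this]
      field_simp
      ring
  | zero_left => simp
  | zero_right => simp
  | add_left x y z _ _ _ h1 h2 => simp only [Prod.fst_add, Prod.snd_add, map_add, LinearMap.add_apply]; linear_combination h1 + h2
  | add_right x y z _ _ _ h1 h2 => simp only [Prod.fst_add, Prod.snd_add, map_add, LinearMap.add_apply]; linear_combination h1 + h2
  | smul_left c x y _ _ h => simp only [Prod.smul_fst, Prod.smul_snd, map_smul, LinearMap.smul_apply, smul_eq_mul]; linear_combination c * h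
  | smul_right c x y _ _ h => simp only [Prod.smul_fst, Prod.smul_snd, map_smul, LinearMap.smul_apply, smul_eq_mul]; linear_combination c * h

theorem tvC_add {p q : V × Dual F V} (hp : TvC M a₀ φ₀ p) (hq : TvC M a₀ φ₀ q) (e : p.2 q.1 ≠ 0) (d : F) :
    TvC M a₀ φ₀ (q + d • p) := by
  have t := hM.conj_smul hq.ntv.tv hp.ntv.tv (d * (p.2 q.1)⁻¹)
  have c := hM.compat h₀ hw hq.mem hp.mem
  rw [c, mul_neg, inv_mul_cancel_right₀ e, show q.2 - -d • p.2 = q.2 + d • p.2 by ext; simp] at t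
  have e1 : p.2 (q.1 + d • p.1) ≠ 0 := by simpa [hp.ntv.tv.1] using e
  exact ⟨Submodule.add_mem _ hq.mem (Submodule.smul_mem _ d hp.mem),
    NTv.of_ne t e1 (b := p.1) (by simpa [hp.ntv.tv.1, c] using e), hp.rel.tail hp.ntv.tv e1⟩

theorem exists_tvC (h : NTv M w ψ) (r : TvRel M φ₀ w) : ∃ c : F, c ≠ 0 ∧ TvC M a₀ φ₀ (w, c • ψ) := by
  have key : ∀ {w ψ}, NTv M w ψ → φ₀ w ≠ 0 → ∃ c : F, c ≠ 0 ∧ TvC M a₀ φ₀ (w, c • ψ) := fun {w ψ} h e => by
    have r := (hM.exists_opp h₀).tail h₀.tv e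
    have e' : ψ a₀ ≠ 0 := fun e' => e (hM.deg h₀ hw h r h₀ e')
    have c0 : -φ₀ w * (ψ a₀)⁻¹ ≠ 0 := mul_ne_zero (neg_ne_zero.2 e) (inv_ne_zero e')
    have t : NTv M w ((-φ₀ w * (ψ a₀)⁻¹) • ψ) := ⟨hM.smul_right h.tv _, h.ne_left, smul_ne_zero c0 h.ne_right⟩
    exact ⟨_, c0, Submodule.subset_span ⟨t, Or.inr ⟨e, by simp [e']⟩⟩, t, r⟩
  by_cases e : φ₀ w = 0
  swap
  · exact key h e
  obtain ⟨u, χ, k1, k2, k3⟩ := r
  obtain ⟨c, c0, hu⟩ := key (NTv.of_ne k1 k2 k3) k2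
  have k4 : (c • χ) w ≠ 0 := mul_ne_zero c0 k3
  have k5 : ψ u ≠ 0 := fun e' => k3 (hM.deg h₀ hw h ⟨u, χ, k1, k2, k3⟩ (NTv.of_ne k1 k2 k3) e')
  have t := h.tv.conj_tv hu.ntv.tv
  have k6 : φ₀ (w + (c • χ) w • u) ≠ 0 := by simpa [e, k2] using k4
  obtain ⟨d, d0, hv⟩ := key (NTv.of_ne t k6 (b := u) (by simpa [k1.1] using k5)) k6
  have c1 := hM.compat h₀ hw hu.mem hv.mem
  have := hM.tvC_add h₀ hw hu hv (by simpa [k1.1] using k4) (-(c • χ) w)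
  refine ⟨d, d0, ?_⟩
  convert this using 1
  simp only [map_add, map_smul, LinearMap.smul_apply, LinearMap.sub_apply, k1.1, smul_zero, add_zero, sub_zero,
    smul_eq_mul, mul_zero] at c1
  refine Prod.ext (by simp) ?_
  simp only [Prod.snd_add, Prod.smul_snd, LinearMap.smul_apply, smul_eq_mul, c1, smul_sub, smul_smul, neg_neg]
  rw [mul_assoc, sub_add_cancel]

theorem graph_fst {p : V × Dual F V} (hp : p ∈ tvGraph M a₀ φ₀) : p.1 ∈ tvW M φ₀ ∧ p.2 ∈ tvPhi M φ₀ := by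
  have : tvGraph M a₀ φ₀ ≤ (tvW M φ₀).prod (tvPhi M φ₀) := Submodule.span_le.2 fun p ⟨h1, h2⟩ => by
    have r : TvRel M φ₀ p.1 := by
      rcases h2 with rfl | h2
      · exact hM.exists_opp h₀
      · exact (hM.exists_opp h₀).tail h₀.tv h2.1
    exact ⟨mem_tvW h1 r, mem_tvPhi h1 r⟩
  exact this hp

theorem eq_zero_of_rad {p q : V × Dual F V} (hp : TvC M a₀ φ₀ p) (hq : TvC M a₀ φ₀ q)
    (h : ∀ y, TvC M a₀ φ₀ y → (p + q).2 y.1 = 0) : p + q = 0 := by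
  have hr := Submodule.add_mem _ hp.mem hq.mem
  have h1 : ∀ x ∈ tvW M φ₀, (p + q).2 x = 0 := apply_eq_zero_of_tvW fun a φ k r => by
    obtain ⟨c, -, t⟩ := hM.exists_tvC h₀ hw k r
    exact h _ t
  have h2 : ∀ θ ∈ tvPhi M φ₀, θ (p + q).1 = 0 := apply_eq_zero_of_tvPhi fun a φ k r => by
    obtain ⟨c, c0, t⟩ := hM.exists_tvC h₀ hw k r
    have := hM.compat h₀ hw t.mem hr
    rw [h _ t, neg_zero] at this
    exact (mul_eq_zero.1 this).resolve_left c0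
  let R := tvW M φ₀ ⊓ (tvPhi M φ₀).dualCoannihilator
  have hR := hM.invariant R fun a φ k x hx e => by
    by_cases ha : a = 0
    · rw [ha]; exact R.zero_mem
    have k' : NTv M a φ := ⟨k, ha, fun e' => e (by rw [e', LinearMap.zero_apply])⟩
    exact absurd ((Submodule.mem_dualCoannihilator _).1 hx.2 φ (mem_tvPhi k' (hM.rel_of_tvW k' hx.1 e))) e
  obtain ⟨p0, g, hg, e⟩ := hp.ntv.tv
  obtain ⟨q0, g', hg', e'⟩ := hq.ntv.tv.neg_left
  have hpW := hM.graph_fst h₀ hw hp.mem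
  have hqW := hM.graph_fst h₀ hw hq.mem
  have e1 : p.2 q.1 = 0 := by simpa [hq.ntv.tv.1] using h1 _ hqW.1
  have e2 : ∀ x, (g * g') x - x = p.2 x • p.1 - q.2 x • q.1 := fun x => by
    rw [LinearEquiv.mul_apply, e, e']
    simp only [map_add, smul_neg, map_neg, map_smul, e1, smul_zero, neg_zero, add_zero]
    abel
  have e3 : ∀ x ∈ tvW M φ₀, (g * g') x - x = p.2 x • (p + q).1 := fun x hx => by
    rw [e2, eq_neg_of_add_eq_zero_right (h1 x hx), neg_smul, sub_neg_eq_add, Prod.fst_add, smul_add]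
  have e4 := hM.unip _ R (hM.tvW_invariant φ₀) hR _ (M.mul_mem hg hg') (fun x => by
      rw [e2]; exact Submodule.sub_mem _ (Submodule.smul_mem _ _ hpW.1) (Submodule.smul_mem _ _ hqW.1))
    (fun x hx => by
      rw [e3 x hx]
      exact R.smul_mem _ ⟨(hM.graph_fst h₀ hw hr).1, (Submodule.mem_dualCoannihilator _).2 h2⟩)
    fun x hx => by
      rw [← sub_eq_zero, e3 x hx.1, (Submodule.mem_dualCoannihilator _).1 hx.2 _ hpW.2, zero_smul]
  obtain ⟨u, χ, k1, k2, k3⟩ := hM.exists_opp hp.ntv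
  have e5 := e3 u (mem_tvW (NTv.of_ne k1 k2 k3) (hp.rel.tail hp.ntv.tv k2))
  rw [e4, LinearEquiv.coe_one, id, sub_self, eq_comm, smul_eq_zero] at e5
  have e6 := e5.resolve_left k2
  refine Prod.ext e6 (LinearMap.ext fun x => ?_)
  have e7 := e2 x
  rw [e4, LinearEquiv.coe_one, id, sub_self, eq_neg_of_add_eq_zero_right e6, smul_neg, sub_neg_eq_add, ← add_smul,
    eq_comm, smul_eq_zero] at e7
  exact e7.resolve_right hp.ntv.ne_left

theorem tvC_add_of {p q y : V × Dual F V} (hp : TvC M a₀ φ₀ p) (hq : TvC M a₀ φ₀ q) (hy : TvC M a₀ φ₀ y)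
    (e : q.2 p.1 = 0) (e1 : p.2 y.1 ≠ 0) (e2 : q.2 y.1 ≠ 0) (e3 : (p + q).2 y.1 ≠ 0) : TvC M a₀ φ₀ (p + q) := by
  have t1 := hM.tvC_add h₀ hw hq (hM.tvC_add h₀ hw hp hy e1 1) (by simpa [e] using e2) 1
  have c := hM.compat h₀ hw hy.mem (Submodule.add_mem _ hp.mem hq.mem)
  have t2 := hM.tvC_add h₀ hw hy t1 (by
    rw [one_smul, one_smul, add_assoc, Prod.fst_add, map_add, hy.ntv.tv.1, zero_add, c]
    exact neg_ne_zero.2 e3) (-1)
  convert t2 using 1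
  module

theorem tvC_add_of' {p q y u : V × Dual F V} (hp : TvC M a₀ φ₀ p) (hq : TvC M a₀ φ₀ q) (hy : TvC M a₀ φ₀ y)
    (hu : TvC M a₀ φ₀ u) (e : q.2 p.1 = 0) (e1 : p.2 y.1 ≠ 0) (e2 : q.2 y.1 = 0) (e3 : p.2 u.1 ≠ 0)
    (e4 : q.2 u.1 ≠ 0) : TvC M a₀ φ₀ (p + q) := by
  have key : ∀ u, TvC M a₀ φ₀ u → p.2 u.1 ≠ 0 → q.2 u.1 ≠ 0 → y.2 u.1 ≠ 0 → TvC M a₀ φ₀ (p + q) := by
    intro u hu e3 e4 e5
    by_cases e6 : (p + q).2 u.1 = 0
    · refine hM.tvC_add_of h₀ hw hp hq (hM.tvC_add h₀ hw hy hu e5 (p.2 u.1 * (p.2 y.1)⁻¹)) e ?_ ?_ ?_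
      · simp only [Prod.fst_add, Prod.smul_fst, map_add, map_smul, smul_eq_mul, inv_mul_cancel_right₀ e1, ← two_mul]
        exact mul_ne_zero hM.two e3
      · simpa [e2] using e4
      · rw [Prod.fst_add, map_add, e6]
        simpa [e2, e1] using e3
    · exact hM.tvC_add_of h₀ hw hp hq hu e e3 e4 e6
  by_cases e5 : y.2 u.1 = 0
  · refine key _ (hM.tvC_add h₀ hw hp hu e3 1) (by simpa [hp.ntv.tv.1] using e3) (by simpa [e] using e4) ?_
    simpa [e5, hM.compat h₀ hw hy.mem hp.mem] using e1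
  · exact key u hu e3 e4 e5

theorem tvC_of_mem {p : V × Dual F V} (hp : p ∈ tvGraph M a₀ φ₀) : p = 0 ∨ TvC M a₀ φ₀ p := by
  induction hp using Submodule.span_induction with
  | mem p hp =>
    refine Or.inr ⟨Submodule.subset_span hp, hp.1, ?_⟩
    rcases hp.2 with rfl | h2
    · exact hM.exists_opp h₀
    · exact (hM.exists_opp h₀).tail h₀.tv h2.1
  | zero => exact Or.inl rfl
  | add p q _ _ ihp ihq =>
    rcases ihp with rfl | hp
    · rwa [zero_add]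
    rcases ihq with rfl | hq
    · rw [add_zero]; exact Or.inr hp
    by_cases e : q.2 p.1 = 0
    swap
    · simpa using Or.inr (hM.tvC_add h₀ hw hq hp e 1)
    have e' : p.2 q.1 = 0 := by rw [hM.compat h₀ hw hp.mem hq.mem, e, neg_zero]
    by_cases h : ∀ y, TvC M a₀ φ₀ y → (p + q).2 y.1 = 0
    · exact Or.inl (hM.eq_zero_of_rad h₀ hw hp hq h)
    right
    push Not at h
    obtain ⟨y, hy, e3⟩ := h
    obtain ⟨u, χ, k1, k2, k3⟩ := hM.rel_rel h₀ hp.ntv hp.rel hq.rel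
    obtain ⟨c, c0, hu⟩ := hM.exists_tvC h₀ hw (NTv.of_ne k1 k2 k3) (hp.rel.tail hp.ntv.tv k2)
    have k4 : q.2 u ≠ 0 := by
      rw [hM.compat h₀ hw hq.mem hu.mem]
      exact neg_ne_zero.2 (mul_ne_zero c0 k3)
    by_cases e1 : p.2 y.1 = 0
    · rw [add_comm]
      exact hM.tvC_add_of' h₀ hw hq hp hy hu e' (by simpa [e1] using e3) e1 k4 k2
    by_cases e2 : q.2 y.1 = 0
    · exact hM.tvC_add_of' h₀ hw hp hq hy hu e e1 e2 k2 k4
    · exact hM.tvC_add_of h₀ hw hp hq hy e e1 e2 e3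
  | smul c p hp ih =>
    rcases ih with rfl | h
    · exact Or.inl (smul_zero c)
    by_cases c0 : c = 0
    · exact Or.inl (by rw [c0, zero_smul])
    obtain ⟨u, χ, k1, k2, k3⟩ := h.rel
    exact Or.inr ⟨Submodule.smul_mem _ c hp, ⟨hM.smul_right (hM.smul _ _ h.ntv.tv c) c,
      smul_ne_zero c0 h.ntv.ne_left, smul_ne_zero c0 h.ntv.ne_right⟩, u, χ, k1, k2, by simpa [c0] using k3⟩

theorem exists_graph_fst {x : V} (hx : x ∈ tvW M φ₀) : ∃ θ, (x, θ) ∈ tvGraph M a₀ φ₀ := by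
  have : tvW M φ₀ ≤ (tvGraph M a₀ φ₀).map (LinearMap.fst F _ _) := Submodule.span_le.2 fun a ⟨φ, k, r⟩ => by
    obtain ⟨c, -, t⟩ := hM.exists_tvC h₀ hw k r
    exact ⟨_, t.mem, rfl⟩
  obtain ⟨p, hp, rfl⟩ := this hx
  exact ⟨p.2, hp⟩

theorem exists_graph_snd {θ : Dual F V} (hθ : θ ∈ tvPhi M φ₀) : ∃ x, (x, θ) ∈ tvGraph M a₀ φ₀ := by
  have : tvPhi M φ₀ ≤ (tvGraph M a₀ φ₀).map (LinearMap.snd F _ _) := Submodule.span_le.2 fun φ ⟨a, k, r⟩ => by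
    obtain ⟨c, c0, t⟩ := hM.exists_tvC h₀ hw k r
    exact ⟨_, Submodule.smul_mem _ c⁻¹ t.mem, by simp [c0]⟩
  obtain ⟨p, hp, rfl⟩ := this hθ
  exact ⟨p.1, hp⟩

theorem exists_ne_of_tvC {p : V × Dual F V} (hp : TvC M a₀ φ₀ p) :
    ∃ u ∈ tvW M φ₀, ∃ χ ∈ tvPhi M φ₀, p.2 u ≠ 0 ∧ χ p.1 ≠ 0 := by
  obtain ⟨u, χ, k1, k2, k3⟩ := hM.exists_opp hp.ntv
  have r := hp.rel.tail hp.ntv.tv k2
  exact ⟨u, mem_tvW (NTv.of_ne k1 k2 k3) r, χ, mem_tvPhi (NTv.of_ne k1 k2 k3) r, k2, k3⟩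

theorem deg_sep_left : ∀ w ∈ tvW M φ₀, (∀ φ ∈ tvPhi M φ₀, φ w = 0) → w = 0 := fun w hw' h => by
  obtain ⟨θ, hθ⟩ := hM.exists_graph_fst h₀ hw hw'
  rcases hM.tvC_of_mem h₀ hw hθ with e | t
  · exact congrArg Prod.fst e
  · obtain ⟨u, -, χ, k1, -, k2⟩ := hM.exists_ne_of_tvC h₀ hw t
    exact absurd (h χ k1) k2

theorem deg_sep_right : ∀ φ ∈ tvPhi M φ₀, (∀ w ∈ tvW M φ₀, φ w = 0) → φ = 0 := fun φ hφ h => by
  obtain ⟨x, hx⟩ := hM.exists_graph_snd h₀ hw hφ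
  rcases hM.tvC_of_mem h₀ hw hx with e | t
  · exact congrArg Prod.snd e
  · obtain ⟨u, k1, χ, -, k2, -⟩ := hM.exists_ne_of_tvC h₀ hw t
    exact absurd (h u k1) k2

theorem exists_form : ∃ B : LinearMap.BilinForm F (tvW M φ₀), B.IsAlt ∧ B.Nondegenerate ∧
    (∀ a φ (h : NTv M a φ) (r : TvRel M φ₀ a), ∃ c : F, ∀ x : tvW M φ₀, φ x = c * B x ⟨a, mem_tvW h r⟩) ∧
    ∀ (w : tvW M φ₀) (c : F), ∃ θ, TvIn (tvK M φ₀) (c • w.1) θ ∧ ∀ x : tvW M φ₀, θ x = B x w := by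
  let f : tvGraph M a₀ φ₀ →ₗ[F] tvW M φ₀ :=
    (LinearMap.fst F _ _ ∘ₗ (tvGraph M a₀ φ₀).subtype).codRestrict _ fun p => (hM.graph_fst h₀ hw p.2).1
  have hf : Function.Bijective f := ⟨LinearMap.ker_eq_bot.1 (LinearMap.ker_eq_bot'.2 fun p e =>
    Subtype.ext ((hM.tvC_of_mem h₀ hw p.2).resolve_right fun t => t.ntv.ne_left (congrArg Subtype.val e))),
    fun x => by
      obtain ⟨θ, hθ⟩ := hM.exists_graph_fst h₀ hw x.2
      exact ⟨⟨_, hθ⟩, rfl⟩⟩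
  let e := LinearEquiv.ofBijective f hf
  let L : tvW M φ₀ →ₗ[F] Dual F V := LinearMap.snd F _ _ ∘ₗ (tvGraph M a₀ φ₀).subtype ∘ₗ e.symm.toLinearMap
  have hL : ∀ w : tvW M φ₀, (w.1, L w) ∈ tvGraph M a₀ φ₀ := fun w => by
    have h1 : (e.symm w).1.1 = w.1 := congrArg Subtype.val (e.apply_symm_apply w)
    rw [← h1]
    exact (e.symm w).2
  let B : LinearMap.BilinForm F (tvW M φ₀) := ((tvW M φ₀).subtype.dualMap ∘ₗ L).flip
  have hB : ∀ x w, B x w = L w x := fun _ _ => rfl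
  have hA : B.IsAlt := fun w => by
    rcases hM.tvC_of_mem h₀ hw (hL w) with e | t
    · rw [hB, show L w = 0 from congrArg Prod.snd e, LinearMap.zero_apply]
    · exact t.ntv.tv.1
  have hN : ∀ w, (∀ x, B x w = 0) → w = 0 := fun w h => by
    rcases hM.tvC_of_mem h₀ hw (hL w) with e | t
    · exact Subtype.ext (congrArg Prod.fst e)
    · obtain ⟨u, k1, χ, -, k2, -⟩ := hM.exists_ne_of_tvC h₀ hw t
      exact absurd (h ⟨u, k1⟩) k2
  refine ⟨B, hA, ⟨fun w h => hN w fun x => by rw [← hA.neg_eq, h, neg_zero], hN⟩, fun a φ h r => ?_, fun w c => ?_⟩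
  · obtain ⟨c, c0, t⟩ := hM.exists_tvC h₀ hw h r
    refine ⟨c⁻¹, fun x => ?_⟩
    have h1 := hM.compat h₀ hw t.mem (hL x)
    have h2 := hM.compat h₀ hw (hL ⟨a, mem_tvW h r⟩) (hL x)
    rw [hB, h2, ← h1]
    simp [c0]
  · refine ⟨L w, ?_, fun x => rfl⟩
    rcases hM.tvC_of_mem h₀ hw (hL w) with e | t
    · rw [show L w = 0 from congrArg Prod.snd e]; exact TvIn.zero_right _ _
    · refine tvIn_tvK (hM.smul _ _ t.ntv.tv c) fun c0 => ?_
      obtain ⟨u, χ, k1, k2, k3⟩ := t.rel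
      exact ⟨u, χ, k1, k2, by simpa [left_ne_zero_of_smul c0] using k3⟩

end Sp

theorem sep (h₀ : NTv M a₀ φ₀) : (∀ w ∈ tvW M φ₀, (∀ φ ∈ tvPhi M φ₀, φ w = 0) → w = 0) ∧
    ∀ φ ∈ tvPhi M φ₀, (∀ w ∈ tvW M φ₀, φ w = 0) → φ = 0 := by
  by_cases hw : Wide M φ₀
  · exact ⟨hM.wide_sep_left h₀ hw, hM.wide_sep_right h₀ hw⟩
  · exact ⟨hM.deg_sep_left h₀ hw, hM.deg_sep_right h₀ hw⟩

omit hM in
theorem tvK_le : tvK M φ₀ ≤ M := (Subgroup.closure_le _).2 fun g ⟨a, φ, h, _, e⟩ => by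
  obtain ⟨-, g', hg', e'⟩ := h.tv
  rwa [show g = g' from LinearEquiv.ext fun x => (e x).trans (e' x).symm]

omit hM in
theorem tvK_fix {g : V ≃ₗ[F] V} (hg : g ∈ tvK M φ₀) {x : V} (hx : ∀ φ ∈ tvPhi M φ₀, φ x = 0) : g x = x := by
  induction hg using Subgroup.closure_induction with
  | mem g hg =>
    obtain ⟨a, φ, h, r, e⟩ := hg
    rw [e, hx φ (mem_tvPhi h r), zero_smul, add_zero]
  | one => rfl
  | mul g g' _ _ h h' => rw [LinearEquiv.mul_apply, h', h]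
  | inv g _ h => rw [← h, LinearEquiv.coe_inv, LinearEquiv.symm_apply_apply, h]

theorem coann_invariant (φ₀ : Dual F V) :
    ∀ g ∈ M, ∀ x ∈ (tvPhi M φ₀).dualCoannihilator, g x ∈ (tvPhi M φ₀).dualCoannihilator :=
  hM.invariant _ fun a φ h x hx e => (Submodule.mem_dualCoannihilator _).2 (apply_eq_zero_of_tvPhi fun b ψ k r => by
    by_contra e'
    exact e ((Submodule.mem_dualCoannihilator _).1 hx φ (mem_tvPhi (NTv.of_ne h e' e) (r.tail k.tv e'))))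

theorem apply_eq_zero_of_not_rel {φ₁ : Dual F V} (h₀ : NTv M a₀ φ₀) (hn : ¬ TvRel M φ₁ a₀) :
    ∀ x ∈ tvW M φ₀, ∀ φ ∈ tvPhi M φ₁, φ x = 0 := fun x hx => apply_eq_zero_of_tvPhi fun a φ k r => by
  by_contra e
  exact hn (r.trans k.tv (hM.rel_symm h₀ k (hM.rel_of_tvW k hx e)))

end McL

/-- Restriction to an invariant subspace. -/
def restrSub (K : Subgroup (V ≃ₗ[F] V)) (W : Submodule F V) (h : ∀ g ∈ K, ∀ x ∈ W, g x ∈ W) : K →* (W ≃ₗ[F] W) :=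
  MonoidHom.mk' (fun g =>
    { toFun := fun x => ⟨g.1 x, h g g.2 x x.2⟩
      invFun := fun x => ⟨g.1⁻¹ x, h _ (K.inv_mem g.2) x x.2⟩
      map_add' := fun x y => Subtype.ext (map_add g.1 x.1 y.1)
      map_smul' := fun c x => Subtype.ext (map_smul g.1 c x.1)
      left_inv := fun x => Subtype.ext (g.1.symm_apply_apply x)
      right_inv := fun x => Subtype.ext (g.1.apply_symm_apply x) }) fun _ _ => rfl

theorem restrSub_apply {K : Subgroup (V ≃ₗ[F] V)} {W : Submodule F V} (h : ∀ g ∈ K, ∀ x ∈ W, g x ∈ W) (g : K)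
    (x : W) : (restrSub K W h g x : V) = g.1 x := rfl

theorem McL.exists_restr [FiniteDimensional F V] (hM : McL M) (h₀ : NTv M a₀ φ₀) :
    ∃ ρ : tvK M φ₀ →* (tvW M φ₀ ≃ₗ[F] tvW M φ₀), (∀ (g : tvK M φ₀) (x : tvW M φ₀), (ρ g x : V) = g.1 x) ∧
      ((ρ.range : Set (tvW M φ₀ ≃ₗ[F] tvW M φ₀)) =
          {f : tvW M φ₀ ≃ₗ[F] tvW M φ₀ | LinearMap.det (f : tvW M φ₀ →ₗ[F] tvW M φ₀) = 1} ∨
        ∃ B : LinearMap.BilinForm F (tvW M φ₀), B.IsAlt ∧ B.Nondegenerate ∧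
          (ρ.range : Set (tvW M φ₀ ≃ₗ[F] tvW M φ₀)) = {f | ∀ x y, B (f x) (f y) = B x y}) := by
  have hi : ∀ g ∈ tvK M φ₀, ∀ x ∈ tvW M φ₀, g x ∈ tvW M φ₀ := fun g hg => hM.tvW_invariant φ₀ g (McL.tvK_le hg)
  refine ⟨restrSub _ _ hi, fun _ _ => rfl, ?_⟩
  have key : ∀ N : Subgroup (tvW M φ₀ ≃ₗ[F] tvW M φ₀), (∀ a φ (h : NTv M a φ) (r : TvRel M φ₀ a)
      (f : tvW M φ₀ ≃ₗ[F] tvW M φ₀), (∀ x, f x = x + φ x • (⟨a, mem_tvW h r⟩ : tvW M φ₀)) → f ∈ N) →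
      (restrSub _ _ hi).range ≤ N := by
    rintro N h _ ⟨⟨g, hg⟩, rfl⟩
    induction hg using Subgroup.closure_induction with
    | mem g hg =>
      obtain ⟨a, φ, k, r, e⟩ := hg
      exact h a φ k r _ fun x => Subtype.ext (e x)
    | one => exact (map_one (restrSub _ _ hi)).symm ▸ N.one_mem
    | mul g g' hg hg' k k' => exact (map_mul (restrSub _ _ hi) ⟨g, hg⟩ ⟨g', hg'⟩).symm ▸ N.mul_mem k k'
    | inv g hg k => exact (map_inv (restrSub _ _ hi) ⟨g, hg⟩).symm ▸ N.inv_mem k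
  by_cases hw : McL.Wide M φ₀
  · left
    have : (restrSub _ _ hi).range = SLV F (tvW M φ₀) := by
      refine le_antisymm (key _ fun a φ h r f e =>
        mem_SLV_of_tv (φ := φ ∘ₗ (tvW M φ₀).subtype) (a := ⟨a, mem_tvW h r⟩) h.tv.1 e)
        (SLV_le_of_tvIn _ fun a ψ e => ?_)
      obtain ⟨θ, hθ, e'⟩ := (pairing_perfect _ _ (hM.sep h₀).1 (hM.sep h₀).2).2 ψ
      obtain ⟨-, g, hg, e''⟩ := hM.wide_tv h₀ hw a.2 hθ ((e' a).trans e)
      exact ⟨e, _, ⟨⟨g, hg⟩, rfl⟩, fun x => Subtype.ext (by rw [restrSub_apply, e'', e']; rfl)⟩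
    rw [this]
    ext f
    rw [SetLike.mem_coe, MonoidHom.mem_ker, Set.mem_setOf_eq, ← LinearEquiv.coe_det, Units.val_eq_one]
  · right
    obtain ⟨B, hA, hN, h1, h2⟩ := hM.exists_form h₀ hw
    refine ⟨B, hA, hN, ?_⟩
    let I : Subgroup (tvW M φ₀ ≃ₗ[F] tvW M φ₀) :=
      { bilinIsoSubmonoid B with
        inv_mem' := fun {f} hf x y => by
          have := hf (f⁻¹ x) (f⁻¹ y)
          simpa using this.symm }
    have h3 : (restrSub _ _ hi).range ≤ I := key _ fun a φ h r f e x y => by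
      obtain ⟨c, hc⟩ := h1 a φ h r
      rw [e, e, hc, hc]
      exact altT_isometry hA _ c x y
    refine Set.Subset.antisymm h3 fun f hf => ?_
    obtain ⟨g, hg, e⟩ := witt_alt_submonoid hN hA (restrSub _ _ hi).range.toSubmonoid (fun g hg => h3 hg)
      (fun w c => by
        obtain ⟨θ, ⟨-, g, hg, e⟩, e'⟩ := h2 w c
        exact ⟨⟨g, hg⟩, LinearEquiv.ext fun x => Subtype.ext (by
          rw [restrSub_apply, e, e', altTEquiv_apply, altT_def, smul_smul, mul_comm]; rfl)⟩) ⊤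
      (f.toLinearMap ∘ₗ Submodule.subtype ⊤) (f.injective.comp Subtype.val_injective) fun x y => hf x y
    rwa [← show g = f from LinearEquiv.ext fun x => e ⟨x, trivial⟩]

theorem mcL_of_pCore {p : ℕ} [Fact p.Prime] (hp : Odd p) {V : Type*} [AddCommGroup V] [Module (ZMod p) V]
    [Finite V] (H : Subgroup (V ≃ₗ[ZMod p] V)) (T : Set (V ≃ₗ[ZMod p] V)) (hHT : H = Subgroup.closure T)
    (hT : ∀ t ∈ T, orderOf t = p ∧
      finrank (ZMod p) (LinearMap.ker ((t : V →ₗ[ZMod p] V) - LinearMap.id)) + 1 = finrank (ZMod p) V)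
    (hOp : pCore p H = ⊥) : McL H := by
  refine ⟨fun e => ?_, fun a φ h c => ?_, fun N hN => ?_, fun W R hW hR k hk h1 h2 h3 => ?_⟩
  · have : p ∣ 2 := (ZMod.natCast_eq_zero_iff 2 p).1 e
    rw [(Nat.prime_dvd_prime_iff_eq Fact.out Nat.prime_two).1 this] at hp
    exact absurd hp (by decide)
  · rw [← ZMod.natCast_zmod_val c, Nat.cast_smul_eq_nsmul]
    induction c.val with
    | zero => rw [zero_smul]; exact TvIn.zero_left _ _
    | succ n ih => rw [succ_nsmul]; exact ih.add_left h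
  · rw [hHT, Subgroup.closure_le]
    intro t ht
    obtain ⟨h1, h2⟩ := hT t ht
    have h3 := LinearMap.finrank_range_add_finrank_ker ((t : V →ₗ[ZMod p] V) - LinearMap.id)
    obtain ⟨f, v, e⟩ := (LinearEquiv.mem_dilatransvections_iff_finrank (e := t)).2 (by omega)
    have e' : ∀ x, t x = x + f x • v := fun x => LinearMap.congr_fun e x
    refine hN t (hHT ▸ Subgroup.subset_closure ht) v f ?_ e'
    have h4 : ∀ n : ℕ, (t ^ n) v = (1 + f v) ^ n • v := fun n => by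
      induction n with
      | zero => simp
      | succ n ih => rw [pow_succ', LinearEquiv.mul_apply, ih, map_smul, e', pow_succ, mul_smul, add_smul, one_smul]
    have h5 := h4 p
    rw [ZMod.pow_card, show t ^ p = 1 from (congrArg (t ^ ·) h1.symm).trans (pow_orderOf_eq_one t), LinearEquiv.coe_one, id, add_smul, one_smul, left_eq_add,
      smul_eq_zero] at h5
    exact h5.elim id fun e => by rw [e, map_zero]
  · let N : Subgroup H :=
      { carrier := {k | (∀ x, k.1 x - x ∈ W) ∧ (∀ x ∈ W, k.1 x - x ∈ R) ∧ ∀ x ∈ R, k.1 x = x}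
        mul_mem' := fun {k k'} hk hk' => by
          have e : ∀ x, (k * k').1 x - x = k.1 (k'.1 x - x) + (k.1 x - x) := fun x => by
            rw [map_sub]; exact (sub_add_sub_cancel _ _ _).symm
          exact ⟨fun x => e x ▸ W.add_mem (hW _ k.2 _ (hk'.1 x)) (hk.1 x),
            fun x hx => e x ▸ R.add_mem (hR _ k.2 _ (hk'.2.1 x hx)) (hk.2.1 x hx),
            fun x hx => (congrArg k.1 (hk'.2.2 x hx)).trans (hk.2.2 x hx)⟩
        one_mem' := ⟨fun x => by simp, fun x _ => by simp, fun _ _ => rfl⟩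
        inv_mem' := fun {k} hk => by
          have e : ∀ x, k⁻¹.1 x - x = -(k.1 (k⁻¹.1 x) - k⁻¹.1 x) := fun x => by simp
          exact ⟨fun x => e x ▸ W.neg_mem (hk.1 _), fun x hx => e x ▸ R.neg_mem (hk.2.1 _ (hW _ k⁻¹.2 x hx)),
            fun x hx => k.1.injective (by simpa using (hk.2.2 x hx).symm)⟩ }
    have hN : N.Normal := ⟨fun k hk g => by
      have e : ∀ x, (g * k * g⁻¹).1 x - x = g.1 (k.1 (g⁻¹.1 x) - g⁻¹.1 x) := fun x => by simp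
      exact ⟨fun x => e x ▸ hW _ g.2 _ (hk.1 _), fun x hx => e x ▸ hR _ g.2 _ (hk.2.1 _ (hW _ g⁻¹.2 x hx)),
        fun x hx => sub_eq_zero.1 (by rw [e, hk.2.2 _ (hR _ g⁻¹.2 x hx), sub_self, map_zero])⟩⟩
    have hpow : ∀ (g : V ≃ₗ[ZMod p] V) (x : V), g (g x - x) = g x - x → (g ^ p) x = x := fun g x h => by
      have : ∀ n : ℕ, (g ^ n) x = x + n • (g x - x) := fun n => by
        induction n with
        | zero => simp
        | succ n ih => rw [pow_succ', LinearEquiv.mul_apply, ih, map_add, map_nsmul, h, succ_nsmul]; abel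
      rw [this, ← Nat.cast_smul_eq_nsmul (ZMod p), ZMod.natCast_self, zero_smul, add_zero]
    have hP : IsPGroup p N := fun k => ⟨2, Subtype.ext (Subtype.ext (LinearEquiv.ext fun x => by
      rw [sq, pow_mul]
      exact hpow (k.1.1 ^ p) x (hpow k.1.1 _ (k.2.2.2 _ (k.2.2.1 _ ((k ^ p).2.1 x))))))⟩
    have : N ≤ pCore p H := le_sSup ⟨hN, hP⟩
    exact congrArg Subtype.val ((Subgroup.eq_bot_iff_forall _).1 hOp ⟨k, hk⟩ (this ⟨h1, h2, h3⟩))

end Cfsg.Lib.Class
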