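import Cfsg.Agent.Class.MinDegO7

/-!
Minimal degree of the six-dimensional orthogonal group of minus type: geometry.
-/

set_option autoImplicit false

namespace Cfsg.Lib.Class.MD.Six

open QuadraticMap Module Orth OMax

variable {F V : Type*} [Field F] [AddCommGroup V] [Module F V] {Q : QuadraticForm F V}

/-- A singular point of a six-dimensional orthogonal space of minus type. -/
structure Pt (Q : QuadraticForm F V) (x : V) : Prop where
  nd : (polarBilin Q).Nondegenerate
  dim : finrank F V = 6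
  np : ¬ Known.IsPlus Q
  ne : x ≠ 0
  sing : Q x = 0

theorem Pt.of {x : V} (c : Pt Q x) {y : V} (hy0 : y ≠ 0) (hy : Q y = 0) : Pt Q y :=
  ⟨c.nd, c.dim, c.np, hy0, hy⟩

theorem mem_of_sing_pair {x w z : V} (hx : Q x = 0) (hxw : polar Q x w = 0) (hw : Q w ≠ 0)
    (hz : Q z = 0) (h : z ∈ spanL F [x, w]) : z ∈ spanL F [x] := by
  obtain ⟨s, t, rfl⟩ := mem_spanL_pair.1 h
  revert hz
  qsimp
  rw [hx, hxw]
  intro h
  have : t = 0 := by simpa [hw] using h
  exact mem_spanL_singleton.2 ⟨s, by simp [this]⟩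

variable [FiniteDimensional F V] {x : V}

theorem Pt.nexc (c : Pt Q x) : ¬ Exc Q := not_exc_of_finrank (by have := c.dim; omega)

theorem Pt.mem_of_sing (c : Pt Q x) {w z : V} (hxw : polar Q x w = 0) (hwx : w ∉ spanL F [x])
    (hw : Q w = 0) (hz : Q z = 0) (hxz : polar Q x z = 0) (hwz : polar Q w z = 0) :
    z ∈ spanL F [x, w] := by
  by_contra h
  refine c.np ⟨spanL F [z, x, w], fun u hu => ?_, ?_⟩
  · obtain ⟨r, s, t, rfl⟩ := mem_spanL_triple.1 hu
    qsimp
    rw [hz, c.sing, hw, pc hxz, pc hwz, hxw]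
    ring
  · rw [finrank_spanL_cons h, finrank_spanL_pair (ne_zero_of_notMem_spanL hwx)
      (notMem_spanL_singleton_symm hwx c.ne), c.dim]

theorem goodU_of_le (hQ : (polarBilin Q).Nondegenerate) (x : V) {U : Submodule F V}
    (h : 2 * finrank F U + 2 ≤ finrank F V) : GoodU Q x U := by
  intro y h1 h2 hy
  obtain ⟨u, hu, huy⟩ : ∃ u ∈ U, polar Q u y ≠ 0 := by
    by_contra! h'
    exact hy (mem_orth.2 h')
  have h1 := finrank_orth hQ (U ⊔ Submodule.span F {y})
  have h2 := Submodule.finrank_add_le_finrank_add_finrank U (Submodule.span F {y})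
  have h3 := Orth.finrank_span_singleton_le (F := F) y
  by_contra! hc
  have h4 : orth Q (U ⊔ Submodule.span F {y}) ≤ U ⊔ Submodule.span F {y} := by
    conv_rhs => rw [← orth_orth hQ (U ⊔ Submodule.span F {y})]
    intro v hv
    refine mem_orth.2 fun w hw => ?_
    rw [orth_sup] at hv hw
    exact hc w hw.1 v hv.1 (mem_orth_singleton.1 hw.2) (mem_orth_singleton.1 hv.2)
  have h5 := Submodule.eq_of_le_of_finrank_le h4 (by omega)
  have h6 : y ∈ orth Q (U ⊔ Submodule.span F {y}) :=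
    h5.symm ▸ Submodule.mem_sup_right (Submodule.mem_span_singleton_self y)
  exact huy (mem_orth.1 h6 u (Submodule.mem_sup_left hu))

theorem witt_Om' (hQ : (polarBilin Q).Nondegenerate) (hE : ¬ Exc Q) {ι : Type*} {v w : ι → V}
    (hv : LinearIndependent F v) (hw : LinearIndependent F w) (h1 : ∀ i, Q (w i) = Q (v i))
    (h2 : ∀ i j, i ≠ j → polar Q (w i) (w j) = polar Q (v i) (v j))
    (hr : ∀ d, ∃ e, (∀ i, polar Q (v i) e = 0) ∧ Q e = d) :
    ∃ g ∈ commutator (O Q), ∀ i, g.1 (v i) = w i := by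
  obtain ⟨g, hg⟩ := witt_family hQ hv hw h1 h2
  obtain ⟨h, h3, h4⟩ : ∃ h : O Q, (∀ i, h.1 (v i) = v i) ∧ g * h ∈ commutator (O Q) := by
    refine refl_induction hQ hE
      (P := fun g => ∃ h : O Q, (∀ i, h.1 (v i) = v i) ∧ g * h ∈ commutator (O Q))
      ⟨1, fun _ => rfl, by simp⟩ ?_ g
    rintro g u hu ⟨h, h1, h2⟩
    obtain ⟨e, he, he'⟩ := hr (Q u)
    refine ⟨refl Q e * h, fun i => by rw [O_mul_apply, h1, refl_apply_of_orth (he i)], ?_⟩
    have h4 := refl_mul_refl_mem_commutator hQ hu one_ne_zero (b := e) (by simp [he'])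
    have h5 := (inferInstance : (commutator (O Q)).Normal).conj_mem _ h4 g
    convert mul_mem h5 h2 using 1
    group
  exact ⟨g * h, h4, fun i => by rw [O_mul_apply, h3, hg]⟩

theorem Pt.mem_triple (c : Pt Q x) {y u v : V} (hyx : y ∉ spanL F [x]) (hu : u ∉ spanL F [x, y])
    (hxy : polar Q x y = 0) (hxu : polar Q x u = 0) (hyu : polar Q y u = 0) (hy : polar Q y y = 0)
    (huu : polar Q u u = 0) (h1 : polar Q x v = 0) (h2 : polar Q y v = 0) (h3 : polar Q u v = 0) :
    v ∈ spanL F [x, y, u] := by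
  have hxx : polar Q x x = 0 := by rw [polar_self', c.sing, mul_zero]
  have h4 : spanL F [u, x, y] ≤ orth Q (spanL F [u, x, y]) := spanL_le.2 fun a ha =>
    mem_orth_spanL.2 fun b hb => by
      simp only [List.mem_cons, List.not_mem_nil, or_false] at ha hb
      rcases ha with rfl | rfl | rfl <;> rcases hb with rfl | rfl | rfl <;>
        first | assumption | (rw [polar_comm]; assumption)
  have h5 := finrank_orth c.nd (spanL F [u, x, y])
  have h6 : finrank F (spanL F [u, x, y]) = 3 := by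
    rw [finrank_spanL_cons hu, finrank_spanL_pair (ne_zero_of_notMem_spanL hyx)
      (notMem_spanL_singleton_symm hyx c.ne)]
  have h7 := Submodule.eq_of_le_of_finrank_le h4 (by have := c.dim; omega)
  exact spanL_mono (s := [u, x, y]) (by simp) (h7 ▸ mem_orth_spanL.2 (by simp [h1, h2, h3]))

variable [Fintype F]

theorem Pt.exists_hyp (c : Pt Q x) {w : V} (hxw : polar Q x w = 0) (hw : Q w ≠ 0) :
    ∃ z f, polar Q x z = 0 ∧ polar Q w z = 0 ∧ polar Q x f = 0 ∧ polar Q w f = 0 ∧ Q z = 0 ∧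
      Q f = 0 ∧ polar Q z f = 1 := by
  obtain ⟨z, h0, h1, h2⟩ := exists_sing_orth_notMem c.nd [x, w] [x] (by simp [c.dim])
  obtain ⟨f, h3, h4, h5⟩ := exists_partner_orth c.nd h0
    (fun h => h2 (mem_of_sing_pair c.sing hxw hw h0 h)) h1
  exact ⟨z, f, h1 x (by simp), h1 w (by simp), h3 x (by simp), h3 w (by simp), h0, h4, h5⟩

theorem Pt.exists_norm (c : Pt Q x) {w : V} (hxw : polar Q x w = 0) (hwx : w ∉ spanL F [x])
    (d : F) : ∃ e, polar Q x e = 0 ∧ polar Q w e = 0 ∧ Q e = d := by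
  by_cases hw : Q w = 0
  swap
  · obtain ⟨z, f, h1, h2, h3, h4, h5, h6, h7⟩ := c.exists_hyp hxw hw
    refine ⟨z + d • f, ?_, ?_, ?_⟩ <;> qsimp <;> simp [*]
  obtain ⟨u, hu, hu0⟩ := exists_nonsing_orthL c.nd [x, w] (by simp [c.dim])
  obtain ⟨u', hu', hu1⟩ := exists_orthQ_notMem c.nd [x, w] [x, w, u] (by simp [c.dim])
  simp only [List.mem_cons, List.not_mem_nil, or_false, forall_eq_or_imp, forall_eq] at hu hu'
  obtain ⟨⟨⟨a, b⟩, t⟩, hv, h0⟩ := Known.exists_isotropic_of_three_le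
    ((Q.comp ((LinearMap.toSpanSingleton F V u).coprod (LinearMap.toSpanSingleton F V u'))).prod
      ((-d) • (QuadraticMap.sq : QuadraticForm F F))) (by simp)
  simp only [prod_apply, comp_apply, LinearMap.coprod_apply, LinearMap.toSpanSingleton_apply,
    smul_apply, sq_apply, smul_eq_mul] at h0
  have h1 : polar Q x (a • u + b • u') = 0 := by qsimp; rw [hu.1, hu'.1]; ring
  have h2 : polar Q w (a • u + b • u') = 0 := by qsimp; rw [hu.2, hu'.2]; ring
  by_cases ht : t = 0
  · obtain ⟨r, s, e⟩ := mem_spanL_pair.1 (c.mem_of_sing hxw hwx hw (by simpa [ht] using h0) h1 h2)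
    have hb : b = 0 := by
      by_contra hb
      refine hu1 (mem_spanL_triple.2 ⟨b⁻¹ * r, b⁻¹ * s, -(b⁻¹ * a), ?_⟩)
      rw [mul_smul, mul_smul, ← smul_add, e]
      match_scalars <;> field_simp
      ring
    rw [hb, zero_smul, add_zero, ht, Q_smul] at h0
    have ha : a = 0 := by simpa [hu0] using h0
    exact absurd (by rw [ha, hb, ht]; rfl) hv
  · refine ⟨t⁻¹ • (a • u + b • u'), by rw [polar_smul_right', h1, mul_zero],
      by rw [polar_smul_right', h2, mul_zero], ?_⟩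
    rw [Q_smul]
    field_simp
    linear_combination h0

theorem Pt.exists_Om_pair (c : Pt Q x) {w x' w' : V} (hxw : polar Q x w = 0)
    (hw : w ∉ spanL F [x]) (hx' : x' ≠ 0) (hw' : w' ∉ spanL F [x'])
    (h1 : Q x' = Q x) (h2 : Q w' = Q w) (h3 : polar Q x' w' = polar Q x w) :
    ∃ g ∈ commutator (O Q), g.1 x = x' ∧ g.1 w = w' := by
  obtain ⟨g, hg, h⟩ := witt_Om' c.nd c.nexc (linearIndependent_pair_of c.ne hw)
    (linearIndependent_pair_of hx' hw') (fun i => by fin_cases i <;> simpa)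
    (fun i j hij => by
      fin_cases i <;> fin_cases j
      · exact absurd rfl hij
      · exact h3
      · exact (polar_comm _ _ _).trans (h3.trans (polar_comm _ _ _))
      · exact absurd rfl hij)
    fun d => (c.exists_norm hxw hw d).imp fun e he =>
      ⟨fun i => by fin_cases i <;> simp [he.1, he.2.1], he.2.2⟩
  exact ⟨g, hg, h 0, h 1⟩

theorem Pt.exists_sing_ne (c : Pt Q x) {w u : V} (hxw : polar Q x w = 0) (hw : Q w ≠ 0)
    (hu : u ∉ spanL F [x, w]) :
    ∃ z, Q z = 0 ∧ polar Q x z = 0 ∧ polar Q w z = 0 ∧ polar Q u z ≠ 0 := by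
  by_contra! hc
  obtain ⟨e, f, h1, h2, h3, h4, h5, h6, h7⟩ := c.exists_hyp hxw hw
  have := le_of_forall_singular (S := orth Q (spanL F [x, w])) (T := orth Q (spanL F [u]))
    (mem_orth_spanL.2 (by simp [h1, h2])) (mem_orth_spanL.2 (by simp [h3, h4])) h5 h6 h7
    fun p hp hp0 _ => mem_orth_spanL.2 (by
      simpa using hc p hp0 (mem_orth_spanL.1 hp x (by simp)) (mem_orth_spanL.1 hp w (by simp)))
  exact hu (mem_spanL_of_orthQ c.nd fun v hv =>
    mem_orth_spanL.1 (this (mem_orth_spanL.2 hv)) u (by simp))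

/-- Invariance under the Eichler transformations fixing `x` and `w`. -/
def InvE (Q : QuadraticForm F V) (x w : V) (W : AddSubgroup V) : Prop :=
  ∀ z v, Q z = 0 → polar Q z v = 0 → polar Q x z = 0 → polar Q w z = 0 → polar Q x v = 0 →
    polar Q w v = 0 → ∀ u ∈ W, (polar Q u v - Q v * polar Q u z) • z - polar Q u z • v ∈ W

omit [FiniteDimensional F V] in
theorem eq_one_of_card_two (h : ¬ 3 ≤ Fintype.card F) {a : F} (ha : a ≠ 0) : a = 1 := by
  have := FiniteField.pow_card_sub_one_eq_one a ha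
  rwa [show Fintype.card F = 2 by have := Fintype.one_lt_card (α := F); omega, pow_one] at this

omit [FiniteDimensional F V] in
theorem exists_ne_ne (h : 3 ≤ Fintype.card F) (a b : F) : ∃ t, t ≠ a ∧ t ≠ b := by
  classical
  by_contra! hc
  have : (Finset.univ : Finset F) ⊆ {a, b} := fun t _ => by
    by_cases e : t = a
    · simp [e]
    · simp [hc t e]
  have := (Finset.card_le_card this).trans Finset.card_le_two
  rw [Finset.card_univ] at this
  omega

theorem Pt.smul_mem (c : Pt Q x) {w u z : V} {W : AddSubgroup V} (hW : InvE Q x w W)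
    (hxw : polar Q x w = 0) (hw0 : Q w ≠ 0) (hw : w ∈ W) (hu : u ∈ W)
    (h3 : 3 ≤ Fintype.card F ∨ polar Q u w = 0) (h0 : Q z = 0) (hxz : polar Q x z = 0)
    (hwz : polar Q w z = 0) (huz : polar Q u z ≠ 0) (hxu : polar Q x u = 0) (a : F) :
    a • z ∈ W := by
  have hzw : z ∉ spanL F [x, w] := fun h => huz (pc (polar_eq_zero_of_mem_spanL (by simpa using hxu)
    (mem_of_sing_pair c.sing hxw hw0 h0 h)))
  by_cases h2 : (2 : F) = 0
  swap
  · obtain ⟨v, v', h3, h4, h5⟩ : ∃ v v', (∀ y ∈ [x, w, z], polar Q y v = 0) ∧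
        (∀ y ∈ [x, w, z], polar Q y v' = 0) ∧ polar Q v v' ≠ 0 := by
      by_contra! hc
      have h4 : orth Q (spanL F [x, w, z]) ≤ spanL F [x, w, z] := fun v hv =>
        mem_spanL_of_orthQ c.nd fun v' hv' => hc v v' (mem_orth_spanL.1 hv) hv'
      have h5 := Submodule.eq_of_le_of_finrank_le h4 (by
        have := finrank_spanL_le (F := F) [x, w, z]
        have := le_finrank_orth_spanL c.nd [x, w, z]
        have := c.dim
        simp only [List.length_cons, List.length_nil] at *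
        omega)
      have h6 := mem_orth_spanL.1 (h5.symm ▸ mem_spanL_of_mem (by simp) :
        w ∈ orth Q (spanL F [x, w, z])) w (by simp)
      rw [polar_self'] at h6
      exact mul_ne_zero h2 hw0 h6
    simp only [List.mem_cons, List.not_mem_nil, or_false, forall_eq_or_imp, forall_eq] at h3 h4
    have key := fun v h3 h4 h5 => hW z v h0 h5 hxz hwz h3 h4 u hu
    set t := -a / (polar Q u z * polar Q v v') with ht
    have := W.sub_mem (W.sub_mem (key (v + t • v') (by qsimp; rw [h3.1, h4.1]; ring)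
      (by qsimp; rw [h3.2.1, h4.2.1]; ring) (by qsimp; rw [h3.2.2, h4.2.2]; ring))
      (key v h3.1 h3.2.1 h3.2.2)) (key (t • v') (by qsimp; rw [h4.1]; ring)
      (by qsimp; rw [h4.2.1]; ring) (by qsimp; rw [h4.2.2]; ring))
    convert this using 1
    qsimp
    rw [ht]
    match_scalars
    · field_simp; ring
    · ring
    · ring
  have hww : polar Q w w = 0 := by rw [polar_self', h2, zero_mul]
  have key : ∀ z, Q z = 0 → polar Q x z = 0 → polar Q w z = 0 → ∀ u ∈ W, ∀ t : F,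
      (t * polar Q u w - t ^ 2 * Q w * polar Q u z) • z - (polar Q u z * t) • w ∈ W :=
    fun z h0 hxz hwz u hu t => by
      have := hW z (t • w) h0 (by qsimp; rw [pc hwz]; ring) hxz hwz (by qsimp; rw [hxw]; ring)
        (by rw [polar_smul_right', hww, mul_zero]) u hu
      rwa [polar_smul_right', Q_smul, smul_smul] at this
  by_cases q3 : 3 ≤ Fintype.card F
  swap
  · have h4 := key z h0 hxz hwz u hu 1
    rw [h3.resolve_left q3, eq_one_of_card_two q3 hw0, eq_one_of_card_two q3 huz] at h4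
    by_cases ha : a = 0
    · rw [ha, zero_smul]; exact zero_mem _
    · rw [eq_one_of_card_two q3 ha]
      convert neg_mem (add_mem h4 hw) using 1
      module
  obtain ⟨t₀, h4, h5⟩ := exists_ne_ne q3 0 (polar Q u w / (Q w * polar Q u z))
  obtain ⟨α, hα⟩ : ∃ α, α = t₀ * polar Q u w - t₀ ^ 2 * Q w * polar Q u z := ⟨_, rfl⟩
  have hα0 : α ≠ 0 := fun h => h5 (by
    rw [hα] at h
    field_simp
    exact mul_left_cancel₀ h4 (by linear_combination -h))
  obtain ⟨f, h6, hf, hzf⟩ := exists_partner_orth c.nd h0 hzw (by simp [hxz, hwz])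
  have hxf := h6 x (by simp)
  have hwf := h6 w (by simp)
  have hZ : ∀ s t : F, ((t * s * Q w) ^ 2 * α) • z + (t * s * s * Q w * α) • w ∈ W := fun s t => by
    have h7 := key z h0 hxz hwz _ (key f hf hxf hwf _ (hα ▸ key z h0 hxz hwz u hu t₀) s) t
    convert h7 using 1
    simp only [polar_sub_left, polar_smul_left', hww, hwz, hwf, hzf, pc hwz, pc hwf, pc hzf]
    module
  obtain ⟨s, h7, h8⟩ := exists_ne_ne q3 0 1
  have hw' : ∀ b : F, b • w ∈ W := fun b => by
    have := sub_mem (hZ s (b / ((s - 1) * Q w * α) / s)) (hZ 1 (b / ((s - 1) * Q w * α)))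
    convert this using 1
    have := sub_ne_zero.2 h8
    match_scalars <;> field_simp
    ring
  have : CharP F 2 := CharTwo.of_one_ne_zero_of_two_eq_zero one_ne_zero h2
  obtain ⟨r, hr⟩ := FiniteField.isSquare_of_char_two (F := F) (ringChar.eq F 2) (a / α)
  have := sub_mem (hZ 1 (r / Q w)) (hw' (r / Q w * 1 * 1 * Q w * α))
  convert this using 1
  match_scalars
  · field_simp at hr ⊢
    linear_combination hr
  · ring

theorem Pt.orth_le_aux (c : Pt Q x) {w u : V} {W : AddSubgroup V} (hW : InvE Q x w W)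
    (hxw : polar Q x w = 0) (hw0 : Q w ≠ 0) (hw : w ∈ W) (hu : u ∈ W) (hu' : u ∉ spanL F [x, w])
    (h3 : 3 ≤ Fintype.card F ∨ polar Q u w = 0) (hxu : polar Q x u = 0) :
    ∃ z, polar Q u z ≠ 0 ∧ ∀ v, polar Q x v = 0 → polar Q w v = 0 → polar Q z v = 0 → v ∈ W := by
  obtain ⟨z, h0, hxz, hwz, h2⟩ := c.exists_sing_ne hxw hw0 hu'
  refine ⟨z, h2, fun v h4 h5 h6 => ?_⟩
  have := W.sub_mem (c.smul_mem hW hxw hw0 hw hu h3 h0 hxz hwz h2 hxu
    (polar Q u ((polar Q u z)⁻¹ • v) - Q ((polar Q u z)⁻¹ • v) * polar Q u z))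
    (hW z ((polar Q u z)⁻¹ • v) h0 (by qsimp; rw [h6]; ring) hxz hwz (by qsimp; rw [h4]; ring)
      (by qsimp; rw [h5]; ring) u hu)
  rwa [sub_sub_cancel, smul_smul, mul_inv_cancel₀ h2, one_smul] at this

theorem Pt.orth_le (c : Pt Q x) {w u : V} {W : AddSubgroup V} (hW : InvE Q x w W)
    (hxw : polar Q x w = 0) (hw0 : Q w ≠ 0) (hw : w ∈ W) (hu : u ∈ W) (hu' : u ∉ spanL F [x, w])
    (h3 : 3 ≤ Fintype.card F ∨ polar Q u w = 0) (hxu : polar Q x u = 0) {v : V}
    (h1 : polar Q x v = 0) (h2 : polar Q w v = 0) : v ∈ W := by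
  obtain ⟨z, -, hz⟩ := c.orth_le_aux hW hxw hw0 hw hu hu' h3 hxu
  obtain ⟨u', h3, h4⟩ := exists_orthQ_notMem c.nd [x, w, z] [x, w] (by simp [c.dim])
  simp only [List.mem_cons, List.not_mem_nil, or_false, forall_eq_or_imp, forall_eq] at h3
  obtain ⟨z', h5, hz'⟩ := c.orth_le_aux hW hxw hw0 hw (hz u' h3.1 h3.2.1 h3.2.2) h4
    (Or.inr (pc h3.2.1)) h3.1
  have := W.add_mem (hz' (v - (polar Q z' v / polar Q u' z') • u') (by qsimp; rw [h1, h3.1]; ring)
    (by qsimp; rw [h2, h3.2.1]; ring) (by qsimp; rw [polar_comm Q z' u']; field_simp; ring))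
    (hz ((polar Q z' v / polar Q u' z') • u') (by qsimp; rw [h3.1]; ring)
      (by qsimp; rw [h3.2.1]; ring) (by qsimp; rw [h3.2.2]; ring))
  simpa using this

theorem le_of_full {H : Subgroup (O Q)} (hQ : (polarBilin Q).Nondegenerate) (hn : 5 ≤ finrank F V)
    (h : ∀ x, x ≠ 0 → Q x = 0 → RegW Q x (Wx H x) ∨ ∀ u ∈ Wx H x, u ∈ spanL F [x]) {x : V}
    (hx0 : x ≠ 0) (hx : Q x = 0) (hf : ∀ u ∈ Wx H x, u ∈ spanL F [x]) :
    commutator (O Q) ≤ H := by
  have full : ∀ x, Q x = 0 → (∀ u ∈ Wx H x, u ∈ spanL F [x]) → Full H ⊤ x := fun x hx hf =>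
    full_of x fun _ w _ hw => eich_mem_of_le hQ hx hf (mem_orth_spanL.2 (by simpa using hw))
  have step : ∀ x, x ≠ 0 → Q x = 0 → (∀ u ∈ Wx H x, u ∈ spanL F [x]) → ∀ y, Q y = 0 →
      polar Q x y = 0 → y ∉ spanL F [x] → ∀ u ∈ Wx H y, u ∈ spanL F [y] :=
    fun x hx0 hx hf y hy hxy hyx => (h y (ne_zero_of_notMem_spanL hyx) hy).resolve_left
      (not_regW_of_long hQ hx hy hxy hx0 hyx (full x hx hf y trivial))
  obtain ⟨y, hy, h1, h2⟩ := exists_sing_orth_notMem hQ [x] [x] (by simp; omega)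
  have hxy := h1 x (by simp)
  obtain ⟨z, h3, hz, h4⟩ := exists_partner_orth hQ hx (notMem_spanL_singleton_symm h2 hx0)
    (by simpa using pc hxy)
  have h5 := step y (ne_zero_of_notMem_spanL h2) hy (step x hx0 hx hf y hy hxy h2) z hz
    (h3 y (by simp)) fun h => by
      rw [pc (polar_eq_zero_of_mem_spanL (by simpa using pc hxy) h)] at h4
      exact zero_ne_one h4
  exact commutator_le_of_two_full hQ (by omega) hx hz (by rw [h4]; exact one_ne_zero)
    (full x hx hf) (full z hz h5)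

end Cfsg.Lib.Class.MD.Six
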