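import Cfsg.Agent.Class.MinDegQ1

/-!
Minimal degree of the six-dimensional orthogonal group of minus type: no subgroup is a complement
to all unipotent radicals.
-/

set_option autoImplicit false

namespace Cfsg.Lib.Class.MD.Six

open QuadraticMap Module Orth OMax

variable {F V : Type*} [Field F] [AddCommGroup V] [Module F V] {Q : QuadraticForm F V}
  {H : Subgroup (O Q)} {x y : V}

theorem exists_eq_eich {e f : V} (he : Q e = 0) (hf : Q f = 0) (hef : polar Q e f = 1) {g : O Q}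
    (h1 : g.1 e = e) (h2 : ∀ u, polar Q e u = 0 → ∃ c : F, g.1 u = u + c • e) :
    ∃ w, polar Q e w = 0 ∧ g = eich Q e w := by
  have h3 : polar Q e (g.1 f) = 1 := by rw [← h1, O_polar, hef]
  obtain ⟨w, hw, h⟩ := exists_eich_apply_smul he hf (z := g.1 f) (by rw [O_map, hf])
    (by simp [hef]) (by simp [h3])
  rw [hef, h3, div_one, one_smul] at h
  refine ⟨w, hw, O_ext_hyp he hf hef (by rw [h1, eich_apply_self]) h.symm fun u hu hu' => ?_⟩
  obtain ⟨c, hc⟩ := h2 u hu
  have h4 := O_polar g u f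
  have h5 := O_polar (eich Q e w) u f
  rw [eich_apply_of_orth he hw (by rwa [polar_comm])] at h5 ⊢
  rw [hc] at h4 ⊢
  rw [h] at h5
  simp only [polar_add_left, polar_smul_left', h3] at h4 h5
  rw [show c = polar Q u w by linear_combination h4 - h5]

variable (H x y) in
/-- Elements of `H` acting trivially on the quotient of the perp of a line by the line. -/
def Rl (a b c d : F) (α β : V → F) : Prop :=
  ∃ h ∈ H, h.1 x = a • x + b • y ∧ h.1 y = c • x + d • y ∧
    ∀ u, polar Q x u = 0 → polar Q y u = 0 → h.1 u = u + α u • x + β u • y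

theorem Rl.mul {t t' : F} {α β α' β' : V → F} (h : Rl H x y 1 0 t 1 α β)
    (h' : Rl H x y 1 0 t' 1 α' β') :
    Rl H x y 1 0 (t + t') 1 (fun u => α u + α' u + β' u * t) fun u => β u + β' u := by
  obtain ⟨g, hg, h1, h2, h3⟩ := h
  obtain ⟨g', hg', h1', h2', h3'⟩ := h'
  refine ⟨g * g', mul_mem hg hg', ?_, ?_, fun u e1 e2 => ?_⟩ <;> rw [O_mul_apply]
  · simp [h1, h1']
  · simp only [h2', map_add, map_smul, h1, h2]
    module
  · simp only [h3' u e1 e2, map_add, map_smul, h1, h2, h3 u e1 e2]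
    module

theorem Rl.add {α β α' β' : V → F} (h : Rl H x y 1 0 0 1 α β) (h' : Rl H x y 1 0 0 1 α' β') :
    Rl H x y 1 0 0 1 (fun u => α u + α' u) fun u => β u + β' u := by
  simpa using h.mul h'

theorem Rl.conj (hx : Q x = 0) (hy : Q y = 0) (hxy : polar Q x y = 0) {a b c d : F}
    {α β α' β' : V → F} (k : Rl H x y a b c d α' β') (h : Rl H x y 1 0 0 1 α β) :
    Rl H x y 1 0 0 1 (fun u => α u * a + β u * c) fun u => α u * b + β u * d := by
  obtain ⟨g, hg, h1, h2, h3⟩ := h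
  obtain ⟨k, hk, h4, h5, h6⟩ := k
  simp only [one_smul, zero_smul, add_zero, zero_add] at h1 h2 ⊢
  have key : ∀ u, polar Q x u = 0 → polar Q y u = 0 → ∃ r s : F, k⁻¹.1 u = u + r • x + s • y :=
    fun u e1 e2 => by
      have := h6 (k⁻¹.1 u) (by rw [← O_polar k, O_apply_inv, h4]; qsimp; rw [e1, e2]; ring)
        (by rw [← O_polar k, O_apply_inv, h5]; qsimp; rw [e1, e2]; ring)
      rw [O_apply_inv] at this
      exact ⟨-α' (k⁻¹.1 u), -β' (k⁻¹.1 u), by
        rw [neg_smul, neg_smul, ← sub_eq_add_neg, ← sub_eq_add_neg, sub_sub, eq_sub_iff_add_eq,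
          ← add_assoc, ← this]⟩
  have fix : ∀ u, polar Q x u = 0 → polar Q y u = 0 → g.1 u = u → (k * g * k⁻¹).1 u = u :=
    fun u e1 e2 e3 => by
      obtain ⟨r, s, e⟩ := key u e1 e2
      rw [O_mul_apply, O_mul_apply, show g.1 (k⁻¹.1 u) = k⁻¹.1 u by
        rw [e, map_add, map_add, map_smul, map_smul, h1, h2, e3], O_apply_inv]
  refine ⟨k * g * k⁻¹, mul_mem (mul_mem hk hg) (inv_mem hk), ?_, ?_, fun u e1 e2 => ?_⟩
  · simpa using fix x (by rw [polar_self', hx, mul_zero]) (pc hxy) h1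
  · simpa using fix y hxy (by rw [polar_self', hy, mul_zero]) h2
  · obtain ⟨r, s, e⟩ := key u e1 e2
    rw [O_mul_apply, O_mul_apply, show g.1 (k⁻¹.1 u) = k⁻¹.1 u + α u • x + β u • y by
      rw [e, map_add, map_add, map_smul, map_smul, h1, h2, h3 u e1 e2]; abel]
    simp only [map_add, map_smul, O_apply_inv, h4, h5]
    module

theorem Rl.eich_mul (hx : Q x = 0) {g : O Q} {s : F} {β : V → F} {v : V} (hv : polar Q x v = 0)
    (hxy : polar Q x y = 0) (hk : eich Q x v * g ∈ H) (h1 : g.1 x = x + s • y) (h2 : g.1 y = y)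
    (h3 : ∀ u, polar Q x u = 0 → polar Q y u = 0 → g.1 u = u + β u • y) :
    Rl H x y (1 + s * polar Q y v) s (polar Q y v) 1
      (fun u => polar Q u v + β u * polar Q y v) β := by
  have e := eich_apply_of_orth hx hv (pc hxy)
  refine ⟨_, hk, ?_, ?_, fun u e1 e2 => ?_⟩ <;> rw [O_mul_apply]
  · rw [h1, map_add, map_smul, eich_apply_self, e]
    module
  · rw [h2, e]
    module
  · rw [h3 u e1 e2, map_add, map_smul, e, eich_apply_of_orth hx hv (pc e1)]
    module

variable [FiniteDimensional F V]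

theorem Rl.rank_one (hQ : (polarBilin Q).Nondegenerate)
    (hreg : ∀ y v, y ≠ 0 → Q y = 0 → polar Q y v = 0 → eich Q y v ∈ H → v ∈ spanL F [y])
    (hx0 : x ≠ 0) (hx : Q x = 0) (hy : Q y = 0) (hxy : polar Q x y = 0) (hyx : y ∉ spanL F [x])
    {α β : V → F} (h : Rl H x y 1 0 0 1 α β) {r s : F} (hrs : r ≠ 0 ∨ s ≠ 0)
    (hγ : ∀ u, polar Q x u = 0 → polar Q y u = 0 → α u * s = β u * r) (u : V)
    (e1 : polar Q x u = 0) (e2 : polar Q y u = 0) : α u = 0 ∧ β u = 0 := by
  obtain ⟨g, hg, h1, h2, h3⟩ := h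
  simp only [one_smul, zero_smul, add_zero, zero_add] at h1 h2
  have hli := LinearIndependent.pair_iff.1 (linearIndependent_pair_of hx0 hyx)
  have hz0 : r • x + s • y ≠ 0 := fun h => by have := hli r s h; tauto
  have hz : Q (r • x + s • y) = 0 := by qsimp; rw [hx, hy, hxy]; ring
  have hm : ∀ a b : F, a * s = b * r → ∃ c : F, a • x + b • y = c • (r • x + s • y) :=
    fun a b e => by
      rcases hrs with h | h
      · refine ⟨a / r, ?_⟩
        match_scalars <;> field_simp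
        linear_combination -e
      · refine ⟨b / s, ?_⟩
        match_scalars <;> field_simp
        linear_combination e
  have hgz : g.1 (r • x + s • y) = r • x + s • y := by rw [map_add, map_smul, map_smul, h1, h2]
  obtain ⟨f, hf, hzf⟩ := exists_partner hQ hz0 hz
  obtain ⟨v, hv, e⟩ := exists_eq_eich hz hf hzf hgz fun u hu => by
    by_cases e : polar Q x u = 0 ∧ polar Q y u = 0
    · obtain ⟨c, hc⟩ := hm _ _ (hγ u e.1 e.2)
      exact ⟨c, by rw [h3 u e.1 e.2, add_assoc, hc]⟩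
    obtain ⟨a, b, hd⟩ := mem_spanL_pair.1 (mem_spanL_of_orthQ hQ (l := [x, y]) (x := g.1 u - u)
      fun u' hu' => by
        obtain ⟨c, hc⟩ := hm _ _ (hγ u' (hu' x (by simp)) (hu' y (by simp)))
        have h4 := O_polar g u u'
        have h5 := O_polar g u (r • x + s • y)
        rw [h3 u' (hu' x (by simp)) (hu' y (by simp)), add_assoc, hc, polar_add_right,
          polar_smul_right'] at h4
        rw [hgz, pc hu] at h5
        rw [h5] at h4
        rw [polar_sub_left]
        linear_combination h4)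
    have h4 := O_map g u
    rw [← add_sub_cancel u (g.1 u), ← hd] at h4 ⊢
    revert h4 hu
    qsimp
    rw [hx, hy, hxy, polar_comm Q u x, polar_comm Q u y]
    intro hu h4
    obtain ⟨c, hc⟩ := hm a b (by
      rw [not_and_or] at e
      rcases e with e | e
      · exact mul_right_cancel₀ e (by linear_combination s * h4 - b * hu)
      · exact mul_right_cancel₀ e (by linear_combination a * hu - r * h4))
    exact ⟨c, by rw [hc]⟩
  obtain ⟨t, rfl⟩ := mem_spanL_singleton.1 (hreg _ _ hz0 hz hv (e ▸ hg))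
  have h4 := h3 u e1 e2
  rw [e, eich_smul_self, add_assoc] at h4
  exact hli _ _ (by simpa using h4)

variable [Fintype F]

theorem Pt.false_of_three (c : Pt Q x) (h2 : (2 : F) ≠ 0) (h3 : ∀ a : F, a ≠ 0 → a ^ 2 = 1)
    (hreg : ∀ y v, y ≠ 0 → Q y = 0 → polar Q y v = 0 → eich Q y v ∈ H → v ∈ spanL F [y])
    (hcov : ∀ g ∈ commutator (O Q), ∃ v, polar Q x v = 0 ∧ eich Q x v * g ∈ H) : False := by
  have h30 : (3 : F) = 0 := by linear_combination h3 2 h2
  obtain ⟨y, hy, h1, hyx⟩ := exists_sing_orth_notMem c.nd [x] [x] (by simp [c.dim])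
  have hxy := h1 x (by simp)
  have ro := fun α β (h : Rl H x y 1 0 0 1 α β) r s =>
    h.rank_one c.nd hreg c.ne c.sing hy hxy hyx (r := r) (s := s)
  have hM : ∀ u, polar Q x u = 0 → polar Q y u = 0 →
      ∃ t α, Rl H x y 1 0 t 1 α fun u' => polar Q u' u := fun u e1 e2 => by
    obtain ⟨v, hv, hk⟩ := hcov _ (eich_mem_commutator c.nd c.nexc y u)
    have := Rl.eich_mul c.sing (s := 0) hv hxy hk
      (by simpa using eich_apply_of_orth_orth hxy e1) (eich_apply_self _ _)
      fun u' _ e4 => eich_apply_of_orth hy e2 (pc e4)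
    rw [zero_mul, add_zero] at this
    exact ⟨_, _, this⟩
  obtain ⟨α, β, hP, u₀, e1, e2, e3⟩ : ∃ α β, Rl H x y 1 0 0 1 α β ∧
      ∃ u₀, polar Q x u₀ = 0 ∧ polar Q y u₀ = 0 ∧ β u₀ ≠ 0 := by
    obtain ⟨u, hu, hu0⟩ := exists_nonsing_orthL c.nd [x, y] (by simp [c.dim])
    obtain ⟨u', hu', hu1⟩ := exists_orthQ_notMem c.nd [x, y, u] [x, y] (by simp [c.dim])
    simp only [List.mem_cons, List.not_mem_nil, or_false, forall_eq_or_imp, forall_eq] at hu hu'
    obtain ⟨t, α, k⟩ := hM u hu.1 hu.2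
    obtain ⟨t', α', k'⟩ := hM u' hu'.1 hu'.2.1
    have e : polar Q u u ≠ 0 := by rw [polar_self']; exact mul_ne_zero h2 hu0
    by_cases ht' : t' = 0
    · obtain ⟨v, hv, hv'⟩ := exists_orthQ_eq c.nd hu1 1
      exact ⟨_, _, ht' ▸ k', v, hv x (by simp), hv y (by simp), by simp [pc hv']⟩
    by_cases ht : t = 0
    · exact ⟨_, fun u' => polar Q u' u, ht ▸ k, u, hu.1, hu.2, e⟩
    rcases sq_eq_sq_iff_eq_or_eq_neg.1 ((h3 t ht).trans (h3 t' ht').symm) with h | h
    · exact ⟨_, _, (show t + t' + t' = 0 by linear_combination h + t' * h30) ▸ (k.mul k').mul k', u,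
        hu.1, hu.2, by simpa [hu'.2.2] using e⟩
    · exact ⟨_, _, (show t + t' = 0 by linear_combination h) ▸ k.mul k', u,
        hu.1, hu.2, by simpa [hu'.2.2] using e⟩
  obtain ⟨f, h4, hf, hxf⟩ := exists_partner_orth c.nd c.sing (notMem_spanL_singleton_symm hyx c.ne)
    (by simpa using pc hxy)
  have hyf := h4 y (by simp)
  have hN : ∀ s : F, ∃ t, Rl H x y 1 0 0 1 (fun u => α u * (1 + s * t) + β u * t)
      fun u => α u * s + β u * 1 := fun s => by
    have hs : polar Q y (s • f) = 0 := by rw [polar_smul_right', hyf, mul_zero]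
    obtain ⟨v, hv, hk⟩ := hcov _ (eich_mem_commutator c.nd c.nexc y (s • f))
    exact ⟨_, (Rl.eich_mul c.sing hv hxy hk
      (by rw [eich_apply_of_orth hy hs hxy, polar_smul_right', hxf, mul_one]) (eich_apply_self _ _)
      fun u' _ e4 => eich_apply_of_orth hy hs (pc e4)).conj c.sing hy hxy hP⟩
  have key : ∀ s : F, s ≠ 0 → Rl H x y 1 0 0 1 (fun u => α u * (1 + s * s) + β u * s)
      fun u => α u * s + β u * 1 := fun s hs => by
    obtain ⟨t, k⟩ := hN s
    have hs2 := h3 s hs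
    by_cases ht : t = 0
    · have h5 := ro _ _ ((k.add hP).add hP) 0 1 (Or.inr one_ne_zero)
        fun u _ _ => by rw [ht]; linear_combination α u * h30
      refine absurd (ro _ _ hP 0 1 (Or.inr one_ne_zero) (fun u e4 e5 => ?_) u₀ e1 e2).2 e3
      have := (h5 u e4 e5).2
      exact mul_right_cancel₀ hs (by linear_combination this - β u * h30)
    rcases sq_eq_sq_iff_eq_or_eq_neg.1 ((h3 t ht).trans hs2.symm) with h | h
    · exact h ▸ k
    · have h5 := ro _ _ (k.add hP) 1 s (Or.inl one_ne_zero) fun u _ _ => by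
        rw [h]; linear_combination (-(α u * s) - β u) * hs2 - β u * h30
      refine absurd (ro _ _ hP 1 s (Or.inl one_ne_zero) (fun u e4 e5 => ?_) u₀ e1 e2).2 e3
      linear_combination (h5 u e4 e5).2 - β u * h30
  have h5 := ro _ _ (((key 1 one_ne_zero).add (key (-1) (by simp))).add hP) 1 0
    (Or.inl one_ne_zero) fun u _ _ => by linear_combination -β u * h30
  refine e3 (ro _ _ hP 0 1 (Or.inr one_ne_zero) (fun u e4 e5 => ?_) u₀ e1 e2).2
  linear_combination -(h5 u e4 e5).1 + 2 * α u * h30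

theorem Pt.false_of_all_reg (c : Pt Q x)
    (hreg : ∀ y v, y ≠ 0 → Q y = 0 → polar Q y v = 0 → eich Q y v ∈ H → v ∈ spanL F [y])
    (hcov : ∀ g ∈ commutator (O Q), ∃ v, polar Q x v = 0 ∧ eich Q x v * g ∈ H) : False := by
  have hQ := c.nd
  have hE := c.nexc
  have hx := c.sing
  have hx0 := c.ne
  obtain ⟨y, hy, h1, hyx⟩ := exists_sing_orth_notMem hQ [x] [x] (by simp [c.dim])
  have hxy := h1 x (by simp)
  have hns : ∀ u, Q u ≠ 0 → u ∉ spanL F [x, y] := fun u hu h =>
    hu (Q_eq_zero_of_mem_pair hx hy hxy h)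
  obtain ⟨u, hu, hu0⟩ := exists_nonsing_orthL hQ [x, y] (by simp [c.dim])
  have hxu := hu x (by simp)
  have hyu := hu y (by simp)
  obtain ⟨a, hc, hk⟩ := hcov _ (eich_mem_commutator hQ hE y u)
  refine reg_notMem hQ hreg hx0 hx hy hxy hxu hyu hyx (hns u hu0) hc hk ?_
  by_cases h2 : (2 : F) = 0
  · have hr : (eich Q y u).1 x = x := eich_apply_of_orth_orth hxy hxu
    obtain ⟨h6, h7⟩ := mul_eich_of_fix' hx hr hc
    have h8 := mul_mem hk hk
    rw [mul_assoc, ← mul_assoc (eich Q y u), h7, mul_assoc, ← eich_add hy hyu hyu, ← two_smul F u,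
      h2, zero_smul, show eich Q y 0 = 1 by simpa using eich_smul_self (Q := Q) y 0, mul_one,
      ← eich_add hx hc h6] at h8
    have h9 := hreg _ _ hx0 hx (by rw [polar_add_right, hc, h6, add_zero]) h8
    obtain ⟨t, ht⟩ := mem_spanL_singleton.1 h9
    rw [eich_apply hy hyu, ← add_sub_assoc, ← add_assoc, ← two_smul F a, h2, zero_smul,
      zero_add] at ht
    have h10 : polar Q a y = 0 := by
      by_contra h
      refine hns u hu0 (mem_spanL_pair.2 ⟨-((polar Q a y)⁻¹ * t),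
        (polar Q a y)⁻¹ * (polar Q a u - Q u * polar Q a y), ?_⟩)
      rw [neg_smul, mul_smul, ht]
      match_scalars <;> field_simp
      ring
    refine c.mem_triple hyx (hns u hu0) hxy hxu hyu (by rw [polar_self', h2, zero_mul])
      (by rw [polar_self', h2, zero_mul]) hc (pc h10) (pc ?_)
    by_contra h
    refine hyx (mem_spanL_singleton.2 ⟨(polar Q a u)⁻¹ * t, ?_⟩)
    rw [mul_smul, ht, h10, mul_zero, sub_zero, zero_smul, sub_zero, smul_smul,
      inv_mul_cancel₀ h, one_smul]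
  by_cases h4 : ∀ μ : F, μ ≠ 0 → μ ^ 2 = 1
  · exact (c.false_of_three h2 h4 hreg hcov).elim
  push Not at h4
  obtain ⟨μ, hμ, hμ1⟩ := h4
  have hx' : x ∉ spanL F [y, u] := fun h => notMem_spanL_singleton_symm hyx hx0
    (mem_of_sing_pair hy hyu hu0 hx h)
  obtain ⟨f, hf, hf0, hxf⟩ := exists_partner_orth hQ hx hx' (by simp [pc hxy, pc hxu])
  have hμ2 : μ ^ 2 ≠ 0 := pow_ne_zero 2 hμ
  have hg : tor Q x f (μ ^ 2) ∈ commutator (O Q) := by
    rw [commutator_eq_EG hQ hE (by have := c.dim; omega)]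
    exact tor_sq_mem_EG hQ (by have := c.dim; omega) hx hf0 hxf hμ
  obtain ⟨v, hv, hh⟩ := hcov _ hg
  have h5 := reg_cocycle hreg hx0 hx hy hxy hxu hyu hc hk hμ2 (tor_apply_left hx hf0 hxf hμ2)
    (tor_apply_orth _ hxy (pc (hf y (by simp))))
    (tor_apply_orth _ hxu (pc (hf u (by simp)))) hv hh
  obtain ⟨a, b, e, h6, h7, rfl⟩ := exists_hyp_decomp hx hf0 hxf a
  have hb : b = 0 := by
    revert hc
    qsimp
    rw [hx, hxf, h6]
    simp
  subst hb
  rw [zero_smul, add_zero, map_add, map_smul, tor_apply_left hx hf0 hxf hμ2,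
    tor_apply_orth _ h6 h7] at h5
  have hxm : x ∈ spanL F [x, y, u] := mem_spanL_of_mem (by simp)
  have h8 := Submodule.smul_mem _ (μ ^ 2 - 1)⁻¹
    (sub_mem h5 (Submodule.smul_mem _ (μ ^ 2 * a * μ ^ 2 - μ ^ 2 * a) hxm))
  convert h8 using 1
  have := sub_ne_zero.2 hμ1
  match_scalars <;> field_simp
  ring

end Cfsg.Lib.Class.MD.Six
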