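import Cfsg.Agent.Class.MinDegQ2

/-!
Minimal degree of the six-dimensional orthogonal group of minus type: multiplicities.
-/

set_option autoImplicit false

namespace Cfsg.Lib.Class.MD.Six

open QuadraticMap Module Orth OMax

variable {F V : Type*} [Field F] [AddCommGroup V] [Module F V] {Q : QuadraticForm F V}
  [FiniteDimensional F V] {x : V}

/-- The unipotent radical at `x`. -/
noncomputable def Pt.a (c : Pt Q x) (v : orth Q (spanL F [x])) : commutator (O Q) :=
  ⟨eich Q x v, eich_mem_commutator c.nd c.nexc x v⟩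

theorem Pt.add (c : Pt Q x) (s t : orth Q (spanL F [x])) : c.a (s + t) = c.a s * c.a t :=
  Subtype.ext (eich_add c.sing (orth_val s) (orth_val t))

theorem Pt.finrank_orth (c : Pt Q x) : finrank F (orth Q (spanL F [x])) + 1 = finrank F V := by
  have := Orth.finrank_orth c.nd (spanL F [x])
  rwa [finrank_spanL_singleton c.ne] at this

variable [Fintype F] {Ω : Type*} [MulAction (commutator (O Q)) Ω]

theorem Pt.chs_eq (c : Pt Q x) (ω : Ω) : chs (chi F) (polA Q x) c.add ω = WO Q x ω := by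
  ext w
  rw [mem_chs, mem_Wx]
  refine ⟨fun h v h1 h2 => h ⟨v, mem_orth_spanL.2 (by simpa using h1)⟩ (coe_mem_St.1 h2),
    fun h s hs => h s (orth_val s) (coe_mem_St.2 hs)⟩

theorem Pt.exists_conj (c : Pt Q x) (g : commutator (O Q)) {l : F} (hl : l ≠ 0)
    (hg : g.1.1 x = l • x) : ∃ σ : orth Q (spanL F [x]) → orth Q (spanL F [x]),
      Function.Surjective σ ∧ ∀ s, g * c.a s = c.a (σ s) * g := by
  have : Finite V := Module.finite_of_finite F
  refine ⟨fun s => ⟨l • g.1.1 s, mem_orth_spanL.2 (by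
    simpa using (mul_eich_of_fix c.sing hg hl (orth_val s)).1)⟩,
    Finite.surjective_of_injective fun s t h => Subtype.ext (g.1.1.injective
      (smul_right_injective V hl (congrArg Subtype.val h))),
    fun s => Subtype.ext (mul_eich_of_fix c.sing hg hl (orth_val s)).2⟩

/-- The multiplicity of `w`. -/
noncomputable abbrev Pt.m (c : Pt Q x) (Ω : Type*) [MulAction (commutator (O Q)) Ω]
    (P : AddSubgroup V → Prop) (w : V) : ℕ := mlp (chi F) (polA Q x) c.add Ω P w

theorem Pt.sep (c : Pt Q x) (s : orth Q (spanL F [x])) (h : ∀ w, chi F (polA Q x s w) = 1) :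
    s = 0 :=
  Subtype.ext (nondeg_left c.nd fun y => eq_zero_of_chi fun d => by
    rw [← polar_smul_right']; exact h _)

theorem Pt.card_V (c : Pt Q x) : Nat.card V = Nat.card (orth Q (spanL F [x])) * Fintype.card F := by
  rw [Module.natCard_eq_pow_finrank (K := F) (V := V),
    Module.natCard_eq_pow_finrank (K := F) (V := orth Q (spanL F [x])),
    ← c.finrank_orth, pow_succ, Nat.card_eq_fintype_card]

variable [Finite Ω] {P : AddSubgroup V → Prop}

theorem Pt.NP_mul [Fintype V] (c : Pt Q x) :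
    NP Q x Ω P * Fintype.card F = ∑ w, c.m Ω P w := by
  have := ncard_mul_eq_sum_mlp (Ω := Ω) (P := P) (ha := c.add) c.sep
  simp only [c.chs_eq] at this
  rw [c.card_V, mul_left_comm] at this
  exact Nat.eq_of_mul_eq_mul_left Nat.card_pos this

theorem Pt.one_le_m (c : Pt Q x) {ω : Ω} (h : P (WO Q x ω)) {w : V} (hw : w ∈ WO Q x ω) :
    1 ≤ c.m Ω P w := one_le_mlp (ω := ω) (by rwa [c.chs_eq]) (by rwa [c.chs_eq])

theorem Pt.m_le_of_mem (c : Pt Q x) (w : V) {u : V} (hu : u ∈ spanL F [x]) :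
    c.m Ω P w ≤ c.m Ω P u :=
  mlp_le_of_le fun ω h _ => ⟨h, by rw [c.chs_eq]; exact mem_Wx_of_mem_spanL hu⟩

theorem Pt.m_le (c : Pt Q x) (hP : InvP Q x P) {d : F} {w w' : V} (hw : w ∈ Cls Q x d)
    (hw' : w' ∈ Cls Q x d) : c.m Ω P w ≤ c.m Ω P w' := by
  obtain ⟨h1, h2, μ, hμ, h3⟩ := hw
  obtain ⟨h1', h2', μ', hμ', h3'⟩ := hw'
  have hl : μ / μ' ≠ 0 := div_ne_zero hμ hμ'
  obtain ⟨g, hg, h4, h5⟩ := c.exists_Om_pair h1 h2 (x' := (μ / μ') • x)
    (w' := (μ / μ') • w') (smul_ne_zero hl c.ne) (fun h => h2' (by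
      obtain ⟨t, ht⟩ := mem_spanL_singleton.1 h
      rw [smul_comm] at ht
      exact mem_spanL_singleton.2 ⟨t, smul_right_injective V hl ht⟩))
    (by rw [Q_smul, c.sing, mul_zero]) (by rw [Q_smul, h3, h3']; field_simp)
    (by qsimp; rw [h1, h1']; ring)
  obtain ⟨σ, h6, h7⟩ := c.exists_conj ⟨g, hg⟩ hl h4
  refine mlp_le_of_conj h6 h7 fun ω h h' => ?_
  rw [c.chs_eq] at h h' ⊢
  refine ⟨hP.smul c.sing ⟨g, hg⟩ hl h4 h, ?_⟩
  have := (smul_apply_mem_WO c.sing ⟨g, hg⟩ hl h4).1 h'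
  rwa [h5, inv_smul_smul₀ hl] at this

theorem Pt.invE_of_lt (c : Pt Q x) (hP : InvP Q x P) {w : V} (hlt : c.m Ω P w < ringChar F)
    {ω : Ω} (h : P (WO Q x ω)) (hw : w ∈ WO Q x ω) : InvE Q x w (WO Q x ω) := by
  intro z v hz hzv h3 h4 h5 h6 u hu
  let g : commutator (O Q) := ⟨eich Q z v, eich_mem_commutator c.nd c.nexc z v⟩
  have hgx : g.1.1 x = (1 : F) • x := by rw [one_smul]; exact eich_apply_of_orth_orth h3 h5
  have hgw : g.1.1 w = w := eich_apply_of_orth_orth h4 h6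
  obtain ⟨σ, h7, h8⟩ := c.exists_conj g one_ne_zero hgx
  have h9 := smul_mem_orb_of_mlp_lt (CharP.char_is_prime F (ringChar F)) (g := g)
    (Subtype.ext (by
      change eich Q z v ^ ringChar F = 1
      rw [← eich_nsmul hz hzv, ringChar.Nat.cast_ringChar]
      simpa using eich_smul_self (Q := Q) z 0)) h7 h8 (fun ω h h' => by
      rw [c.chs_eq] at h h' ⊢
      refine ⟨hP.smul c.sing g one_ne_zero hgx h, ?_⟩
      have := (smul_apply_mem_WO c.sing g one_ne_zero hgx).1 h'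
      rwa [hgw, inv_one, one_smul] at this) hlt (ω := ω) (by rwa [c.chs_eq]) (by rwa [c.chs_eq])
  have h10 := chs_eq_of_mem (χ := chi F) (β := polA Q x) (ha := c.add) h9
  rw [c.chs_eq, c.chs_eq] at h10
  have := (smul_apply_mem_WO c.sing g one_ne_zero hgx).1 hu
  rw [inv_one, one_smul, h10] at this
  have := sub_mem this hu
  rw [eich_apply hz hzv] at this
  convert this using 1
  abel

omit [FiniteDimensional F V] [Fintype F] in
theorem Pt.notMem (c : Pt Q x) {w : V} (hw : Q w ≠ 0) : w ∉ spanL F [x] := fun h => by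
  obtain ⟨t, rfl⟩ := mem_spanL_singleton.1 h
  exact hw (by rw [Q_smul, c.sing, mul_zero])

theorem Pt.regW_of_lt (c : Pt Q x) (hP : InvP Q x P) {w : V} (hw0 : Q w ≠ 0)
    (hlt : c.m Ω P w < ringChar F) {ω : Ω} (h : P (WO Q x ω)) (hw : w ∈ WO Q x ω) {u : V}
    (hu : u ∈ WO Q x ω) (hu' : u ∉ spanL F [x, w]) (h3 : 3 ≤ Fintype.card F ∨ polar Q u w = 0) :
    RegW Q x (WO Q x ω) := by
  have hxw := polar_eq_zero_of_mem_Wx c.sing hw
  have hwx := c.notMem hw0
  obtain ⟨z, e, hxz, hwz, hxe, hwe, hz, -, h7⟩ := c.exists_hyp hxw hw0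
  have h2 : z ∉ spanL F [x, w] := fun h => by
    rw [polar_eq_zero_of_mem_spanL (Q := Q) (v := e) (by simp [hxe, hwe]) h] at h7
    exact zero_ne_one h7
  have k1 := fun v => c.orth_le (c.invE_of_lt hP hlt h hw) hxw hw0 hw hu hu' h3
    (polar_eq_zero_of_mem_Wx c.sing hu) (v := v)
  have hzW := k1 z hxz hwz
  have h8 : Q (w + z) = Q w := by rw [Q_add, hz, hwz]; ring
  have h9 : polar Q x (w + z) = 0 := by rw [polar_add_right, hxw, hxz, add_zero]
  have h4 : c.m Ω P (w + z) < ringChar F := lt_of_le_of_lt (c.m_le hP (d := Q w)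
    ⟨h9, c.notMem (h8 ▸ hw0), 1, one_ne_zero, by rw [h8]; ring⟩ (mem_Cls_self hxw hwx)) hlt
  have h5 : w ∉ spanL F [x, w + z] := notMem_spanL_pair_exchange (fun h => h2 (by
    simpa using sub_mem h (right_mem_spanL_pair x w))) hwx
  intro v hv
  have := add_mem (c.orth_le (c.invE_of_lt hP h4 h (add_mem hw hzW)) h9 (h8 ▸ hw0) (add_mem hw hzW)
    hw h5 (or_iff_not_imp_left.2 fun q3 => by
      rw [polar_add_right, hwz, polar_self', add_zero]
      by_contra h
      have := eq_one_of_card_two q3 (left_ne_zero_of_mul h)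
      exact one_ne_zero (show (1 : F) = 0 by linear_combination this)) hxw
    (v := v - polar Q (w + z) v • e) (by qsimp; rw [hv, hxe]; ring)
    (by qsimp; rw [hwe, h7]; ring))
    (k1 (polar Q (w + z) v • e) (by qsimp; rw [hxe]; ring) (by qsimp; rw [hwe]; ring))
  rwa [sub_add_cancel] at this

theorem Pt.regW_two (c : Pt Q x) (q3 : ¬ 3 ≤ Fintype.card F)
    (hlt : ∀ w, polar Q x w = 0 → w ∉ spanL F [x] → c.m Ω (fun _ => True) w < ringChar F)
    {ω : Ω} {w : V} (hw0 : Q w ≠ 0) (hw : w ∈ WO Q x ω) {u : V}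
    (hu : u ∈ WO Q x ω) (hu' : u ∉ spanL F [x, w]) : RegW Q x (WO Q x ω) := by
  have hxw := polar_eq_zero_of_mem_Wx c.sing hw
  have hxu := polar_eq_zero_of_mem_Wx c.sing hu
  have k := fun u hu hu' h => c.regW_of_lt (invP_true x) hw0 (hlt w hxw (c.notMem hw0)) trivial hw
    (u := u) hu hu' (Or.inr h)
  by_cases huw : polar Q u w = 0
  · exact k u hu hu' huw
  replace huw := eq_one_of_card_two q3 huw
  have h2 : (2 : F) = 0 := by
    by_contra h
    exact one_ne_zero (show (1 : F) = 0 by linear_combination eq_one_of_card_two q3 h)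
  by_cases hu0 : Q u = 0
  · obtain ⟨v, h1, h3⟩ := exists_orthQ_notMem c.nd [x, u, w] [x, w] (by simp [c.dim])
    simp only [List.mem_cons, List.not_mem_nil, or_false, forall_eq_or_imp, forall_eq] at h1
    have h4 := c.invE_of_lt (invP_true x) (hlt u hxu fun h => hu' (spanL_mono (by simp) h)) trivial
      hu u v hu0 h1.2.1 hxu (by rw [polar_self', hu0, mul_zero]) h1.1 h1.2.1 w hw
    rw [pc huw, h1.2.2, one_smul] at h4
    refine k v ?_ h3 (pc h1.2.2)
    by_cases hv : Q v = 0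
    · simpa [hv] using h4
    · rw [eq_one_of_card_two q3 hv] at h4
      convert neg_mem (add_mem h4 hu) using 1
      module
  obtain ⟨z, f, hxz, hwz, hxf, hwf, hz, hf, hzf⟩ := c.exists_hyp hxw hw0
  have key : ∀ z f, polar Q x z = 0 → polar Q w z = 0 → polar Q x f = 0 → polar Q w f = 0 →
      Q z = 0 → polar Q z f = 1 → polar Q u z = 0 → RegW Q x (WO Q x ω) :=
    fun z f hxz hwz hxf hwf hz hzf h => by
      have h4 := c.invE_of_lt (invP_true x) (hlt w hxw (c.notMem hw0)) trivial hw z w hz (pc hwz)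
        hxz hwz hxw (by rw [polar_self', h2, zero_mul]) u hu
      refine k z (by simpa [h, huw] using h4) (fun h => ?_) (pc hwz)
      rw [polar_eq_zero_of_mem_spanL (Q := Q) (v := f) (by simp [hxf, hwf]) h] at hzf
      exact zero_ne_one hzf
  by_cases h5 : polar Q u z = 0
  · exact key z f hxz hwz hxf hwf hz hzf h5
  by_cases h6 : polar Q u f = 0
  · exact key f z hxf hwf hxz hwz hf (pc hzf) h6
  have h7 := polar_eq_zero_of_mem_spanL (Q := Q) (v := w) (by simp [hxw, pc hwz])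
    (c.mem_of_sing (z := u + z + f) hxz (fun h => by
      rw [polar_eq_zero_of_mem_spanL (Q := Q) (v := f) (by simp [hxf]) h] at hzf
      exact zero_ne_one hzf) hz (by
      qsimp
      rw [eq_one_of_card_two q3 hu0, eq_one_of_card_two q3 h5, eq_one_of_card_two q3 h6, hz, hf, hzf]
      linear_combination 2 * h2) (by qsimp; rw [hxu, hxz, hxf]; ring) (by
      qsimp
      rw [pc (eq_one_of_card_two q3 h5), hz, hzf]
      linear_combination h2))
  rw [polar_add_left, polar_add_left, huw, pc hwz, pc hwf] at h7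
  simp at h7

theorem Pt.le_NP_two (c : Pt Q x) {X Y : Set V} {j k : ℕ} (hX : ∀ w ∈ X, j ≤ c.m Ω P w)
    (hY : ∀ w ∈ Y, k ≤ c.m Ω P w) (h1 : Disjoint (spanL F [x] : Set V) X)
    (h2 : Disjoint (spanL F [x] : Set V) Y) (h3 : Disjoint X Y) :
    c.m Ω P 0 * Fintype.card F + j * X.ncard + k * Y.ncard ≤ NP Q x Ω P * Fintype.card F := by
  have : Finite V := Module.finite_of_finite F
  have := Fintype.ofFinite V
  rw [c.NP_mul]
  nth_rewrite 1 [← ncard_spanL_singleton (F := F) c.ne]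
  exact le_sum_of_three _ (fun w hw => c.m_le_of_mem 0 hw) hX hY h1 h2 h3

theorem Pt.le_NP (c : Pt Q x) {X : Set V} {j : ℕ} (hX : ∀ w ∈ X, j ≤ c.m Ω P w)
    (h1 : Disjoint (spanL F [x] : Set V) X) :
    c.m Ω P 0 * Fintype.card F + j * X.ncard ≤ NP Q x Ω P * Fintype.card F := by
  simpa using c.le_NP_two (Y := ∅) (k := 0) hX (by simp) h1 (by simp) (by simp)

theorem Pt.NP_le (c : Pt Q x) {d : ℕ}
    (hd : ∀ ω : Ω, P (WO Q x ω) → Nat.card (WO Q x ω) ≤ d * Fintype.card F) :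
    NP Q x Ω P ≤ c.m Ω P 0 * d := by
  have : Finite V := Module.finite_of_finite F
  have := ncard_le_mlp_zero_mul (Ω := Ω) (P := P) (ha := c.add) c.sep (d := d) fun ω h => by
    rw [c.chs_eq] at h ⊢
    rw [c.card_V, mul_left_comm]
    exact Nat.mul_le_mul_left _ (hd ω h)
  simpa only [c.chs_eq] using this

theorem Pt.mul_le_NP (c : Pt Q x) {j : ℕ} (h : ∀ w, polar Q x w = 0 → j ≤ c.m Ω P w) :
    j * Fintype.card F ^ (finrank F V - 2) ≤ NP Q x Ω P := by
  have : Finite V := Module.finite_of_finite F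
  have := Fintype.ofFinite V
  have h1 := le_sum_of_two (c.m Ω P) (X := orth Q (spanL F [x])) (Y := ∅) (b := 0) (a := j)
    (fun w hw => h w (orth_val ⟨w, hw⟩)) (by simp) (by simp)
  have h2 : (orth Q (spanL F [x]) : Set V).ncard =
      Fintype.card F ^ (finrank F V - 2) * Fintype.card F := by
    change Nat.card (orth Q (spanL F [x])) = _
    rw [Module.natCard_eq_pow_finrank (K := F), Nat.card_eq_fintype_card, ← pow_succ]
    congr 1
    have := c.finrank_orth
    have := c.dim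
    omega
  rw [← c.NP_mul, h2, zero_mul, add_zero, ← mul_assoc] at h1
  exact Nat.le_of_mul_le_mul_right h1 Fintype.card_pos

theorem Pt.le_NP_regW (c : Pt Q x) :
    c.m Ω (RegW Q x) 0 * Fintype.card F ^ (finrank F V - 2) ≤ NP Q x Ω (RegW Q x) :=
  c.mul_le_NP fun w hw => mlp_le_of_le fun ω h _ => ⟨h, h w hw⟩

theorem Pt.exists_eich_of_le_one (c : Pt Q x) {w : V} (h : c.m Ω P w ≤ 1) {ω ω' : Ω}
    (h1 : P (WO Q x ω)) (h1' : w ∈ WO Q x ω) (h2 : P (WO Q x ω')) (h2' : w ∈ WO Q x ω') :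
    ω' ∈ orb c.a ω := by
  have := (Set.ncard_le_one (Set.toFinite _)).1 h (orb c.a ω)
    ⟨ω, rfl, by rwa [c.chs_eq], by rwa [c.chs_eq]⟩ (orb c.a ω')
    ⟨ω', rfl, by rwa [c.chs_eq], by rwa [c.chs_eq]⟩
  rw [this]
  exact self_mem_orb c.add ω'

omit [Finite Ω] [Fintype F] in
theorem Pt.cov_of_mem_orb (c : Pt Q x) {g : commutator (O Q)} {ω : Ω} (h : g • ω ∈ orb c.a ω) :
    ∃ v, polar Q x v = 0 ∧ eich Q x v * g ∈ St (commutator (O Q)) ω := by
  obtain ⟨s, hs⟩ := h
  refine ⟨-s, by rw [polar_neg_right, orth_val s, neg_zero], ?_⟩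
  rw [eich_neg]
  refine (coe_mem_St (g := (c.a s)⁻¹ * g)).2 ?_
  rw [mul_smul, inv_smul_eq_iff]
  exact hs.symm

theorem Pt.exists_apply (c : Pt Q x) {y : V} (d : Pt Q y) :
    ∃ g : commutator (O Q), g.1.1 x = y := by
  obtain ⟨g, hg, h⟩ := exists_Om_one c.nd (by have := c.dim; omega) c.ne d.ne
    (d.sing.trans c.sing.symm)
  exact ⟨⟨g, hg⟩, h⟩

theorem ratio_sing [MulAction.IsPretransitive (commutator (O Q)) Ω] (c : Pt Q x)
    (ρ : V → Ω → Prop) (hρ : ∀ (g : commutator (O Q)) y ω, ρ y ω → ρ (g.1.1 y) (g • ω)) (ω₀ : Ω) :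
    (sing Q - 1) * {ω | ρ x ω}.ncard = Nat.card Ω * {y | (y ≠ 0 ∧ Q y = 0) ∧ ρ y ω₀}.ncard := by
  have : Finite V := Module.finite_of_finite F
  let Y := MulAction.orbit (commutator (O Q)) x
  have hY : ∀ y, y ∈ Y ↔ y ≠ 0 ∧ Q y = 0 := fun y => by
    constructor
    · rintro ⟨g, rfl⟩
      exact ⟨fun h => c.ne (g.1.1.injective (h.trans (map_zero _).symm)), (O_map g.1 x).trans c.sing⟩
    · rintro ⟨h1, h2⟩
      exact c.exists_apply (c.of h1 h2)
  have key := card_mul_ncard_rel (G := commutator (O Q)) (X := Y) (Y := Ω) (fun y ω => ρ y ω)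
    (fun g y ω h => hρ g y ω h) ⟨x, MulAction.mem_orbit_self x⟩ ω₀
  have h1 : Nat.card Y = sing Q - 1 := by
    rw [← ncard_ne_zero_sing]
    change Y.ncard = _
    congr 1
    ext y
    exact hY y
  rw [← h1, key, ← Set.ncard_image_of_injective _ Subtype.val_injective]
  congr 2
  ext y
  exact ⟨fun ⟨z, h, e⟩ => e ▸ ⟨(hY _).1 z.2, h⟩, fun h => ⟨⟨y, (hY y).2 h.1⟩, h.2, rfl⟩⟩

end Cfsg.Lib.Class.MD.Six
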