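import Cfsg.Agent.Class.MinDegSp2

/-!
# Minimal degree of symplectic groups: local configurations of root elements
-/

namespace Cfsg.Lib.Class.MD

open Module Cfsg.Geo

variable {F V : Type*} [Field F] [AddCommGroup V] [Module F V] {B : LinearMap.BilinForm F V}

section Binary

/-- The standard pairing on `F × F × F`. -/
def dot3 (F : Type*) [Field F] : F × F × F →+ F × F × F →+ F where
  toFun s :=
    { toFun := fun f => s.1 * f.1 + s.2.1 * f.2.1 + s.2.2 * f.2.2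
      map_zero' := by simp
      map_add' := fun f g => by simp only [Prod.fst_add, Prod.snd_add]; ring }
  map_zero' := AddMonoidHom.ext fun f => by simp
  map_add' s t := AddMonoidHom.ext fun f => by
    simp only [Prod.fst_add, Prod.snd_add, AddMonoidHom.coe_mk, ZeroHom.coe_mk,
      AddMonoidHom.add_apply]
    ring

@[simp] theorem dot3_apply (s f : F × F × F) :
    dot3 F s f = s.1 * f.1 + s.2.1 * f.2.1 + s.2.2 * f.2.2 := rfl

/-- The abelian group generated by the transvections with centres in an isotropic plane. -/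
def auE (hA : B.IsAlt) (x y : V) (s : F × F × F) : V ≃ₗ[F] V :=
  uq hA x (s.2.1 • y) s.1 * altTEquiv hA y s.2.2

theorem auE_apply (hA : B.IsAlt) {x y : V} (h : B y x = 0) (s : F × F × F) (z : V) :
    auE hA x y s z = z + (s.1 * B z x + s.2.1 * B z y) • x + (s.2.1 * B z x + s.2.2 * B z y) • y := by
  rw [auE, LinearEquiv.mul_apply, uq_apply hA (by simp [h])]
  simp only [altTEquiv_apply', map_add, map_smul, LinearMap.add_apply, LinearMap.smul_apply, h,
    hA.self_eq_zero, smul_eq_mul]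
  module

theorem auE_add (hA : B.IsAlt) {x y : V} (h : B y x = 0) (s t : F × F × F) :
    auE hA x y (s + t) = auE hA x y s * auE hA x y t := by
  ext z
  simp only [LinearEquiv.mul_apply, auE_apply hA h, map_add, map_smul, LinearMap.add_apply,
    LinearMap.smul_apply, h, alt_eq_zero_comm hA h, hA.self_eq_zero, smul_eq_mul, Prod.fst_add,
    Prod.snd_add]
  module

theorem auE_conj (hA : B.IsAlt) {g : V ≃ₗ[F] V} (hg : g ∈ SpB B) (x y : V) (s : F × F × F) :
    g * auE hA x y s * g⁻¹ = auE hA (g x) (g y) s := by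
  rw [auE, auE, ← map_smul, ← uq_conj hA hg, ← altTEquiv_conj hA hg]
  group

/-- The part of `H` in that abelian group. -/
def auS (hA : B.IsAlt) {x y : V} (h : B y x = 0) (H : Subgroup (V ≃ₗ[F] V)) :
    AddSubgroup (F × F × F) where
  carrier := {s | auE hA x y s ∈ H}
  add_mem' hs ht := by
    rw [Set.mem_ofPred_eq, auE_add hA h]
    exact mul_mem hs ht
  zero_mem' := by
    rw [Set.mem_ofPred_eq, hom_zero (auE_add hA h)]
    exact one_mem _
  neg_mem' hs := by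
    rw [Set.mem_ofPred_eq, hom_neg (auE_add hA h)]
    exact inv_mem hs

variable [Fintype F] {hA : B.IsAlt} {x y : V} {h : B y x = 0} {H : Subgroup (V ≃ₗ[F] V)}

/-- The binary quadratic forms annihilating `auS`. -/
noncomputable def auW (hA : B.IsAlt) {x y : V} (h : B y x = 0) (H : Subgroup (V ≃ₗ[F] V)) :
    AddSubgroup (F × F × F) := ann (chi F) (dot3 F) (auS hA h H)

theorem mem_auW {f : F × F × F} : f ∈ auW hA h H ↔
    ∀ s, auE hA x y s ∈ H → chi F (s.1 * f.1 + s.2.1 * f.2.1 + s.2.2 * f.2.2) = 1 := Iff.rfl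

theorem auE_mem_of_auW {s : F × F × F}
    (hs : ∀ f ∈ auW hA h H, s.1 * f.1 + s.2.1 * f.2.1 + s.2.2 * f.2.2 = 0) : auE hA x y s ∈ H := by
  have : s ∈ auS hA h H := mem_of_forall_ann (χ := chi F) (β := dot3 F) (fun s hs => by
    refine Prod.ext (eq_zero_of_chi fun d => ?_) (Prod.ext (eq_zero_of_chi fun d => ?_)
      (eq_zero_of_chi fun d => ?_))
    · simpa [mul_comm] using hs (d, 0, 0)
    · simpa [mul_comm] using hs (0, d, 0)
    · simpa [mul_comm] using hs (0, 0, d)) fun f hf => by simp [hs f hf]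
  exact this

theorem chi_of_auW {f : F × F × F} (hf : f ∈ auW hA h H) {s t c : F}
    (hc : altTEquiv hA (s • x + t • y) c ∈ H) :
    chi F (c * (f.1 * s ^ 2 + f.2.1 * (s * t) + f.2.2 * t ^ 2)) = 1 := by
  rw [altTEquiv_add_smul hA h] at hc
  convert mem_auW.1 hf (c * s ^ 2, c * s * t, c * t ^ 2) hc using 2
  ring

theorem auW_conj_left {f : F × F × F} (hf : f ∈ auW hA h H) {g : V ≃ₗ[F] V} (hg : g ∈ H)
    (hg' : g ∈ SpB B) {t : F} (hx : g x = x) (hy : g y = y + t • x) :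
    (f.1, 2 * t * f.1 + f.2.1, f.1 * t ^ 2 + f.2.1 * t + f.2.2) ∈ auW hA h H := by
  refine mem_auW.2 fun s hs => ?_
  have h1 := mul_mem (mul_mem hg hs) (inv_mem hg)
  rw [auE_conj hA hg', hx, hy] at h1
  have h2 : auE hA x (y + t • x) s =
      auE hA x y (s.1 + 2 * s.2.1 * t + s.2.2 * t ^ 2, s.2.1 + s.2.2 * t, s.2.2) := by
    ext z
    rw [auE_apply hA h, auE_apply hA (by simp [h, hA.self_eq_zero])]
    simp only [map_add, map_smul, smul_eq_mul]
    module
  rw [h2] at h1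
  convert mem_auW.1 hf _ h1 using 2
  ring

theorem auW_conj_right {f : F × F × F} (hf : f ∈ auW hA h H) {g : V ≃ₗ[F] V} (hg : g ∈ H)
    (hg' : g ∈ SpB B) {t : F} (hx : g x = x + t • y) (hy : g y = y) :
    (f.1 + f.2.1 * t + f.2.2 * t ^ 2, f.2.1 + 2 * t * f.2.2, f.2.2) ∈ auW hA h H := by
  refine mem_auW.2 fun s hs => ?_
  have h1 := mul_mem (mul_mem hg hs) (inv_mem hg)
  rw [auE_conj hA hg', hx, hy] at h1
  have h2 : auE hA (x + t • y) y s =
      auE hA x y (s.1, s.2.1 + s.1 * t, s.2.2 + 2 * s.2.1 * t + s.1 * t ^ 2) := by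
    ext z
    rw [auE_apply hA h, auE_apply hA (by simp [h, hA.self_eq_zero])]
    simp only [map_add, map_smul, smul_eq_mul]
    module
  rw [h2] at h1
  convert mem_auW.1 hf _ h1 using 2
  ring

omit [Fintype F] in
theorem auE_mk_zero (a b : F) : auE hA x y (a, b, 0) = uq hA x (b • y) a := by
  simp [auE, altTEquiv_zero]

theorem exists_binary_eq (h2 : (2 : F) ≠ 0) {a b c d : F} (hdisc : b ^ 2 - 4 * a * c ≠ 0) :
    ∃ s t, a * s ^ 2 + b * (s * t) + c * t ^ 2 = d := by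
  by_cases ha : a = 0
  · have hb : b ≠ 0 := by
      rintro rfl
      simp [ha] at hdisc
    exact ⟨(d - c) / b, 1, by rw [ha]; field_simp; ring⟩
  have hodd : Fintype.card F % 2 = 1 := FiniteField.odd_card_of_char_ne_two (by
    intro h
    exact h2 (by simpa [h] using ringChar.Nat.cast_ringChar (R := F)))
  have h4 : (4 : F) ≠ 0 := by
    rw [show (4 : F) = 2 * 2 by norm_num]
    exact mul_ne_zero h2 h2
  obtain ⟨u, t, e⟩ := FiniteField.exists_root_sum_quadratic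
    (f := Polynomial.C a * Polynomial.X ^ 2 + Polynomial.C 0 * Polynomial.X + Polynomial.C (-d))
    (g := Polynomial.C (-(b ^ 2 - 4 * a * c) / (4 * a)) * Polynomial.X ^ 2 +
      Polynomial.C 0 * Polynomial.X + Polynomial.C 0) (Polynomial.degree_quadratic ha)
    (Polynomial.degree_quadratic (div_ne_zero (neg_ne_zero.2 hdisc) (mul_ne_zero h4 ha))) hodd
  simp only [Polynomial.eval_add, Polynomial.eval_mul, Polynomial.eval_C, Polynomial.eval_pow,
    Polynomial.eval_X] at e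
  refine ⟨u - b * t / (2 * a), t, ?_⟩
  field_simp at e ⊢
  linear_combination e

end Binary

variable {hA : B.IsAlt} {H : Subgroup (V ≃ₗ[F] V)}

theorem uq_smul_self_mem (hA : B.IsAlt) (H : Subgroup (V ≃ₗ[F] V)) (x : V) (t : F) :
    uq hA x (t • x) (-(2 * t)) ∈ H := by
  have := uq_add_smul hA (x := x) (v := 0) (by simp) t (-(2 * t))
  rw [zero_add] at this
  rw [this, neg_add_cancel, uq_zero, altTEquiv_zero]
  exact one_mem _

theorem ne_zero_of_indep {x y : V} (hx : x ≠ 0) (hy : y ∉ spanL F [x]) {s t : F}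
    (h : s ≠ 0 ∨ t ≠ 0) : s • x + t • y ≠ 0 := by
  intro e
  by_cases ht : t = 0
  · rw [ht, zero_smul, add_zero, smul_eq_zero] at e
    tauto
  · refine hy (mem_spanL_singleton.2 ⟨-s / t, ?_⟩)
    have : y = t⁻¹ • (t • y) := by simp [ht]
    rw [this, show t • y = -(s • x) by linear_combination (norm := module) e]
    match_scalars
    field_simp

variable [FiniteDimensional F V]

theorem mem_TSet_of_fullQ (hB : B.Nondegenerate) (h3 : 3 ≤ finrank F V) (h2 : (2 : F) ≠ 0) {x : V}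
    (h : FullQ hA H x) : x ∈ TSet hA H := by
  intro c
  obtain ⟨v, hv, hv'⟩ := exists_orth_notMem_spanL (B := B) [x] [x] (by simp; omega)
  obtain ⟨v', h1, h4⟩ := exists_orth_eq_one hB hv'
  simp only [List.mem_cons, List.not_mem_nil, or_false, forall_eq] at hv h1
  obtain ⟨a, ha⟩ := h v hv
  obtain ⟨b, hb⟩ := h ((c / 2) • v') (by simp [h1])
  convert altT_mem_of_comm hA hv (by simp [h1]) ha hb using 2
  simp only [map_smul, LinearMap.smul_apply, h4, smul_eq_mul]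
  field_simp

theorem exists_uq_apply_eq (hB : B.Nondegenerate) {x y : V} (h : FullQ hA H x) (hyx : B y x = 0)
    (hy : y ∉ spanL F [x]) (t : F) : ∃ g ∈ H, g ∈ SpB B ∧ g x = x ∧ g y = y + t • x := by
  obtain ⟨v, h1, h2⟩ := exists_orth_eq_one hB hy
  replace h1 : B v x = 0 := h1 x (by simp)
  obtain ⟨c, hc⟩ := h ((-t) • v) (by simp [h1])
  refine ⟨_, hc, uq_mem _ _ _ _, uq_apply_self hA (by simp [h1]) c, ?_⟩
  rw [uq_apply_of_orth hA (by simp [h1]) c hyx, map_smul, ← hA.neg_eq, h2]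
  simp

omit [FiniteDimensional F V] in
/-- Odd characteristic: if one value is missed by all the characters of the transvection groups
then all the unipotent radicals are covered. -/
theorem fullQ_of_missing [Fintype F] (h2 : (2 : F) ≠ 0) {c₀ : F} (hc₀ : c₀ ≠ 0)
    (h : ∀ u, u ≠ 0 → ∃ c, altTEquiv hA u c ∈ H ∧ chi F (c * c₀) ≠ 1) {x : V} (hx : x ≠ 0)
    (hT : x ∉ TSet hA H) : FullQ hA H x := by
  intro y hyx
  by_cases hy : y ∈ spanL F [x]
  · obtain ⟨t, rfl⟩ := mem_spanL_singleton.1 hy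
    exact ⟨_, uq_smul_self_mem hA H x t⟩
  have hdisc : ∀ f ∈ auW hA hyx H, f.2.1 ^ 2 - 4 * f.1 * f.2.2 = 0 := by
    intro f hf
    by_contra hn
    obtain ⟨s, t, e⟩ := exists_binary_eq h2 (d := c₀) hn
    obtain ⟨c, h1, h3⟩ := h _ (ne_zero_of_indep hx hy (s := s) (t := t) (by
      by_contra! hn
      simp [hn.1, hn.2] at e
      exact hc₀ e.symm))
    exact h3 (e ▸ chi_of_auW hf h1)
  obtain ⟨f₀, hf₀, ha⟩ : ∃ f ∈ auW hA hyx H, f.1 ≠ 0 := by
    by_contra! hn
    refine hT fun c => ?_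
    have := auE_mem_of_auW (hA := hA) (H := H) (h := hyx) (s := (c, 0, 0)) fun f hf => by simp [hn f hf]
    rwa [auE_mk_zero, zero_smul, uq_zero] at this
  refine ⟨-f₀.2.1 / f₀.1, ?_⟩
  have := auE_mem_of_auW (hA := hA) (H := H) (h := hyx) (s := (-f₀.2.1 / f₀.1, 1, 0)) fun f hf => by
    have e1 := hdisc f hf
    have e2 := hdisc f₀ hf₀
    have e3 := hdisc _ (add_mem hf hf₀)
    simp only [Prod.fst_add, Prod.snd_add] at e3
    have e4 : (f₀.1 * f.2.1 - f.1 * f₀.2.1) ^ 2 = 0 := by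
      linear_combination (f₀.1 ^ 2 + f.1 * f₀.1) * e1 + (f.1 ^ 2 + f.1 * f₀.1) * e2 -
        f.1 * f₀.1 * e3
    have e5 := pow_eq_zero_iff two_ne_zero |>.1 e4
    field_simp
    linear_combination e5
  rwa [auE_mk_zero, one_smul] at this

theorem exists_ne_zero_ne [Fintype F] (hq : 3 ≤ Fintype.card F) (a : F) : ∃ t, t ≠ 0 ∧ t ≠ a := by
  classical
  by_contra! hn
  have : (Finset.univ : Finset F) ⊆ {0, a} := fun c _ => by
    by_cases hc : c = 0
    · simp [hc]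
    · simp [hn c hc]
  have h1 := (Finset.card_le_card this).trans Finset.card_le_two
  rw [Finset.card_univ] at h1
  omega

theorem exists_sq_eq_of_two [Fintype F] (h2 : (2 : F) = 0) (a : F) : ∃ t, t ^ 2 = a := by
  have : ringChar F = 2 := CharP.ringChar_of_prime_eq_zero Nat.prime_two (by exact_mod_cast h2)
  obtain ⟨t, ht⟩ := FiniteField.isSquare_of_char_two this a
  exact ⟨t, by rw [ht, sq]⟩

/-- Characteristic two: the unipotent radicals cannot all be covered. -/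
theorem mem_TSet_of_forall_fullQ [Fintype F] (hB : B.Nondegenerate) (h3 : 3 ≤ finrank F V)
    (h2 : (2 : F) = 0) (hq : 3 ≤ Fintype.card F) (h : ∀ y, y ≠ 0 → y ∈ TSet hA H ∨ FullQ hA H y)
    (x : V) : x ∈ TSet hA H := by
  by_cases hx : x = 0
  · exact hx ▸ zero_mem_TSet hA H
  by_contra hT
  have hf := (h x hx).resolve_left hT
  refine hT (mem_TSet_of_uq_zero hB hA h3 fun y hyx => ?_)
  by_cases hy : y ∈ spanL F [x]
  · obtain ⟨t, rfl⟩ := mem_spanL_singleton.1 hy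
    simpa [h2] using uq_smul_self_mem hA H x t
  have hy0 := ne_zero_of_notMem_spanL hy
  have hβ : ∀ f ∈ auW hA hyx H, f.1 = 0 → f.2.1 = 0 := by
    intro f hf' ha
    refine eq_zero_of_chi fun d => ?_
    obtain ⟨c, hc⟩ := hf (d • y) (by simp [hyx])
    simpa [ha] using mem_auW.1 hf' (c, d, 0) (by rwa [auE_mk_zero])
  have hconj : ∀ f ∈ auW hA hyx H, ∀ t, ((0 : F), (0 : F), f.1 * t ^ 2 + f.2.1 * t) ∈
      auW hA hyx H := by
    intro f hf' t
    obtain ⟨g, hg, hg', e1, e2⟩ := exists_uq_apply_eq hB hf hyx hy t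
    have := sub_mem (auW_conj_left hf' hg hg' e1 e2) hf'
    convert this using 1
    ext <;> simp [h2]
  have key : ∀ f ∈ auW hA hyx H, f.2.1 = 0 := by
    intro f hf'
    by_contra hb
    have ha : f.1 ≠ 0 := fun ha => hb (hβ f hf' ha)
    obtain ⟨t, ht0, ht⟩ := exists_ne_zero_ne hq (-f.2.1 / f.1)
    have hs : f.1 * t ^ 2 + f.2.1 * t ≠ 0 := by
      intro e
      refine ht ?_
      field_simp
      refine mul_left_cancel₀ ht0 ?_
      linear_combination e
    rcases h y hy0 with hyT | hyf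
    · refine hs (eq_zero_of_chi fun d => ?_)
      have := chi_of_auW (hconj f hf' t) (s := 0) (t := 1) (c := d) (by simpa using hyT d)
      simpa using this
    · obtain ⟨u, hu⟩ := exists_sq_eq_of_two h2 (f.1 / (f.1 * t ^ 2 + f.2.1 * t))
      obtain ⟨g, hg, hg', e1, e2⟩ := exists_uq_apply_eq hB hyf (alt_eq_zero_comm hA hyx)
        (notMem_spanL_singleton_symm hy hx) u
      have h4 := sub_mem hf' (sub_mem (auW_conj_right (hconj f hf' t) hg hg' e2 e1) (hconj f hf' t))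
      refine hb ?_
      simpa [h2] using hβ _ h4 (by simp [hu, mul_div_cancel₀ _ hs])
  have := auE_mem_of_auW (hA := hA) (H := H) (h := hyx) (s := (0, 1, 0)) fun f hf' => by simp [key f hf']
  rwa [auE_mk_zero, one_smul] at this

theorem exists_torus (hB : B.Nondegenerate) (hA : B.IsAlt) {x : V} (hx : x ≠ 0) {l : F}
    (hl : l ≠ 0) : ∃ g ∈ SpB B, g x = l • x ∧ ∀ u, B u x = 0 → ∃ t : F, g u = u + t • x := by
  obtain ⟨x', hx'⟩ := exists_alt_eq_one hB hx
  obtain ⟨g, hg, e1, e2⟩ := SpB_exists_move hB hA (prp B x ⊓ prp B x') (x := x) (x' := l • x)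
    (fun h => by simpa [mem_prp, hx'] using h.2) (fun h => by simpa [mem_prp, hx', hl] using h.2)
    (fun y hy => by simp [mem_prp.1 hy.1])
  refine ⟨g, hg, e1, fun u hu => ⟨(l - 1) * B u x', ?_⟩⟩
  have := e2 (u - B u x' • x) ⟨by simp [mem_prp, hu, hA.self_eq_zero], by simp [mem_prp, hx']⟩
  rw [map_sub, map_smul, e1, sub_eq_iff_eq_add] at this
  rw [this]
  module

omit [FiniteDimensional F V] in
theorem exists_fixed_add {h : V ≃ₗ[F] V} {x : V} {l : F} (hl : l ≠ 1) (hx : h x = l • x) {u : V}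
    (hu : ∃ t : F, h u = u + t • x) : ∃ t : F, h (u + t • x) = u + t • x := by
  obtain ⟨t, ht⟩ := hu
  have : 1 - l ≠ 0 := sub_ne_zero.2 hl.symm
  refine ⟨t / (1 - l), ?_⟩
  rw [map_add, map_smul, ht, hx]
  match_scalars
  · rfl
  · field_simp
    ring

omit [FiniteDimensional F V] in
theorem torus_step {h : V ≃ₗ[F] V} (hh : h ∈ H) (hh' : h ∈ SpB B) {x : V} {l : F} (hl : l ≠ 1)
    (hx : h x = l • x) (hu : ∀ u, B u x = 0 → ∃ t : F, h u = u + t • x)
    (hZ : ∀ c, altTEquiv hA x c ∈ H → c = 0)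
    (hS : ∀ v c, B v x = 0 → uq hA x ((l - 1) • v) c ∈ H → ∃ c', uq hA x v c' ∈ H)
    {w v : V} (hw : h w = w) (hv : B v x = 0) {γ c : F}
    (hk : uq hA x v γ * altTEquiv hA w c ∈ H) :
    ∃ δ, altTEquiv hA x δ * altTEquiv hA w c ∈ H ∧ (l ^ 2 - 1) * δ = 0 := by
  obtain ⟨t, ht⟩ := exists_fixed_add hl hx (hu v hv)
  have hv' : B (v + t • x) x = 0 := by simp [hv, hA.self_eq_zero]
  rw [show γ = γ - 2 * t + 2 * t by ring, ← uq_add_smul hA hv] at hk
  have key : ∀ v γ, B v x = 0 → h v = v → uq hA x v γ * altTEquiv hA w c ∈ H →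
      uq hA x ((l - 1) • v) ((l ^ 2 - 1) * γ) ∈ H := by
    intro v γ hv ht hk
    have h1 := mul_mem (mul_mem hh hk) (inv_mem hh)
    rw [show h * (uq hA x v γ * altTEquiv hA w c) * h⁻¹ =
      (h * uq hA x v γ * h⁻¹) * (h * altTEquiv hA w c * h⁻¹) by group, uq_conj hA hh',
      altTEquiv_conj hA hh', hx, ht, hw, uq_smul hA hv] at h1
    have h2 := mul_mem h1 (inv_mem hk)
    rw [mul_inv_rev, mul_assoc, mul_inv_cancel_left, uq_inv hA hv,
      uq_mul hA (by simp [hv]) (by simp [hv])] at h2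
    convert h2 using 2
    · module
    · simp [hA.self_eq_zero]
      ring
  obtain ⟨c', hc'⟩ := hS _ _ hv' (key _ _ hv' ht hk)
  have h3 := mul_mem (inv_mem hc') hk
  rw [← mul_assoc, uq_inv hA hv', uq_mul hA (by rw [map_neg, LinearMap.neg_apply, hv', neg_zero]) hv',
    neg_add_cancel] at h3
  refine ⟨_, uq_zero hA x _ ▸ h3, hZ _ ?_⟩
  simpa only [smul_zero, uq_zero] using key _ _ (by simp) (by simp) h3

/-- The fixed space of a torus element consists of centres of transvection groups. -/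
theorem exists_complement_TSet (hB : B.Nondegenerate) {x : V} (hx0 : x ≠ 0)
    (hZ : ∀ c, altTEquiv hA x c ∈ H → c = 0)
    (hS : ∀ v c, B v x = 0 → uq hA x v c ∈ H → v ∈ spanL F [x])
    (hcov : ∀ g ∈ SpB B, ∀ l : F, g x = l • x → ∃ s c, B s x = 0 ∧ uq hA x s c * g ∈ H)
    {l : F} (hl0 : l ≠ 0) (hl1 : l ≠ 1) (hl : l ^ 2 ≠ 1 ∨ ((2 : F) ≠ 0 ∧ 6 ≤ finrank F V)) :
    ∃ E : Submodule F V, E ≤ prp B x ∧ x ∉ E ∧ (∀ u, B u x = 0 → ∃ t : F, u + t • x ∈ E) ∧
      ∀ u ∈ E, u ∈ TSet hA H := by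
  obtain ⟨g, hg, e1, e2⟩ := exists_torus hB hA hx0 hl0
  obtain ⟨s, c, hs, hh⟩ := hcov g hg l e1
  set h := uq hA x s c * g with hdef
  have hh' : h ∈ SpB B := mul_mem (uq_mem _ _ _ _) hg
  have hx : h x = l • x := by simp [hdef, e1, uq_apply_self hA hs]
  have hu : ∀ u, B u x = 0 → ∃ t : F, h u = u + t • x := by
    intro u hu
    obtain ⟨t, ht⟩ := e2 u hu
    refine ⟨t + B (u + t • x) s, ?_⟩
    rw [hdef, LinearEquiv.mul_apply, ht, uq_apply_of_orth hA hs c (by simp [hu, hA.self_eq_zero])]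
    module
  let E : Submodule F V := prp B x ⊓ LinearMap.ker ((h : V →ₗ[F] V) - LinearMap.id)
  have hE : ∀ u, u ∈ E ↔ B u x = 0 ∧ h u = u := fun u => by simp [E, mem_prp, sub_eq_zero]
  have hxE : x ∉ E := fun h' => hx0 (by
    have := ((hE x).1 h').2
    rw [hx, ← sub_eq_zero, ← one_smul F x, smul_smul, mul_one, ← sub_smul, smul_eq_zero,
      sub_eq_zero] at this
    exact this.resolve_left hl1)
  have hdec : ∀ u, B u x = 0 → ∃ t : F, u + t • x ∈ E := fun u hu' => by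
    obtain ⟨t, ht⟩ := exists_fixed_add hl1 hx (hu u hu')
    exact ⟨t, (hE _).2 ⟨by simp [hu', hA.self_eq_zero], ht⟩⟩
  have hδ : ∀ c, ∀ u ∈ E, ∃ δ, altTEquiv hA x δ * altTEquiv hA u c ∈ H ∧ (l ^ 2 - 1) * δ = 0 := by
    intro c u hu'
    obtain ⟨hu1, hu2⟩ := (hE u).1 hu'
    obtain ⟨v, γ, hv, hk⟩ := hcov _ (altTEquiv_mem_SpB hA u c) 1
      (by rw [altTEquiv_of_orth hA c (alt_eq_zero_comm hA hu1), one_smul])
    refine torus_step hh hh' hl1 hx hu hZ (fun v c hv hc => ?_) hu2 hv hk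
    obtain ⟨t, ht⟩ := mem_spanL_singleton.1 (hS _ _ (by simp [hv]) hc)
    have : v = (t / (l - 1)) • x := by
      rw [div_eq_inv_mul, mul_smul, ht, smul_smul, inv_mul_cancel₀ (sub_ne_zero.2 hl1), one_smul]
    exact ⟨_, this ▸ uq_smul_self_mem hA H x _⟩
  refine ⟨E, inf_le_left, hxE, hdec, fun u hu' c => ?_⟩
  rcases hl with hl | ⟨h2, h6⟩
  · obtain ⟨δ, h1, h2⟩ := hδ c u hu'
    rw [(mul_eq_zero.1 h2).resolve_left (sub_ne_zero.2 hl), altTEquiv_zero, one_mul] at h1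
    exact h1
  have hEx : ∀ u ∈ E, B u x = 0 := fun u hu => ((hE u).1 hu).1
  have hδ' := hδ
  choose! δ hδ using fun u hu => (hδ c u hu).imp fun _ h => h.1
  have huniq : ∀ u ∈ E, ∀ d, altTEquiv hA x d * altTEquiv hA u c ∈ H → δ u = d := by
    intro u hu d hd
    have := mul_mem (hδ u hu) (inv_mem hd)
    rw [mul_inv_rev, mul_assoc, mul_inv_cancel_left, altTEquiv_inv, altTEquiv_mul] at this
    exact sub_eq_zero.1 (by simpa [sub_eq_add_neg] using hZ _ this)
  have hnd : ∀ u ∈ E, u ≠ 0 → ∃ z ∈ E, B z u ≠ 0 := by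
    intro u hu hu0
    have : u ∉ spanL F [x] := by
      rw [mem_spanL_singleton]
      rintro ⟨t, rfl⟩
      have ht : t ≠ 0 := by rintro rfl; simp at hu0
      exact hxE (by simpa [ht] using E.smul_mem t⁻¹ hu)
    obtain ⟨v, h1, h3⟩ := exists_orth_eq_one hB this
    obtain ⟨t, ht⟩ := hdec v (h1 x (by simp))
    exact ⟨_, ht, by simp [h3, alt_eq_zero_comm hA (hEx u hu)]⟩
  have hc1 : ∀ u ∈ E, ∀ u' ∈ E, B u u' ≠ 0 → δ u' = δ u := by
    intro u hu u' hu' hne
    have hw : u' - u ∈ E := sub_mem hu' hu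
    obtain ⟨d, hk, -⟩ := hδ' (B u u')⁻¹ _ hw
    have hk' := mul_mem (altTEquiv_mem_SpB hA x d) (altTEquiv_mem_SpB hA (u' - u) (B u u')⁻¹)
    refine huniq u' hu' _ ?_
    have h1 := mul_mem (mul_mem hk (hδ u hu)) (inv_mem hk)
    rw [show ∀ k a b : V ≃ₗ[F] V, k * (a * b) * k⁻¹ = (k * a * k⁻¹) * (k * b * k⁻¹) from
      fun k a b => by group, altTEquiv_conj hA hk', altTEquiv_conj hA hk', LinearEquiv.mul_apply,
      LinearEquiv.mul_apply, altTEquiv_of_orth hA _ (alt_eq_zero_comm hA (hEx _ hw)),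
      altTEquiv_of_orth hA _ (hA.self_eq_zero x), altTEquiv_apply hA (u' - u),
      altT_sub_apply hA hne, altTEquiv_of_orth hA _ (hEx _ hu')] at h1
    exact h1
  have hc2 : ∀ u ∈ E, ∀ u' ∈ E, u ≠ 0 → u' ≠ 0 → δ u' = δ u := by
    intro u hu u' hu' h0 h0'
    obtain ⟨z, hz, h1, h3⟩ := exists_mem_both_ne_zero E (B.flip u) (B.flip u') (hnd u hu h0)
      (hnd u' hu' h0')
    rw [hc1 z hz u hu h1, hc1 z hz u' hu' h3]
  by_cases hu0 : u = 0
  · exact hu0 ▸ zero_mem_TSet hA H c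
  obtain ⟨v, hv, hv'⟩ := exists_orth_notMem_spanL (B := B) [x, u] [x, u] (by simp; omega)
  obtain ⟨t, ht⟩ := hdec v (hv x (by simp))
  set u' := v + t • x with hu'def
  have hu'' : u' ∉ spanL F [u] := fun h' => hv' (by
    have := sub_mem (spanL_mono (t := [x, u]) (by simp) h')
      ((spanL F [x, u]).smul_mem t (mem_spanL_of_mem (y := x) (by simp)))
    simpa [hu'def] using this)
  have huu : B u' u = 0 := by simp [hu'def, hv u (by simp), alt_eq_zero_comm hA (hEx u hu')]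
  have n1 : u + u' ≠ 0 := by simpa using ne_zero_of_indep hu0 hu'' (s := 1) (t := 1) (by simp)
  have n2 : u - u' ≠ 0 := by
    simpa [sub_eq_add_neg] using ne_zero_of_indep hu0 hu'' (s := 1) (t := -1) (by simp)
  have k1 := hδ _ (add_mem hu' ht)
  have k2 := hδ _ (sub_mem hu' ht)
  have k3 := hδ _ hu'
  have k4 := hδ _ ht
  rw [hc2 u hu' _ (add_mem hu' ht) hu0 n1] at k1
  rw [hc2 u hu' _ (sub_mem hu' ht) hu0 n2] at k2
  rw [hc2 u hu' _ ht hu0 (ne_zero_of_notMem_spanL hu'')] at k4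
  have e : (altTEquiv hA x (δ u) * altTEquiv hA u c) * (altTEquiv hA x (δ u) * altTEquiv hA u c) *
      ((altTEquiv hA x (δ u) * altTEquiv hA u' c) * (altTEquiv hA x (δ u) * altTEquiv hA u' c)) =
      altTEquiv hA x (2 * δ u) * ((altTEquiv hA x (δ u) * altTEquiv hA (u + u') c) *
        (altTEquiv hA x (δ u) * altTEquiv hA (u - u') c)) := by
    ext z
    simp only [LinearEquiv.mul_apply, altTEquiv_apply', map_add, map_sub, map_smul,
      LinearMap.add_apply, LinearMap.sub_apply, LinearMap.smul_apply, huu, alt_eq_zero_comm hA huu,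
      hA.self_eq_zero, hEx u hu', hEx u' ht, alt_eq_zero_comm hA (hEx u hu'),
      alt_eq_zero_comm hA (hEx u' ht), smul_eq_mul]
    module
  have k5 := mul_mem (mul_mem k3 k3) (mul_mem k4 k4)
  rw [e, mul_mem_cancel_right (mul_mem k1 k2)] at k5
  rw [(mul_eq_zero.1 (hZ _ k5)).resolve_left h2, altTEquiv_zero, one_mul] at k3
  exact k3

/-- Subgroups containing the transvection groups of a non-degenerate subspace of codimension two. -/
theorem TSet_trichotomy [Fintype F] (hB : B.Nondegenerate) (hq : 3 ≤ Fintype.card F)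
    (hH : H ≤ SpB B) {E : Submodule F V} (hE : ∀ u ∈ E, u ≠ 0 → ∃ z ∈ E, B z u ≠ 0)
    (hd : finrank F E + 2 = finrank F V) (hE0 : E ≠ ⊥) (hT : ∀ u ∈ E, u ∈ TSet hA H) :
    (∀ v, v ∈ TSet hA H) ∨ (∃ f, f ≠ 0 ∧ ∀ h ∈ H, h f ∈ spanL F [f]) ∨
      ∀ v ∈ TSet hA H, v ∈ E ∨ v ∈ B.orthogonal E := by
  have hc := isCompl_orthogonal_of_nondeg hA hE
  set L := B.orthogonal E with hL
  have hLd : finrank F L = 2 := by
    have := Submodule.finrank_add_eq_of_isCompl hc
    omega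
  have hEL : ∀ e ∈ E, ∀ f ∈ L, B e f = 0 := fun e he f hf => alt_mem_orthogonal.1 hf e he
  have hLE : ∀ e ∈ E, ∀ f ∈ L, B f e = 0 := fun e he f hf => alt_eq_zero_comm hA (hEL e he f hf)
  have hdec : ∀ v, ∃ e ∈ E, ∃ f ∈ L, e + f = v := fun v =>
    Submodule.mem_sup.1 (hc.sup_eq_top ▸ Submodule.mem_top)
  have hL2 : ∀ f ∈ L, ∀ f' ∈ L, f ≠ 0 → f' ∉ spanL F [f] → spanL F [f', f] = L :=
    fun f hf f' hf' h0 h1 => Submodule.eq_of_le_of_finrank_eq (spanL_le.2 (by simp [hf, hf']))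
      (by rw [finrank_spanL_pair h0 h1, hLd])
  have hLnd : ∀ f ∈ L, f ≠ 0 → ∃ f' ∈ L, B f f' ≠ 0 := by
    intro f hf h0
    by_contra! hn
    refine h0 (hB.1 f fun v => ?_)
    obtain ⟨e, he, f', hf', rfl⟩ := hdec v
    simp [hLE e he f hf, hn f' hf']
  have hLo : ∀ f ∈ L, f ≠ 0 → ∀ f' ∈ L, B f f' = 0 → f' ∈ spanL F [f] := by
    intro f hf h0 f' hf' h1
    by_contra hn
    obtain ⟨f'', h2, h3⟩ := hLnd f hf h0
    rw [← hL2 f hf f' hf' h0 hn] at h2
    exact h3 (apply_eq_zero_of_mem_spanL (φ := B f) (by simp [h1, hA.self_eq_zero]) h2)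
  have c1 : ∀ f ∈ L, ∀ e ∈ E, ∀ e' ∈ E, B e e' ≠ 0 → e + f ∈ TSet hA H → e' + f ∈ TSet hA H := by
    intro f hf e he e' he' hne h
    have := add_mem_TSet h (hT _ (sub_mem he' he)) (by
      simpa [hA.self_eq_zero, hLE e he f hf, hLE e' he' f hf] using hne)
    convert this using 1
    abel
  have c2 : ∀ f ∈ L, ∀ e ∈ E, e ≠ 0 → e + f ∈ TSet hA H → ∀ e' ∈ E, e' ≠ 0 →
      e' + f ∈ TSet hA H := by
    intro f hf e he h0 h e' he' h0'
    obtain ⟨z, hz, h1, h3⟩ := exists_mem_both_ne_zero E (B.flip e) (B.flip e') (hE e he h0)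
      (hE e' he' h0')
    exact c1 f hf z hz e' he' h3 (c1 f hf e he z hz (alt_ne_zero_comm hA h1) h)
  obtain ⟨e₀, he₀, he₀0⟩ := Submodule.exists_mem_ne_zero_of_ne_bot hE0
  obtain ⟨e₁, he₁, he₁0⟩ := hE e₀ he₀ he₀0
  have he₁' : e₁ ≠ 0 := by rintro rfl; simp at he₁0
  have c3 : ∀ f ∈ L, ∀ f' ∈ L, e₀ + f ∈ TSet hA H → e₀ + f' ∈ TSet hA H → ∀ c : F,
      e₀ + (f + c • f') ∈ TSet hA H := by
    intro f hf f' hf' h h' c
    obtain ⟨a, ha0, ha⟩ := exists_ne_zero_ne hq (B f f' / B e₁ e₀)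
    have h1 := c2 f' hf' e₀ he₀ he₀0 h' (a • e₁) (E.smul_mem a he₁) (smul_ne_zero ha0 he₁')
    have h2 := add_smul_mem_TSet h h1 (by
      simp only [map_add, map_smul, LinearMap.add_apply, hEL e₀ he₀ f' hf', hLE e₁ he₁ f hf,
        smul_eq_mul, mul_zero, add_zero, zero_add, ← hA.neg_eq e₁ e₀]
      intro h3
      refine ha ?_
      field_simp
      linear_combination -h3) c
    refine c2 _ (add_mem hf (L.smul_mem c hf')) (e₀ + (c * a) • e₁) (add_mem he₀ (E.smul_mem _ he₁))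
      (fun h3 => he₁0 ?_) (by convert h2 using 1; module) e₀ he₀ he₀0
    simpa [hA.self_eq_zero] using congrArg (B e₁) h3
  let Φ : Submodule F V :=
    { carrier := {f | f ∈ L ∧ e₀ + f ∈ TSet hA H}
      add_mem' := fun {f f'} h h' => ⟨add_mem h.1 h'.1, by simpa using c3 f h.1 f' h'.1 h.2 h'.2 1⟩
      zero_mem' := ⟨zero_mem _, by simpa using hT e₀ he₀⟩
      smul_mem' := fun c f h => ⟨L.smul_mem c h.1, by
        simpa using c3 0 (zero_mem _) f h.1 (by simpa using hT e₀ he₀) h.2 c⟩ }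
  have hΦ : ∀ f, f ∈ Φ ↔ f ∈ L ∧ e₀ + f ∈ TSet hA H := fun _ => Iff.rfl
  by_cases h1 : L ≤ Φ
  · refine Or.inl fun v => ?_
    obtain ⟨e, he, f, hf, rfl⟩ := hdec v
    by_cases h0 : e = 0
    · by_cases hf0 : f = 0
      · simpa [h0, hf0] using zero_mem_TSet hA H
      obtain ⟨f', hf', h2⟩ := hLnd f hf hf0
      have := add_smul_mem_TSet (h1 (add_mem hf hf')).2 (h1 hf').2 (by
        simpa [hA.self_eq_zero, hEL e₀ he₀ f' hf', hLE e₀ he₀ f hf, hLE e₀ he₀ f' hf'] using h2) (-1)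
      convert this using 1
      rw [h0]
      module
    · exact c2 f hf e₀ he₀ he₀0 (h1 hf).2 e he h0
  by_cases h2 : Φ = ⊥
  · refine Or.inr (Or.inr fun v hv => ?_)
    obtain ⟨e, he, f, hf, rfl⟩ := hdec v
    by_cases h0 : e = 0
    · exact Or.inr (by simpa [h0] using hf)
    · have : f ∈ Φ := ⟨hf, c2 f hf e he h0 hv e₀ he₀ he₀0⟩
      rw [h2, Submodule.mem_bot] at this
      exact Or.inl (by simpa [this] using he)
  obtain ⟨f₀, hf₀, hf₀0⟩ := Submodule.exists_mem_ne_zero_of_ne_bot h2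
  have h3 : ∀ f ∈ Φ, B f₀ f = 0 := by
    intro f hf
    by_cases hn : f ∈ spanL F [f₀]
    · exact apply_eq_zero_of_mem_spanL (φ := B f₀) (by simp [hA.self_eq_zero]) hn
    · exact absurd (hL2 f₀ hf₀.1 f hf.1 hf₀0 hn ▸ spanL_le.2 (by simp [hf, hf₀])) h1
  have h4 : ∀ v ∈ TSet hA H, B f₀ v = 0 := by
    intro v hv
    obtain ⟨e, he, f, hf, rfl⟩ := hdec v
    rw [map_add, hLE e he f₀ hf₀.1, zero_add]
    by_cases h0 : e = 0
    · by_contra hn
      rw [h0, zero_add] at hv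
      have := add_mem_TSet hf₀.2 hv (by simpa [hEL e₀ he₀ f hf] using hn)
      rw [add_assoc] at this
      simpa [hA.self_eq_zero, hn] using h3 _ ⟨add_mem hf₀.1 hf, this⟩
    · exact h3 f ⟨hf, c2 f hf e he h0 hv e₀ he₀ he₀0⟩
  refine Or.inr (Or.inl ⟨f₀, hf₀0, fun h hh => ?_⟩)
  have h5 : ∀ v ∈ TSet hA H, B (h f₀) v = 0 := fun v hv => by
    rw [← SpB_symm_right (hH hh)]
    exact h4 _ (apply_mem_TSet (inv_mem hh) (hH (inv_mem hh)) hv)
  refine hLo f₀ hf₀.1 hf₀0 _ (alt_mem_orthogonal.2 fun e he => alt_eq_zero_comm hA (h5 e (hT e he)))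
    (alt_eq_zero_comm hA ?_)
  simpa [h5 e₀ (hT e₀ he₀)] using h5 _ hf₀.2

end Cfsg.Lib.Class.MD
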