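import Mathlib

/-!
# Permutations of prime order fixing a uniform partition
-/

namespace Cfsg.Lib.Class.PartFix

open Equiv Finset

variable {α : Type*} [Fintype α] [DecidableEq α] {r : ℕ}

theorem card_support_eq [Fact r.Prime] {σ : Perm α} (h : σ ^ r = 1) :
    #σ.support = r * σ.cycleType.card := by
  rw [← Perm.sum_cycleType, Perm.cycleType_of_pow_prime_eq_one h]
  simp [mul_comm]

theorem isConj_of_card [hr : Fact r.Prime] {σ τ : Perm α} (h : σ ^ r = 1) (h' : τ ^ r = 1)
    (e : #σ.support = #τ.support) : IsConj σ τ := by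
  rw [card_support_eq h, card_support_eq h'] at e
  rw [Perm.isConj_iff_cycleType_eq, Perm.cycleType_of_pow_prime_eq_one h,
    Perm.cycleType_of_pow_prime_eq_one h', Nat.eq_of_mul_eq_mul_left hr.out.pos e]

theorem exists_perm [hr : Fact r.Prime] {j : ℕ} (h : r * j ≤ Fintype.card α) :
    ∃ σ : Perm α, σ ^ r = 1 ∧ #σ.support = r * j := by
  obtain ⟨σ, hσ⟩ := (Perm.exists_with_cycleType_iff α (m := Multiset.replicate j r)).2
    ⟨by simpa [mul_comm] using h, fun a ha => Multiset.eq_of_mem_replicate ha ▸ hr.out.two_le⟩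
  refine ⟨σ, Perm.pow_prime_eq_one_iff.2 fun c hc => Multiset.eq_of_mem_replicate (hσ ▸ hc), ?_⟩
  rw [← Perm.sum_cycleType, hσ]
  simp [mul_comm]

theorem dvd_card [Fact r.Prime] {σ : Perm α} (h : σ ^ r = 1) {p : α → Prop} [DecidablePred p]
    (hp : ∀ x, p (σ x) ↔ p x) : r ∣ #{x ∈ σ.support | p x} := by
  have h1 : σ.subtypePerm hp ^ r = 1 := by
    rw [Perm.subtypePerm_pow]
    ext x
    simp [h]
  have h2 := card_support_eq h1
  refine ⟨_, Eq.trans ?_ h2⟩
  refine (card_bij (fun x _ => x.1) ?_ ?_ ?_).symm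
  · intro x hx
    simpa [x.2, Perm.mem_support, Subtype.ext_iff] using hx
  · intro x _ y _ e
    exact Subtype.ext e
  · intro x hx
    simp only [mem_filter, Perm.mem_support] at hx
    exact ⟨⟨x, hx.2⟩, by simpa [Perm.mem_support, Subtype.ext_iff] using hx.1, rfl⟩

theorem exists_parts {ι : Type*} [DecidableEq ι] (s : ℕ) (T : Finset ι) :
    ∀ m ≤ #T * s, ∃ i : ι → ℕ, (∀ y, i y ≤ s) ∧ (∀ y ∉ T, i y = 0) ∧ ∑ y ∈ T, i y = m := by
  induction T using Finset.induction_on with
  | empty => exact fun m hm => ⟨0, by simp, by simp, by simpa [eq_comm] using hm⟩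
  | insert a T ha ih =>
    intro m hm
    rw [card_insert_of_notMem ha, add_mul, one_mul] at hm
    obtain ⟨i, h1, h2, h3⟩ := ih (m - s) (by omega)
    refine ⟨Function.update i a (min m s), fun y => ?_, fun y hy => ?_, ?_⟩
    · by_cases e : y = a
      · simp [e]
      · simp [e, h1]
    · rw [mem_insert, not_or] at hy
      simp [hy.1, h2 y hy.2]
    · rw [sum_insert ha, Function.update_self, sum_update_of_notMem ha, h3]
      omega

/-- `σ` fixes a partition into `b` parts of size `a` -/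
def Fx (a b : ℕ) (σ : Perm α) : Prop :=
  ∃ f : α → Fin b, (∀ j : Fin b, Nat.card {x // f x = j} = a) ∧
    ∃ π : Perm (Fin b), ∀ x, f (σ x) = π (f x)

omit [Fintype α] [DecidableEq α] in
theorem Fx.congr {β : Type*} {a b : ℕ} {σ : Perm α} (h : Fx a b σ) (e : α ≃ β) :
    Fx a b (e.permCongr σ) := by
  obtain ⟨f, h1, π, h2⟩ := h
  exact ⟨f ∘ e.symm, fun j => (Nat.card_congr (e.symm.subtypeEquiv fun _ => Iff.rfl)).trans (h1 j),
    π, fun x => by simp [h2]⟩

/-- the numerical condition -/
def Q (a b r j : ℕ) : Prop := ∃ c, r * c ≤ b ∧ c * a ≤ j ∧ j ≤ c * a + (b - r * c) * (a / r)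

theorem Fx.q [hr : Fact r.Prime] {a b j : ℕ} (ha : 0 < a) {σ : Perm α} (h : σ ^ r = 1)
    (hj : #σ.support = r * j) (hf : Fx a b σ) : Q a b r j := by
  obtain ⟨f, h1, π, h2⟩ := hf
  have h3 : ∀ y, #{x | f x = y} = a := fun y => by
    rw [← h1 y, Nat.card_eq_fintype_card, Fintype.card_subtype]
  have hπ : π ^ r = 1 := by
    have k : ∀ n x, f ((σ ^ n) x) = (π ^ n) (f x) := fun n x => by
      induction n with
      | zero => rfl
      | succ n ih => rw [pow_succ', pow_succ', Perm.mul_apply, Perm.mul_apply, h2, ih]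
    ext y
    obtain ⟨x, hx⟩ := card_pos.1 (h3 y ▸ ha : 0 < #{x | f x = y})
    rw [← (mem_filter.1 hx).2, ← k, h]; rfl
  have hc := card_support_eq hπ
  generalize π.cycleType.card = c at hc
  have e0 := card_eq_sum_card_fiberwise (f := f) (s := σ.support) (t := univ) fun _ _ => mem_univ _
  rw [← sum_add_sum_compl π.support, hj] at e0
  have e1 : ∑ y ∈ π.support, #{x ∈ σ.support | f x = y} = r * (c * a) := by
    rw [← mul_assoc, ← hc, ← smul_eq_mul, ← sum_const]
    refine sum_congr rfl fun y hy => ?_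
    rw [← h3 y]
    congr 1
    ext x
    simp only [mem_filter, mem_univ, true_and, Perm.mem_support, and_iff_right_iff_imp]
    rintro rfl e
    exact Perm.mem_support.1 hy (by rw [← h2, e])
  have e2 : ∑ y ∈ π.supportᶜ, #{x ∈ σ.support | f x = y} ≤ r * ((b - r * c) * (a / r)) := by
    rw [mul_left_comm, ← hc, ← smul_eq_mul, show b - #π.support = #π.supportᶜ by
      rw [card_compl, Fintype.card_fin]]
    refine sum_le_card_nsmul _ _ _ fun y hy => ?_
    have hy' : π y = y := by simpa using hy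
    obtain ⟨i, hi⟩ := dvd_card h (p := fun x => f x = y) fun x => by
      rw [h2, ← π.apply_eq_iff_eq (x := f x), hy']
    have : #{x ∈ σ.support | f x = y} ≤ a := h3 y ▸ card_le_card (filter_subset_filter _
      (subset_univ _))
    rw [hi] at this ⊢
    exact Nat.mul_le_mul_left _ ((Nat.le_div_iff_mul_le hr.out.pos).2 (by rwa [mul_comm]))
  refine ⟨c, hc ▸ (card_le_univ _).trans (Fintype.card_fin b).le,
    Nat.le_of_mul_le_mul_left ?_ hr.out.pos, Nat.le_of_mul_le_mul_left ?_ hr.out.pos⟩
  · omega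
  · rw [mul_add]; omega

theorem Q.model [hr : Fact r.Prime] {a b j : ℕ} (h : Q a b r j) :
    ∃ σ : Perm (Fin b × Fin a), σ ^ r = 1 ∧ #σ.support = r * j ∧ Fx a b σ := by
  obtain ⟨c, h1, h2, h3⟩ := h
  obtain ⟨π, p1, p2⟩ := exists_perm (α := Fin b) (r := r) (j := c) (by simpa using h1)
  obtain ⟨i, i1, i2, i3⟩ := exists_parts (a / r) π.supportᶜ (j - c * a) (by
    rw [card_compl, Fintype.card_fin, p2]; omega)
  choose τ t1 t2 using fun y => exists_perm (α := Fin a) (r := r) (j := i y) (by
    rw [Fintype.card_fin]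
    exact (Nat.mul_le_mul_left _ (i1 y)).trans (Nat.mul_div_le a r))
  have t3 : ∀ y ∈ π.support, τ y = 1 := fun y hy => by
    rw [← Perm.card_support_eq_zero, t2, i2 y (by simpa using hy), mul_zero]
  have t4 : ∀ y, τ (π y) = τ y := fun y => by
    by_cases e : y ∈ π.support
    · rw [t3 y e, t3 _ (Perm.apply_mem_support.2 e)]
    · rw [Perm.notMem_support.1 e]
  have k : ∀ n (z : Fin b × Fin a), ((π.prodShear τ : Perm _) ^ n) z =
      ((π ^ n) z.1, (τ z.1 ^ n) z.2) := fun n => by
    induction n with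
    | zero => exact fun z => rfl
    | succ n ih =>
      intro z
      rw [pow_succ, pow_succ, pow_succ, Perm.mul_apply, ih]
      simp [t4]
  refine ⟨π.prodShear τ, ?_, ?_, Prod.fst, fun y => ?_, π, fun x => rfl⟩
  · ext z <;> simp [k, p1, t1]
  · rw [card_eq_sum_card_fiberwise (f := Prod.fst) (t := univ) fun _ _ => mem_univ _,
      ← sum_add_sum_compl π.support]
    have e : ∀ y, #{x ∈ Perm.support (π.prodShear τ) | x.1 = y} = #{x | π y ≠ y ∨ τ y x ≠ x} :=
      fun y => by
        refine card_bij (fun x _ => x.2) ?_ ?_ ?_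
        · rintro ⟨y', x⟩ hx
          simp only [mem_filter, Perm.mem_support] at hx
          obtain ⟨hx, rfl⟩ := hx
          simpa [Prod.ext_iff, imp_iff_not_or] using hx
        · rintro ⟨y1, x1⟩ h1 ⟨y2, x2⟩ h2 e
          exact Prod.ext ((mem_filter.1 h1).2.trans (mem_filter.1 h2).2.symm) e
        · intro x hx
          exact ⟨(y, x), by simpa [Prod.ext_iff, imp_iff_not_or] using hx, rfl⟩
    have e1 : ∑ y ∈ π.support, #{x ∈ Perm.support (π.prodShear τ) | x.1 = y} = r * (c * a) := by
      rw [← mul_assoc, ← p2, ← smul_eq_mul, ← sum_const]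
      refine sum_congr rfl fun y hy => ?_
      rw [e]
      simp [Perm.mem_support.1 hy]
    have e2 : ∑ y ∈ π.supportᶜ, #{x ∈ Perm.support (π.prodShear τ) | x.1 = y} =
        r * (j - c * a) := by
      rw [← i3, mul_sum]
      refine sum_congr rfl fun y hy => ?_
      have hy' : π y = y := by simpa using hy
      rw [e, ← t2]
      congr 1
      ext x
      simp [hy']
    rw [e1, e2, ← mul_add, Nat.add_sub_cancel' h2]
  · refine (Nat.card_congr ⟨fun x => x.1.2, fun x => ⟨(y, x), rfl⟩, ?_, fun _ => rfl⟩).trans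
      (Nat.card_eq_fintype_card.trans (Fintype.card_fin a))
    rintro ⟨⟨y', x⟩, rfl⟩
    rfl

theorem Q.fx [hr : Fact r.Prime] {a b j : ℕ} (h : Q a b r j) (hα : Fintype.card α = a * b)
    {σ : Perm α} (h1 : σ ^ r = 1) (h2 : #σ.support = r * j) : Fx a b σ := by
  obtain ⟨τ, t1, t2, t3⟩ := h.model
  obtain ⟨e⟩ : Nonempty (Fin b × Fin a ≃ α) := Fintype.card_eq.1 (by simp [hα, mul_comm])
  have t4 : e.permCongr τ ^ r = 1 := by
    rw [← permCongrHom_coe, ← map_pow, t1, map_one]
  obtain ⟨g, hg⟩ := isConj_iff.1 (isConj_of_card t4 h1 (by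
    rw [h2, ← t2]
    exact (card_bij (fun x _ => e x) (fun x hx => by simpa using hx) (fun _ _ _ _ h => e.injective h)
      fun x hx => ⟨e.symm x, by
        simp only [Perm.mem_support, permCongr_apply] at hx ⊢
        exact fun h => hx (by rw [h, apply_symm_apply]), by simp⟩).symm))
  exact hg ▸ (t3.congr e).congr g

theorem all_iff {a b r : ℕ} (ha : 2 ≤ a) (hb : 2 ≤ b) (hr : 0 < r) (hle : r ≤ a * b) :
    (∀ j, 1 ≤ j → r * j ≤ a * b → Q a b r j) ↔ (r ≤ a ∧ (a % r = 0 ∨ (b % r = 0 ∧ a % r = 1) ∨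
      (a % r ≠ 0 ∧ b % r ≠ 0 ∧ (b % r) * (a % r) < r ∧
        (b < r ∨ (b % r + r) * (a % r) ≤ (b % r) * a + r)))) := by
  have e1 := Nat.div_add_mod a r
  have e2 := Nat.div_add_mod b r
  have l1 := Nat.mod_lt a hr
  have l2 := Nat.mod_lt b hr
  unfold Q
  generalize a / r = s at *
  generalize a % r = l at *
  generalize b / r = t at *
  generalize b % r = k at *
  have hu : ∀ c, r * c ≤ b → c * a + (b - r * c) * s = b * s + c * l := fun c hc => by
    obtain ⟨d, hd⟩ := Nat.exists_eq_add_of_le hc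
    rw [hd, Nat.add_sub_cancel_left, ← e1]; ring
  have ht : ∀ c, r * c ≤ b ↔ c ≤ t := fun c =>
    ⟨fun h => by
      by_contra hn
      have : r * (t + 1) ≤ r * c := Nat.mul_le_mul_left _ (by omega)
      nlinarith, fun h => by nlinarith⟩
  have e3 : a * b = r * (b * s + t * l) + k * l := by rw [← e1, ← e2]; ring
  have key : (∀ j, 1 ≤ j → r * j ≤ a * b → ∃ c, r * c ≤ b ∧ c * a ≤ j ∧
      j ≤ c * a + (b - r * c) * s) ↔ 1 ≤ s ∧ k * l < r ∧ (t = 0 ∨ l ≤ k * s + 1) := by
    constructor
    · intro h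
      refine ⟨?_, ?_, ?_⟩
      · obtain ⟨c, h1, h2, h3⟩ := h 1 le_rfl (by omega)
        have : c = 0 := by
          by_contra hn
          have : 1 * a ≤ c * a := Nat.mul_le_mul_right _ (by omega)
          omega
        subst this
        by_contra hn
        simp [show s = 0 by omega] at h3
      · by_contra hn
        obtain ⟨c, h1, -, h3⟩ := h (b * s + t * l + 1) (by omega) (by rw [e3, mul_add r _ 1]; omega)
        rw [hu c h1] at h3
        have := Nat.mul_le_mul_right l ((ht c).1 h1)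
        omega
      · by_contra hn
        push Not at hn
        obtain ⟨t, rfl⟩ : ∃ u, t = u + 1 := ⟨t - 1, by omega⟩
        obtain ⟨c, h1, h2, h3⟩ := h (b * s + t * l + 1) (by omega) (by
          rw [e3]
          have : r * (b * s + t * l + 1) ≤ r * (b * s + (t + 1) * l) :=
            Nat.mul_le_mul_left _ (by nlinarith)
          omega)
        rw [hu c h1] at h3
        rcases ((ht c).1 h1).eq_or_lt with rfl | hc
        · rw [← e1, ← e2] at h2
          nlinarith
        · have := Nat.mul_le_mul_right l (Nat.lt_succ_iff.1 hc)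
          omega
    · rintro ⟨h1, h2, h3⟩ j hj hj'
      have hj2 : j ≤ b * s + t * l := by
        by_contra hn
        have : r * (b * s + t * l + 1) ≤ r * j := Nat.mul_le_mul_left _ (by omega)
        rw [mul_add r _ 1] at this
        omega
      classical
      have hex : ∃ c, j ≤ b * s + c * l := ⟨t, hj2⟩
      have hc := Nat.find_min' hex hj2
      refine ⟨Nat.find hex, (ht _).2 hc, ?_, by rw [hu _ ((ht _).2 hc)]; exact Nat.find_spec hex⟩
      rcases hf : Nat.find hex with _ | c
      · simp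
      · have := Nat.find_min hex (m := c) (by omega)
        have h4 := h3.resolve_left (by omega)
        have h5 : r * (c + 1) * s ≤ r * t * s :=
          Nat.mul_le_mul_right _ (Nat.mul_le_mul_left _ (by omega))
        rw [← e1]
        rw [← e2] at this
        nlinarith
  rw [key]
  have f1 : 1 ≤ s ↔ r ≤ a := ⟨fun h => by nlinarith, fun h => by
    by_contra hn
    rw [show s = 0 by omega] at e1
    omega⟩
  have f2 : t = 0 ↔ b < r := ⟨fun h => by rw [h] at e2; omega, fun h => by
    by_contra hn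
    have : r * 1 ≤ r * t := Nat.mul_le_mul_left _ (by omega)
    omega⟩
  have f3 : l ≤ k * s + 1 ↔ (k + r) * l ≤ k * a + r := by
    rw [← e1]
    exact ⟨fun h => by nlinarith [Nat.mul_le_mul_left r h],
      fun h => Nat.le_of_mul_le_mul_left (by nlinarith) hr⟩
  rw [f1, ← f2, ← f3]
  refine and_congr_right fun _ => ?_
  rcases Nat.eq_zero_or_pos l with rfl | hl
  · simp [hr]
  rcases Nat.eq_zero_or_pos k with rfl | hk
  · have : t ≠ 0 := by rintro rfl; omega
    simp [hr, this]
    omega
  · simp [hl.ne', hk.ne']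

end Cfsg.Lib.Class.PartFix
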