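import Mathlib

/-!
# Singer groups

For a finite-dimensional field extension `K/F`, the group of multiplications by non-zero
elements of `K` inside `GL_F(K)`.
-/

set_option autoImplicit false

namespace Cfsg.Lib.Class

open Polynomial

variable {F K : Type*} [Field F] [Field K] [Algebra F K]

/-- The Singer group of `K/F`. -/
noncomputable abbrev singer (F K : Type*) [Field F] [Field K] [Algebra F K] :
    Subgroup (Module.End F K)ˣ :=
  (Units.map ((Algebra.lmul F K : K →ₐ[F] Module.End F K) : K →* Module.End F K)).range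

theorem lmul_apply' (k y : K) : (Algebra.lmul F K k) y = k * y := rfl

theorem mem_singer_iff (g : (Module.End F K)ˣ) :
    g ∈ singer F K ↔ ∃ k : K, (g : Module.End F K) = Algebra.lmul F K k := by
  constructor
  · rintro ⟨k, rfl⟩
    exact ⟨k, rfl⟩
  · rintro ⟨k, hk⟩
    have h0 : k ≠ 0 := by
      rintro rfl
      exact g.ne_zero (by rw [hk, map_zero])
    exact ⟨Units.mk0 k h0, Units.ext hk.symm⟩

theorem eq_lmul_of_comm {g : Module.End F K}
    (h : ∀ k : K, k ≠ 0 → g * Algebra.lmul F K k = Algebra.lmul F K k * g) :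
    g = Algebra.lmul F K (g 1) := by
  ext y
  by_cases hy : y = 0
  · simp [hy]
  · have := LinearMap.congr_fun (h y hy) 1
    simp only [Module.End.mul_apply, lmul_apply', mul_one] at this
    rw [this, lmul_apply', mul_comm]

theorem singerHom_injective : Function.Injective
    (Units.map ((Algebra.lmul F K : K →ₐ[F] Module.End F K) : K →* Module.End F K)) :=
  Units.map_injective (Algebra.lmul F K).toRingHom.injective

theorem card_singer : Nat.card (singer F K) = Nat.card K - 1 := by
  rw [← Nat.card_units]
  exact (Nat.card_congr (MonoidHom.ofInjective singerHom_injective).toEquiv).symm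

theorem centralizer_singer :
    Subgroup.centralizer (singer F K : Set (Module.End F K)ˣ) = singer F K := by
  ext g
  rw [Subgroup.mem_centralizer_iff]
  constructor
  · intro h
    refine (mem_singer_iff g).2 ⟨_, eq_lmul_of_comm fun k hk ↦ ?_⟩
    exact (congrArg Units.val (h _ ⟨Units.mk0 k hk, rfl⟩)).symm
  · rintro ⟨a, rfl⟩ _ ⟨b, rfl⟩
    rw [← map_mul, ← map_mul, mul_comm]

/-- Any `F`-algebra map `K → End_F(K)` is conjugate to the regular representation. -/
theorem exists_conj_lmul [FiniteDimensional F K] (ψ : K →ₐ[F] Module.End F K) :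
    ∃ h : (Module.End F K)ˣ, ∀ k, ψ k * h = h * Algebra.lmul F K k := by
  let h : Module.End F K := (LinearMap.applyₗ (1 : K)) ∘ₗ ψ.toLinearMap
  have hh : ∀ k, h k = ψ k 1 := fun k ↦ rfl
  have hinj : Function.Injective h := by
    rw [injective_iff_map_eq_zero]
    intro k hk
    by_contra h0
    have : ψ k⁻¹ (ψ k 1) = 1 := by
      rw [← Module.End.mul_apply, ← map_mul, inv_mul_cancel₀ h0, map_one ψ, Module.End.one_apply]
    rw [← hh, hk, map_zero] at this
    exact zero_ne_one this
  have hu : IsUnit h := (LinearMap.isUnit_iff_ker_eq_bot h).2 (LinearMap.ker_eq_bot.2 hinj)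
  refine ⟨hu.unit, fun k ↦ ?_⟩
  ext y
  simp only [IsUnit.unit_spec, Module.End.mul_apply, lmul_apply', hh, map_mul]

/-- The normaliser of the Singer group, parametrised by `Kˣ × Gal(K/F)`. -/
noncomputable def singerNormMap (x : Kˣ × (K ≃ₐ[F] K)) : (Module.End F K)ˣ :=
  Units.map ((Algebra.lmul F K : K →ₐ[F] Module.End F K) : K →* Module.End F K) x.1 *
    LinearMap.GeneralLinearGroup.ofLinearEquiv x.2.toLinearEquiv

theorem singerNormMap_apply (x : Kˣ × (K ≃ₐ[F] K)) (y : K) :
    (singerNormMap x : Module.End F K) y = x.1 * x.2 y := rfl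

theorem singerNormMap_injective : Function.Injective (singerNormMap (F := F) (K := K)) := by
  rintro ⟨a, σ⟩ ⟨b, τ⟩ h
  have key : ∀ y, (a : K) * σ y = b * τ y := fun y ↦ by
    have := congrArg (fun g : (Module.End F K)ˣ ↦ (g : Module.End F K) y) h
    simpa only [singerNormMap_apply] using this
  have hab : a = b := Units.ext (by simpa using key 1)
  subst hab
  exact Prod.ext rfl (AlgEquiv.ext fun y ↦ mul_left_cancel₀ a.ne_zero (key y))

theorem mem_normalizer_singer_iff [FiniteDimensional F K] (g : (Module.End F K)ˣ) :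
    g ∈ Subgroup.normalizer (singer F K : Set (Module.End F K)ˣ) ↔
      g ∈ Set.range (singerNormMap (F := F) (K := K)) := by
  constructor
  · intro hg
    have hinj : Function.Injective (g : Module.End F K) :=
      (LinearMap.GeneralLinearGroup.toLinearEquiv g).injective
    have h1 : (g : Module.End F K) 1 ≠ 0 := fun h ↦ one_ne_zero (hinj (by rw [h, map_zero]))
    have hmul : ∀ k y : K, (g : Module.End F K) (k * y) * (g : Module.End F K) 1 =
        (g : Module.End F K) k * (g : Module.End F K) y := by
      intro k y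
      by_cases hk : k = 0
      · simp [hk]
      obtain ⟨k', hk'⟩ := (mem_singer_iff _).1
        ((Subgroup.mem_normalizer_iff.1 hg _).1 ⟨Units.mk0 k hk, rfl⟩)
      have e : ∀ z, (g : Module.End F K) (k * z) = k' * (g : Module.End F K) z := fun z ↦ by
        have h2 := congrArg (fun t : Module.End F K ↦ (t * g) z) hk'
        simp only [Units.val_mul, mul_assoc, Units.inv_mul, mul_one] at h2
        exact h2
      have e1 := e 1
      rw [mul_one] at e1
      rw [e y, e1]
      ring
    let σ : K →ₐ[F] K := AlgHom.ofLinearMap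
      (Algebra.lmul F K ((g : Module.End F K) 1)⁻¹ * (g : Module.End F K))
      (by simp [h1]) (fun x y ↦ by
        simp only [Module.End.mul_apply, lmul_apply']
        field_simp
        rw [mul_comm, hmul])
    have hσ : Function.Bijective σ :=
      ⟨σ.toRingHom.injective, (LinearMap.injective_iff_surjective
        (f := σ.toLinearMap)).1 σ.toRingHom.injective⟩
    refine ⟨(Units.mk0 _ h1, AlgEquiv.ofBijective σ hσ), Units.ext (LinearMap.ext fun y ↦ ?_)⟩
    rw [singerNormMap_apply]
    change (g : Module.End F K) 1 * (((g : Module.End F K) 1)⁻¹ * (g : Module.End F K) y) = _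
    rw [mul_inv_cancel_left₀ h1]
  · rintro ⟨⟨a, σ⟩, rfl⟩
    have e : ∀ k : K, (singerNormMap (a, σ) : Module.End F K) * Algebra.lmul F K k =
        Algebra.lmul F K (σ k) * singerNormMap (a, σ) := fun k ↦ by
      ext y
      simp only [Module.End.mul_apply, singerNormMap_apply, lmul_apply', map_mul]
      ring
    rw [Subgroup.mem_normalizer_iff]
    intro h
    simp only [mem_singer_iff]
    constructor
    · rintro ⟨k, hk⟩
      refine ⟨σ k, ?_⟩
      rw [Units.val_mul, Units.val_mul, hk, e, mul_assoc, Units.mul_inv, mul_one]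
    · rintro ⟨k, hk⟩
      refine ⟨σ.symm k, ?_⟩
      rw [← Units.mul_right_inj (singerNormMap (a, σ)), e, AlgEquiv.apply_symm_apply, ← hk,
        Units.val_mul, Units.val_mul, mul_assoc, Units.inv_mul, mul_one]

theorem card_normalizer_singer [FiniteDimensional F K] :
    Nat.card (Subgroup.normalizer (singer F K : Set (Module.End F K)ˣ)) =
      Nat.card (K ≃ₐ[F] K) * (Nat.card K - 1) := by
  rw [← Nat.card_units, mul_comm, ← Nat.card_prod,
    Nat.card_congr (Equiv.ofInjective _ singerNormMap_injective)]
  exact Nat.card_congr (Equiv.subtypeEquivRight mem_normalizer_singer_iff)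

/-- An endomorphism whose minimal polynomial is that of a generator of `K/F` generates a
conjugate of the regular representation. -/
theorem exists_conj_of_minpoly [FiniteDimensional F K] {x : Module.End F K} {α : K}
    (hα : Algebra.adjoin F {α} = ⊤) (hx : aeval x (minpoly F α) = 0) :
    ∃ h : (Module.End F K)ˣ, x * h = h * Algebra.lmul F K α ∧
      ∀ u : (Module.End F K)ˣ, Commute (u : Module.End F K) x → h⁻¹ * u * h ∈ singer F K := by
  let pb := PowerBasis.ofAdjoinEqTop (Algebra.IsIntegral.isIntegral (R := F) α) hα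
  let ψ : K →ₐ[F] Module.End F K := pb.lift x hx
  obtain ⟨h, hh⟩ := exists_conj_lmul ψ
  have hψ : ψ α = x := pb.lift_gen x hx
  refine ⟨h, hψ ▸ hh α, fun u hu ↦ (mem_singer_iff _).2 ⟨_, eq_lmul_of_comm fun k _ ↦ ?_⟩⟩
  obtain ⟨f, rfl⟩ := pb.exists_eq_aeval' k
  have hc : Commute (u : Module.End F K) (ψ (aeval pb.gen f)) := by
    rw [show ψ (aeval pb.gen f) = aeval x f from pb.lift_aeval x hx f, aeval_eq_sum_range]
    exact Commute.sum_right _ _ _ fun i _ ↦ (hu.pow_right i).smul_right _
  have e := hh (aeval pb.gen f)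
  rw [← Units.mul_right_inj h]
  simp only [Units.val_mul, ← mul_assoc, Units.mul_inv, one_mul]
  rw [← e, mul_assoc, ← e, ← mul_assoc, hc.eq, mul_assoc (ψ _) (h : Module.End F K),
    Units.mul_inv, mul_one]

end Cfsg.Lib.Class
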