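import Cfsg.Agent.Perm.TW

/-!
# Primitive groups with a suborbit on which the stabiliser induces the alternating group
-/

namespace Cfsg.Lib.Class.SubAlt

open Subgroup Equiv Cfsg Cfsg.Lib.Perm Cfsg.Lib.Solv Cfsg.Lib.Trans Cfsg.Lib.Local

open scoped commutatorElement

set_option linter.unusedSectionVars false

section PermFacts

variable {β : Type*} [Fintype β] [DecidableEq β]

theorem exists_two (h : 5 ≤ Fintype.card β) (a b : β) :
    ∃ c e : β, c ≠ a ∧ c ≠ b ∧ e ≠ a ∧ e ≠ b ∧ c ≠ e := by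
  have h1 : 1 < (Finset.univ \ {a, b} : Finset β).card := by
    have := Finset.card_le_two (a := a) (b := b)
    rw [Finset.card_univ_diff]; omega
  obtain ⟨c, hc, e, he, hce⟩ := Finset.one_lt_card.1 h1
  simp only [Finset.mem_sdiff, Finset.mem_univ, Finset.mem_insert, Finset.mem_singleton, true_and,
    not_or] at hc he
  exact ⟨c, e, hc.1, hc.2, he.1, he.2, hce⟩

theorem eq_one_of_comm (h : 5 ≤ Fintype.card β) {w : Perm β}
    (hw : ∀ σ ∈ alternatingGroup β, Commute σ w) : w = 1 := by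
  ext a
  by_contra hne
  change w a ≠ a at hne
  obtain ⟨c, e, h1, h2, h3, h4, h5⟩ := exists_two h a (w a)
  have hm : swap (w a) c * swap (w a) e ∈ alternatingGroup β := by
    simp [Perm.mem_alternatingGroup, Perm.sign_swap h2.symm, Perm.sign_swap h4.symm]
  have := congrArg (fun f : Perm β => f a) (hw _ hm).eq
  simp only [Perm.mul_apply] at this
  rw [swap_apply_left, swap_apply_of_ne_of_ne h4 h5.symm, swap_apply_of_ne_of_ne (Ne.symm hne) h3.symm,
    swap_apply_of_ne_of_ne (Ne.symm hne) h1.symm] at this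
  exact h4 this

theorem alt_le (h : 5 ≤ Fintype.card β) {W : Subgroup (Perm β)}
    (hn : ∀ σ ∈ alternatingGroup β, ∀ w ∈ W, σ * w * σ⁻¹ ∈ W) (h0 : W ≠ ⊥) :
    alternatingGroup β ≤ W := by
  have hs := alternatingGroup.isSimpleGroup (α := β) (by rwa [Nat.card_eq_fintype_card])
  have hN : (W.subgroupOf (alternatingGroup β)).Normal := ⟨fun w hw σ => hn σ σ.2 w hw⟩
  rcases hN.eq_bot_or_eq_top with e | e
  · refine absurd (eq_bot_iff.2 fun w hw => eq_one_of_comm h fun σ hσ => ?_) h0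
    have hm : σ * w * σ⁻¹ * w⁻¹ ∈ alternatingGroup β := by
      have := (inferInstance : (alternatingGroup β).Normal).conj_mem _ (inv_mem hσ) w
      simpa [mul_assoc] using mul_mem hσ this
    have : (⟨_, hm⟩ : alternatingGroup β) ∈ W.subgroupOf (alternatingGroup β) :=
      mul_mem (hn σ hσ w hw) (inv_mem hw)
    rw [e, mem_bot, Subtype.ext_iff] at this
    exact commutatorElement_eq_one_iff_commute.1 this
  · exact subgroupOf_eq_top.1 e

theorem exists_alt_ne_one (h : 5 ≤ Fintype.card β) : ∃ σ ∈ alternatingGroup β, σ ≠ 1 := by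
  have hs := alternatingGroup.isSimpleGroup (α := β) (by rwa [Nat.card_eq_fintype_card])
  obtain ⟨σ, hσ⟩ := exists_ne (1 : alternatingGroup β)
  exact ⟨σ, σ.2, fun e => hσ (Subtype.ext e)⟩

theorem exists_alt_two (h : 5 ≤ Fintype.card β) {a b c d : β} (hab : a ≠ b) (hcd : c ≠ d) :
    ∃ σ ∈ alternatingGroup β, σ a = c ∧ σ b = d := by
  have h1 := alternatingGroup.isMultiplyPretransitive β
  have h2 : MulAction.IsMultiplyPretransitive (alternatingGroup β) β 2 :=
    MulAction.isMultiplyPretransitive_of_le (n := Nat.card β - 2)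
      (by rw [Nat.card_eq_fintype_card]; omega) (by omega)
  obtain ⟨σ, e1, e2⟩ := MulAction.is_two_pretransitive_iff.1 h2 hab hcd
  exact ⟨σ, σ.2, e1, e2⟩

theorem two_mul_card_alt (h : 5 ≤ Fintype.card β) :
    2 * Nat.card (alternatingGroup β) = (Fintype.card β).factorial := by
  have : Nontrivial β := Fintype.one_lt_card_iff_nontrivial.1 (by omega)
  rw [two_mul_nat_card_alternatingGroup, Nat.card_eq_fintype_card, Fintype.card_perm]

theorem optionCongr_removeNone {α : Type*} [DecidableEq α] {σ : Perm (Option α)}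
    (h : σ none = none) : (removeNone σ).optionCongr = σ := by
  rw [map_equiv_removeNone, h, swap_self]; rfl

end PermFacts

variable {G : Type*} [Group G]

/-- `V` normalises `U` -/
def Nm (V U : Subgroup G) : Prop := ∀ v ∈ V, ∀ u ∈ U, v * u * v⁻¹ ∈ U

theorem Nm.le {V U : Subgroup G} (h : Nm V U) : V ≤ normalizer (U : Set G) := fun v hv => by
  rw [mem_normalizer_iff]
  exact fun u => ⟨h v hv u, fun hu => by simpa [mul_assoc] using h _ (inv_mem hv) _ hu⟩

theorem nm_of {V U : Subgroup G} (h : V ≤ normalizer (U : Set G)) : Nm V U :=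
  fun _ hv u hu => (mem_normalizer_iff.1 (h hv) u).1 hu

theorem Nm.mono {V V' U : Subgroup G} (h : Nm V U) (h' : V' ≤ V) : Nm V' U :=
  fun v hv => h v (h' hv)

theorem nm_self (U : Subgroup G) : Nm U U :=
  fun _ hv _ hu => mul_mem (mul_mem hv hu) (inv_mem hv)

theorem Nm.inf {V U U' : Subgroup G} (h : Nm V U) (h' : Nm V U') : Nm V (U ⊓ U') :=
  fun v hv u hu => ⟨h v hv u hu.1, h' v hv u hu.2⟩

theorem Nm.cj {V U : Subgroup G} (h : Nm V U) (g : G) : Nm (cj g V) (cj g U) := fun v hv u hu => by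
  rw [mem_cj] at *
  convert h _ hv _ hu using 1
  group

theorem Nm.cj_eq {V U : Subgroup G} (h : Nm V U) {v : G} (hv : v ∈ V) : Trans.cj v U = U := by
  ext u
  rw [mem_cj]
  exact ⟨fun hu => by simpa [mul_assoc] using h v hv _ hu, fun hu => by
    simpa using h _ (inv_mem hv) _ hu⟩

theorem nm_core (H K : Subgroup G) : Nm H (coreIn H K) := nm_of (le_normalizer_coreIn H K)

theorem comm_mem {U V : Subgroup G} (h1 : Nm U V) (h2 : Nm V U) {u v : G} (hu : u ∈ U)
    (hv : v ∈ V) : ⁅u, v⁆ ∈ U ⊓ V := by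
  refine mem_inf.2 ⟨?_, mul_mem (h1 u hu v hv) (inv_mem hv)⟩
  have := mul_mem hu (h2 v hv _ (inv_mem hu))
  simpa [commutatorElement_def, mul_assoc] using this

/-- a homomorphism on `D` with kernel `D ⊓ B` -/
structure PH {S : Type*} [Group S] (D B : Subgroup G) (t : G → S) : Prop where
  mul : ∀ x ∈ D, ∀ y ∈ D, t (x * y) = t x * t y
  ker : ∀ x ∈ D, t x = 1 ↔ x ∈ B

namespace PH

variable {S : Type*} [Group S] {D B : Subgroup G} {t : G → S} (h : PH D B t)
include h

/-- the homomorphism on a subgroup of `D` -/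
def hom {U : Subgroup G} (hU : U ≤ D) : U →* S :=
  MonoidHom.mk' (fun u => t u) fun x y => h.mul _ (hU x.2) _ (hU y.2)

theorem one : t 1 = 1 := (h.hom le_rfl).map_one

theorem inv {x : G} (hx : x ∈ D) : t x⁻¹ = (t x)⁻¹ := (h.hom le_rfl).map_inv ⟨x, hx⟩

theorem conj {x y : G} (hx : x ∈ D) (hy : y ∈ D) : t (x * y * x⁻¹) = t x * t y * (t x)⁻¹ := by
  rw [h.mul _ (mul_mem hx hy) _ (inv_mem hx), h.mul _ hx _ hy, h.inv hx]

theorem mem_range {U : Subgroup G} (hU : U ≤ D) {σ : S} :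
    σ ∈ (h.hom hU).range ↔ ∃ u ∈ U, t u = σ :=
  ⟨fun ⟨u, e⟩ => ⟨u, u.2, e⟩, fun ⟨u, hu, e⟩ => ⟨⟨u, hu⟩, e⟩⟩

theorem relIndex_eq {U : Subgroup G} (hU : U ≤ D) : B.relIndex U = Nat.card (h.hom hU).range := by
  rw [← index_ker, relIndex]
  congr 1
  ext u
  exact (h.ker u (hU u.2)).symm

theorem cj (g : G) : PH (cj g D) (cj g B) fun x => t (g⁻¹ * x * g) where
  mul x hx y hy := by
    rw [← h.mul _ (mem_cj.1 hx) _ (mem_cj.1 hy)]
    congr 1
    group
  ker x hx := by rw [h.ker _ (mem_cj.1 hx), mem_cj]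

theorem comm {x y : G} (hx : x ∈ D) (hy : y ∈ D) (hb : ⁅x, y⁆ ∈ B) : Commute (t x) (t y) := by
  have hm : ⁅x, y⁆ ∈ D := mul_mem (mul_mem (mul_mem hx hy) (inv_mem hx)) (inv_mem hy)
  rw [← commutatorElement_eq_one_iff_commute, ← (h.ker _ hm).2 hb, commutatorElement_def,
    commutatorElement_def, h.mul _ (mul_mem (mul_mem hx hy) (inv_mem hx)) _ (inv_mem hy),
    h.conj hx hy, h.inv hy]

end PH

variable {β : Type*} [Fintype β] [DecidableEq β]

/-- the image of `U` contains the alternating group -/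
def Full (t : G → Perm β) (U : Subgroup G) : Prop := ∀ σ ∈ alternatingGroup β, ∃ u ∈ U, t u = σ

theorem Full.cj {t : G → Perm β} {U : Subgroup G} (h : Full t U) (g : G) :
    Full (fun x => t (g⁻¹ * x * g)) (cj g U) := fun σ hσ => by
  obtain ⟨u, hu, e⟩ := h σ hσ
  exact ⟨_, conj_mem_cj.2 hu, by simpa [mul_assoc] using e⟩

theorem Full.mono {t : G → Perm β} {U V : Subgroup G} (h : Full t U) (hl : U ≤ V) : Full t V :=
  fun σ hσ => let ⟨u, hu, e⟩ := h σ hσ; ⟨u, hl hu, e⟩

namespace PH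

variable {D B : Subgroup G} {t : G → Perm β} (h : PH D B t) (h5 : 5 ≤ Fintype.card β)
include h h5

theorem full {U V : Subgroup G} (hV : V ≤ D) (hU : U ≤ D) (f : Full t V) (n : Nm V U)
    (hn : ¬ U ≤ B) : Full t U := by
  intro σ hσ
  refine (h.mem_range hU).1 (alt_le h5 (fun σ hσ w hw => ?_) (fun e => hn fun u hu => ?_) hσ)
  · obtain ⟨v, hv, rfl⟩ := f σ hσ
    obtain ⟨u, hu, rfl⟩ := (h.mem_range hU).1 hw
    exact (h.mem_range hU).2 ⟨_, n v hv u hu, h.conj (hV hv) (hU hu)⟩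
  · exact (h.ker u (hU hu)).1 (mem_bot.1 (e ▸ (h.mem_range hU).2 ⟨u, hu, rfl⟩))

theorem mem_of_comm {U : Subgroup G} (hU : U ≤ D) (f : Full t U) {y : G} (hy : y ∈ D)
    (hc : ∀ u ∈ U, ⁅u, y⁆ ∈ B) : y ∈ B := by
  refine (h.ker y hy).1 (eq_one_of_comm h5 fun σ hσ => ?_)
  obtain ⟨u, hu, rfl⟩ := f σ hσ
  exact h.comm (hU hu) hy (hc u hu)

theorem not_le {U : Subgroup G} (hU : U ≤ D) (f : Full t U) : ¬ U ≤ B := fun hl => by
  obtain ⟨σ, hσ, hne⟩ := exists_alt_ne_one h5
  obtain ⟨u, hu, rfl⟩ := f σ hσ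
  exact hne ((h.ker u (hU hu)).2 (hl hu))

theorem full_inf {U V : Subgroup G} (hU : U ≤ D) (hV : V ≤ D) (f : Full t U) (f' : Full t V)
    (n : Nm U V) (n' : Nm V U) : Full t (U ⊓ V) :=
  h.full h5 hU (inf_le_left.trans hU) f ((nm_self U).inf n) fun hl =>
    h.not_le h5 hV f' fun v hv => h.mem_of_comm h5 hU f (hV hv) fun _ hu => hl (comm_mem n n' hu hv)

theorem le_of_isPGroup {p : ℕ} [Fact p.Prime] {U V : Subgroup G} (hV : V ≤ D) (hU : U ≤ D)
    (f : Full t V) (n : Nm V U) (hp : IsPGroup p U) : U ≤ B := by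
  by_contra hn
  have f' := h.full h5 hV hU f n hn
  have h1 : IsPGroup p (alternatingGroup β) :=
    (hp.of_surjective _ (h.hom hU).rangeRestrict_surjective).to_le
      fun σ hσ => (h.mem_range hU).2 (f' σ hσ)
  have hs := alternatingGroup.isSimpleGroup (α := β) (by rwa [Nat.card_eq_fintype_card])
  have := h1.center_nontrivial
  obtain ⟨z, hz⟩ := exists_ne (1 : center (alternatingGroup β))
  refine hz (Subtype.ext (Subtype.ext (eq_one_of_comm h5 fun σ hσ => ?_)))
  exact congrArg Subtype.val (mem_center_iff.1 z.2 ⟨σ, hσ⟩)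

theorem card_le {U : Subgroup G} (hU : U ≤ D) (f : Full t U) :
    Nat.card (alternatingGroup β) ≤ B.relIndex U := by
  rw [h.relIndex_eq hU]
  exact Subgroup.card_le_of_le fun σ hσ => (h.mem_range hU).2 (f σ hσ)

omit h5 in
theorem relIndex_le {U : Subgroup G} (hU : U ≤ D) : B.relIndex U ≤ (Fintype.card β).factorial := by
  rw [h.relIndex_eq hU, ← Fintype.card_perm, ← Nat.card_eq_fintype_card]
  exact card_le_card_group _

/-- a minimal subgroup covering the alternating group -/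
theorem exists_min [Finite G] {U : Subgroup G} (hU : U ≤ D) (f : Full t U) :
    ∃ X ≤ U, X ≠ ⊥ ∧ ∀ M, Nm X M → X ≤ M ∨ Nat.card (alternatingGroup β) ≤ M.relIndex X := by
  obtain ⟨X, ⟨hX, fX⟩, hmin⟩ := WellFounded.has_min (wellFounded_lt (α := Subgroup G))
    {X | X ≤ U ∧ Full t X} ⟨U, le_rfl, f⟩
  refine ⟨X, hX, fun e => h.not_le h5 (hX.trans hU) fX (e ▸ bot_le), fun M n => ?_⟩
  by_cases hl : X ⊓ M ≤ B
  · right
    rw [← inf_relIndex_left]
    exact (h.card_le h5 (hX.trans hU) fX).trans (relIndex_le_of_le_left hl index_ne_zero_of_finite)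
  · left
    by_contra hn
    exact hmin (X ⊓ M) ⟨inf_le_left.trans hX, h.full h5 (hX.trans hU)
      (inf_le_left.trans (hX.trans hU)) fX ((nm_self X).inf n) hl⟩
      (lt_of_le_of_ne inf_le_left fun e => hn (e ▸ inf_le_right))

end PH

variable {α : Type*} [Fintype α] [DecidableEq α]

/-- `H` acts on the cosets of `H ⊓ K` like the alternating or the symmetric group. -/
structure Side (H K : Subgroup G) (s : G → Perm (Option α)) : Prop where
  ph : PH H (coreIn H K) s
  full : Full s H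
  stab : ∀ x ∈ H, x ∈ K ↔ s x none = none

namespace Side

variable {H K : Subgroup G} {s : G → Perm (Option α)} (h : Side H K s)
include h

theorem eq {x : G} (hx : x ∈ H ⊓ K) : (removeNone (s x)).optionCongr = s x :=
  optionCongr_removeNone ((h.stab x hx.1).1 hx.2)

theorem ph' : PH (H ⊓ K) (coreIn H K) fun x => removeNone (s x) where
  mul x hx y hy := optionCongr_injective (by
    rw [h.eq (mul_mem hx hy), h.ph.mul x hx.1 y hy.1, Perm.mul_def (removeNone _),
      optionCongr_trans, h.eq hx, h.eq hy, Perm.mul_def])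
  ker x hx := by
    rw [← h.ph.ker x hx.1, ← h.eq hx, ← optionCongr_one, optionCongr_injective.eq_iff,
      removeNone_optionCongr]

theorem full' : Full (fun x => removeNone (s x)) (H ⊓ K) := fun σ hσ => by
  obtain ⟨u, hu, e⟩ := h.full σ.optionCongr (by
    rwa [Perm.mem_alternatingGroup, optionCongr_sign])
  exact ⟨u, ⟨hu, (h.stab u hu).2 (by rw [e]; rfl)⟩, by simp only [e, removeNone_optionCongr]⟩

theorem mem_of_eq {x y : G} (hx : x ∈ H) (hy : y ∈ H) (e : s x none = s y none) :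
    x⁻¹ * y ∈ H ⊓ K := by
  refine mem_inf.2 ⟨mul_mem (inv_mem hx) hy, (h.stab _ (mul_mem (inv_mem hx) hy)).2 ?_⟩
  rw [h.ph.mul _ (inv_mem hx) _ hy, h.ph.inv hx, Perm.mul_apply, ← e, Perm.inv_def,
    symm_apply_apply]

theorem cj_eq {B : Subgroup G} (n : Nm (H ⊓ K) B) {x y : G} (hx : x ∈ H) (hy : y ∈ H)
    (e : s x none = s y none) : cj x B = cj y B := by
  rw [← mul_inv_cancel_left x y, cj_mul, n.cj_eq (h.mem_of_eq hx hy e)]

end Side

theorem card_option (h5 : 5 ≤ Fintype.card α) : 5 ≤ Fintype.card (Option α) := by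
  rw [Fintype.card_option]; omega

theorem relIndex_cj (g : G) (U V : Subgroup G) : (cj g U).relIndex (cj g V) = U.relIndex V :=
  relIndex_map_map_of_injective U V (MulAut.conj g).injective

theorem le_core {H B N : Subgroup G} (h1 : N ≤ H) (h2 : ∀ x ∈ H, N ≤ cj x B) : N ≤ coreIn H B :=
  fun n hn => mem_coreIn.2 ⟨h1 hn, fun m hm => mem_cj_inv.1 (h2 _ (inv_mem hm) hn)⟩

variable [Finite G] {H K : Subgroup G} {s s' : G → Perm (Option α)}

/-- the kernels on both sides are conjugate -/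
theorem core_eq_cj (h5 : 5 ≤ Fintype.card α) (S : Side H K s) (S' : Side K H s') {g : G}
    (hg : K = cj g H) (h0 : coreIn H K ≠ ⊥) (hX : coreIn H (coreIn K H) = ⊥) :
    coreIn K H = cj g (coreIn H K) := by
  have h6 := card_option h5
  have e : cj g⁻¹ K = H := by rw [hg, cj_inv_cj]
  have p := S'.ph.cj g⁻¹
  have f := S'.full.cj g⁻¹
  have n := (nm_core K H).cj g⁻¹
  have hl : cj g⁻¹ (coreIn K H) ≤ H := (cj_mono _ (coreIn_le_left K H)).trans e.le
  rw [e] at p f n
  have c1 := two_mul_card_alt h6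
  rw [Fintype.card_option, Nat.factorial_succ] at c1
  have c0 := (Fintype.card α).factorial_pos
  have c2 := (Fintype.card α).self_le_factorial
  have hA := coreIn_le_left H K
  have h1 : coreIn H K ≤ cj g⁻¹ (coreIn K H) := by
    by_contra hn
    obtain ⟨X, hX1, hX0, hX2⟩ := p.exists_min h6 hA (p.full h6 le_rfl hA f (nm_core H K) hn)
    refine hX0 (eq_bot_iff.2 (hX ▸ le_core (hX1.trans hA) fun x hx => ?_))
    have hD : X ≤ cj x (K ⊓ H) := hX1.trans (((nm_core H K).cj_eq hx).ge.trans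
      (cj_mono _ (le_inf (coreIn_le_right H K) hA)))
    refine (hX2 _ ((((nm_core K H).mono inf_le_left).cj x).mono hD)).resolve_right fun hc => ?_
    have := (S'.ph'.cj x).relIndex_le hD
    nlinarith
  have h2 : cj g⁻¹ (coreIn K H) ≤ coreIn H K := by
    by_contra hn
    have a1 := S.ph.card_le h6 hl (S.ph.full h6 le_rfl hl S.full n hn)
    have a2 := p.card_le h6 le_rfl f
    have a3 := S.ph.relIndex_le le_rfl
    rw [← relIndex_mul_relIndex _ _ _ h1 hl, Fintype.card_option, Nat.factorial_succ] at a3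
    have a4 := (Nat.mul_le_mul a1 a2).trans a3
    generalize Nat.card (alternatingGroup (Option α)) = m at *
    have : 3 ≤ m := by nlinarith
    nlinarith
  rw [le_antisymm h1 h2, cj_cj_inv]

theorem inf_eq_bot (h5 : 5 ≤ Fintype.card α) (P : PrimPair H K) (S : Side H K s)
    (S' : Side K H s') (h0 : coreIn H K ≠ ⊥) (hX : coreIn H (coreIn K H) = ⊥) :
    coreIn H K ⊓ coreIn K H = ⊥ ∧ Nat.card (coreIn H K) = Nat.card (coreIn K H) := by
  obtain ⟨g, hg⟩ := P.conj
  have hB := core_eq_cj h5 S S' hg h0 hX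
  have hc : Nat.card (coreIn H K) = Nat.card (coreIn K H) := by
    rw [hB]; exact (card_map_of_injective (MulAut.conj g).injective).symm
  refine ⟨?_, hc⟩
  have h6 := card_option h5
  have nA := nm_core H K
  have nB := nm_core K H
  have hA := coreIn_le_left H K
  have hA' : coreIn H K ≤ K ⊓ H := le_inf (coreIn_le_right H K) hA
  have hB' : coreIn K H ≤ H ⊓ K := le_inf (coreIn_le_right K H) (coreIn_le_left K H)
  have p := S'.ph'
  have sph := S.ph
  have sfull := S.full
  have scj := fun {x y} hx hy => S.cj_eq (nB.mono inf_le_right) (x := x) (y := y) hx hy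
  have hne : coreIn H K ≠ coreIn K H := fun e => h0 (P.eq_bot hA nA.le (e ▸ nB.le))
  have f0 := p.full h5 le_rfl hA' S'.full' (nA.mono inf_le_right)
    fun hl => hne (eq_of_le_of_card_ge hl hc.ge)
  have hBA : ¬ coreIn K H ≤ coreIn H K := fun hl => hne (eq_of_le_of_card_ge hl hc.le).symm
  have hcore := fun N => le_core (H := H) (B := coreIn K H) (N := N)
  have hstab := S.stab
  rw [hX] at hcore
  generalize coreIn H K = A at *
  generalize coreIn K H = B at *
  generalize (fun x => removeNone (s' x)) = t at *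
  have hAx : ∀ x ∈ H, A ≤ cj x (K ⊓ H) := fun x hx => (nA.cj_eq hx).ge.trans (cj_mono _ hA')
  have fx : ∀ x ∈ H, Full (fun y => t (x⁻¹ * y * x)) A := fun x hx => nA.cj_eq hx ▸ f0.cj x
  have nx : ∀ x ∈ H, Nm A (A ⊓ cj x B) := fun x hx =>
    (nm_self A).inf (((nB.mono inf_le_left).cj x).mono (hAx x hx))
  by_contra hE
  obtain ⟨z, hz, hzn⟩ : ∃ z ∈ H, ¬ A ⊓ B ≤ cj z B := by
    by_contra hh
    push Not at hh
    exact hE (eq_bot_iff.2 (hcore _ (inf_le_left.trans hA) hh))
  have hz1 : none ≠ s z none := fun e => hzn (by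
    rw [← scj (one_mem H) hz (by rw [sph.one]; exact e), cj_one]; exact inf_le_right)
  have k1 : ∀ x ∈ H, ∀ y ∈ H, s x none ≠ s y none →
      Full (fun w => t (y⁻¹ * w * y)) (A ⊓ cj x B) := by
    intro x hx y hy hxy
    obtain ⟨σ, hσ, e1, e2⟩ := exists_alt_two h6 hz1 hxy
    obtain ⟨k, hk, rfl⟩ := sfull σ hσ
    refine (p.cj y).full h5 (hAx y hy) (inf_le_left.trans (hAx y hy)) (fx y hy) (nx x hx)
      fun hl => hzn ?_
    rw [← scj hk hx e1, ← scj (mul_mem hk hz) hy (by rw [sph.mul _ hk _ hz]; exact e2), cj_mul,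
      ← nA.cj_eq hk, ← cj_inf, cj_le_cj] at hl
    exact hl
  obtain ⟨x, hxB, hxA⟩ := SetLike.not_le_iff_exists.1 hBA
  have hx := (hB' hxB).1
  obtain ⟨c, hc1⟩ : ∃ c, s x c ≠ c := by
    by_contra hh
    push Not at hh
    exact hxA ((sph.ker x hx).1 (Equiv.ext hh))
  have hc2 : none ≠ c := by
    rintro rfl
    exact hc1 ((hstab x hx).1 (hB' hxB).2)
  obtain ⟨σ, hσ, e1, -⟩ := exists_alt_two h6 hc2 hc2.symm
  obtain ⟨y, hy, rfl⟩ := sfull σ hσ
  obtain ⟨L, ⟨hL, nL, fL⟩, hmin⟩ := WellFounded.has_min (wellFounded_lt (α := Subgroup G))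
    {L | L ≤ A ∧ Nm A L ∧ Full (fun w => t (y⁻¹ * w * y)) L} ⟨A, le_rfl, nm_self A, fx y hy⟩
  have k2 : ∀ w ∈ H, s w none ≠ c → L ≤ cj w B := fun w hw hwc => by
    by_contra hn
    refine hmin (L ⊓ (A ⊓ cj w B)) ⟨inf_le_left.trans hL, nL.inf (nx w hw),
      (p.cj y).full_inf h5 (hL.trans (hAx y hy)) (inf_le_left.trans (hAx y hy)) fL
        (k1 w hw y hy (e1 ▸ hwc)) ((nx w hw).mono hL) (nL.mono inf_le_left)⟩
      (lt_of_le_of_ne inf_le_left fun e => hn (e.ge.trans (inf_le_right.trans inf_le_right)))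
  have hLB : L ≤ B := cj_one B ▸ k2 1 (one_mem H) (by rw [sph.one]; exact hc2)
  have nL' : Nm A (cj x L) := nA.cj_eq hx ▸ nL.cj x
  have hL' : cj x L ≤ A := nA.cj_eq hx ▸ cj_mono x hL
  have hL'B : cj x L ≤ B := (nm_self B).cj_eq hxB ▸ cj_mono x hLB
  have k3 : L ⊓ cj x L ≤ ⊥ := hcore _ (inf_le_left.trans (hL.trans hA)) fun w hw => by
    by_cases e : s w none = c
    · refine inf_le_right.trans ?_
      rw [← mul_inv_cancel_left x w, cj_mul]
      refine cj_mono _ (k2 _ (mul_mem (inv_mem hx) hw) fun e' => hc1 ?_)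
      rw [sph.mul _ (inv_mem hx) _ hw, sph.inv hx, Perm.mul_apply, e, Perm.inv_eq_iff_eq] at e'
      exact e'.symm
    · exact inf_le_left.trans (k2 w hw e)
  obtain ⟨w, hw, hwn⟩ : ∃ w ∈ H, ¬ L ≤ cj g (cj w B) := by
    by_contra hh
    push Not at hh
    have := hcore (cj g⁻¹ L) (cj_inv_le_iff_le_cj.2 (hLB.trans (hB ▸ cj_mono g hA)))
      fun w hw => cj_inv_le_iff_le_cj.2 (hh w hw)
    rw [le_bot_iff, cj_eq_bot] at this
    exact (p.cj y).not_le h5 (hL.trans (hAx y hy)) fL (this ▸ bot_le)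
  have q := (p.cj w).cj g
  have fB := (fx w hw).cj g
  have hBD := cj_mono g (hAx w hw)
  rw [← hB] at fB hBD
  have nBA : Nm B A := nA.mono (hB'.trans inf_le_left)
  have fE := q.full h5 hBD (inf_le_right.trans hBD) fB (nBA.inf (nm_self B))
    fun hl => hwn ((le_inf hL hLB).trans hl)
  have fL1 := q.full h5 (inf_le_right.trans hBD) (hLB.trans hBD) fE (nL.mono inf_le_left) hwn
  refine hwn fun l hl => ?_
  have m := q.mem_of_comm h5 (hLB.trans hBD) fL1 (hBD (hL'B (conj_mem_cj.2 hl))) fun u hu => by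
    rw [mem_bot.1 (k3 (comm_mem (nL'.mono hL) (nL.mono hL') hu (conj_mem_cj.2 hl)))]
    exact one_mem _
  have := (((nB.mono inf_le_left).cj w).cj g) _ (inv_mem (hBD hxB)) _ m
  simpa [mul_assoc] using this

theorem core_or (h5 : 5 ≤ Fintype.card α) (P : PrimPair H K) (S : Side H K s)
    (S' : Side K H s') : coreIn H (coreIn K H) = ⊥ ∨ coreIn K (coreIn H K) = ⊥ := by
  by_contra hn
  rw [not_or] at hn
  obtain ⟨p, hp, h1, -⟩ := P.thompson_wielandt hn.1 hn.2
  have := Fact.mk hp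
  have n : Nm H (pCoreOf p H) := nm_of (MSS.self_le_normalizer_pCoreOf H)
  have a1 := S.ph.le_of_isPGroup (card_option h5) le_rfl (MSS.pCoreOf_le H) S.full n
    (MSS.isPGroup_pCoreOf H)
  have a2 := S'.ph'.le_of_isPGroup h5 le_rfl
    (le_inf (a1.trans (coreIn_le_right H K)) (MSS.pCoreOf_le H)) S'.full' (n.mono inf_le_right)
    (MSS.isPGroup_pCoreOf H)
  have a3 := (MSS.le_pCoreOf a2 (n.mono (coreIn_le_right K H)).le (MSS.isPGroup_pCoreOf H)).trans
    (MSS.pCoreOf_le_of_normal (coreIn_le_left K H) (le_normalizer_coreIn K H))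
  exact hn.1 (eq_bot_iff.2 (P.pCoreOf_eq_bot_of_le a3 ▸
    MSS.le_pCoreOf (coreIn_le_left _ _) (le_normalizer_coreIn _ _) h1))

theorem exists_side (h5 : 5 ≤ Fintype.card α) (hd : K.relIndex H = Fintype.card α + 1)
    (hc : Nat.card (alternatingGroup (Option α)) ≤ (coreIn H K).relIndex H) :
    ∃ s : G → Perm (Option α), Side H K s := by
  classical
  obtain ⟨e0⟩ : Nonempty ((H ⧸ K.subgroupOf H) ≃ Option α) := by
    rw [← Finite.card_eq, Nat.card_eq_fintype_card (α := Option α), Fintype.card_option]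
    exact hd
  let e := e0.trans (swap (e0 ((1 : H) : H ⧸ K.subgroupOf H)) none)
  have he : e ((1 : H) : H ⧸ K.subgroupOf H) = none := swap_apply_left _ _
  let φ := e.permCongrHom.toMonoidHom.comp (MulAction.toPermHom H (H ⧸ K.subgroupOf H))
  have hk : φ.ker = (K.subgroupOf H).normalCore := by
    rw [normalCore_eq_ker]
    exact MonoidHom.ker_comp_of_injective _ _ e.permCongrHom.injective
  have p : PH H (coreIn H K) fun x => if hx : x ∈ H then φ ⟨x, hx⟩ else 1 :=
    ⟨fun x hx y hy => by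
      rw [dif_pos hx, dif_pos hy, dif_pos (mul_mem hx hy), ← map_mul]; rfl,
    fun x hx => by
      rw [dif_pos hx, ← MonoidHom.mem_ker, hk]
      exact (mem_map_iff_mem H.subtype_injective).symm⟩
  refine ⟨_, p, fun σ hσ => (p.mem_range le_rfl).1
    (Perm.alternatingGroup_le_of_index_le_two ?_ hσ), fun x hx => ?_⟩
  · have a1 := (p.hom le_rfl).range.index_mul_card
    have a2 := two_mul_card_alt (card_option h5)
    rw [← p.relIndex_eq, Nat.card_eq_fintype_card, Fintype.card_perm, ← a2] at a1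
    have a3 : 0 < Nat.card (alternatingGroup (Option α)) := Nat.card_pos
    by_contra hn
    nlinarith
  · rw [dif_pos hx, ← he]
    change _ ↔ e ((⟨x, hx⟩ : H) • e.symm (e _)) = _
    rw [symm_apply_apply, e.apply_eq_iff_eq, MulAction.Quotient.smul_coe, QuotientGroup.eq]
    simp [mem_subgroupOf]

theorem card_le_other (h5 : 5 ≤ Fintype.card α) (P : PrimPair H K) (S : Side H K s) :
    Nat.card (alternatingGroup (Option α)) ≤ (coreIn K H).relIndex K := by
  obtain ⟨g, hg⟩ := P.conj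
  have e : cj g⁻¹ K = H := by rw [hg, cj_inv_cj]
  obtain ⟨X, hX1, hX0, hX2⟩ := S.ph.exists_min (card_option h5) le_rfl S.full
  by_contra hn
  have k : ∀ x, X ≤ cj x K → X ≤ cj x (coreIn K H) := fun x hx =>
    (hX2 _ (((nm_core K H).cj x).mono hx)).resolve_right fun hc => hn (by
      rw [← relIndex_cj x]
      exact hc.trans (relIndex_le_of_le_right hx index_ne_zero_of_finite))
  let M0 : Submonoid G :=
    { carrier := {y | ∀ x, X ≤ cj x K → X ≤ cj (x * y) K}
      one_mem' := fun x hx => by rwa [mul_one]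
      mul_mem' := fun {a b} ha hb x hx => by rw [← mul_assoc]; exact hb _ (ha x hx) }
  let M : Subgroup G :=
    { M0 with
      inv_mem' := fun {a} ha => by
        have : a⁻¹ = a ^ (orderOf a - 1) := by
          rw [inv_eq_iff_mul_eq_one, ← pow_succ', Nat.sub_add_cancel (orderOf_pos a),
            pow_orderOf_eq_one]
        rw [this]
        exact M0.pow_mem ha _ }
  have hK : K ≤ M := fun y hy x hx => by rwa [cj_mul, (nm_self K).cj_eq hy]
  have hg' : g⁻¹ ∈ M := fun x hx => by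
    rw [cj_mul, e]
    exact (k x hx).trans (cj_mono _ (coreIn_le_right K H))
  have hH : H ≤ M := fun y hy => by
    have := mul_mem (mul_mem hg' (hK (mem_cj.1 (e.ge hy)))) (inv_mem hg')
    simpa [mul_assoc] using this
  have n : Nm M (⨅ y ∈ M, cj y K) := fun v hv u hu => by
    simp only [mem_iInf, mem_cj] at hu ⊢
    intro y hy
    convert hu _ (mul_mem (inv_mem hv) hy) using 1
    group
  refine hX0 (eq_bot_iff.2 (le_trans ?_ (P.symm.eq_bot ?_ (n.mono hK).le (n.mono hH).le).le))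
  · refine le_iInf₂ fun y hy => ?_
    have := (mul_mem (inv_mem hg') hy : g⁻¹⁻¹ * y ∈ M) g⁻¹ (hX1.trans e.ge)
    rwa [mul_inv_cancel_left] at this
  · exact (iInf₂_le 1 (one_mem M)).trans (cj_one K).le

theorem eq_top_of_odd {W : Subgroup (Perm β)} (h : alternatingGroup β ≤ W) {y : Perm β}
    (hy : y ∈ W) (ho : Perm.sign y ≠ 1) : W = ⊤ := by
  refine eq_top_iff.2 fun τ _ => ?_
  by_cases e : Perm.sign τ = 1
  · exact h e
  · have : τ * y⁻¹ ∈ W := h (by
      rw [Perm.mem_alternatingGroup, map_mul, map_inv, Int.units_ne_iff_eq_neg.1 e,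
        Int.units_ne_iff_eq_neg.1 ho, mul_inv_cancel])
    simpa using mul_mem this hy

theorem exists_prod (h5 : 5 ≤ Fintype.card α) (P : PrimPair H K) (S : Side H K s)
    (h0 : coreIn H K ≠ ⊥) (hd : K.relIndex H = Fintype.card α + 1) :
    ∃ u : G → Perm α, ∃ C, PH H C u ∧ coreIn H K ⊓ C = ⊥ ∧ Full s C ∧ C ≤ H ∧
      Full u (coreIn H K) ∧
      ((∀ x ∈ H, Perm.sign (s x) = 1) → ∀ x ∈ H, Perm.sign (u x) = 1) := by
  classical
  obtain ⟨s', S'⟩ := exists_side h5 (P.relIndex_eq.trans hd) (card_le_other h5 P S)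
  have h6 := card_option h5
  have nA := nm_core H K
  have nB := nm_core K H
  have hA := coreIn_le_left H K
  have hA' : coreIn H K ≤ K ⊓ H := le_inf (coreIn_le_right H K) hA
  have hB' : coreIn K H ≤ K ⊓ H := le_inf (coreIn_le_left K H) (coreIn_le_right K H)
  have p := S'.ph'
  have hB0 : coreIn K H ≠ ⊥ := fun e => by
    have a1 := S'.ph.relIndex_le le_rfl
    have a2 := S.ph.card_le h6 le_rfl S.full
    have a3 := two_mul_card_alt h6
    have a4 := relIndex_mul_relIndex ⊥ _ _ bot_le hA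
    have f0 := p.card_le h5 hA' (p.full h5 le_rfl hA' S'.full' (nA.mono inf_le_right)
      fun hl => h0 (eq_bot_iff.2 (e ▸ hl)))
    have a5 := two_mul_card_alt h5
    have a6 : Nat.factorial 5 ≤ _ := Nat.factorial_le h5
    rw [e, relIndex_bot_left, P.card_eq] at a1
    rw [e] at f0
    rw [relIndex_bot_left H] at a4
    have a7 := Nat.mul_le_mul f0 a2
    have a8 : 0 < Nat.card (alternatingGroup (Option α)) := Nat.card_pos
    norm_num [Nat.factorial] at a6
    nlinarith
  obtain ⟨hE, hc⟩ : coreIn H K ⊓ coreIn K H = ⊥ ∧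
      Nat.card (coreIn H K) = Nat.card (coreIn K H) := by
    rcases core_or h5 P S S' with e | e
    · exact inf_eq_bot h5 P S S' h0 e
    · have := inf_eq_bot h5 P.symm S' S hB0 e
      exact ⟨inf_comm (coreIn H K) _ ▸ this.1, this.2.symm⟩
  have f0 := p.full h5 le_rfl hA' S'.full' (nA.mono inf_le_right)
    fun hl => h0 (by rw [← hE, inf_eq_left.2 hl])
  have fD := S'.full'
  have sph := S.ph
  generalize (fun x => removeNone (s' x)) = t at *
  let C := H ⊓ centralizer (coreIn H K : Set G)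
  have nC : Nm H C := fun v hv c hc => mem_inf.2 ⟨nm_self H v hv c hc.1, fun a ha => by
    have := hc.2 _ (nA _ (inv_mem hv) a ha)
    calc a * (v * c * v⁻¹) = v * (v⁻¹ * a * v⁻¹⁻¹ * c) * v⁻¹ := by group
      _ = _ := by rw [this]; group⟩
  have hBC : coreIn K H ≤ C := fun b hb => mem_inf.2 ⟨(hB' hb).2, fun a ha =>
    commutatorElement_eq_one_iff_mul_comm.1 (mem_bot.1 (hE ▸ comm_mem
      (nB.mono (hA'.trans inf_le_left)) (nA.mono (hB'.trans inf_le_right)) ha hb))⟩
  have hCB : ∀ y ∈ K ⊓ H, y ∈ C → y ∈ coreIn K H := fun y hy hc =>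
    p.mem_of_comm h5 hA' f0 hy fun a ha => by
      rw [commutatorElement_eq_one_iff_mul_comm.2 (hc.2 a ha)]; exact one_mem _
  have fC : Full s C := sph.full h6 le_rfl inf_le_left S.full nC
    fun hl => hB0 (by rw [← hE, inf_eq_right.2 (hBC.trans hl)])
  have ex : ∀ h ∈ H, ∃ x ∈ K ⊓ H, h * x⁻¹ ∈ C := fun h hh => by
    obtain ⟨a, -, ha, -⟩ := exists_two h6 none none
    obtain ⟨b, -, hb, -⟩ := exists_two h6 (s h none) none
    obtain ⟨σ, hσ, e1, -⟩ := exists_alt_two h6 ha.symm hb.symm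
    obtain ⟨c, hc, rfl⟩ := fC σ hσ
    exact ⟨_, inf_comm H K ▸ S.mem_of_eq hc.1 hh e1, by simpa using hc⟩
  let u : G → Perm α := fun h => if hh : h ∈ H then t (ex h hh).choose else 1
  have hu : ∀ h ∈ H, ∀ x ∈ K ⊓ H, h * x⁻¹ ∈ C → u h = t x := fun h hh x hx hc => by
    obtain ⟨hx', hc'⟩ := (ex h hh).choose_spec
    simp only [u, dif_pos hh]
    generalize (ex h hh).choose = y at *
    have m := mul_mem hx' (inv_mem hx)
    have := (p.ker _ m).2 (hCB _ m (by simpa [mul_assoc] using mul_mem (inv_mem hc') hc))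
    rwa [p.mul _ hx' _ (inv_mem hx), p.inv hx, mul_inv_eq_one] at this
  have hu' : ∀ x ∈ K ⊓ H, u x = t x := fun x hx => hu x hx.2 x hx (by simp)
  have pu : PH H C u := ⟨fun a ha b hb => by
      obtain ⟨x, hx, c1⟩ := ex a ha
      obtain ⟨y, hy, c2⟩ := ex b hb
      rw [hu a ha x hx c1, hu b hb y hy c2, ← p.mul x hx y hy]
      refine hu _ (mul_mem ha hb) _ (mul_mem hx hy) ?_
      convert mul_mem c1 (nC x hx.2 _ c2) using 1
      group,
    fun a ha => by
      obtain ⟨x, hx, c1⟩ := ex a ha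
      rw [hu a ha x hx c1, p.ker x hx]
      exact ⟨fun h => by simpa using mul_mem c1 (hBC h),
        fun h => hCB x hx (by simpa using mul_mem (inv_mem c1) h)⟩⟩
  refine ⟨u, C, pu, eq_bot_iff.2 fun y hy => hE ▸ ⟨hy.1, hCB y (hA' hy.1) hy.2⟩, fC, inf_le_left,
    fun σ hσ => ?_, fun hs x hx => ?_⟩
  · obtain ⟨a, ha, e⟩ := f0 σ hσ
    exact ⟨a, ha, (hu' a (hA' ha)).trans e⟩
  by_contra ho
  obtain ⟨y, hy, c1⟩ := ex x hx
  rw [hu x hx y hy c1] at ho
  have a1 := p.relIndex_eq le_rfl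
  rw [eq_top_of_odd (fun σ hσ => (p.mem_range le_rfl).2 (fD σ hσ))
    ((p.mem_range le_rfl).2 ⟨y, hy, rfl⟩) ho, card_top, Nat.card_eq_fintype_card,
    Fintype.card_perm] at a1
  have a2 : (coreIn H K).relIndex H ≤ Nat.card (alternatingGroup (Option α)) := by
    rw [sph.relIndex_eq le_rfl]
    refine Subgroup.card_le_of_le fun σ hσ => ?_
    obtain ⟨a, ha, rfl⟩ := (sph.mem_range le_rfl).1 hσ
    exact hs a ha
  have a3 := two_mul_card_alt h6
  have a4 := relIndex_mul_relIndex ⊥ _ _ bot_le hA'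
  have a5 := relIndex_mul_relIndex ⊥ _ _ bot_le hB'
  rw [← a5, relIndex_bot_left, relIndex_bot_left, hc, a1] at a4
  rw [← relIndex_mul_relIndex _ _ _ hA' inf_le_right, Nat.eq_of_mul_eq_mul_left Nat.card_pos a4,
    inf_relIndex_right, hd] at a2
  rw [Fintype.card_option, Nat.factorial_succ] at a3
  have c0 := (Fintype.card α).factorial_pos
  nlinarith

theorem range_cases {γ : Type*} [Fintype γ] [DecidableEq γ] {R : Subgroup (Perm β × Perm γ)}
    (h : (alternatingGroup β).prod (alternatingGroup γ) ≤ R) {x : Perm β × Perm γ} (hx : x ∈ R)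
    (ho : Perm.sign x.1 ≠ 1) : R = ⊤ ∨ R = (⊤ : Subgroup _).prod (alternatingGroup γ) ∨
      R = ((Perm.sign.comp (MonoidHom.fst (Perm β) (Perm γ))) *
        (Perm.sign.comp (MonoidHom.snd (Perm β) (Perm γ)))).ker := by
  have k : ∀ y ∈ R, ∀ z : Perm β × Perm γ, Perm.sign z.1 = Perm.sign y.1 →
      Perm.sign z.2 = Perm.sign y.2 → z ∈ R := fun y hy z e1 e2 => by
    have : z * y⁻¹ ∈ R := h ⟨by simp [Perm.mem_alternatingGroup, e1],
      by simp [Perm.mem_alternatingGroup, e2]⟩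
    simpa using mul_mem this hy
  rw [Int.units_ne_iff_eq_neg] at ho
  by_cases h1 : ∃ y ∈ R, Perm.sign y.1 = 1 ∧ Perm.sign y.2 = -1
  · obtain ⟨y, hy, e1, e2⟩ := h1
    refine Or.inl (eq_top_iff.2 fun z _ => ?_)
    rcases Int.units_eq_one_or (Perm.sign z.1) with a | a <;>
      rcases Int.units_eq_one_or (Perm.sign z.2) with b | b <;>
      rcases Int.units_eq_one_or (Perm.sign x.2) with c | c
    all_goals first
      | (refine k 1 (one_mem _) z ?_ ?_ <;> simp [a, b]; done)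
      | (refine k y hy z ?_ ?_ <;> simp [a, b, e1, e2]; done)
      | (refine k x hx z ?_ ?_ <;> simp [a, b, c, ho]; done)
      | (refine k _ (mul_mem hx hy) z ?_ ?_ <;> simp [a, b, c, ho, e1, e2]; done)
  have h2 : ∀ y ∈ R, Perm.sign y.1 = 1 → Perm.sign y.2 = 1 := fun y hy e =>
    (Int.units_eq_one_or _).resolve_right fun e' => h1 ⟨y, hy, e, e'⟩
  have h3 : ∀ y ∈ R, Perm.sign y.1 = -1 → Perm.sign y.2 = Perm.sign x.2 := fun y hy e => by
    have := h2 _ (mul_mem hy (inv_mem hx)) (by simp [e, ho])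
    rwa [Prod.snd_mul, Prod.snd_inv, map_mul, map_inv, mul_inv_eq_one] at this
  right
  rcases Int.units_eq_one_or (Perm.sign x.2) with c | c
  · left
    ext z
    simp only [mem_prod, mem_top, true_and, Perm.mem_alternatingGroup]
    rcases Int.units_eq_one_or (Perm.sign z.1) with a | a
    · exact ⟨fun hz => h2 z hz a, fun b => k 1 (one_mem _) z (by simp [a]) (by simp [b])⟩
    · exact ⟨fun hz => (h3 z hz a).trans c, fun b => k x hx z (by simp [a, ho]) (by simp [b, c])⟩
  · right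
    ext z
    simp only [MonoidHom.mem_ker, MonoidHom.mul_apply, MonoidHom.comp_apply, MonoidHom.coe_fst,
      MonoidHom.coe_snd]
    rcases Int.units_eq_one_or (Perm.sign z.1) with a | a
    · rw [a, one_mul]
      exact ⟨fun hz => h2 z hz a, fun b => k 1 (one_mem _) z (by simp [a]) (by simp [b])⟩
    · rw [a, neg_one_mul, neg_eq_iff_eq_neg]
      exact ⟨fun hz => (h3 z hz a).trans c, fun b => k x hx z (by simp [a, ho]) (by simp [b, c])⟩

end Cfsg.Lib.Class.SubAlt
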